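import Cfsg.Agent.Lib.Helper8.Alp
import Cfsg.Agent.Lib.Helper8.HypGen

set_option autoImplicit false
open Cfsg

namespace Cfsg.Agent.Lib.Helper8

variable {Ω : Type*} [Group Ω] {S : Subgroup Ω}

theorem mem_cent_zpowers_ch8 {x g : Ω} :
    g ∈ FusionSystem.centralizerIn S (Subgroup.zpowers x) ↔ g ∈ S ∧ g * x = x * g := by
  constructor
  · intro hg
    refine ⟨hg.1, ?_⟩
    have h1 := hg.2 x (Subgroup.mem_zpowers x)
    exact h1.symm
  · rintro ⟨hgS, hgx⟩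
    refine ⟨hgS, Subgroup.mem_centralizer_iff.mpr ?_⟩
    intro y hy
    obtain ⟨k, rfl⟩ := Subgroup.mem_zpowers_iff.mp hy
    have hc : Commute g x := hgx
    exact (hc.zpow_right k).eq.symm

theorem conjElt_of_hom_ch8 (F : FusionSystem S) {P : Subgroup Ω} {ψ : P →* Ω} (hψ : ψ ∈ F.Hom P)
    {x : Ω} (hx : x ∈ P) : F.IsConjElt x (ψ ⟨x, hx⟩) := by
  have hle : Subgroup.zpowers x ≤ P := by
    rw [Subgroup.zpowers_le]
    exact hx
  exact ⟨ψ.comp (Subgroup.inclusion hle), fs_restrict F hle hψ, rfl⟩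

theorem conjElt_pow_ch8 (F : FusionSystem S) {x y : Ω} (h : F.IsConjElt x y) (k : ℕ) :
    F.IsConjElt (x ^ k) (y ^ k) := by
  obtain ⟨φ, hφ, hxy⟩ := h
  have hmem : x ^ k ∈ Subgroup.zpowers x := Subgroup.pow_mem _ (Subgroup.mem_zpowers x) k
  have h1 := conjElt_of_hom_ch8 F hφ hmem
  have h2 : φ ⟨x ^ k, hmem⟩ = y ^ k := by
    have h3 : (⟨x ^ k, hmem⟩ : Subgroup.zpowers x) = ⟨x, Subgroup.mem_zpowers x⟩ ^ k := rfl
    rw [h3, map_pow, hxy]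
  rwa [h2] at h1

theorem conjElt_trans_ch8 (F : FusionSystem S) {x y z : Ω} (h1 : F.IsConjElt x y)
    (h2 : F.IsConjElt y z) : F.IsConjElt x z := by
  obtain ⟨φ, hφ, hxy⟩ := h1
  obtain ⟨ψ, hψ, hyz⟩ := h2
  have hmap : ∀ t : Subgroup.zpowers x, φ t ∈ Subgroup.zpowers y := by
    rintro ⟨t, ht⟩
    obtain ⟨k, rfl⟩ := Subgroup.mem_zpowers_iff.mp ht
    have h3 : (⟨x ^ k, ht⟩ : Subgroup.zpowers x) = ⟨x, Subgroup.mem_zpowers x⟩ ^ k := rfl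
    rw [h3, map_zpow, hxy]
    exact Subgroup.zpow_mem _ (Subgroup.mem_zpowers y) k
  refine ⟨ψ.comp (φ.codRestrict _ hmap), F.comp_mem hφ hψ hmap, ?_⟩
  have h4 : (φ.codRestrict _ hmap) ⟨x, Subgroup.mem_zpowers x⟩ = ⟨y, Subgroup.mem_zpowers y⟩ :=
    Subtype.ext hxy
  show ψ ((φ.codRestrict _ hmap) ⟨x, Subgroup.mem_zpowers x⟩) = z
  rw [h4, hyz]

/-- A map to a central element extends to the centralizer of the source element. -/
theorem ext_cent_ch8 [Finite S] {p : ℕ} [Fact p.Prime] (hS : IsPGroup p S) (F : FusionSystem S)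
    (hF : F.IsSaturated p) {x z : Ω} (hz : z ∈ S ⊓ Subgroup.centralizer (S : Set Ω))
    (h : F.IsConjElt x z) :
    ∃ ψ ∈ F.Hom (FusionSystem.centralizerIn S (Subgroup.zpowers x)),
      ∀ hx' : x ∈ FusionSystem.centralizerIn S (Subgroup.zpowers x), ψ ⟨x, hx'⟩ = z := by
  obtain ⟨φ, hφ, hxz⟩ := h
  have hrange : φ.range = Subgroup.zpowers z := by
    ext y
    constructor
    · rintro ⟨⟨t, ht⟩, rfl⟩
      obtain ⟨k, rfl⟩ := Subgroup.mem_zpowers_iff.mp ht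
      have h3 : (⟨x ^ k, ht⟩ : Subgroup.zpowers x) = ⟨x, Subgroup.mem_zpowers x⟩ ^ k := rfl
      rw [h3, map_zpow, hxz]
      exact Subgroup.zpow_mem _ (Subgroup.mem_zpowers z) k
    · intro hy
      obtain ⟨k, rfl⟩ := Subgroup.mem_zpowers_iff.mp hy
      refine ⟨⟨x, Subgroup.mem_zpowers x⟩ ^ k, ?_⟩
      rw [map_zpow, hxz]
  have hzS : Subgroup.zpowers z ≤ S := by
    rw [Subgroup.zpowers_le]
    exact hz.1
  have hcz : FusionSystem.centralizerIn S (Subgroup.zpowers z) = S := by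
    apply le_antisymm inf_le_left
    intro g hg
    exact mem_cent_zpowers_ch8.mpr ⟨hg, hz.2 g hg⟩
  have hfc : F.IsFullyCentralized (Subgroup.zpowers z) := by
    refine ⟨hzS, fun Q _ => ?_⟩
    rw [hcz]
    exact Subgroup.card_le_of_le inf_le_left
  have hrec := sat_fc_receptive hS F hF hfc
  obtain ⟨ψ, hψ, hψφ⟩ := hrec.2 (Subgroup.zpowers x) φ hφ hrange
  have hle := fs_centralizerIn_le_extender S (Subgroup.zpowers x) φ
  refine ⟨ψ.comp (Subgroup.inclusion hle), fs_restrict F hle hψ, ?_⟩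
  intro hx'
  show ψ ⟨x, hle hx'⟩ = z
  rw [hψφ x (Subgroup.mem_zpowers x) (hle hx'), hxz]

/-- An element of the centre conjugate in the system to the square of a central element is itself
the square of a central element. -/
theorem central_sq_ch8 [Finite S] {p : ℕ} [Fact p.Prime] (hS : IsPGroup p S) (F : FusionSystem S)
    (hF : F.IsSaturated p) {z₁ w : Ω} (hz₁ : z₁ ∈ S ⊓ Subgroup.centralizer (S : Set Ω))
    (hw : w ∈ S ⊓ Subgroup.centralizer (S : Set Ω)) (h : F.IsConjElt z₁ (w ^ 2)) :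
    ∃ w' ∈ S ⊓ Subgroup.centralizer (S : Set Ω), z₁ = w' ^ 2 := by
  have hw2 : w ^ 2 ∈ S ⊓ Subgroup.centralizer (S : Set Ω) := Subgroup.pow_mem _ hw 2
  obtain ⟨ψ, hψ, hψz⟩ := ext_cent_ch8 hS F hF hw2 h
  have hle : S ≤ FusionSystem.centralizerIn S (Subgroup.zpowers z₁) := by
    intro g hg
    exact mem_cent_zpowers_ch8.mpr ⟨hg, hz₁.2 g hg⟩
  obtain ⟨α, hα⟩ : ∃ α : S →* Ω, α = ψ.comp (Subgroup.inclusion hle) := ⟨_, rfl⟩
  have hαF : α ∈ F.Hom S := by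
    rw [hα]
    exact fs_restrict F hle hψ
  have hαS : ∀ s : S, α s ∈ S := (F.le_of_mem hαF).2
  have hinj := F.injective_of_mem hαF
  have hinj' : Function.Injective (α.codRestrict S hαS) :=
    fun a b hab => hinj (congrArg Subtype.val hab)
  have hsurj := Finite.injective_iff_surjective.mp hinj'
  obtain ⟨w₁, hw₁⟩ := hsurj ⟨w, hw.1⟩
  have hw₁' : α w₁ = w := congrArg Subtype.val hw₁
  refine ⟨w₁, ⟨w₁.2, Subgroup.mem_centralizer_iff.mpr ?_⟩, ?_⟩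
  · intro s hs
    have h1 : α (⟨s, hs⟩ * w₁) = α (w₁ * ⟨s, hs⟩) := by
      rw [map_mul, map_mul, hw₁']
      exact hw.2 _ (hαS _)
    exact congrArg Subtype.val (hinj h1)
  · have h1 : α ⟨z₁, hz₁.1⟩ = α (w₁ ^ 2) := by
      rw [map_pow, hw₁', hα]
      exact hψz _
    exact congrArg Subtype.val (hinj h1)

theorem sq_central_ch8 [Finite S] {p : ℕ} [Fact p.Prime] (hS : IsPGroup p S) (F : FusionSystem S)
    (hF : F.IsSaturated p)
    (h : ∀ x ∈ S, ∃ z ∈ S ⊓ Subgroup.centralizer (S : Set Ω), F.IsConjElt x z)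
    {y : Ω} (hy : y ∈ S) (hy2 : y ^ 2 ∈ S ⊓ Subgroup.centralizer (S : Set Ω)) :
    ∃ w ∈ S ⊓ Subgroup.centralizer (S : Set Ω), y ^ 2 = w ^ 2 := by
  obtain ⟨w₀, hw₀, hc⟩ := h y hy
  exact central_sq_ch8 hS F hF hy2 hw₀ (conjElt_pow_ch8 F hc 2)

/-- The norm-type element `n` with `(v g)² = n g²`, when central, is the square of a central
element. -/
theorem norm_sq_ch8 [Finite S] {p : ℕ} [Fact p.Prime] (hS : IsPGroup p S) (F : FusionSystem S)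
    (hF : F.IsSaturated p)
    (h : ∀ x ∈ S, ∃ z ∈ S ⊓ Subgroup.centralizer (S : Set Ω), F.IsConjElt x z)
    {g v n : Ω} (hg : g ∈ S) (hv : v ∈ S) (hn : n ∈ S ⊓ Subgroup.centralizer (S : Set Ω))
    (hcomm : g ^ 2 * v = v * g ^ 2) (hvg : (v * g) ^ 2 = n * g ^ 2) :
    ∃ w ∈ S ⊓ Subgroup.centralizer (S : Set Ω), n = w ^ 2 := by
  have hsS : g ^ 2 ∈ S := Subgroup.pow_mem _ hg 2
  obtain ⟨zs, hzs, hcs⟩ := h (g ^ 2) hsS
  obtain ⟨ψ, hψ, hψs⟩ := ext_cent_ch8 hS F hF hzs hcs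
  have hgC : g ∈ FusionSystem.centralizerIn S (Subgroup.zpowers (g ^ 2)) := by
    refine mem_cent_zpowers_ch8.mpr ⟨hg, ?_⟩
    rw [pow_two, mul_assoc]
  have hvC : v ∈ FusionSystem.centralizerIn S (Subgroup.zpowers (g ^ 2)) :=
    mem_cent_zpowers_ch8.mpr ⟨hv, hcomm.symm⟩
  have hnC : n ∈ FusionSystem.centralizerIn S (Subgroup.zpowers (g ^ 2)) :=
    mem_cent_zpowers_ch8.mpr ⟨hn.1, (hn.2 _ hsS).symm⟩
  have hψS := (F.le_of_mem hψ).2
  have hg2 : ψ ⟨g, hgC⟩ ^ 2 = zs := by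
    rw [← map_pow]
    exact hψs _
  have hvg2 : (ψ ⟨v, hvC⟩ * ψ ⟨g, hgC⟩) ^ 2 = ψ ⟨n, hnC⟩ * zs := by
    rw [← map_mul, ← map_pow, ← hψs (Subgroup.pow_mem _ hgC 2), ← map_mul]
    congr 1
    exact Subtype.ext hvg
  have hg2c : ψ ⟨g, hgC⟩ ^ 2 ∈ S ⊓ Subgroup.centralizer (S : Set Ω) := by
    rw [hg2]
    exact hzs
  obtain ⟨w, hw, hw2⟩ := sq_central_ch8 hS F hF h (hψS _) hg2c
  rw [hg2] at hw2
  have hy'S : ψ ⟨v, hvC⟩ * ψ ⟨g, hgC⟩ * w⁻¹ ∈ S :=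
    S.mul_mem (S.mul_mem (hψS _) (hψS _)) (S.inv_mem hw.1)
  have hy'2 : (ψ ⟨v, hvC⟩ * ψ ⟨g, hgC⟩ * w⁻¹) ^ 2 = ψ ⟨n, hnC⟩ := by
    have hc : Commute (ψ ⟨v, hvC⟩ * ψ ⟨g, hgC⟩) w⁻¹ := by
      have h1 : Commute (ψ ⟨v, hvC⟩ * ψ ⟨g, hgC⟩) w :=
        hw.2 _ (S.mul_mem (hψS _) (hψS _))
      exact h1.inv_right
    rw [hc.mul_pow, hvg2, hw2, inv_pow, mul_assoc, mul_inv_cancel, mul_one]
  obtain ⟨w', hw', hc'⟩ := h _ hy'S
  have h5 := conjElt_pow_ch8 F hc' 2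
  rw [hy'2] at h5
  have h6 := conjElt_of_hom_ch8 F hψ hnC
  exact central_sq_ch8 hS F hF hn hw' (conjElt_trans_ch8 F h6 h5)

end Cfsg.Agent.Lib.Helper8
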