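import Cfsg.Agent.Lib.Helper8.CH1

set_option autoImplicit false
open Cfsg

namespace Cfsg.Agent.Lib.Helper8

variable {Ω : Type*} [Group Ω] {S : Subgroup Ω}

/-- A non-central element with centralizer `Q` of maximal order, `Q` fully automized and
receptive. -/
theorem max_setup_ch8 [Finite S] {p : ℕ} [Fact p.Prime] (hS : IsPGroup p S) (F : FusionSystem S)
    (hF : F.IsSaturated p) (hex : ∃ x ∈ S, ∃ s ∈ S, s * x ≠ x * s) :
    ∃ (x : Ω) (Q : Subgroup Ω), x ∈ S ∧ (∀ g, g ∈ Q ↔ g ∈ S ∧ g * x = x * g) ∧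
      F.IsFullyAutomized p Q ∧ F.IsReceptive Q ∧ (∃ s ∈ S, s * x ≠ x * s) ∧
      ∀ y ∈ S, (∃ s ∈ S, s * y ≠ y * s) → ∀ M : Subgroup Ω, M ≤ S →
        (∀ m ∈ M, m * y = y * m) → Nat.card M ≤ Nat.card Q := by
  classical
  obtain ⟨s, hs⟩ : ∃ s : Set ℕ, s = {n | ∃ y ∈ S, (∃ t ∈ S, t * y ≠ y * t) ∧
    Nat.card (FusionSystem.centralizerIn S (Subgroup.zpowers y)) = n} := ⟨_, rfl⟩
  have hne : s.Nonempty := by
    obtain ⟨x, hx, hnc⟩ := hex
    rw [hs]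
    exact ⟨_, x, hx, hnc, rfl⟩
  have hbdd : BddAbove s := by
    refine ⟨Nat.card S, ?_⟩
    rw [hs]
    rintro n ⟨y, -, -, rfl⟩
    exact Subgroup.card_le_of_le inf_le_left
  have hmem := Nat.sSup_mem hne hbdd
  rw [hs] at hmem
  obtain ⟨x₀, hx₀S, hx₀nc, hx₀c⟩ := hmem
  rw [← hs] at hx₀c
  have hmax₀ : ∀ y ∈ S, (∃ t ∈ S, t * y ≠ y * t) →
      Nat.card (FusionSystem.centralizerIn S (Subgroup.zpowers y)) ≤
        Nat.card (FusionSystem.centralizerIn S (Subgroup.zpowers x₀)) := by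
    intro y hy hync
    rw [hx₀c]
    apply le_csSup hbdd
    rw [hs]
    exact ⟨y, hy, hync, rfl⟩
  obtain ⟨Q₀, hQ₀⟩ : ∃ Q₀, Q₀ = FusionSystem.centralizerIn S (Subgroup.zpowers x₀) := ⟨_, rfl⟩
  have hQ₀S : Q₀ ≤ S := by
    rw [hQ₀]
    exact inf_le_left
  have hQ₀mem : ∀ g, g ∈ Q₀ ↔ g ∈ S ∧ g * x₀ = x₀ * g := by
    intro g
    rw [hQ₀]
    exact mem_cent_zpowers_ch8
  obtain ⟨R, hconj, hfa, hrec, ψ, hψ, hψN, hψP⟩ := sat_conj_data hS F hF hQ₀S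
  have hRS : R ≤ S := hfa.1
  have hinj := F.injective_of_mem hψ
  have hψS := (F.le_of_mem hψ).2
  have hQN : Q₀ ≤ FusionSystem.normalizerIn S Q₀ := le_normalizerIn hQ₀S
  have hx₀Q : x₀ ∈ Q₀ := (hQ₀mem x₀).mpr ⟨hx₀S, rfl⟩
  have hcardQR : Nat.card Q₀ = Nat.card R := (fs_isConj_card F hconj).symm
  have hfinQ : Finite Q₀ := finite_of_le hQ₀S
  have hlt : Nat.card Q₀ < Nat.card S := by
    obtain ⟨t, ht, htx⟩ := hx₀nc
    by_contra hcon
    push Not at hcon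
    have heq : Q₀ = S := Subgroup.eq_of_le_of_card_ge hQ₀S hcon
    have h1 : t ∈ Q₀ := heq ▸ ht
    exact htx ((hQ₀mem t).mp h1).2
  have hltN := card_lt_card_normalizerIn hS hQ₀S hlt
  obtain ⟨n, hnN, hnQ⟩ : ∃ n ∈ FusionSystem.normalizerIn S Q₀, n ∉ Q₀ := by
    by_contra hcon
    push Not at hcon
    have hle : FusionSystem.normalizerIn S Q₀ ≤ Q₀ := hcon
    have h1 := Subgroup.card_le_of_le hle
    omega
  obtain ⟨x₁, hx₁⟩ : ∃ x₁, x₁ = ψ ⟨x₀, hQN hx₀Q⟩ := ⟨_, rfl⟩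
  have hx₁S : x₁ ∈ S := by
    rw [hx₁]
    exact hψS _
  have hx₁nc : ∃ t ∈ S, t * x₁ ≠ x₁ * t := by
    refine ⟨ψ ⟨n, hnN⟩, hψS _, ?_⟩
    intro hcomm
    rw [hx₁, ← map_mul, ← map_mul] at hcomm
    have h1 := congrArg Subtype.val (hinj hcomm)
    exact hnQ ((hQ₀mem n).mpr ⟨hnN.1, h1⟩)
  have hRle : ∀ g ∈ R, g ∈ S ∧ g * x₁ = x₁ * g := by
    intro g hg
    refine ⟨hRS hg, ?_⟩
    rw [← hψP] at hg
    obtain ⟨q, hq, rfl⟩ := hg
    have hq' : (q : Ω) ∈ Q₀ := hq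
    rw [hx₁, ← map_mul, ← map_mul]
    congr 1
    exact Subtype.ext ((hQ₀mem _).mp hq').2
  have hRC : R ≤ FusionSystem.centralizerIn S (Subgroup.zpowers x₁) :=
    fun g hg => mem_cent_zpowers_ch8.mpr (hRle g hg)
  have hfinC : Finite (FusionSystem.centralizerIn S (Subgroup.zpowers x₁)) :=
    finite_of_le inf_le_left
  have hRC' : R = FusionSystem.centralizerIn S (Subgroup.zpowers x₁) := by
    apply Subgroup.eq_of_le_of_card_ge hRC
    rw [← hcardQR, hQ₀]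
    exact hmax₀ x₁ hx₁S hx₁nc
  refine ⟨x₁, R, hx₁S, ?_, hfa, hrec, hx₁nc, ?_⟩
  · intro g
    constructor
    · intro hg
      exact hRle g hg
    · intro hg
      rw [hRC']
      exact mem_cent_zpowers_ch8.mpr hg
  · intro y hy hync M hMS hM
    have hMle : M ≤ FusionSystem.centralizerIn S (Subgroup.zpowers y) :=
      fun m hm => mem_cent_zpowers_ch8.mpr ⟨hMS hm, hM m hm⟩
    haveI : Finite (FusionSystem.centralizerIn S (Subgroup.zpowers y)) := finite_of_le inf_le_left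
    have h1 := Subgroup.card_le_of_le hMle
    have h2 := hmax₀ y hy hync
    rw [← hQ₀] at h2
    omega

theorem exists_nonsq_ch8 [Finite S] {p : ℕ} [Fact p.Prime] (hS : IsPGroup p S) {Q : Subgroup Ω}
    (hQS : Q ≤ S) {x : Ω} (hxV : x ∈ Q ⊓ Subgroup.centralizer (Q : Set Ω))
    (hxnc : x ∉ S ⊓ Subgroup.centralizer (S : Set Ω)) :
    ∃ x' ∈ Q ⊓ Subgroup.centralizer (Q : Set Ω), ∀ z ∈ S ⊓ Subgroup.centralizer (S : Set Ω),
      ∀ u ∈ Q ⊓ Subgroup.centralizer (Q : Set Ω), x' ≠ z * u ^ p := by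
  by_contra hcon
  push Not at hcon
  have key : ∀ k : ℕ, ∀ v ∈ Q ⊓ Subgroup.centralizer (Q : Set Ω),
      ∃ z ∈ S ⊓ Subgroup.centralizer (S : Set Ω),
      ∃ u ∈ Q ⊓ Subgroup.centralizer (Q : Set Ω), v = z * u ^ (p ^ k) := by
    intro k
    induction k with
    | zero =>
      intro v hv
      exact ⟨1, Subgroup.one_mem _, v, hv, by simp⟩
    | succ k ih =>
      intro v hv
      obtain ⟨z, hz, u, hu, rfl⟩ := ih v hv
      obtain ⟨z', hz', u', hu', rfl⟩ := hcon u hu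
      refine ⟨z * z' ^ (p ^ k), Subgroup.mul_mem _ hz (Subgroup.pow_mem _ hz' _), u', hu', ?_⟩
      have hc : Commute z' (u' ^ p) := by
        have h1 := hz'.2 (u' ^ p) (hQS (Subgroup.pow_mem _ hu'.1 p))
        exact h1.symm
      rw [hc.mul_pow, ← pow_mul, pow_succ', mul_assoc]
  obtain ⟨n, hn⟩ := IsPGroup.iff_card.mp hS
  obtain ⟨z, hz, u, hu, rfl⟩ := key n x hxV
  have hu1 : u ^ (p ^ n) = 1 := by
    have h1 : (⟨u, hQS hu.1⟩ : S) ^ Nat.card S = 1 := pow_card_eq_one'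
    rw [hn] at h1
    exact congrArg Subtype.val h1
  rw [hu1, mul_one] at hxnc
  exact hxnc hz

theorem aut_central_ch8 {Q : Subgroup Ω} (α : MulAut Q) {v : Q}
    (hv : (v : Ω) ∈ Subgroup.centralizer (Q : Set Ω)) :
    ((α v : Q) : Ω) ∈ Subgroup.centralizer (Q : Set Ω) := by
  refine Subgroup.mem_centralizer_iff.mpr ?_
  intro q hq
  have h1 : (⟨q, hq⟩ : Q) * α v = α v * ⟨q, hq⟩ := by
    have h2 : (⟨q, hq⟩ : Q) = α (α⁻¹ ⟨q, hq⟩) := (MulAut.apply_inv_self _ α _).symm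
    rw [h2, ← map_mul, ← map_mul]
    congr 1
    apply Subtype.ext
    exact hv _ (α⁻¹ ⟨q, hq⟩).2
  exact congrArg Subtype.val h1

/-- Automorphisms of `Q` moving each central element by the square of a central element. -/
def sqStab_ch8 (Q : Subgroup Ω) : Subgroup (MulAut Q) where
  carrier := {α | ∀ v : Q, (v : Ω) ∈ Subgroup.centralizer (Q : Set Ω) →
    ∃ u : Q, (u : Ω) ∈ Subgroup.centralizer (Q : Set Ω) ∧ α v = v * u ^ 2}
  one_mem' := fun v _ => ⟨1, Subgroup.one_mem _, by simp⟩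
  mul_mem' := by
    intro α β hα hβ v hv
    obtain ⟨u, hu, hβv⟩ := hβ v hv
    obtain ⟨u', hu', hαv⟩ := hα v hv
    refine ⟨u' * α u, Subgroup.mul_mem _ hu' (aut_central_ch8 α hu), ?_⟩
    show α (β v) = v * (u' * α u) ^ 2
    have hc : Commute u' (α u) := by
      apply Subtype.ext
      exact (hu' _ (α u).2).symm
    rw [hβv, map_mul, map_pow, hαv, hc.mul_pow, mul_assoc]
  inv_mem' := by
    intro α hα v hv
    have hv' := aut_central_ch8 α⁻¹ hv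
    obtain ⟨u, hu, hαv⟩ := hα (α⁻¹ v) hv'
    refine ⟨u⁻¹, Subgroup.inv_mem _ hu, ?_⟩
    rw [MulAut.apply_inv_self] at hαv
    rw [inv_pow]
    exact eq_mul_inv_of_mul_eq hαv.symm

theorem sqStab_conj_ch8 {Q : Subgroup Ω} {α : MulAut Q} (hα : α ∈ sqStab_ch8 Q) (β : MulAut Q) :
    β * α * β⁻¹ ∈ sqStab_ch8 Q := by
  intro v hv
  have hv' := aut_central_ch8 β⁻¹ hv
  obtain ⟨u, hu, hαv⟩ := hα (β⁻¹ v) hv'
  refine ⟨β u, aut_central_ch8 β hu, ?_⟩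
  show β (α (β⁻¹ v)) = v * (β u) ^ 2
  rw [hαv, map_mul, map_pow, MulAut.apply_inv_self]

end Cfsg.Agent.Lib.Helper8
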