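import Cfsg.Agent.Lib.Helper8.CH2

set_option autoImplicit false
set_option maxHeartbeats 1600000
open Cfsg

namespace Cfsg.Agent.Lib.Helper8

/-- A saturated fusion system over a finite 2-group in which every element is conjugate to a
central element lives over an abelian group. -/
theorem ch_result8 {Ω : Type*} [Group Ω] {S : Subgroup Ω} [Finite S] (hS : IsPGroup 2 ↥S)
    (F : Cfsg.FusionSystem S) (hF : F.IsSaturated 2)
    (h : ∀ x ∈ S, ∃ z ∈ S ⊓ Subgroup.centralizer (S : Set Ω), F.IsConjElt x z) :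
    IsMulCommutative ↥S := by
  classical
  by_contra hna
  have hex : ∃ x ∈ S, ∃ s ∈ S, s * x ≠ x * s := by
    by_contra hcon
    push Not at hcon
    exact hna ⟨⟨fun a b => Subtype.ext (hcon b.1 b.2 a.1 a.2)⟩⟩
  obtain ⟨x₀, Q, hx₀S, hQmem₀, hfa, hrec, hx₀nc, hmax⟩ := max_setup_ch8 hS F hF hex
  have hQS : Q ≤ S := hfa.1
  haveI hfinQ : Finite Q := finite_of_le hQS
  have hZQ : ∀ z ∈ S ⊓ Subgroup.centralizer (S : Set Ω), z ∈ Q := fun z hz =>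
    (hQmem₀ z).mpr ⟨hz.1, (hz.2 x₀ hx₀S).symm⟩
  have hx₀V : x₀ ∈ Q ⊓ Subgroup.centralizer (Q : Set Ω) := by
    refine ⟨(hQmem₀ x₀).mpr ⟨hx₀S, rfl⟩, Subgroup.mem_centralizer_iff.mpr ?_⟩
    intro q hq
    exact ((hQmem₀ q).mp hq).2
  have hx₀Z : x₀ ∉ S ⊓ Subgroup.centralizer (S : Set Ω) := by
    intro hz
    obtain ⟨s, hs, hsx⟩ := hx₀nc
    exact hsx (hz.2 s hs)
  have hVQ : ∀ v ∈ Q ⊓ Subgroup.centralizer (Q : Set Ω),
      v ∉ S ⊓ Subgroup.centralizer (S : Set Ω) → ∀ g ∈ S, g * v = v * g → g ∈ Q := by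
    intro v hv hvZ g hg hgv
    have hvS : v ∈ S := hQS hv.1
    have hvnc : ∃ s ∈ S, s * v ≠ v * s := by
      by_contra hcon
      push Not at hcon
      exact hvZ ⟨hvS, Subgroup.mem_centralizer_iff.mpr hcon⟩
    have hle : Q ≤ FusionSystem.centralizerIn S (Subgroup.zpowers v) := fun q hq =>
      mem_cent_zpowers_ch8.mpr ⟨hQS hq, hv.2 q hq⟩
    have hcard := hmax v hvS hvnc (FusionSystem.centralizerIn S (Subgroup.zpowers v)) inf_le_left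
      (fun m hm => (mem_cent_zpowers_ch8.mp hm).2)
    haveI : Finite (FusionSystem.centralizerIn S (Subgroup.zpowers v)) := finite_of_le inf_le_left
    have heq := Subgroup.eq_of_le_of_card_ge hle hcard
    rw [heq]
    exact mem_cent_zpowers_ch8.mpr ⟨hg, hgv⟩
  obtain ⟨x, hxV, hxns⟩ := exists_nonsq_ch8 hS hQS hx₀V hx₀Z
  have hxS : x ∈ S := hQS hxV.1
  have hxZ : x ∉ S ⊓ Subgroup.centralizer (S : Set Ω) := by
    intro hz
    exact hxns x hz 1 (Subgroup.one_mem _) (by simp)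
  have hQmem : ∀ g, g ∈ Q ↔ g ∈ S ∧ g * x = x * g := by
    intro g
    constructor
    · intro hg
      exact ⟨hQS hg, hxV.2 g hg⟩
    · rintro ⟨hg, hgx⟩
      exact hVQ x hxV hxZ g hg hgx
  have hlt : Nat.card Q < Nat.card S := by
    by_contra hcon
    push Not at hcon
    have heq : Q = S := Subgroup.eq_of_le_of_card_ge hQS hcon
    obtain ⟨s, hs, hsx⟩ := hx₀nc
    have h1 : s ∈ Q := heq ▸ hs
    exact hsx ((hQmem₀ s).mp h1).2
  have hltN := card_lt_card_normalizerIn hS hQS hlt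
  obtain ⟨h₀, hh₀N, hh₀Q⟩ : ∃ n ∈ FusionSystem.normalizerIn S Q, n ∉ Q := by
    by_contra hcon
    push Not at hcon
    have hle : FusionSystem.normalizerIn S Q ≤ Q := hcon
    have h1 := Subgroup.card_le_of_le hle
    omega
  obtain ⟨n, hn⟩ := IsPGroup.iff_card.mp hS
  have hex2 : ∃ k : ℕ, h₀ ^ (2 ^ k) ∈ Q := by
    refine ⟨n, ?_⟩
    have h1 : (⟨h₀, hh₀N.1⟩ : S) ^ Nat.card S = 1 := pow_card_eq_one'
    rw [hn] at h1
    have h2 : h₀ ^ (2 ^ n) = 1 := congrArg Subtype.val h1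
    rw [h2]
    exact Q.one_mem
  obtain ⟨k, hk, hkmin⟩ : ∃ k, h₀ ^ (2 ^ k) ∈ Q ∧ ∀ j < k, h₀ ^ (2 ^ j) ∉ Q :=
    ⟨Nat.find hex2, Nat.find_spec hex2, fun j hj => Nat.find_min hex2 hj⟩
  have hk0 : k ≠ 0 := by
    rintro rfl
    apply hh₀Q
    simpa using hk
  obtain ⟨k', rfl⟩ := Nat.exists_eq_succ_of_ne_zero hk0
  obtain ⟨g, hgdef⟩ : ∃ g, g = h₀ ^ (2 ^ k') := ⟨_, rfl⟩
  have hgN : g ∈ FusionSystem.normalizerIn S Q := by
    rw [hgdef]
    exact Subgroup.pow_mem _ hh₀N _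
  have hgQ : g ∉ Q := by
    rw [hgdef]
    exact hkmin k' (Nat.lt_succ_self k')
  have hg2Q : g ^ 2 ∈ Q := by
    rw [hgdef, ← pow_mul, ← pow_succ]
    exact hk
  have hgS : g ∈ S := hgN.1
  have hgN2 : g ∈ Subgroup.normalizer (Q : Set Ω) := hgN.2
  have hgn : ∀ q, q ∈ Q ↔ g * q * g⁻¹ ∈ Q := Subgroup.mem_normalizer_iff.mp hgN2
  have hconjQ : ∀ z : Q, conjHom Q g z ∈ Q := fun z => (hgn z).mp z.2
  obtain ⟨a, haA, ha⟩ := exists_aut_of_hom F (F.conj_mem hQS hgS) hconjQ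
  have ha' : ∀ z : Q, ((a z : Q) : Ω) = g * z * g⁻¹ := ha
  have haP : a ∈ autInducedBy S Q := (mem_autInducedBy_iff S Q a).mpr ⟨g, hgS, ha'⟩
  have haK : a ∈ sqStab_ch8 Q := by
    intro v hv
    have hvV : (v : Ω) ∈ Q ⊓ Subgroup.centralizer (Q : Set Ω) := ⟨v.2, hv⟩
    have havV : ((a v : Q) : Ω) ∈ Q ⊓ Subgroup.centralizer (Q : Set Ω) :=
      ⟨(a v).2, aut_central_ch8 a hv⟩
    have hnV : (v : Ω) * (g * v * g⁻¹) ∈ Q ⊓ Subgroup.centralizer (Q : Set Ω) := by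
      rw [← ha' v]
      exact Subgroup.mul_mem _ hvV havV
    have hg2v : g ^ 2 * (v : Ω) = v * g ^ 2 := hv _ hg2Q
    have hcQ : g * (v : Ω) * g⁻¹ ∈ Q := (hgn v).mp v.2
    have hcv : g * (v : Ω) * g⁻¹ * v = v * (g * v * g⁻¹) := hv _ hcQ
    have hgn' : g * ((v : Ω) * (g * v * g⁻¹)) = (v : Ω) * (g * v * g⁻¹) * g := by
      calc g * ((v : Ω) * (g * v * g⁻¹)) = g * v * g⁻¹ * (g ^ 2 * v) * g⁻¹ := by
            rw [pow_two]; group
        _ = g * v * g⁻¹ * (v * g ^ 2) * g⁻¹ := by rw [hg2v]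
        _ = (g * v * g⁻¹ * v) * g := by rw [pow_two]; group
        _ = (v : Ω) * (g * v * g⁻¹) * g := by rw [hcv]
    have hnZ : (v : Ω) * (g * v * g⁻¹) ∈ S ⊓ Subgroup.centralizer (S : Set Ω) := by
      by_contra hnZ
      exact hgQ (hVQ _ hnV hnZ g hgS hgn')
    have hvg : ((v : Ω) * g) ^ 2 = (v : Ω) * (g * v * g⁻¹) * g ^ 2 := by
      rw [pow_two, pow_two]; group
    obtain ⟨w, hw, hnw⟩ := norm_sq_ch8 hS F hF h hgS (hQS v.2) hnZ hg2v hvg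
    have hwQ : w ∈ Q := hZQ w hw
    refine ⟨v⁻¹ * ⟨w, hwQ⟩, ?_, ?_⟩
    · exact Subgroup.mul_mem _ (Subgroup.inv_mem _ hv)
        (Subgroup.mem_centralizer_iff.mpr (fun q hq => hw.2 q (hQS hq)))
    · apply Subtype.ext
      show ((a v : Q) : Ω) = (v : Ω) * ((v : Ω)⁻¹ * w) ^ 2
      rw [ha' v]
      have hc : Commute ((v : Ω)⁻¹) w := hw.2 _ (S.inv_mem (hQS v.2))
      rw [hc.mul_pow, ← hnw, pow_two]
      group
  -- the automorphism μ of Q sending x into the centre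
  obtain ⟨z, hz, hxz⟩ := h x hxS
  obtain ⟨ψ₀, hψ₀, hψ₀x⟩ := ext_cent_ch8 hS F hF hz hxz
  have hQle : Q ≤ FusionSystem.centralizerIn S (Subgroup.zpowers x) := fun q hq =>
    mem_cent_zpowers_ch8.mpr ((hQmem q).mp hq)
  obtain ⟨ψ, hψdef⟩ : ∃ ψ : Q →* Ω, ψ = ψ₀.comp (Subgroup.inclusion hQle) := ⟨_, rfl⟩
  have hψ : ψ ∈ F.Hom Q := by
    rw [hψdef]
    exact fs_restrict F hQle hψ₀
  have hψx : ψ ⟨x, hxV.1⟩ = z := by
    rw [hψdef]
    exact hψ₀x _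
  obtain ⟨R, hR⟩ : ∃ R, ψ.range = R := ⟨_, rfl⟩
  obtain ⟨χ, hχ, hχψ, hχrange⟩ := fs_inv' F hψ hR
  obtain ⟨θ, hθ, hθN, hθR⟩ := key_lemma hS F hfa hrec hχ hχrange
  have hRS : R ≤ S := (F.le_of_mem hχ).1
  have hRN : R ≤ FusionSystem.normalizerIn S R := le_normalizerIn hRS
  have hψR : ∀ q : Q, ψ q ∈ R := fun q => fs_mem_of_range hR q
  have hψN : ∀ q : Q, ψ q ∈ FusionSystem.normalizerIn S R := fun q => hRN (hψR q)
  have hμF := F.comp_mem hψ hθ hψN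
  have hμQ : ∀ q : Q, (θ.comp (ψ.codRestrict _ hψN)) q ∈ Q := by
    intro q
    have hmem : θ ⟨ψ q, hψN q⟩ ∈ (R.subgroupOf (FusionSystem.normalizerIn S R)).map θ :=
      ⟨⟨ψ q, hψN q⟩, hψR q, rfl⟩
    rw [hθR] at hmem
    exact hmem
  obtain ⟨μ, hμA, hμ⟩ := exists_aut_of_hom F hμF hμQ
  obtain ⟨xQ, hxQ⟩ : ∃ xQ : Q, xQ = ⟨x, hxV.1⟩ := ⟨_, rfl⟩
  have hxQv : (xQ : Ω) = x := by rw [hxQ]
  have hxQc : (xQ : Ω) ∈ Subgroup.centralizer (Q : Set Ω) := by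
    rw [hxQv]
    exact hxV.2
  have hμxval : ((μ xQ : Q) : Ω) = θ ⟨z, by rw [← hψx]; exact hψN _⟩ := by
    rw [hμ, hxQ]
    show θ ⟨ψ ⟨x, hxV.1⟩, hψN _⟩ = _
    congr 1
    exact Subtype.ext hψx
  have hμxZ : ((μ xQ : Q) : Ω) ∈ S ⊓ Subgroup.centralizer (S : Set Ω) := by
    by_contra hcon
    have hcardR : Nat.card R = Nat.card Q := by
      rw [← hR]
      exact fs_card_range F hψ
    have hltR : Nat.card R < Nat.card S := by
      rw [hcardR]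
      exact hlt
    have hltNR := card_lt_card_normalizerIn hS hRS hltR
    have hθinj := F.injective_of_mem hθ
    have hMcard : Nat.card ((⊤ : Subgroup (FusionSystem.normalizerIn S R)).map θ) =
        Nat.card (FusionSystem.normalizerIn S R) := by
      rw [Subgroup.card_map_of_injective hθinj, Subgroup.card_top]
    have hμxS : ((μ xQ : Q) : Ω) ∈ S := hQS (μ xQ).2
    have hμxnc : ∃ s ∈ S, s * ((μ xQ : Q) : Ω) ≠ ((μ xQ : Q) : Ω) * s := by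
      by_contra hc2
      push Not at hc2
      exact hcon ⟨hμxS, Subgroup.mem_centralizer_iff.mpr hc2⟩
    have hM := hmax _ hμxS hμxnc ((⊤ : Subgroup (FusionSystem.normalizerIn S R)).map θ) (by
      rintro _ ⟨y, -, rfl⟩
      exact (F.le_of_mem hθ).2 y) (by
      rintro _ ⟨y, -, rfl⟩
      rw [hμxval, ← map_mul, ← map_mul]
      congr 1
      apply Subtype.ext
      exact hz.2 _ y.2.1)
    omega
  -- Sylow argument
  haveI : Finite (MulAut Q) := finite_mulAut Q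
  obtain ⟨-, Rsyl, hRsyl⟩ := hfa
  have hsyl : SylIn 2 (autInducedBy S Q) (F.autGroup Q) :=
    (sylIn_iff (autInducedBy_le_autGroup F hQS)).mpr ⟨Rsyl, hRsyl⟩
  obtain ⟨L, hL⟩ : ∃ L, L = F.autGroup Q ⊓ sqStab_ch8 Q := ⟨_, rfl⟩
  have hLA : L ≤ F.autGroup Q := by
    rw [hL]
    exact inf_le_left
  have hAL : F.autGroup Q ≤ Subgroup.normalizer (L : Set (MulAut Q)) := by
    intro β hβ
    refine Subgroup.mem_normalizer_iff.mpr ?_
    intro α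
    rw [hL]
    constructor
    · rintro ⟨h1, h2⟩
      exact ⟨Subgroup.mul_mem _ (Subgroup.mul_mem _ hβ h1) (Subgroup.inv_mem _ hβ),
        sqStab_conj_ch8 h2 β⟩
    · rintro ⟨h1, h2⟩
      have e : α = β⁻¹ * (β * α * β⁻¹) * β⁻¹⁻¹ := by group
      rw [e]
      exact ⟨Subgroup.mul_mem _ (Subgroup.mul_mem _ (Subgroup.inv_mem _ hβ) h1)
        (Subgroup.inv_mem _ (Subgroup.inv_mem _ hβ)), sqStab_conj_ch8 h2 β⁻¹⟩
  have hsylL := hsyl.inf_of_normal hLA hAL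
  obtain ⟨b, hbdef⟩ : ∃ b : MulAut Q, b = μ⁻¹ * a * μ := ⟨_, rfl⟩
  have hbL : b ∈ L := by
    rw [hL, hbdef]
    refine ⟨Subgroup.mul_mem _ (Subgroup.mul_mem _ (Subgroup.inv_mem _ hμA) haA) hμA, ?_⟩
    have h1 := sqStab_conj_ch8 haK μ⁻¹
    rwa [inv_inv] at h1
  obtain ⟨D, hD⟩ : ∃ D, D = Helper8.cj μ⁻¹ (autInducedBy S Q) ⊓ L := ⟨_, rfl⟩
  have hDp : IsPGroup 2 D := by
    rw [hD]
    exact (isPGroup_cj (isPGroup_autInducedBy hS Q) μ⁻¹).to_inf_left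
  have hbD : b ∈ D := by
    rw [hD]
    refine ⟨?_, hbL⟩
    have h1 := cj_mem (g := μ⁻¹) haP
    rw [inv_inv] at h1
    rw [hbdef]
    exact h1
  have hDL : D ≤ L := by
    rw [hD]
    exact inf_le_right
  obtain ⟨k, hkL, hk⟩ := hsylL.exists_conj_le hDp hDL
  have hkbP : k * b * k⁻¹ ∈ autInducedBy S Q := (hk (cj_mem hbD)).1
  obtain ⟨g'', hg''S, hg''⟩ := (mem_autInducedBy_iff S Q _).mp hkbP
  have hkK : k ∈ sqStab_ch8 Q := by
    rw [hL] at hkL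
    exact hkL.2
  have hbx : b xQ = xQ := by
    rw [hbdef]
    show μ⁻¹ (a (μ xQ)) = xQ
    have h1 : a (μ xQ) = μ xQ := by
      apply Subtype.ext
      rw [ha']
      have h2 := hμxZ.2 g hgS
      rw [h2]
      group
    rw [h1]
    exact MulAut.inv_apply_self _ _ _
  obtain ⟨u, hu, hku⟩ := hkK xQ hxQc
  have hfix : (k * b * k⁻¹) (k xQ) = k xQ := by
    show k (b (k⁻¹ (k xQ))) = k xQ
    rw [MulAut.inv_apply_self, hbx]
  have hg''c : g'' * ((k xQ : Q) : Ω) = ((k xQ : Q) : Ω) * g'' := by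
    have h1 := hg'' (k xQ)
    rw [hfix] at h1
    calc g'' * ((k xQ : Q) : Ω) = g'' * ((k xQ : Q) : Ω) * g''⁻¹ * g'' := by group
      _ = ((k xQ : Q) : Ω) * g'' := by rw [← h1]
  have hkxV : ((k xQ : Q) : Ω) ∈ Q ⊓ Subgroup.centralizer (Q : Set Ω) :=
    ⟨(k xQ).2, aut_central_ch8 k hxQc⟩
  have hkxZ : ((k xQ : Q) : Ω) ∉ S ⊓ Subgroup.centralizer (S : Set Ω) := by
    intro hz'
    apply hxns _ hz' ((u⁻¹ : Q) : Ω) ⟨(u⁻¹).2, Subgroup.inv_mem _ hu⟩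
    have h1 : ((k xQ : Q) : Ω) = x * (u : Ω) ^ 2 := by
      have h2 := congrArg Subtype.val hku
      rw [← hxQv]
      exact h2
    rw [h1]
    show x = x * (u : Ω) ^ 2 * ((u : Ω)⁻¹) ^ 2
    rw [inv_pow, mul_assoc, mul_inv_cancel, mul_one]
  have hg''Q : g'' ∈ Q := hVQ _ hkxV hkxZ g'' hg''S hg''c
  have hkb1 : ∀ v : Q, (v : Ω) ∈ Subgroup.centralizer (Q : Set Ω) → (k * b * k⁻¹) v = v := by
    intro v hv
    apply Subtype.ext
    rw [hg'' v]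
    have h1 := hv g'' hg''Q
    rw [h1]
    group
  have hb1 : ∀ v : Q, (v : Ω) ∈ Subgroup.centralizer (Q : Set Ω) → b v = v := by
    intro v hv
    have h1 := hkb1 (k v) (aut_central_ch8 k hv)
    have h2 : k (b (k⁻¹ (k v))) = k v := h1
    rw [MulAut.inv_apply_self] at h2
    exact k.injective h2
  have ha1 : a xQ = xQ := by
    have h1 := hb1 (μ⁻¹ xQ) (aut_central_ch8 μ⁻¹ hxQc)
    rw [hbdef] at h1
    have h2 : μ⁻¹ (a (μ (μ⁻¹ xQ))) = μ⁻¹ xQ := h1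
    rw [MulAut.apply_inv_self] at h2
    exact μ⁻¹.injective h2
  apply hgQ
  rw [hQmem]
  refine ⟨hgS, ?_⟩
  have h1 : g * x * g⁻¹ = x := by
    have h2 := congrArg Subtype.val ha1
    rw [ha', hxQv] at h2
    exact h2
  calc g * x = g * x * g⁻¹ * g := by group
    _ = x * g := by rw [h1]

end Cfsg.Agent.Lib.Helper8
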