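import Cfsg.Agent.Lib.Helper8.SubnConstr
import Cfsg.Agent.Lib.Helper8.Central
import Cfsg.Agent.Lib.Helper8.Solv2
import Cfsg.Agent.Lib.Helper8.Inv

set_option autoImplicit false
open Cfsg

namespace Cfsg.Agent.Lib.Helper8

variable {Ω : Type*} [Group Ω] {S : Subgroup Ω} {Ω' : Type*} [Group Ω']

theorem normal_of_central (F : FusionSystem S) {Z : Subgroup Ω} (hZ : F.IsCentral Z) :
    F.IsNormal Z := by
  refine ⟨hZ.1, fun P φ hφ => ?_⟩
  obtain ⟨ψ, hψ, h1, h2⟩ := hZ.2 P φ hφ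
  refine ⟨ψ, hψ, h1, ?_⟩
  ext y
  constructor
  · rintro ⟨z, hz, rfl⟩
    have e : z = Subgroup.inclusion (le_sup_right : Z ≤ P ⊔ Z) ⟨z, hz⟩ := Subtype.ext rfl
    rw [e, h2]
    exact hz
  · intro hy
    exact ⟨Subgroup.inclusion le_sup_right ⟨y, hy⟩, hy, h2 ⟨y, hy⟩⟩

theorem imageAlong_sup (θ : S →* Ω') {A B : Subgroup Ω} (hA : A ≤ S) (hB : B ≤ S) :
    FusionSystem.imageAlong θ (A ⊔ B) =
      FusionSystem.imageAlong θ A ⊔ FusionSystem.imageAlong θ B := by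
  apply le_antisymm
  · have hle : A ⊔ B ≤ FusionSystem.preimageAlong θ
        (FusionSystem.imageAlong θ A ⊔ FusionSystem.imageAlong θ B) := by
      refine sup_le ?_ ?_
      · intro a ha
        exact (mem_preimageAlong θ _ ⟨a, hA ha⟩).mpr
          (Subgroup.mem_sup_left ⟨⟨a, hA ha⟩, ha, rfl⟩)
      · intro b hb
        exact (mem_preimageAlong θ _ ⟨b, hB hb⟩).mpr
          (Subgroup.mem_sup_right ⟨⟨b, hB hb⟩, hb, rfl⟩)
    rintro _ ⟨s, hs, rfl⟩
    exact (mem_preimageAlong θ _ s).mp (hle hs)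
  · refine sup_le ?_ ?_
    · rintro _ ⟨s, hs, rfl⟩
      exact ⟨s, Subgroup.mem_sup_left hs, rfl⟩
    · rintro _ ⟨s, hs, rfl⟩
      exact ⟨s, Subgroup.mem_sup_right hs, rfl⟩

/-- The automorphisms of `Q` in `Aut_F(Q)` acting trivially modulo a central subgroup form a
normal `p`-subgroup. -/
theorem cosetFix_le_pCore [Finite S] {p : ℕ} [Fact p.Prime] (hS : IsPGroup p S)
    (F : FusionSystem S) {Z Q : Subgroup Ω} (hZ : F.IsCentral Z) (hQS : Q ≤ S) :
    cosetFix (F.autGroup Q) Z ≤ pCore p ↥(F.autGroup Q) := by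
  have hfix : ∀ β : ↥(F.autGroup Q), ∀ w : Q, (w : Ω) ∈ Z → (β : MulAut Q) w = w := by
    intro β w hw
    apply Subtype.ext
    exact central_map_eq F hZ ((mem_autGroup_iff F hQS _).mp β.2) w hw
  haveI : Finite Z := finite_of_le hZ.1
  have hZp : IsPGroup p Z := hS.to_le hZ.1
  apply le_pCore
  · refine ⟨fun n hn g => ?_⟩
    intro x
    obtain ⟨y, hy⟩ : ∃ y : Q, y = ((g⁻¹ : ↥(F.autGroup Q)) : MulAut Q) x := ⟨_, rfl⟩
    have hny := hn y
    have hw : ((y⁻¹ * (n : MulAut Q) y : Q) : Ω) ∈ Z := hny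
    have hgw := hfix g (y⁻¹ * (n : MulAut Q) y) hw
    have hgy : (g : MulAut Q) y = x := by
      rw [hy]
      show (g : MulAut Q) (((g : MulAut Q)⁻¹) x) = x
      rw [MulAut.apply_inv_self]
    have e1 : (n : MulAut Q) y = y * (y⁻¹ * (n : MulAut Q) y) := by group
    have e : (((g * n * g⁻¹ : ↥(F.autGroup Q)) : MulAut Q) x) = x * (y⁻¹ * (n : MulAut Q) y) := by
      show (g : MulAut Q) ((n : MulAut Q) (((g⁻¹ : ↥(F.autGroup Q)) : MulAut Q) x)) = _
      rw [← hy]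
      calc (g : MulAut Q) ((n : MulAut Q) y)
          = (g : MulAut Q) (y * (y⁻¹ * (n : MulAut Q) y)) := by rw [← e1]
        _ = (g : MulAut Q) y * (g : MulAut Q) (y⁻¹ * (n : MulAut Q) y) := map_mul _ _ _
        _ = x * (y⁻¹ * (n : MulAut Q) y) := by rw [hgw, hgy]
    show (x : Ω)⁻¹ * ((((g * n * g⁻¹ : ↥(F.autGroup Q)) : MulAut Q) x : Q) : Ω) ∈ Z
    rw [e]
    show (x : Ω)⁻¹ * ((x : Ω) * ((y : Ω)⁻¹ * (((n : MulAut Q) y : Q) : Ω))) ∈ Z
    rw [inv_mul_cancel_left]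
    exact hny
  · rintro ⟨n, hn⟩
    obtain ⟨k, hk⟩ := IsPGroup.iff_card.mp hZp
    refine ⟨k, ?_⟩
    have key : ∀ m : ℕ, ∀ x : Q, ((n : MulAut Q) ^ m) x = x * (x⁻¹ * (n : MulAut Q) x) ^ m := by
      intro m
      induction m with
      | zero =>
        intro x
        rw [pow_zero, pow_zero, mul_one]
        rfl
      | succ m ih =>
        intro x
        have hw : ((x⁻¹ * (n : MulAut Q) x : Q) : Ω) ∈ Z := hn x
        have hnw := hfix n _ hw
        rw [pow_succ', MulAut.mul_apply, ih x, map_mul, map_pow, hnw, pow_succ', ← mul_assoc,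
          mul_inv_cancel_left]
    apply Subtype.ext
    apply Subtype.ext
    show (n : MulAut Q) ^ (p ^ k) = 1
    apply MulEquiv.ext
    intro x
    rw [key]
    have hw : ((x⁻¹ * (n : MulAut Q) x : Q) : Ω) ∈ Z := hn x
    have h1 : (⟨((x⁻¹ * (n : MulAut Q) x : Q) : Ω), hw⟩ : Z) ^ Nat.card Z = 1 := pow_card_eq_one'
    have h2 : (x⁻¹ * (n : MulAut Q) x : Q) ^ (p ^ k) = 1 := by
      apply Subtype.ext
      rw [← hk]
      have h3 := congrArg (fun z : Z => (z : Ω)) h1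
      exact h3
    rw [h2, mul_one]
    rfl

theorem central_factor_constrained [Finite S] {p : ℕ} [Fact p.Prime] (hS : IsPGroup p S)
    (F : FusionSystem S) (hFc : F.IsConstrained p) {Z : Subgroup Ω} (hZ : F.IsCentral Z)
    {S' : Subgroup Ω'} (θ : S →* Ω') (E : FusionSystem S') (hE : F.IsFactorSystem Z θ E) :
    E.IsConstrained p := by
  obtain ⟨hF, Q₀, hQ₀n, hQ₀c⟩ := hFc
  have hQ := core_isNormal F
  have hQS : F.core ≤ S := hQ.1
  have hcent : FusionSystem.centralizerIn S F.core ≤ F.core := by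
    intro x hx
    have h1 : Q₀ ≤ F.core := le_sSup hQ₀n
    have h2 : x ∈ FusionSystem.centralizerIn S Q₀ :=
      ⟨hx.1, Subgroup.centralizer_le (SetLike.coe_subset_coe.mpr h1) hx.2⟩
    exact h1 (hQ₀c.2 Q₀ (fs_isConj_refl F hQ₀n.1) h2)
  have hZn := normal_of_central F hZ
  have hZsc := sc_of_normal F hZn
  have hEsat := factor_saturated hS F hF hZsc θ E hE
  haveI : Finite ↥S' := factor_finite F θ E hE
  have hE' := hE
  obtain ⟨hZS, hker, hrange, hhom⟩ := hE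
  have hQ'S : FusionSystem.imageAlong θ F.core ≤ S' := by
    rw [← hrange]
    exact imageAlong_le_range θ _
  have hnormal : E.IsNormal (FusionSystem.imageAlong θ F.core) := by
    refine ⟨hQ'S, fun P' φ' hφ' => ?_⟩
    obtain ⟨hP'S, φ, hφ, hPS, hφS, hPP', hind⟩ := (hhom P' φ').mp hφ'
    have hP'r : P' ≤ θ.range := by
      rw [hrange]
      exact hP'S
    obtain ⟨ψ, hψ, hext, hmap⟩ := hQ.2 _ φ hφ
    obtain ⟨ψ', hψ', hsupS, hψS, hsupP', hind'⟩ := factor_induced hS F hF hZsc θ E hE' hψ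
    have himg : FusionSystem.imageAlong θ (FusionSystem.preimageAlong θ P' ⊔ F.core) =
        P' ⊔ FusionSystem.imageAlong θ F.core := by
      rw [imageAlong_sup θ (preimageAlong_le θ P') hQS, image_preimage_eq θ hP'r]
    obtain ⟨ψ'', hψ'', hψ''e⟩ := hom_cast E himg hψ'
    refine ⟨ψ'', hψ'', fun x => ?_, ?_⟩
    · obtain ⟨x₀, hx₀⟩ := preimageAlong_surj' θ hP'r x x.2
      have hm : (x : Ω') ∈ FusionSystem.imageAlong θ (FusionSystem.preimageAlong θ P' ⊔ F.core) := by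
        rw [himg]
        exact Subgroup.mem_sup_left x.2
      have h1 : ψ'' (Subgroup.inclusion le_sup_left x) = ψ' ⟨(x : Ω'), hm⟩ := hψ''e _ hm _
      rw [h1]
      have h2 := hind' (Subgroup.inclusion le_sup_left x₀)
      have h3 := hind x₀
      have e1 : (⟨(x : Ω'), hm⟩ : ↥(FusionSystem.imageAlong θ
          (FusionSystem.preimageAlong θ P' ⊔ F.core))) =
          ⟨θ ⟨(Subgroup.inclusion (le_sup_left : FusionSystem.preimageAlong θ P' ≤
            FusionSystem.preimageAlong θ P' ⊔ F.core) x₀ : Ω), hsupS (Subtype.property _)⟩,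
            hsupP' _⟩ := Subtype.ext hx₀.symm
      rw [e1, h2]
      have e2 : x = ⟨θ ⟨x₀, hPS x₀.2⟩, hPP' x₀⟩ := Subtype.ext hx₀.symm
      rw [e2, h3]
      congr 1
      apply Subtype.ext
      exact hext x₀
    · ext y
      constructor
      · rintro ⟨z, hz, rfl⟩
        obtain ⟨q, hq, hqz⟩ := hz
        have hm : θ q ∈ FusionSystem.imageAlong θ (FusionSystem.preimageAlong θ P' ⊔ F.core) :=
          ⟨q, Subgroup.mem_sup_right hq, rfl⟩
        have e0 : z = ⟨θ q, by rw [hqz]; exact z.2⟩ := Subtype.ext hqz.symm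
        rw [e0, hψ''e _ hm _]
        have h2 := hind' ⟨(q : Ω), Subgroup.mem_sup_right hq⟩
        have e1 : (⟨θ q, hm⟩ : ↥(FusionSystem.imageAlong θ
            (FusionSystem.preimageAlong θ P' ⊔ F.core))) =
            ⟨θ ⟨((⟨(q : Ω), Subgroup.mem_sup_right hq⟩ :
              ↥(FusionSystem.preimageAlong θ P' ⊔ F.core)) : Ω), hsupS (Subtype.property _)⟩,
              hsupP' _⟩ := Subtype.ext rfl
        rw [e1, h2]
        exact ⟨⟨ψ ⟨(q : Ω), Subgroup.mem_sup_right hq⟩, hψS _⟩,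
          hmap.le ⟨⟨(q : Ω), Subgroup.mem_sup_right hq⟩, hq, rfl⟩, rfl⟩
      · rintro ⟨q', hq', rfl⟩
        have h1 : (q' : Ω) ∈ (F.core.subgroupOf (FusionSystem.preimageAlong θ P' ⊔ F.core)).map ψ := by
          rw [hmap]
          exact hq'
        obtain ⟨w, hw, hwq⟩ := h1
        have hm : θ ⟨(w : Ω), hsupS w.2⟩ ∈
            FusionSystem.imageAlong θ (FusionSystem.preimageAlong θ P' ⊔ F.core) := hsupP' w
        have hm2 : θ ⟨(w : Ω), hsupS w.2⟩ ∈ P' ⊔ FusionSystem.imageAlong θ F.core := by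
          rw [← himg]
          exact hm
        refine ⟨⟨θ ⟨(w : Ω), hsupS w.2⟩, hm2⟩, ⟨⟨(w : Ω), hsupS w.2⟩, hw, rfl⟩, ?_⟩
        rw [hψ''e _ hm hm2, hind' w]
        congr 1
        exact Subtype.ext hwq
  refine ⟨hEsat, _, hnormal, normal_centric_of_cent_le E hnormal ?_⟩
  rintro y ⟨hyS, hyC⟩
  have hyr : y ∈ θ.range := by
    rw [hrange]
    exact hyS
  obtain ⟨s, rfl⟩ := hyr
  have hQsc := sc_of_normal F hQ
  have hsN : (s : Ω) ∈ Subgroup.normalizer ((F.core : Subgroup Ω) : Set Ω) :=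
    sc_le_normalizer F hQsc s.2
  have haF : normConj F.core ⟨(s : Ω), hsN⟩ ∈ F.autGroup F.core := by
    apply autInducedBy_le_autGroup F hQS
    rw [mem_autInducedBy_iff]
    exact ⟨(s : Ω), s.2, fun x => rfl⟩
  have hacf : (⟨normConj F.core ⟨(s : Ω), hsN⟩, haF⟩ : ↥(F.autGroup F.core)) ∈
      cosetFix (F.autGroup F.core) Z := by
    intro x
    show (x : Ω)⁻¹ * ((s : Ω) * (x : Ω) * (s : Ω)⁻¹) ∈ Z
    have hxS : (x : Ω) ∈ S := hQS x.2
    have h1 : θ ((⟨(x : Ω), hxS⟩ : S)⁻¹ * (s * ⟨(x : Ω), hxS⟩ * s⁻¹)) = 1 := by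
      have h2 : θ ⟨(x : Ω), hxS⟩ * θ s = θ s * θ ⟨(x : Ω), hxS⟩ :=
        (Subgroup.mem_centralizer_iff.mp hyC) _ ⟨⟨(x : Ω), hxS⟩, x.2, rfl⟩
      rw [map_mul, map_inv, map_mul, map_mul, map_inv, ← h2]
      group
    exact (hker _).mp h1
  have hpc := cosetFix_le_pCore hS F hZ hQS hacf
  have hop : (s : Ω) ∈ opPre F p F.core := ⟨s.2, _, hpc, fun x => rfl⟩
  have hsQ := opPre_le hS F hF hQ hcent hop
  exact ⟨s, hsQ, rfl⟩

end Cfsg.Agent.Lib.Helper8
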