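import Mathlib
import Cfsg.Prelude.Def_Characters
import Cfsg.Agent.Lib.Lead.Char16
import Cfsg.Agent.S0840

set_option autoImplicit false

namespace Cfsg.Agent.Lib.Helper8

open Cfsg.Agent.Lib.Lead Module

/-- `‖χ(g)‖ ≤ ‖χ(1)‖` for an irreducible character. -/
theorem irr_norm_le_deg {G : Type*} [Group G] [Finite G] (χ : Cfsg.IrrCharacter G) (g : G) :
    ‖χ.1 g‖ ≤ ‖χ.1 1‖ := by
  obtain ⟨n, ρ, hρ, hρχ⟩ := χ.2
  rw [← hρχ, Representation.char_one, Complex.norm_natCast]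
  exact char_norm_le ρ g

/-- S4814: if `∑ 1/χ(1)² < 2` then every element is a product of two commutators. -/
theorem two_comm {G : Type*} [Group G] [Finite G]
    (h : ∑ᶠ χ : Cfsg.IrrCharacter G, 1 / ‖(χ : G → ℂ) 1‖ ^ 2 < (2 : ℝ)) (g : G) :
    ∃ a b c d : G, (a * b * a⁻¹ * b⁻¹) * (c * d * c⁻¹ * d⁻¹) = g := by
  classical
  haveI : Fintype G := Fintype.ofFinite G
  haveI : Fintype (Cfsg.IrrCharacter G) := Fintype.ofFinite _
  rw [finsum_eq_sum_of_fintype] at h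
  have hG := card_ne_zero_C (G := G)
  obtain ⟨c, hc⟩ : ∃ c : G → ℂ, c = fun z =>
      ((Finset.univ.filter (fun p : G × G => p.1 * p.2 * p.1⁻¹ * p.2⁻¹ = z)).card : ℂ) :=
    ⟨_, rfl⟩
  have hcf : ∀ z, c z = (Nat.card G : ℂ) * ∑ χ : Cfsg.IrrCharacter G, χ.1 z⁻¹ / χ.1 1 := by
    intro z
    rw [hc]
    exact card_commutator_eq z
  have hcne : ∀ z, c z ≠ 0 → ∃ a b : G, a * b * a⁻¹ * b⁻¹ = z := by
    intro z hz
    rw [hc] at hz
    have h0 : (Finset.univ.filter (fun p : G × G => p.1 * p.2 * p.1⁻¹ * p.2⁻¹ = z)).card ≠ 0 := by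
      intro h0
      apply hz
      simp only [h0, Nat.cast_zero]
    obtain ⟨p, hp⟩ := Finset.card_pos.mp (Nat.pos_of_ne_zero h0)
    exact ⟨p.1, p.2, (Finset.mem_filter.mp hp).2⟩
  have hcls : Cfsg.IsClassFunction G c := by
    intro z x
    rw [hcf, hcf]
    congr 1
    apply Finset.sum_congr rfl
    intro χ _
    have e : (x * z * x⁻¹)⁻¹ = x * z⁻¹ * x⁻¹ := by group
    rw [e, isClassFunction_of_irr χ z⁻¹ x]
  have hsum : ∀ χ : Cfsg.IrrCharacter G,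
      ∑ u : G, c u * χ.1 u = (Nat.card G : ℂ) ^ 2 / χ.1 1 := by
    intro χ
    have h1 : ∀ u, c u * χ.1 u = (Nat.card G : ℂ) *
        ∑ ψ : Cfsg.IrrCharacter G, (χ.1 u * (starRingEnd ℂ) (ψ.1 u)) / ψ.1 1 := by
      intro u
      rw [hcf, mul_assoc, Finset.sum_mul]
      congr 1
      apply Finset.sum_congr rfl
      intro ψ _
      rw [irr_conj_inv]
      ring
    rw [Finset.sum_congr rfl (fun u _ => h1 u), ← Finset.mul_sum, Finset.sum_comm]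
    have h2 : ∀ ψ : Cfsg.IrrCharacter G,
        ∑ u : G, χ.1 u * (starRingEnd ℂ) (ψ.1 u) / ψ.1 1
          = if χ = ψ then (Nat.card G : ℂ) / χ.1 1 else 0 := by
      intro ψ
      rw [← Finset.sum_div]
      have h3 := irr_inner χ ψ
      unfold Cfsg.classInner at h3
      have h4 : ∑ u : G, χ.1 u * (starRingEnd ℂ) (ψ.1 u)
          = (Nat.card G : ℂ) * (if χ = ψ then 1 else 0) := by
        rw [← h3]
        field_simp
      rw [h4]
      split_ifs with e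
      · rw [e, mul_one]
      · rw [mul_zero, zero_div]
    rw [Finset.sum_congr rfl (fun ψ _ => h2 ψ), Finset.sum_ite_eq, if_pos (Finset.mem_univ _)]
    ring
  obtain ⟨N2, hN2⟩ : ∃ N2 : G → ℂ, N2 = fun x => ∑ u : G, c u * c (u⁻¹ * x) := ⟨_, rfl⟩
  have hN2cls : Cfsg.IsClassFunction G N2 := by
    intro x y
    rw [hN2]
    show ∑ u : G, c u * c (u⁻¹ * (y * x * y⁻¹)) = ∑ u : G, c u * c (u⁻¹ * x)
    rw [← Equiv.sum_comp (MulAut.conj y).toEquiv]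
    apply Finset.sum_congr rfl
    intro u _
    have e1 : (y * u * y⁻¹)⁻¹ * (y * x * y⁻¹) = y * (u⁻¹ * x) * y⁻¹ := by group
    show c (y * u * y⁻¹) * c ((y * u * y⁻¹)⁻¹ * (y * x * y⁻¹)) = c u * c (u⁻¹ * x)
    rw [e1, hcls, hcls]
  have hconv : ∀ χ : Cfsg.IrrCharacter G,
      ∑ x : G, N2 x * χ.1 x = (Nat.card G : ℂ) ^ 4 / χ.1 1 ^ 3 := by
    intro χ
    have h1 := Cfsg.Agent.S0840.conv_char c c hcls hcls χ
    rw [hsum χ] at h1
    have hχ1 := irr_deg_ne_zero χ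
    have h2 : ∑ x : G, N2 x * χ.1 x = ∑ x : G, (∑ u : G, c u * c (u⁻¹ * x)) * χ.1 x := by
      rw [hN2]
    rw [h2]
    have h3 : ∑ x : G, (∑ u : G, c u * c (u⁻¹ * x)) * χ.1 x
        = ((Nat.card G : ℂ) ^ 2 / χ.1 1 * ((Nat.card G : ℂ) ^ 2 / χ.1 1)) / χ.1 1 := by
      rw [← h1]
      field_simp
    rw [h3]
    field_simp
  have hinner : ∀ χ : Cfsg.IrrCharacter G,
      Cfsg.classInner N2 χ.1 = (Nat.card G : ℂ) ^ 3 / χ.1 1 ^ 3 := by
    intro χ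
    unfold Cfsg.classInner
    have h1 := hconv ⟨fun g => (starRingEnd ℂ) (χ.1 g), isIrrCharacter_conj χ.2⟩
    simp only at h1
    rw [h1, irr_conj_one]
    field_simp
  have hexp := class_fn_expand' N2 hN2cls
  have hval : N2 g = (Nat.card G : ℂ) ^ 3 * ∑ χ : Cfsg.IrrCharacter G, χ.1 g / χ.1 1 ^ 3 := by
    have h1 := congrFun hexp g
    rw [h1, Finset.sum_apply, Finset.mul_sum]
    apply Finset.sum_congr rfl
    intro χ _
    rw [Pi.smul_apply, smul_eq_mul, hinner]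
    ring
  have hT : ∑ χ : Cfsg.IrrCharacter G, χ.1 g / χ.1 1 ^ 3 ≠ 0 := by
    intro h0
    have hsplit := Finset.add_sum_erase Finset.univ
      (fun χ : Cfsg.IrrCharacter G => χ.1 g / χ.1 1 ^ 3) (Finset.mem_univ (irrOne G))
    rw [h0] at hsplit
    have h1 : (irrOne G).1 g / (irrOne G).1 1 ^ 3 = 1 := by
      show (1 : ℂ) / 1 ^ 3 = 1
      norm_num
    simp only [h1] at hsplit
    have h2 : ‖∑ χ ∈ Finset.univ.erase (irrOne G), χ.1 g / χ.1 1 ^ 3‖ = 1 := by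
      have : ∑ χ ∈ Finset.univ.erase (irrOne G), χ.1 g / χ.1 1 ^ 3 = -1 := by
        linear_combination hsplit
      rw [this, norm_neg, norm_one]
    have h3 : ‖∑ χ ∈ Finset.univ.erase (irrOne G), χ.1 g / χ.1 1 ^ 3‖
        ≤ ∑ χ ∈ Finset.univ.erase (irrOne G), 1 / ‖χ.1 1‖ ^ 2 := by
      refine (norm_sum_le _ _).trans (Finset.sum_le_sum ?_)
      intro χ _
      rw [norm_div, norm_pow]
      have hle : ‖χ.1 g‖ ≤ ‖χ.1 1‖ := irr_norm_le_deg χ g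
      have hpos : 0 < ‖χ.1 1‖ := norm_pos_iff.mpr (irr_deg_ne_zero χ)
      rw [div_le_div_iff₀ (by positivity) (by positivity)]
      have h5 : ‖χ.1 g‖ * ‖χ.1 1‖ ^ 2 ≤ ‖χ.1 1‖ * ‖χ.1 1‖ ^ 2 :=
        mul_le_mul_of_nonneg_right hle (by positivity)
      calc ‖χ.1 g‖ * ‖χ.1 1‖ ^ 2 ≤ ‖χ.1 1‖ * ‖χ.1 1‖ ^ 2 := h5
        _ = 1 * ‖χ.1 1‖ ^ 3 := by ring
    have h4 := Finset.add_sum_erase Finset.univ
      (fun χ : Cfsg.IrrCharacter G => 1 / ‖χ.1 1‖ ^ 2) (Finset.mem_univ (irrOne G))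
    have h5 : 1 / ‖(irrOne G).1 1‖ ^ 2 = 1 := by
      show 1 / ‖(1 : ℂ)‖ ^ 2 = 1
      norm_num
    simp only [h5] at h4
    linarith
  have hN2g : N2 g ≠ 0 := by
    rw [hval]
    exact mul_ne_zero (pow_ne_zero _ hG) hT
  have hN2g' : ∑ u : G, c u * c (u⁻¹ * g) ≠ 0 := by
    rw [hN2] at hN2g
    exact hN2g
  obtain ⟨u, -, hu⟩ := Finset.exists_ne_zero_of_sum_ne_zero hN2g'
  obtain ⟨a, b, hab⟩ := hcne u (left_ne_zero_of_mul hu)
  obtain ⟨c', d, hcd⟩ := hcne _ (right_ne_zero_of_mul hu)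
  exact ⟨a, b, c', d, by rw [hab, hcd]; group⟩

end Cfsg.Agent.Lib.Helper8
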