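import Mathlib
import Cfsg.Agent.Lib.Lead.Char16
import Cfsg.Agent.Lib.Helper7.FS
import Cfsg.Agent.Lib.Helper7.Clifford
import Cfsg.Agent.Lib.Helper7.Codeg
import Cfsg.Agent.Lib.Helper8.ChrB
import Cfsg.Agent.Lib.Helper8.Codeg8

set_option autoImplicit false

namespace Cfsg.Agent.Lib.Helper8

open Cfsg.Agent.Lib.Lead

theorem sqrt_count_expand {G : Type*} [Group G] [Fintype G] [DecidableEq G]
    [Fintype (Cfsg.IrrCharacter G)] (x : G) :
    ((Finset.univ.filter (fun g : G => g * g = x)).card : ℂ)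
      = ∑ χ : Cfsg.IrrCharacter G,
          (starRingEnd ℂ) ((Nat.card G : ℂ)⁻¹ * ∑ g : G, χ.1 (g * g)) * χ.1 x := by
  obtain ⟨Θ, hΘ⟩ : ∃ Θ : G → ℂ, ∀ y,
      Θ y = ((Finset.univ.filter (fun g : G => g * g = y)).card : ℂ) := ⟨_, fun _ => rfl⟩
  have hcls : Cfsg.IsClassFunction G Θ := by
    intro y h
    rw [hΘ, hΘ]
    congr 1
    apply Finset.card_bij (fun g _ => h⁻¹ * g * h)
    · intro g hg
      rw [Finset.mem_filter] at hg ⊢
      refine ⟨Finset.mem_univ _, ?_⟩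
      have e : h⁻¹ * g * h * (h⁻¹ * g * h) = h⁻¹ * (g * g) * h := by group
      rw [e, hg.2]
      group
    · intro a _ b _ hab
      have e := congrArg (fun z => h * z * h⁻¹) hab
      simpa [mul_assoc] using e
    · intro b hb
      rw [Finset.mem_filter] at hb
      refine ⟨h * b * h⁻¹, ?_, by group⟩
      rw [Finset.mem_filter]
      refine ⟨Finset.mem_univ _, ?_⟩
      have e : h * b * h⁻¹ * (h * b * h⁻¹) = h * (b * b) * h⁻¹ := by group
      rw [e, hb.2]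
  have hinner : ∀ χ : Cfsg.IrrCharacter G, Cfsg.classInner Θ χ.1
      = (starRingEnd ℂ) ((Nat.card G : ℂ)⁻¹ * ∑ g : G, χ.1 (g * g)) := by
    intro χ
    unfold Cfsg.classInner
    rw [map_mul, map_inv₀, Complex.conj_natCast, map_sum]
    congr 1
    have h1 : ∀ y : G, Θ y * (starRingEnd ℂ) (χ.1 y)
        = ∑ g : G, if g * g = y then (starRingEnd ℂ) (χ.1 (g * g)) else 0 := by
      intro y
      rw [hΘ, Finset.card_filter]
      push_cast
      rw [Finset.sum_mul]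
      refine Finset.sum_congr rfl (fun g _ => ?_)
      split_ifs with hg
      · rw [one_mul, hg]
      · rw [zero_mul]
    rw [Finset.sum_congr rfl (fun y _ => h1 y), Finset.sum_comm]
    refine Finset.sum_congr rfl (fun g _ => ?_)
    rw [Finset.sum_ite_eq, if_pos (Finset.mem_univ _)]
  have hexp := congrFun (class_fn_expand' Θ hcls) x
  rw [Finset.sum_apply] at hexp
  rw [← hΘ, hexp]
  refine Finset.sum_congr rfl (fun χ _ => ?_)
  rw [Pi.smul_apply, smul_eq_mul, hinner]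

theorem sqrt_in_normal_odd {G : Type*} [Group G] [Finite G] (N : Subgroup G) [N.Normal]
    (hodd : Odd N.index) (g : G) (hg : g * g ∈ N) : g ∈ N := by
  rw [← QuotientGroup.eq_one_iff]
  have h1 : ((g : G ⧸ N)) ^ 2 = 1 := by
    rw [pow_two, ← QuotientGroup.mk_mul, QuotientGroup.eq_one_iff]
    exact hg
  have h2 : orderOf (g : G ⧸ N) ∣ 2 := orderOf_dvd_of_pow_eq_one h1
  have h3 : orderOf (g : G ⧸ N) ∣ N.index := by
    rw [Subgroup.index_eq_card]
    exact orderOf_dvd_natCard _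
  have h4 : orderOf (g : G ⧸ N) ∣ 1 := by
    have h5 := Nat.dvd_gcd h2 h3
    rwa [Nat.Coprime.gcd_eq_one (Nat.coprime_two_left.mpr hodd)] at h5
  exact orderOf_eq_one_iff.mp (Nat.dvd_one.mp h4)

theorem inner_sum_comb {H : Type*} [Group H] [Fintype H] {ι : Type*} [Fintype ι] (c : ι → ℂ)
    (f : ι → H → ℂ) (φ : H → ℂ) :
    Cfsg.classInner (fun n => ∑ i, c i * f i n) φ = ∑ i, c i * Cfsg.classInner (f i) φ := by
  unfold Cfsg.classInner
  simp only [Finset.mul_sum, Finset.sum_mul]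
  rw [Finset.sum_comm]
  refine Finset.sum_congr rfl (fun i _ => Finset.sum_congr rfl (fun n _ => ?_))
  ring

theorem fs_restrict_sum {G : Type*} [Group G] [Fintype G] (N : Subgroup G)
    [N.Normal] [Fintype N] [Fintype (Cfsg.IrrCharacter G)] (hodd : Odd N.index)
    (φ : Cfsg.IrrCharacter N) :
    ∑ χ : Cfsg.IrrCharacter G, (starRingEnd ℂ) ((Nat.card G : ℂ)⁻¹ * ∑ g : G, χ.1 (g * g))
        * Cfsg.classInner (fun n : N => χ.1 n) φ.1
      = (starRingEnd ℂ) ((Nat.card N : ℂ)⁻¹ * ∑ m : N, φ.1 (m * m)) := by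
  classical
  haveI : Fintype (Cfsg.IrrCharacter N) := Fintype.ofFinite _
  obtain ⟨cG, hcG⟩ : ∃ cG : Cfsg.IrrCharacter G → ℂ, ∀ χ, cG χ
      = (starRingEnd ℂ) ((Nat.card G : ℂ)⁻¹ * ∑ g : G, χ.1 (g * g)) := ⟨_, fun _ => rfl⟩
  obtain ⟨cN, hcN⟩ : ∃ cN : Cfsg.IrrCharacter N → ℂ, ∀ θ, cN θ
      = (starRingEnd ℂ) ((Nat.card N : ℂ)⁻¹ * ∑ m : N, θ.1 (m * m)) := ⟨_, fun _ => rfl⟩
  have h1 : (fun n : N => ∑ χ : Cfsg.IrrCharacter G, cG χ * χ.1 n)
      = (fun n : N => ∑ θ : Cfsg.IrrCharacter N, cN θ * θ.1 n) := by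
    funext n
    simp only [hcG, hcN]
    rw [← sqrt_count_expand (n : G), ← sqrt_count_expand n]
    congr 1
    symm
    apply Finset.card_bij (fun (m : N) _ => (m : G))
    · intro m hm
      rw [Finset.mem_filter] at hm ⊢
      exact ⟨Finset.mem_univ _, by rw [← Subgroup.coe_mul, hm.2]⟩
    · intro a _ b _ hab
      exact Subtype.ext hab
    · intro g hg
      rw [Finset.mem_filter] at hg
      have hgN : g ∈ N := sqrt_in_normal_odd N hodd g (by rw [hg.2]; exact n.2)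
      refine ⟨⟨g, hgN⟩, ?_, rfl⟩
      rw [Finset.mem_filter]
      exact ⟨Finset.mem_univ _, Subtype.ext hg.2⟩
  have hA : Cfsg.classInner (fun n : N => ∑ χ : Cfsg.IrrCharacter G, cG χ * χ.1 n) φ.1
      = ∑ χ : Cfsg.IrrCharacter G, cG χ * Cfsg.classInner (fun n : N => χ.1 n) φ.1 :=
    inner_sum_comb cG (fun χ (n : N) => χ.1 n) φ.1
  have hB : Cfsg.classInner (fun n : N => ∑ θ : Cfsg.IrrCharacter N, cN θ * θ.1 n) φ.1
      = ∑ θ : Cfsg.IrrCharacter N, cN θ * Cfsg.classInner θ.1 φ.1 :=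
    inner_sum_comb cN (fun θ (n : N) => θ.1 n) φ.1
  simp only [← hcG, ← hcN]
  rw [← hA, h1, hB, Finset.sum_eq_single φ]
  · rw [irr_inner_self, mul_one]
  · intro θ _ hθ
    rw [irr_inner_ne hθ, mul_zero]
  · intro h
    exact absurd (Finset.mem_univ _) h

theorem not_real_of_odd_quot {G : Type*} [Group G] [Finite G] (N : Subgroup G) [N.Normal]
    (hodd : Odd N.index) (β : Cfsg.IrrCharacter G) (hβN : ∀ x ∈ N, β.1 x = β.1 1)
    (hβ1 : β ≠ irrOne G) : ¬ ∀ g : G, (β.1 g).im = 0 := by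
  classical
  intro hreal
  obtain ⟨ψ, hψ⟩ := Cfsg.Agent.Lib.Helper7.Codeg.exists_irr_quot β N hβN
  haveI : Fintype (G ⧸ N) := Fintype.ofFinite _
  have hψreal : ∀ h : G ⧸ N, (ψ.1 h).im = 0 := by
    intro h
    obtain ⟨g, rfl⟩ := QuotientGroup.mk_surjective h
    rw [hψ]
    exact hreal g
  have hψ1 : ψ ≠ irrOne (G ⧸ N) := by
    intro h
    apply hβ1
    apply Subtype.ext
    funext g
    rw [← hψ g, h]
    rfl
  have hcop : Nat.Coprime (Nat.card (G ⧸ N)) 2 := by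
    rw [← Subgroup.index_eq_card]
    exact Nat.coprime_two_right.mpr hodd
  have hsum : ∑ s : G ⧸ N, ψ.1 (s * s) = ∑ s : G ⧸ N, ψ.1 s := by
    refine Fintype.sum_equiv (powCoprime hcop) _ _ (fun s => ?_)
    rw [powCoprime_apply, pow_two]
  have h0 : (Nat.card (G ⧸ N) : ℂ)⁻¹ * ∑ s : G ⧸ N, ψ.1 (s * s) = 0 := by
    rw [hsum]
    have h1 := irr_inner_ne hψ1
    unfold Cfsg.classInner at h1
    rw [← h1]
    congr 1
    refine Finset.sum_congr rfl (fun s _ => ?_)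
    show _ = ψ.1 s * (starRingEnd ℂ) (1 : ℂ)
    rw [map_one, mul_one]
  rcases (Cfsg.Agent.Lib.Helper7.FS.fs_cases ψ).1 hψreal with h | h
  · rw [h0] at h
    exact zero_ne_one h
  · rw [h0] at h
    norm_num at h

theorem parseval8 {H : Type*} [Group H] [Fintype H] [Fintype (Cfsg.IrrCharacter H)]
    (f g : H → ℂ) (hf : Cfsg.IsClassFunction H f) :
    Cfsg.classInner f g = ∑ θ : Cfsg.IrrCharacter H,
      Cfsg.classInner f θ.1 * (starRingEnd ℂ) (Cfsg.classInner g θ.1) := by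
  conv_lhs => rw [class_fn_expand' f hf]
  rw [classInner_sum_left]
  refine Finset.sum_congr rfl (fun θ _ => ?_)
  rw [classInner_smul_left, classInner_conj_symm]

theorem restrict_inner_clifford {G : Type*} [Group G] [Fintype G] (N : Subgroup G) [N.Normal]
    [Fintype N] (φ : Cfsg.IrrCharacter N) (χ1 χ2 : Cfsg.IrrCharacter G)
    (e1 e2 : ℕ) (he1 : Cfsg.classInner (fun n : N => χ1.1 n) φ.1 = e1)
    (he2 : Cfsg.classInner (fun n : N => χ2.1 n) φ.1 = e2) (he10 : e1 ≠ 0) :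
    Cfsg.classInner (fun n : N => χ1.1 n) (fun n : N => χ2.1 n)
      = ((Nat.card {ψ : Cfsg.IrrCharacter N // ∃ x : G, ψ.1 = conjFun N φ.1 x} * e1 * e2 : ℕ)
          : ℂ) := by
  classical
  haveI : Fintype (Cfsg.IrrCharacter N) := Fintype.ofFinite _
  have hcf1 := Cfsg.Agent.Lib.Helper7.Cliff.isClassFunction_restrict N χ1.1
    (isClassFunction_of_irr χ1)
  rw [parseval8 _ _ hcf1]
  have hterm : ∀ θ : Cfsg.IrrCharacter N, Cfsg.classInner (fun n : N => χ1.1 n) θ.1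
        * (starRingEnd ℂ) (Cfsg.classInner (fun n : N => χ2.1 n) θ.1)
      = if (∃ x : G, θ.1 = conjFun N φ.1 x) then ((e1 * e2 : ℕ) : ℂ) else 0 := by
    intro θ
    by_cases hθ : ∃ x : G, θ.1 = conjFun N φ.1 x
    · obtain ⟨x, hx⟩ := hθ
      rw [if_pos ⟨x, hx⟩, hx,
        Cfsg.Agent.Lib.Helper7.Cliff.inner_restrict_conjFun N χ1.1 (isClassFunction_of_irr χ1),
        Cfsg.Agent.Lib.Helper7.Cliff.inner_restrict_conjFun N χ2.1 (isClassFunction_of_irr χ2),
        he1, he2]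
      simp
    · rw [if_neg hθ]
      have h0 : Cfsg.classInner (fun n : N => χ1.1 n) θ.1 = 0 := by
        by_contra hne
        apply hθ
        exact Cfsg.Agent.Lib.Helper7.Cliff.exists_conj_of_constituents N χ1 φ θ
          (by rw [he1]; exact_mod_cast he10) hne
      rw [h0, zero_mul]
  rw [Finset.sum_congr rfl (fun θ _ => hterm θ), ← Finset.sum_filter, Finset.sum_const,
    nsmul_eq_mul, Nat.card_eq_fintype_card, Fintype.card_subtype]
  push_cast
  ring

theorem avg_normal_irr {G : Type*} [Group G] [Fintype G] (N : Subgroup G) [N.Normal]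
    [Fintype N] (β : Cfsg.IrrCharacter G) :
    ((∀ x ∈ N, β.1 x = β.1 1) →
      (Nat.card N : ℂ)⁻¹ * ∑ n : N, β.1 n = (Cfsg.charDegree β.1 : ℂ)) ∧
    (¬ (∀ x ∈ N, β.1 x = β.1 1) → (Nat.card N : ℂ)⁻¹ * ∑ n : N, β.1 n = 0) := by
  classical
  have hNc : (Nat.card N : ℂ) ≠ 0 := card_ne_zero_C
  constructor
  · intro hβ
    rw [Finset.sum_congr rfl (fun (n : N) _ => hβ n n.2), Finset.sum_const,
      Finset.card_univ, nsmul_eq_mul, ← Nat.card_eq_fintype_card, ← mul_assoc,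
      inv_mul_cancel₀ hNc, one_mul]
    exact (Cfsg.Agent.Lib.Helper7.DZ.charDegree_spec β).2.1
  · intro hβ
    push Not at hβ
    obtain ⟨x0, hx0N, hx0⟩ := hβ
    have h3 := sum_normal_coset_eq_zero N β ⟨x0, hx0N, hx0⟩ 1
    have h5 : ∑ x : G, (if x ∈ N then (1 : ℂ) else 0) * β.1 (1 * x)
        = ∑ x ∈ Finset.univ.filter (· ∈ N), β.1 x := by
      rw [Finset.sum_filter]
      refine Finset.sum_congr rfl (fun x _ => ?_)
      split_ifs <;> simp
    rw [h5] at h3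
    have h6 : ∑ x ∈ Finset.univ.filter (· ∈ N), β.1 x = ∑ n : N, β.1 n :=
      Finset.sum_subtype (Finset.univ.filter (· ∈ N)) (fun x => by simp) (fun x => β.1 x)
    rw [h3] at h6
    rw [← h6, mul_zero]

theorem real_over_parity {G : Type*} [Group G] [Fintype G] (N : Subgroup G) [N.Normal]
    [Fintype N] (hodd : Odd N.index) (φ : Cfsg.IrrCharacter N) (χ1 χ2 : Cfsg.IrrCharacter G)
    (hr1 : ∀ g, (χ1.1 g).im = 0) (hr2 : ∀ g, (χ2.1 g).im = 0)
    (e1 e2 : ℕ) (he1 : Cfsg.classInner (fun n : N => χ1.1 n) φ.1 = e1)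
    (he2 : Cfsg.classInner (fun n : N => χ2.1 n) φ.1 = e2) (he10 : e1 ≠ 0) :
    ((Nat.card {ψ : Cfsg.IrrCharacter N // ∃ x : G, ψ.1 = conjFun N φ.1 x} * e1 * e2 : ℕ)
        : ZMod 2)
      = if χ1 = χ2 then 1 else 0 := by
  classical
  haveI : Fintype (Cfsg.IrrCharacter G) := Fintype.ofFinite _
  have hfchar : Cfsg.IsCharacter G (χ1.1 * χ2.1) :=
    isCharacter_mul (isCharacter_of_irr χ1.2) (isCharacter_of_irr χ2.2)
  obtain ⟨m, hm⟩ := isCharacter_decomp hfchar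
  have hmβ : ∀ β : Cfsg.IrrCharacter G, Cfsg.classInner (χ1.1 * χ2.1) β.1 = (m β : ℂ) := by
    intro β
    rw [hm]
    exact classInner_nat_comb (fun χ => (m χ : ℂ)) β
  have hS1 : Cfsg.classInner (fun n : N => χ1.1 n) (fun n : N => χ2.1 n)
      = (Nat.card N : ℂ)⁻¹ * ∑ n : N, (χ1.1 * χ2.1) n := by
    unfold Cfsg.classInner
    congr 1
    refine Finset.sum_congr rfl (fun n _ => ?_)
    rw [Complex.conj_eq_iff_im.mpr (hr2 n)]
    rfl
  obtain ⟨F, hF⟩ : ∃ F : Cfsg.IrrCharacter G → ℕ, ∀ β, F β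
      = if (∀ x ∈ N, β.1 x = β.1 1) then m β * Cfsg.charDegree β.1 else 0 := ⟨_, fun _ => rfl⟩
  have hS2 : (Nat.card N : ℂ)⁻¹ * ∑ n : N, (χ1.1 * χ2.1) n
      = ((∑ β : Cfsg.IrrCharacter G, F β : ℕ) : ℂ) := by
    have h1 : ∀ n : N, (χ1.1 * χ2.1) n = ∑ β : Cfsg.IrrCharacter G, (m β : ℂ) * β.1 n := by
      intro n
      have h2 := congrFun hm (n : G)
      rw [h2, Finset.sum_apply]
      rfl
    rw [Finset.sum_congr rfl (fun n _ => h1 n), Finset.sum_comm, Finset.mul_sum]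
    push_cast
    refine Finset.sum_congr rfl (fun β _ => ?_)
    rw [← Finset.mul_sum, mul_left_comm, hF]
    by_cases hβ : ∀ x ∈ N, β.1 x = β.1 1
    · rw [(avg_normal_irr N β).1 hβ, if_pos hβ]
      push_cast
      ring
    · rw [(avg_normal_irr N β).2 hβ, if_neg hβ]
      simp
  have hA := restrict_inner_clifford N φ χ1 χ2 e1 e2 he1 he2 he10
  rw [hS1, hS2] at hA
  have hnat : (∑ β : Cfsg.IrrCharacter G, F β)
      = Nat.card {ψ : Cfsg.IrrCharacter N // ∃ x : G, ψ.1 = conjFun N φ.1 x} * e1 * e2 := by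
    exact_mod_cast hA
  rw [← hnat]
  have e := Finset.add_sum_erase Finset.univ F (Finset.mem_univ (irrOne G))
  have hF1 : F (irrOne G) = m (irrOne G) := by
    have h1 : ∀ x ∈ N, (irrOne G).1 x = (irrOne G).1 1 := fun x _ => rfl
    rw [hF, if_pos h1, charDegree_irrOne, mul_one]
  obtain ⟨cj, hcj⟩ : ∃ cj : Cfsg.IrrCharacter G → Cfsg.IrrCharacter G,
      ∀ β g, (cj β).1 g = (starRingEnd ℂ) (β.1 g) :=
    ⟨fun β => ⟨fun g => (starRingEnd ℂ) (β.1 g), isIrrCharacter_conj β.2⟩, fun _ _ => rfl⟩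
  have hcjcj : ∀ β, cj (cj β) = β := by
    intro β
    apply Subtype.ext
    funext g
    rw [hcj, hcj, Complex.conj_conj]
  have hcj1 : cj (irrOne G) = irrOne G := by
    apply Subtype.ext
    funext g
    rw [hcj]
    show (starRingEnd ℂ) 1 = 1
    simp
  have hFcj : ∀ β, F (cj β) = F β := by
    intro β
    rw [hF, hF]
    have hk : (∀ x ∈ N, (cj β).1 x = (cj β).1 1) ↔ (∀ x ∈ N, β.1 x = β.1 1) := by
      constructor
      · intro h x hx
        have h2 := h x hx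
        rw [hcj, hcj] at h2
        exact (starRingEnd ℂ).injective h2
      · intro h x hx
        rw [hcj, hcj, h x hx]
    have hmm : m (cj β) = m β := by
      have h1 := hmβ (cj β)
      have h2 := hmβ β
      have h3 : Cfsg.classInner (χ1.1 * χ2.1) (cj β).1
          = (starRingEnd ℂ) (Cfsg.classInner (χ1.1 * χ2.1) β.1) := by
        unfold Cfsg.classInner
        rw [map_mul, map_inv₀, Complex.conj_natCast, map_sum]
        congr 1
        refine Finset.sum_congr rfl (fun g _ => ?_)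
        rw [map_mul, Complex.conj_conj, hcj, Complex.conj_conj]
        congr 1
        show (χ1.1 g * χ2.1 g) = (starRingEnd ℂ) (χ1.1 g * χ2.1 g)
        rw [map_mul, Complex.conj_eq_iff_im.mpr (hr1 g), Complex.conj_eq_iff_im.mpr (hr2 g)]
      rw [h1, h2, Complex.conj_natCast] at h3
      exact_mod_cast h3
    have hdd : Cfsg.charDegree (cj β).1 = Cfsg.charDegree β.1 := by
      unfold Cfsg.charDegree
      rw [hcj, Complex.conj_re]
    simp only [hk, hmm, hdd]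
  have hrest : (∑ β ∈ Finset.univ.erase (irrOne G), (F β : ZMod 2)) = 0 := by
    apply Finset.sum_involution (fun β _ => cj β)
    · intro β _
      rw [hFcj]
      exact CharTwo.add_self_eq_zero _
    · intro β hβ hFβ hfix
      have hreal : ∀ g, (β.1 g).im = 0 := by
        intro g
        rw [← Complex.conj_eq_iff_im, ← hcj, hfix]
      have hker : ∀ x ∈ N, β.1 x = β.1 1 := by
        by_contra hcon
        apply hFβ
        rw [hF, if_neg hcon]
        simp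
      exact not_real_of_odd_quot N hodd β hker (Finset.ne_of_mem_erase hβ) hreal
    · intro β hβ
      rw [Finset.mem_erase] at hβ ⊢
      refine ⟨fun h => hβ.1 ?_, Finset.mem_univ _⟩
      rw [← hcjcj β, h, hcj1]
    · intro β _
      exact hcjcj β
  have hm1 : (m (irrOne G) : ℂ) = if χ1 = χ2 then 1 else 0 := by
    rw [← hmβ (irrOne G), ← irr_inner χ1 χ2]
    unfold Cfsg.classInner
    congr 1
    refine Finset.sum_congr rfl (fun g _ => ?_)
    show χ1.1 g * χ2.1 g * (starRingEnd ℂ) (1 : ℂ) = χ1.1 g * (starRingEnd ℂ) (χ2.1 g)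
    rw [map_one, mul_one, Complex.conj_eq_iff_im.mpr (hr2 g)]
  have goal1 : ((∑ β : Cfsg.IrrCharacter G, F β : ℕ) : ZMod 2) = (m (irrOne G) : ZMod 2) := by
    rw [← e, hF1]
    push_cast
    rw [hrest, add_zero]
  rw [goal1]
  by_cases h12 : χ1 = χ2
  · rw [if_pos h12] at hm1 ⊢
    have h1 : m (irrOne G) = 1 := by exact_mod_cast hm1
    rw [h1, Nat.cast_one]
  · rw [if_neg h12] at hm1 ⊢
    have h1 : m (irrOne G) = 0 := by exact_mod_cast hm1
    rw [h1, Nat.cast_zero]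

theorem fs_odd_unique {G : Type*} [Group G] [Finite G] (N : Subgroup G) [N.Normal]
    (hodd : Odd N.index) (φ : Cfsg.IrrCharacter ↥N)
    (hφ : (Nat.card ↥N : ℂ)⁻¹ * ∑ᶠ g : ↥N, (φ : ↥N → ℂ) (g * g) = 1) :
    ∃! χ : Cfsg.IrrCharacter G, (Nat.card G : ℂ)⁻¹ * ∑ᶠ g : G, (χ : G → ℂ) (g * g) = 1 ∧
      (∑ᶠ n : ↥N, (χ : G → ℂ) n * (starRingEnd ℂ) ((φ : ↥N → ℂ) n)) ≠ 0 := by
  classical
  haveI : Fintype G := Fintype.ofFinite G
  haveI : Fintype N := Fintype.ofFinite N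
  haveI : Fintype (Cfsg.IrrCharacter G) := Fintype.ofFinite _
  rw [finsum_eq_sum_of_fintype] at hφ
  simp only [finsum_eq_sum_of_fintype]
  have hNc : (Nat.card N : ℂ) ≠ 0 := card_ne_zero_C
  have hmult : ∀ χ : Cfsg.IrrCharacter G, ∃ e : ℕ,
      Cfsg.classInner (fun n : N => χ.1 n) φ.1 = e := fun χ =>
    classInner_char_nat (isCharacter_restrict N (isCharacter_of_irr χ.2)) (isCharacter_of_irr φ.2)
  choose e he using hmult
  have hne : ∀ χ : Cfsg.IrrCharacter G,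
      (∑ n : N, χ.1 n * (starRingEnd ℂ) (φ.1 n)) ≠ 0 ↔ e χ ≠ 0 := by
    intro χ
    have h1 := he χ
    unfold Cfsg.classInner at h1
    constructor
    · intro h h0
      rw [h0, Nat.cast_zero] at h1
      exact h ((mul_eq_zero.mp h1).resolve_left (inv_ne_zero hNc))
    · intro h h0
      rw [h0, mul_zero] at h1
      exact h (by exact_mod_cast h1.symm)
  obtain ⟨ν, hν⟩ : ∃ ν : Cfsg.IrrCharacter G → ℂ, ∀ χ,
      ν χ = (Nat.card G : ℂ)⁻¹ * ∑ g : G, χ.1 (g * g) := ⟨_, fun _ => rfl⟩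
  have hE := fs_restrict_sum N hodd φ
  rw [hφ, map_one] at hE
  simp only [← hν, he] at hE
  have huniq : ∀ χ1 χ2 : Cfsg.IrrCharacter G, (∀ g, (χ1.1 g).im = 0) →
      (∀ g, (χ2.1 g).im = 0) → e χ1 ≠ 0 → e χ2 ≠ 0 → χ1 = χ2 := by
    intro χ1 χ2 hr1 hr2 h1 h2
    by_contra hne12
    have p11 := real_over_parity N hodd φ χ1 χ1 hr1 hr1 (e χ1) (e χ1) (he χ1) (he χ1) h1
    have p22 := real_over_parity N hodd φ χ2 χ2 hr2 hr2 (e χ2) (e χ2) (he χ2) (he χ2) h2
    have p12 := real_over_parity N hodd φ χ1 χ2 hr1 hr2 (e χ1) (e χ2) (he χ1) (he χ2) h1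
    rw [if_pos rfl] at p11 p22
    rw [if_neg hne12] at p12
    rw [Nat.cast_mul, Nat.cast_mul] at p11 p22 p12
    generalize ((Nat.card {ψ : Cfsg.IrrCharacter N // ∃ x : G, ψ.1 = conjFun N φ.1 x} : ℕ)
      : ZMod 2) = t at p11 p22 p12
    generalize ((e χ1 : ℕ) : ZMod 2) = b at p11 p12
    generalize ((e χ2 : ℕ) : ZMod 2) = c at p22 p12
    have h3 : ((1 : ZMod 2)) = 0 := by
      calc (1 : ZMod 2) = (t * b * b) * (t * c * c) := by rw [p11, p22, mul_one]
        _ = (t * b * c) * (t * b * c) := by ring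
        _ = 0 := by rw [p12, mul_zero]
    exact one_ne_zero h3
  have hex : ∃ χ : Cfsg.IrrCharacter G, (starRingEnd ℂ) (ν χ) * (e χ : ℂ) ≠ 0 := by
    by_contra hcon
    push Not at hcon
    rw [Finset.sum_congr rfl (fun χ _ => hcon χ), Finset.sum_const_zero] at hE
    exact zero_ne_one hE
  obtain ⟨χ0, hχ0⟩ := hex
  have hν0 : ν χ0 ≠ 0 := by
    intro h
    apply hχ0
    rw [h, map_zero, zero_mul]
  have he0 : e χ0 ≠ 0 := by
    intro h
    apply hχ0
    rw [h, Nat.cast_zero, mul_zero]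
  have hfs := fun χ : Cfsg.IrrCharacter G => Cfsg.Agent.Lib.Helper7.FS.fs_cases χ
  have hreal0 : ∀ g, (χ0.1 g).im = 0 := by
    by_contra hcon
    exact hν0 (by rw [hν]; exact (hfs χ0).2 hcon)
  have hterm : ∀ χ : Cfsg.IrrCharacter G, χ ≠ χ0 → (starRingEnd ℂ) (ν χ) * (e χ : ℂ) = 0 := by
    intro χ hχ
    by_cases hr : ∀ g, (χ.1 g).im = 0
    · by_cases hz : e χ = 0
      · rw [hz, Nat.cast_zero, mul_zero]
      · exact absurd (huniq χ χ0 hr hreal0 hz he0) hχ
    · rw [hν, (hfs χ).2 hr, map_zero, zero_mul]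
  rw [Finset.sum_eq_single χ0 (fun χ _ hχ => hterm χ hχ)
    (fun h => absurd (Finset.mem_univ _) h)] at hE
  have hν1 : ν χ0 = 1 := by
    rcases (hfs χ0).1 hreal0 with h | h
    · rw [hν]
      exact h
    · exfalso
      rw [← hν] at h
      rw [h] at hE
      have h2 : ((e χ0 : ℂ)) = -1 := by
        have h3 : (starRingEnd ℂ) (-1 : ℂ) = -1 := by simp
        rw [h3] at hE
        linear_combination -hE
      have h4 : ((e χ0 : ℝ)) = -1 := by exact_mod_cast h2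
      have h5 : (0 : ℝ) ≤ e χ0 := Nat.cast_nonneg _
      linarith
  refine ⟨χ0, ⟨by rw [← hν]; exact hν1, (hne χ0).mpr he0⟩, ?_⟩
  rintro χ ⟨hχν, hχe⟩
  have hr : ∀ g, (χ.1 g).im = 0 := by
    by_contra hcon
    have h1 := (hfs χ).2 hcon
    rw [h1] at hχν
    exact zero_ne_one hχν
  exact huniq χ χ0 hr hreal0 ((hne χ).mp hχe) he0

end Cfsg.Agent.Lib.Helper8
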