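import Mathlib
import Cfsg.Prelude.Def_Characters
import Cfsg.Agent.Lib.Lead.Char17
import Cfsg.Agent.Lib.Helper7.Clifford
import Cfsg.Agent.Lib.Helper7.LinTwist
import Cfsg.Agent.Lib.Helper7.ClassProd
import Cfsg.Agent.Lib.Helper8.FSOdd
import Cfsg.Agent.Lib.Helper8.ChrC

set_option autoImplicit false

namespace Cfsg.Agent.Lib.Helper8

open Cfsg.Agent.Lib.Lead Cfsg.Agent.Lib.Helper7 Cfsg.Agent.Lib.Helper7.Cliff
open scoped commutatorElement

theorem deg_one_iff8 {G : Type*} [Group G] [Finite G] (χ : Cfsg.IrrCharacter G) :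
    Cfsg.charDegree χ.1 = 1 ↔ χ.1 1 = 1 := by
  obtain ⟨hpos, h1, -⟩ := DZ.charDegree_spec χ
  rw [h1]
  constructor
  · intro h; rw [h]; simp
  · intro h; exact_mod_cast h

/-- a non-abelian minimal normal subgroup lies in the commutator subgroup -/
theorem minimal_nonabelian_le_commutator8 {G : Type*} [Group G] (N : Subgroup G) (hN : N.Normal)
    (hmin : ∀ M : Subgroup G, M.Normal → M ≤ N → M = ⊥ ∨ M = N)
    (hna : ¬ IsMulCommutative ↥N) : N ≤ commutator G := by
  haveI := hN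
  have h1 : (⁅N, N⁆ : Subgroup G).Normal := inferInstance
  have h2 : ⁅N, N⁆ ≤ N := Subgroup.commutator_le_right N N
  rcases hmin _ h1 h2 with h | h
  · exfalso
    apply hna
    refine ⟨⟨fun a b => ?_⟩⟩
    have h3 : ⁅(a : G), (b : G)⁆ ∈ (⁅N, N⁆ : Subgroup G) :=
      Subgroup.commutator_mem_commutator a.2 b.2
    rw [h, Subgroup.mem_bot, commutatorElement_eq_one_iff_mul_comm] at h3
    exact Subtype.ext h3
  · rw [← h, commutator_def]
    exact Subgroup.commutator_mono le_top le_top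

/-- the number of conjugates of `φ` is the index of its stabilizer -/
theorem card_conj_eq_index8 {G : Type*} [Group G] [Finite G] (N : Subgroup G) [hN : N.Normal]
    (φ : Cfsg.IrrCharacter ↥N) (I : Subgroup G)
    (hI : ∀ g : G, g ∈ I ↔ ∀ n n' : ↥N, (n' : G) = g * (n : G) * g⁻¹ → φ.1 n' = φ.1 n) :
    Nat.card {ψ : Cfsg.IrrCharacter N // ∃ x : G, ψ.1 = conjFun N φ.1 x} = I.index := by
  classical
  letI := irrAction N
  have hset : {ψ : Cfsg.IrrCharacter N | ∃ x : G, ψ.1 = conjFun N φ.1 x}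
      = MulAction.orbit G φ := by
    ext ψ
    constructor
    · rintro ⟨x, hx⟩
      refine ⟨x⁻¹, ?_⟩
      apply Subtype.ext
      show conjFun N φ.1 (x⁻¹)⁻¹ = ψ.1
      rw [inv_inv, hx]
    · rintro ⟨g, hg⟩
      refine ⟨g⁻¹, ?_⟩
      rw [← hg]
      rfl
  have h1 : Nat.card {ψ : Cfsg.IrrCharacter N // ∃ x : G, ψ.1 = conjFun N φ.1 x}
      = Nat.card (MulAction.orbit G φ) := by
    have : {ψ : Cfsg.IrrCharacter N // ∃ x : G, ψ.1 = conjFun N φ.1 x}
        = ↥(MulAction.orbit G φ) := by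
      rw [← hset]; rfl
    rw [this]
  have h2 : Nat.card (MulAction.orbit G φ) = (MulAction.stabilizer G φ).index := by
    rw [Subgroup.index, Nat.card_congr (MulAction.orbitEquivQuotientStabilizer G φ)]
  have h3 : MulAction.stabilizer G φ = I := by
    ext g
    rw [MulAction.mem_stabilizer_iff]
    constructor
    · intro h
      have h4 : conjFun N φ.1 g⁻¹ = φ.1 := congrArg Subtype.val h
      rw [hI]
      intro n n' hn'
      have h5 := congrFun h4 n'
      rw [conjFun_apply] at h5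
      rw [← h5]
      refine congrArg φ.1 (Subtype.ext ?_)
      show g⁻¹ * (n' : G) * g⁻¹⁻¹ = (n : G)
      rw [hn']
      group
    · intro h
      rw [hI] at h
      apply Subtype.ext
      show conjFun N φ.1 g⁻¹ = φ.1
      funext n'
      rw [conjFun_apply]
      refine (h ⟨g⁻¹ * n' * g⁻¹⁻¹, hN.conj_mem n' n'.2 g⁻¹⟩ n' ?_).symm
      show (n' : G) = g * (g⁻¹ * n' * g⁻¹⁻¹) * g⁻¹
      group
  rw [h1, h2, h3]

/-- Clifford degree formula with the multiplicity written as an inner product -/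
theorem clifford_deg_inner8 {G : Type*} [Group G] [Fintype G] (N : Subgroup G) [hN : N.Normal]
    [Fintype N] (χ : Cfsg.IrrCharacter G) (θ : Cfsg.IrrCharacter N)
    (hθ : Cfsg.classInner (fun h : N => χ.1 h) θ.1 ≠ 0) :
    χ.1 1 = Cfsg.classInner (fun h : N => χ.1 h) θ.1 *
      (Nat.card {ψ : Cfsg.IrrCharacter N // ∃ x : G, ψ.1 = conjFun N θ.1 x} : ℂ) * θ.1 1 := by
  classical
  haveI : Fintype (Cfsg.IrrCharacter N) := Fintype.ofFinite _
  obtain ⟨r, hr⟩ : ∃ r : N → ℂ, r = fun h : N => χ.1 h := ⟨_, rfl⟩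
  rw [← hr] at hθ ⊢
  have hrc : Cfsg.IsClassFunction N r := by
    rw [hr]
    exact isClassFunction_restrict N χ.1 (isClassFunction_of_irr χ)
  have hexp := class_fn_expand' r hrc
  have h1 : χ.1 1 = ∑ ψ : Cfsg.IrrCharacter N, Cfsg.classInner r ψ.1 * ψ.1 1 := by
    have h2 : r 1 = (∑ ψ : Cfsg.IrrCharacter N, Cfsg.classInner r ψ.1 • (ψ : N → ℂ)) 1 := by
      rw [← hexp]
    rw [Finset.sum_apply] at h2
    rw [hr] at h2
    rw [hr]
    exact h2
  have h3 : ∀ ψ : Cfsg.IrrCharacter N, Cfsg.classInner r ψ.1 * ψ.1 1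
      = if (∃ x : G, ψ.1 = conjFun N θ.1 x) then Cfsg.classInner r θ.1 * θ.1 1 else 0 := by
    intro ψ
    split_ifs with hx
    · obtain ⟨x, hx⟩ := hx
      have e3 : (⟨x * ((1 : N) : G) * x⁻¹, hN.conj_mem _ (1 : N).2 x⟩ : N) = 1 := by
        apply Subtype.ext
        show x * ((1 : N) : G) * x⁻¹ = ((1 : N) : G)
        simp
      rw [hx, hr, inner_restrict_conjFun N χ.1 (isClassFunction_of_irr χ) θ.1 x, conjFun_apply, e3]
    · have h4 : Cfsg.classInner r ψ.1 = 0 := by
        by_contra h5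
        rw [hr] at h5 hθ
        exact hx (exists_conj_of_constituents N χ θ ψ hθ h5)
      rw [h4, zero_mul]
  rw [h1, Finset.sum_congr rfl (fun ψ _ => h3 ψ), Finset.sum_ite, Finset.sum_const_zero, add_zero,
    Finset.sum_const, nsmul_eq_mul, Nat.card_eq_fintype_card, Fintype.card_subtype]
  ring

/-- restriction in two steps -/
theorem inner_restrict_two_step8 {G : Type*} [Group G] [Fintype G] (N I : Subgroup G)
    [Fintype N] [Fintype I] (hNI : N ≤ I) [Fintype (Cfsg.IrrCharacter I)] (χ : G → ℂ)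
    (hχ : Cfsg.IsClassFunction G χ) (φ : N → ℂ) :
    Cfsg.classInner (fun n : N => χ n) φ
      = ∑ η : Cfsg.IrrCharacter I, Cfsg.classInner (fun i : I => χ i) η.1
          * Cfsg.classInner (fun n : N => η.1 (Subgroup.inclusion hNI n)) φ := by
  have hexp := class_fn_expand' (fun i : I => χ i) (isClassFunction_restrict I χ hχ)
  have h1 : (fun n : N => χ n) = fun n : N => ∑ η : Cfsg.IrrCharacter I,
      Cfsg.classInner (fun i : I => χ i) η.1 * η.1 (Subgroup.inclusion hNI n) := by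
    funext n
    have h2 := congrFun hexp (Subgroup.inclusion hNI n)
    rw [Finset.sum_apply] at h2
    exact h2
  rw [h1, inner_sum_comb]

end Cfsg.Agent.Lib.Helper8
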