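import Mathlib
import Cfsg.Prelude.Def_Characters
import Cfsg.Agent.Lib.Helper8.Cliff8

set_option autoImplicit false

namespace Cfsg.Agent.Lib.Helper8

open Cfsg.Agent.Lib.Lead Cfsg.Agent.Lib.Helper7 Cfsg.Agent.Lib.Helper7.Cliff

/-- the Clifford correspondent of an extension `ψ` of `φ` to its stabilizer: an irreducible
character of `G` of degree `φ(1) [G : I]` whose restriction to `I` contains `ψ` and no other
character extending `φ` -/
theorem clifford_ext_main8 {G : Type*} [Group G] [Fintype G] (N : Subgroup G) [hN : N.Normal]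
    [Fintype N] (φ : Cfsg.IrrCharacter ↥N) (I : Subgroup G) [Fintype I]
    (hI : ∀ g : G, g ∈ I ↔ ∀ n n' : ↥N, (n' : G) = g * (n : G) * g⁻¹ → φ.1 n' = φ.1 n)
    (hNI : N ≤ I) (ψ : Cfsg.IrrCharacter ↥I)
    (hψ : ∀ n : ↥N, ψ.1 (Subgroup.inclusion hNI n) = φ.1 n) :
    ∃ χ₀ : Cfsg.IrrCharacter G,
      Cfsg.charDegree χ₀.1 = Cfsg.charDegree φ.1 * I.index ∧
      Cfsg.classInner (fun i : I => χ₀.1 i) ψ.1 ≠ 0 ∧
      ∀ η : Cfsg.IrrCharacter ↥I, Cfsg.classInner (fun i : I => χ₀.1 i) η.1 ≠ 0 →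
        (∀ n : ↥N, η.1 (Subgroup.inclusion hNI n) = φ.1 n) → η = ψ := by
  classical
  haveI : Fintype (Cfsg.IrrCharacter I) := Fintype.ofFinite _
  obtain ⟨χ₀, hχ₀⟩ := exists_over I ψ
  choose M hM using fun η : Cfsg.IrrCharacter I =>
    classInner_char_nat (isCharacter_restrict I (isCharacter_of_irr χ₀.2))
      (isCharacter_of_irr η.2)
  choose K hK using fun η : Cfsg.IrrCharacter I =>
    classInner_char_nat (isCharacter_comp (Subgroup.inclusion hNI) (isCharacter_of_irr η.2))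
      (isCharacter_of_irr φ.2)
  have hsum : Cfsg.classInner (fun n : N => χ₀.1 n) φ.1 = ((∑ η, M η * K η : ℕ) : ℂ) := by
    rw [inner_restrict_two_step8 N I hNI χ₀.1 (isClassFunction_of_irr χ₀) φ.1]
    push_cast
    exact Finset.sum_congr rfl (fun η _ => by rw [hM, hK])
  have hMne : ∀ η : Cfsg.IrrCharacter I,
      Cfsg.classInner (fun i : I => χ₀.1 i) η.1 ≠ 0 → M η ≠ 0 := by
    intro η hη h
    apply hη
    rw [hM, h]
    simp
  have hKone : ∀ η : Cfsg.IrrCharacter I,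
      (∀ n : ↥N, η.1 (Subgroup.inclusion hNI n) = φ.1 n) → K η = 1 := by
    intro η hηN
    have h1 : (fun x : N => η.1 (Subgroup.inclusion hNI x)) = φ.1 := funext hηN
    have h2 := hK η
    rw [h1, irr_inner_self] at h2
    exact_mod_cast h2.symm
  have hMψ := hMne ψ hχ₀
  have hKψ := hKone ψ hψ
  obtain ⟨E, hE⟩ : ∃ E : ℕ, E = ∑ η, M η * K η := ⟨_, rfl⟩
  have hE1 : 1 ≤ E := by
    rw [hE]
    calc 1 ≤ M ψ * K ψ := by rw [hKψ]; omega
      _ ≤ ∑ η, M η * K η :=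
        Finset.single_le_sum (f := fun η => M η * K η) (fun η _ => Nat.zero_le _)
          (Finset.mem_univ ψ)
  have hinner : Cfsg.classInner (fun n : N => χ₀.1 n) φ.1 = (E : ℂ) := by rw [hsum, hE]
  have hne : Cfsg.classInner (fun n : N => χ₀.1 n) φ.1 ≠ 0 := by
    rw [hinner]
    exact_mod_cast (by omega : E ≠ 0)
  have hdeg := clifford_deg_inner8 N χ₀ φ hne
  rw [hinner, card_conj_eq_index8 N φ I hI] at hdeg
  obtain ⟨r, hr⟩ := deg_le_index_mul I χ₀ ψ hχ₀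
  have hψ1 : ψ.1 1 = φ.1 1 := by
    have := hψ 1
    rwa [map_one] at this
  obtain ⟨hpos, hφ1, -⟩ := DZ.charDegree_spec φ
  rw [hψ1, hdeg, hφ1] at hr
  have hnat : I.index * Cfsg.charDegree φ.1 = E * I.index * Cfsg.charDegree φ.1 + r := by
    exact_mod_cast hr
  have hidx : 0 < I.index := Nat.pos_of_ne_zero Subgroup.index_ne_zero_of_finite
  have hpos2 : 0 < I.index * Cfsg.charDegree φ.1 := Nat.mul_pos hidx hpos
  have hE' : E = 1 := by
    by_contra hne1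
    have h2 : 2 ≤ E := by omega
    have h3 : 2 * (I.index * Cfsg.charDegree φ.1) ≤ E * (I.index * Cfsg.charDegree φ.1) :=
      Nat.mul_le_mul_right _ h2
    have h4 : E * I.index * Cfsg.charDegree φ.1 = E * (I.index * Cfsg.charDegree φ.1) :=
      Nat.mul_assoc _ _ _
    omega
  refine ⟨χ₀, ?_, hχ₀, ?_⟩
  · obtain ⟨-, hχ1, -⟩ := DZ.charDegree_spec χ₀
    rw [hdeg, hE', hφ1] at hχ1
    have h5 : 1 * I.index * Cfsg.charDegree φ.1 = Cfsg.charDegree χ₀.1 := by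
      exact_mod_cast hχ1
    rw [← h5, one_mul, mul_comm]
  · intro η hη hηN
    by_contra hneq
    have hMη := hMne η hη
    have hKη := hKone η hηN
    have h2 : 2 ≤ E := by
      rw [hE]
      calc 2 ≤ M ψ * K ψ + M η * K η := by rw [hKψ, hKη]; omega
        _ = ∑ x ∈ ({ψ, η} : Finset (Cfsg.IrrCharacter I)), M x * K x := by
          rw [Finset.sum_pair (Ne.symm hneq)]
        _ ≤ ∑ x, M x * K x := Finset.sum_le_sum_of_subset (Finset.subset_univ _)
    omega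

/-- two linear characters whose twists of `χ₀` agree coincide on the stabilizer -/
theorem twist_fiber8 {G : Type*} [Group G] [Fintype G] (N : Subgroup G) [hN : N.Normal]
    [Fintype N] (φ : Cfsg.IrrCharacter ↥N) (I : Subgroup G) [Fintype I] (hNI : N ≤ I)
    (ψ : Cfsg.IrrCharacter ↥I)
    (hψ : ∀ n : ↥N, ψ.1 (Subgroup.inclusion hNI n) = φ.1 n)
    (χ₀ : Cfsg.IrrCharacter G)
    (hχ₀ : Cfsg.classInner (fun i : I => χ₀.1 i) ψ.1 ≠ 0)
    (huniq : ∀ η : Cfsg.IrrCharacter ↥I, Cfsg.classInner (fun i : I => χ₀.1 i) η.1 ≠ 0 →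
        (∀ n : ↥N, η.1 (Subgroup.inclusion hNI n) = φ.1 n) → η = ψ)
    (l l₁ : Cfsg.IrrCharacter G) (hl : l.1 1 = 1) (hl₁ : l₁.1 1 = 1)
    (hlN : ∀ n ∈ N, l.1 n = 1) (hl₁N : ∀ n ∈ N, l₁.1 n = 1)
    (heq : ∀ g, l.1 g * χ₀.1 g = l₁.1 g * χ₀.1 g) :
    ∀ i ∈ I, l.1 i = l₁.1 i := by
  classical
  obtain ⟨μ, hμ⟩ : ∃ μ : G → ℂ, ∀ g, μ g = l.1 g * (starRingEnd ℂ) (l₁.1 g) := ⟨_, fun _ => rfl⟩
  have hμχ : ∀ g, μ g * χ₀.1 g = χ₀.1 g := by
    intro g
    rw [hμ]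
    calc l.1 g * (starRingEnd ℂ) (l₁.1 g) * χ₀.1 g
        = (starRingEnd ℂ) (l₁.1 g) * (l.1 g * χ₀.1 g) := by ring
      _ = (starRingEnd ℂ) (l₁.1 g) * (l₁.1 g * χ₀.1 g) := by rw [heq]
      _ = (l₁.1 g * (starRingEnd ℂ) (l₁.1 g)) * χ₀.1 g := by ring
      _ = χ₀.1 g := by rw [LT.linear_mul_conj l₁ hl₁, one_mul]
  have hμnorm : ∀ g, μ g * (starRingEnd ℂ) (μ g) = 1 := by
    intro g
    rw [hμ, map_mul, Complex.conj_conj]
    calc l.1 g * (starRingEnd ℂ) (l₁.1 g) * ((starRingEnd ℂ) (l.1 g) * l₁.1 g)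
        = (l.1 g * (starRingEnd ℂ) (l.1 g)) * (l₁.1 g * (starRingEnd ℂ) (l₁.1 g)) := by ring
      _ = 1 := by rw [LT.linear_mul_conj l hl, LT.linear_mul_conj l₁ hl₁, one_mul]
  have hμmul : ∀ g h, μ (g * h) = μ g * μ h := by
    intro g h
    rw [hμ, hμ, hμ, irr_linear_mul l hl, irr_linear_mul l₁ hl₁, map_mul]
    ring
  have hμN : ∀ n ∈ N, μ n = 1 := by
    intro n hn
    rw [hμ, hlN n hn, hl₁N n hn]
    simp
  have hηchar : Cfsg.IsCharacter I (fun i : I => (starRingEnd ℂ) (μ i) * ψ.1 i) := by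
    have h1 : Cfsg.IsCharacter G ((fun g => (starRingEnd ℂ) (l.1 g)) * l₁.1) :=
      isCharacter_mul (isCharacter_conj (isCharacter_of_irr l.2)) (isCharacter_of_irr l₁.2)
    have h2 := isCharacter_mul (isCharacter_restrict I h1) (isCharacter_of_irr ψ.2)
    have h3 : (fun i : I => (starRingEnd ℂ) (μ i) * ψ.1 i)
        = (fun x : I => ((fun g => (starRingEnd ℂ) (l.1 g)) * l₁.1) x) * ψ.1 := by
      funext i
      simp only [Pi.mul_apply]
      rw [hμ, map_mul, Complex.conj_conj]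
    rw [h3]
    exact h2
  have hηirr : Cfsg.IsIrrCharacter I (fun i : I => (starRingEnd ℂ) (μ i) * ψ.1 i) := by
    apply isIrrCharacter_of_norm_one hηchar
    have hself := irr_inner_self ψ
    unfold Cfsg.classInner at hself ⊢
    rw [← hself]
    congr 1
    apply Finset.sum_congr rfl
    intro i _
    rw [map_mul, Complex.conj_conj]
    calc (starRingEnd ℂ) (μ i) * ψ.1 i * (μ i * (starRingEnd ℂ) (ψ.1 i))
        = (μ i * (starRingEnd ℂ) (μ i)) * (ψ.1 i * (starRingEnd ℂ) (ψ.1 i)) := by ring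
      _ = _ := by rw [hμnorm, one_mul]
  have hηinner : Cfsg.classInner (fun i : I => χ₀.1 i)
      (fun i : I => (starRingEnd ℂ) (μ i) * ψ.1 i) ≠ 0 := by
    have h1 : Cfsg.classInner (fun i : I => χ₀.1 i)
        (fun i : I => (starRingEnd ℂ) (μ i) * ψ.1 i)
        = Cfsg.classInner (fun i : I => χ₀.1 i) ψ.1 := by
      unfold Cfsg.classInner
      congr 1
      apply Finset.sum_congr rfl
      intro i _
      rw [map_mul, Complex.conj_conj, ← mul_assoc, mul_comm (χ₀.1 i) (μ i), hμχ]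
    rw [h1]
    exact hχ₀
  have hηN : ∀ n : N, (starRingEnd ℂ) (μ (Subgroup.inclusion hNI n))
      * ψ.1 (Subgroup.inclusion hNI n) = φ.1 n := by
    intro n
    rw [hψ]
    have h1 : μ ((Subgroup.inclusion hNI n : I) : G) = 1 := hμN _ n.2
    rw [h1]
    simp
  have hηψ := huniq ⟨_, hηirr⟩ hηinner hηN
  have hfix : ∀ i : I, (starRingEnd ℂ) (μ i) * ψ.1 i = ψ.1 i :=
    fun i => congrFun (congrArg Subtype.val hηψ) i
  have hirrN : Cfsg.IsIrrCharacter (N.subgroupOf I) (fun n : N.subgroupOf I => ψ.1 n) := by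
    have h1 := isIrrCharacter_comp_surj (Subgroup.subgroupOfEquivOfLe hNI).toMonoidHom
      (Subgroup.subgroupOfEquivOfLe hNI).surjective φ.2
    have h2 : (fun x : N.subgroupOf I => φ.1 ((Subgroup.subgroupOfEquivOfLe hNI).toMonoidHom x))
        = (fun n : N.subgroupOf I => ψ.1 n) := by
      funext x
      rw [← hψ]
      rfl
    rw [← h2]
    exact h1
  have hnv : ∀ x : I, ∃ n : N.subgroupOf I, ψ.1 ((n : I) * x) ≠ 0 := by
    intro x
    by_contra hcon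
    push Not at hcon
    exact (restrict_reducible_iff (N.subgroupOf I) ψ).mpr ⟨x, hcon⟩ hirrN
  intro i hi
  obtain ⟨n, hn⟩ := hnv ⟨i, hi⟩
  have h1 := hfix ((n : I) * ⟨i, hi⟩)
  have h2 : (starRingEnd ℂ) (μ (((n : I) * ⟨i, hi⟩ : I) : G)) = 1 :=
    mul_right_cancel₀ hn (h1.trans (one_mul _).symm)
  have h3 : μ (((n : I) * ⟨i, hi⟩ : I) : G) = μ i := by
    show μ (((n : I) : G) * i) = μ i
    rw [hμmul, hμN _ (Subgroup.mem_subgroupOf.mp n.2), one_mul]
  rw [h3] at h2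
  have h4 : μ i = 1 := by
    have := congrArg (starRingEnd ℂ) h2
    rwa [Complex.conj_conj, map_one] at this
  rw [hμ] at h4
  calc l.1 i = l.1 i * ((starRingEnd ℂ) (l₁.1 i) * l₁.1 i) := by
        rw [mul_comm ((starRingEnd ℂ) _), LT.linear_mul_conj l₁ hl₁, mul_one]
    _ = (l.1 i * (starRingEnd ℂ) (l₁.1 i)) * l₁.1 i := by ring
    _ = l₁.1 i := by rw [h4, one_mul]

end Cfsg.Agent.Lib.Helper8
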