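import Mathlib
import Cfsg.Prelude.Def_Characters
import Cfsg.Agent.Lib.Helper8.Cliff9

set_option autoImplicit false

namespace Cfsg.Agent.Lib.Helper8

open Cfsg.Agent.Lib.Lead Cfsg.Agent.Lib.Helper7 Cfsg.Agent.Lib.Helper7.Cliff

/-- at most `[G : I]` irreducible characters agree on `I` with a given linear character -/
theorem card_linear_agree_le_index8 {G : Type*} [Group G] [Fintype G] (I : Subgroup G)
    (F : Finset (Cfsg.IrrCharacter G)) (l₁ : Cfsg.IrrCharacter G) (hl₁ : l₁.1 1 = 1)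
    (hF : ∀ l ∈ F, ∀ i ∈ I, l.1 i = l₁.1 i) : F.card ≤ I.index := by
  classical
  obtain ⟨S, hS⟩ : ∃ S : G → ℂ, ∀ g, S g = ∑ l ∈ F, l.1 g := ⟨_, fun _ => rfl⟩
  have h1 : ∑ g : G, S g * (starRingEnd ℂ) (S g) = (Nat.card G : ℂ) * F.card := by
    have hexp : ∀ g, S g * (starRingEnd ℂ) (S g)
        = ∑ l ∈ F, ∑ l' ∈ F, l.1 g * (starRingEnd ℂ) (l'.1 g) := by
      intro g
      rw [hS, map_sum, Finset.sum_mul_sum]
    rw [Finset.sum_congr rfl (fun g _ => hexp g), Finset.sum_comm]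
    have h2 : ∀ l ∈ F, ∑ g : G, ∑ l' ∈ F, l.1 g * (starRingEnd ℂ) (l'.1 g)
        = (Nat.card G : ℂ) := by
      intro l hl
      rw [Finset.sum_comm]
      have h3 : ∀ l' ∈ F, ∑ g : G, l.1 g * (starRingEnd ℂ) (l'.1 g)
          = if l = l' then (Nat.card G : ℂ) else 0 := by
        intro l' _
        have h4 : ∑ g : G, l.1 g * (starRingEnd ℂ) (l'.1 g)
            = (Nat.card G : ℂ) * Cfsg.classInner l.1 l'.1 := by
          unfold Cfsg.classInner
          rw [← mul_assoc, mul_inv_cancel₀ card_ne_zero_C, one_mul]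
        rw [h4, irr_inner]
        split_ifs with h
        · rw [mul_one]
        · rw [mul_zero]
      rw [Finset.sum_congr rfl h3, Finset.sum_ite_eq F l, if_pos hl]
    rw [Finset.sum_congr rfl h2, Finset.sum_const, nsmul_eq_mul, mul_comm]
  have h2 : ∑ g : G, ‖S g‖ ^ 2 = (Nat.card G : ℝ) * F.card := by
    apply Complex.ofReal_injective
    rw [Complex.ofReal_sum, Complex.ofReal_mul, Complex.ofReal_natCast, Complex.ofReal_natCast,
      ← h1]
    apply Finset.sum_congr rfl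
    intro g _
    rw [Complex.mul_conj, Complex.normSq_eq_norm_sq]
  have h3 : ∀ g ∈ Finset.univ.filter (fun g : G => g ∈ I), ‖S g‖ ^ 2 = (F.card : ℝ) ^ 2 := by
    intro g hg
    rw [Finset.mem_filter] at hg
    have e1 : S g = (F.card : ℂ) * l₁.1 g := by
      rw [hS, Finset.sum_congr rfl (fun l hl => hF l hl g hg.2), Finset.sum_const, nsmul_eq_mul]
    rw [e1, norm_mul, mul_pow]
    have hn : ‖l₁.1 g‖ ^ 2 = 1 := by
      have e2 := LT.linear_mul_conj l₁ hl₁ g
      rw [Complex.mul_conj, Complex.normSq_eq_norm_sq] at e2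
      exact_mod_cast e2
    rw [hn, mul_one, Complex.norm_natCast]
  have h4 : ∑ g ∈ Finset.univ.filter (fun g : G => g ∈ I), ‖S g‖ ^ 2 ≤ ∑ g : G, ‖S g‖ ^ 2 :=
    Finset.sum_le_sum_of_subset_of_nonneg (Finset.filter_subset _ _)
      (fun g _ _ => by positivity)
  rw [Finset.sum_congr rfl h3, Finset.sum_const, nsmul_eq_mul, h2] at h4
  have h5 : (Finset.univ.filter (fun g : G => g ∈ I)).card = Nat.card I := by
    rw [Nat.card_eq_fintype_card, Fintype.card_subtype]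
  by_cases hF0 : F.card = 0
  · rw [hF0]
    exact Nat.zero_le _
  have hFpos : (0 : ℝ) < F.card := by exact_mod_cast Nat.pos_of_ne_zero hF0
  have h6 : (Nat.card I : ℝ) * F.card ≤ Nat.card G := by
    rw [h5] at h4
    have h7 : (Nat.card I : ℝ) * F.card * F.card ≤ Nat.card G * F.card := by nlinarith
    exact le_of_mul_le_mul_right h7 hFpos
  have h7 : Nat.card I * F.card ≤ Nat.card G := by exact_mod_cast h6
  rw [← Subgroup.card_mul_index I] at h7
  exact Nat.le_of_mul_le_mul_left h7 Nat.card_pos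

/-- S4870 -/
theorem linear_le_index_mul8 {G : Type*} [Group G] [Finite G] (N : Subgroup G) (hN : N.Normal)
    (hmin : ∀ M : Subgroup G, M.Normal → M ≤ N → M = ⊥ ∨ M = N)
    (hna : ¬ IsMulCommutative ↥N) (φ : Cfsg.IrrCharacter ↥N) (I : Subgroup G)
    (hI : ∀ g : G, g ∈ I ↔ ∀ n n' : ↥N, (n' : G) = g * (n : G) * g⁻¹ →
      (φ : ↥N → ℂ) n' = (φ : ↥N → ℂ) n) (hNI : N ≤ I)
    (hext : ∃ ψ : Cfsg.IrrCharacter ↥I, ∀ n : ↥N,
      (ψ : ↥I → ℂ) (Subgroup.inclusion hNI n) = (φ : ↥N → ℂ) n) :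
    Nat.card {χ : Cfsg.IrrCharacter G // Cfsg.charDegree (χ : G → ℂ) = 1}
      ≤ I.index * Nat.card {χ : Cfsg.IrrCharacter G //
        Cfsg.charDegree (χ : G → ℂ) = Cfsg.charDegree (φ : ↥N → ℂ) * I.index} := by
  classical
  haveI := hN
  haveI : Fintype G := Fintype.ofFinite G
  haveI : Fintype N := Fintype.ofFinite N
  haveI : Fintype I := Fintype.ofFinite I
  haveI : Fintype (Cfsg.IrrCharacter G) := Fintype.ofFinite _
  obtain ⟨ψ, hψ⟩ := hext
  obtain ⟨χ₀, hdeg, hχ₀, huniq⟩ := clifford_ext_main8 N φ I hI hNI ψ hψ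
  have hNc := minimal_nonabelian_le_commutator8 N hN hmin hna
  have hlin1 : ∀ l : {χ : Cfsg.IrrCharacter G // Cfsg.charDegree χ.1 = 1}, l.1.1 1 = 1 :=
    fun l => (deg_one_iff8 l.1).mp l.2
  have hlinN : ∀ l : {χ : Cfsg.IrrCharacter G // Cfsg.charDegree χ.1 = 1},
      ∀ n ∈ N, l.1.1 n = 1 :=
    fun l n hn => irr_linear_commutator l.1 (hlin1 l) (hNc hn)
  obtain ⟨Φ, hΦ⟩ : ∃ Φ : {χ : Cfsg.IrrCharacter G // Cfsg.charDegree χ.1 = 1} →
      {χ : Cfsg.IrrCharacter G // Cfsg.charDegree χ.1 = Cfsg.charDegree φ.1 * I.index},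
      ∀ l, (Φ l).1.1 = l.1.1 * χ₀.1 :=
    ⟨fun l => ⟨⟨l.1.1 * χ₀.1, LT.irr_linear_twist l.1 χ₀ (hlin1 l)⟩, by
      show Cfsg.charDegree (l.1.1 * χ₀.1) = _
      rw [LT.charDegree_twist l.1 χ₀ (hlin1 l), hdeg]⟩, fun l => rfl⟩
  rw [Nat.card_eq_fintype_card, Nat.card_eq_fintype_card]
  have hfib : ∀ a ∈ (Finset.univ : Finset _).image Φ,
      (Finset.univ.filter (fun x => Φ x = a)).card ≤ I.index := by
    intro a ha
    obtain ⟨l₁, -, rfl⟩ := Finset.mem_image.mp ha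
    have hcard : (Finset.univ.filter (fun x => Φ x = Φ l₁)).card
        = ((Finset.univ.filter (fun x => Φ x = Φ l₁)).map
            ⟨Subtype.val, Subtype.val_injective⟩).card := (Finset.card_map _).symm
    rw [hcard]
    apply card_linear_agree_le_index8 I _ l₁.1 (hlin1 l₁)
    intro l hl i hi
    rw [Finset.mem_map] at hl
    obtain ⟨l', hl', rfl⟩ := hl
    rw [Finset.mem_filter] at hl'
    have heq : ∀ g, l'.1.1 g * χ₀.1 g = l₁.1.1 g * χ₀.1 g := by
      intro g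
      have e1 : (Φ l').1.1 g = (Φ l₁).1.1 g := by rw [hl'.2]
      rw [hΦ, hΦ] at e1
      exact e1
    exact twist_fiber8 N φ I hNI ψ hψ χ₀ hχ₀ huniq l'.1 l₁.1 (hlin1 l') (hlin1 l₁) (hlinN l')
      (hlinN l₁) heq i hi
  calc Fintype.card {χ : Cfsg.IrrCharacter G // Cfsg.charDegree χ.1 = 1}
      = (Finset.univ : Finset {χ : Cfsg.IrrCharacter G // Cfsg.charDegree χ.1 = 1}).card :=
        Finset.card_univ.symm
    _ ≤ I.index * ((Finset.univ : Finset _).image Φ).card :=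
        Finset.card_le_mul_card_image _ _ hfib
    _ ≤ I.index * Fintype.card _ := Nat.mul_le_mul_left _ (Finset.card_le_univ _)

end Cfsg.Agent.Lib.Helper8
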