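import Mathlib
import Cfsg.Prelude.Def_Characters
import Cfsg.Agent.Lib.Helper7.FS
import Cfsg.Agent.Lib.Helper8.Cliff10

set_option autoImplicit false

namespace Cfsg.Agent.Lib.Helper8

open Matrix Cfsg.Agent.Lib.Lead Cfsg.Agent.Lib.Helper7 Cfsg.Agent.Lib.Helper7.Cliff

/-- two distinct irreducible constituents of a character -/
theorem two_constituents_deg8 {G : Type*} [Group G] [Fintype G] (Θ : G → ℂ)
    (hΘ : Cfsg.IsCharacter G Θ) (χ₀ χ₁ : Cfsg.IrrCharacter G) (hne : χ₀ ≠ χ₁)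
    (h0 : Cfsg.classInner Θ χ₀.1 ≠ 0) (h1 : Cfsg.classInner Θ χ₁.1 ≠ 0) :
    ∃ r : ℕ, Θ 1 = χ₀.1 1 + χ₁.1 1 + (r : ℂ) := by
  classical
  haveI : Fintype (Cfsg.IrrCharacter G) := Fintype.ofFinite _
  obtain ⟨m, hm⟩ := isCharacter_decomp hΘ
  have hmχ : ∀ χ : Cfsg.IrrCharacter G, Cfsg.classInner Θ χ.1 = (m χ : ℂ) := by
    intro χ
    rw [hm]
    exact classInner_nat_comb (fun χ => (m χ : ℂ)) χ
  have hm0 : m χ₀ ≠ 0 := by
    intro h
    rw [hmχ, h] at h0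
    exact h0 (by simp)
  have hm1 : m χ₁ ≠ 0 := by
    intro h
    rw [hmχ, h] at h1
    exact h1 (by simp)
  have hd : ∀ χ : Cfsg.IrrCharacter G, χ.1 1 = (Cfsg.charDegree χ.1 : ℂ) :=
    fun χ => (DZ.charDegree_spec χ).2.1
  have h2 : Θ 1 = ((∑ χ, m χ * Cfsg.charDegree χ.1 : ℕ) : ℂ) := by
    have h3 := congrFun hm 1
    rw [Finset.sum_apply] at h3
    rw [h3]
    push_cast
    apply Finset.sum_congr rfl
    intro χ _
    rw [Pi.smul_apply, smul_eq_mul, hd]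
  have h4 : m χ₀ * Cfsg.charDegree χ₀.1 + m χ₁ * Cfsg.charDegree χ₁.1
      ≤ ∑ χ, m χ * Cfsg.charDegree χ.1 := by
    calc m χ₀ * Cfsg.charDegree χ₀.1 + m χ₁ * Cfsg.charDegree χ₁.1
        = ∑ χ ∈ ({χ₀, χ₁} : Finset (Cfsg.IrrCharacter G)), m χ * Cfsg.charDegree χ.1 := by
          rw [Finset.sum_pair hne]
      _ ≤ ∑ χ, m χ * Cfsg.charDegree χ.1 :=
          Finset.sum_le_sum_of_subset (Finset.subset_univ _)
  have h5 : Cfsg.charDegree χ₀.1 ≤ m χ₀ * Cfsg.charDegree χ₀.1 :=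
    Nat.le_mul_of_pos_left _ (Nat.pos_of_ne_zero hm0)
  have h6 : Cfsg.charDegree χ₁.1 ≤ m χ₁ * Cfsg.charDegree χ₁.1 :=
    Nat.le_mul_of_pos_left _ (Nat.pos_of_ne_zero hm1)
  refine ⟨(∑ χ, m χ * Cfsg.charDegree χ.1) - Cfsg.charDegree χ₀.1 - Cfsg.charDegree χ₁.1, ?_⟩
  rw [h2, hd χ₀, hd χ₁]
  have h7 : (∑ χ, m χ * Cfsg.charDegree χ.1) = Cfsg.charDegree χ₀.1 + Cfsg.charDegree χ₁.1
      + ((∑ χ, m χ * Cfsg.charDegree χ.1) - Cfsg.charDegree χ₀.1 - Cfsg.charDegree χ₁.1) := by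
    omega
  exact_mod_cast h7

/-- the Clifford correspondent of a real-valued extension is real-valued -/
theorem real_of_unique_over8 {G : Type*} [Group G] [Fintype G] (I : Subgroup G) [Fintype I]
    (ψ : Cfsg.IrrCharacter ↥I) (hψreal : ∀ i : I, (ψ.1 i).im = 0)
    (χ₀ : Cfsg.IrrCharacter G) (hχ₀ : Cfsg.classInner (fun i : I => χ₀.1 i) ψ.1 ≠ 0)
    (hdeg : χ₀.1 1 = (I.index : ℂ) * ψ.1 1) : ∀ g : G, (χ₀.1 g).im = 0 := by
  classical
  obtain ⟨χ₁, hχ₁⟩ : ∃ χ₁ : Cfsg.IrrCharacter G, ∀ g, χ₁.1 g = (starRingEnd ℂ) (χ₀.1 g) :=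
    ⟨⟨fun g => (starRingEnd ℂ) (χ₀.1 g), isIrrCharacter_conj χ₀.2⟩, fun _ => rfl⟩
  have hover : ∀ χ : Cfsg.IrrCharacter G, Cfsg.classInner (fun i : I => χ.1 i) ψ.1 ≠ 0 →
      Cfsg.classInner (Cfsg.indFun I ψ.1) χ.1 ≠ 0 := by
    intro χ h
    rw [frobenius_reciprocity I ψ.1 χ.1 (isClassFunction_of_irr χ)]
    intro h0
    apply h
    rw [← classInner_conj_symm, h0, map_zero]
  have hχ₁over : Cfsg.classInner (fun i : I => χ₁.1 i) ψ.1 ≠ 0 := by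
    have e : Cfsg.classInner (fun i : I => χ₁.1 i) ψ.1
        = (starRingEnd ℂ) (Cfsg.classInner (fun i : I => χ₀.1 i) ψ.1) := by
      unfold Cfsg.classInner
      rw [map_mul, map_inv₀, Complex.conj_natCast, map_sum]
      congr 1
      apply Finset.sum_congr rfl
      intro i _
      show χ₁.1 (i : G) * (starRingEnd ℂ) (ψ.1 i)
        = (starRingEnd ℂ) (χ₀.1 (i : G) * (starRingEnd ℂ) (ψ.1 i))
      rw [hχ₁, map_mul, Complex.conj_conj, Complex.conj_eq_iff_im.mpr (hψreal i)]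
    rw [e]
    intro h0
    apply hχ₀
    have := congrArg (starRingEnd ℂ) h0
    rwa [Complex.conj_conj, map_zero] at this
  have heq : χ₁ = χ₀ := by
    by_contra hne
    obtain ⟨r, hr⟩ := two_constituents_deg8 (Cfsg.indFun I ψ.1)
      (isCharacter_indFun I ψ.1 (isCharacter_of_irr ψ.2)) χ₀ χ₁ (Ne.symm hne) (hover χ₀ hχ₀)
      (hover χ₁ hχ₁over)
    rw [Cfsg.Agent.Lib.Lead.indFun_one_eq] at hr
    have h2 : (Fintype.card G : ℂ) = (Nat.card I : ℂ) * (I.index : ℂ) := by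
      rw [← Nat.cast_mul, Subgroup.card_mul_index, Nat.card_eq_fintype_card]
    have h3 : (Nat.card I : ℂ) ≠ 0 := by exact_mod_cast Nat.card_pos.ne'
    have h4 : (Nat.card I : ℂ)⁻¹ * ((Fintype.card G : ℂ) * ψ.1 1) = χ₀.1 1 := by
      rw [h2, hdeg]
      field_simp
    rw [h4] at hr
    obtain ⟨hpos, hd, -⟩ := DZ.charDegree_spec χ₀
    have h5 : χ₁.1 1 = χ₀.1 1 := by
      rw [hχ₁, hd, Complex.conj_natCast]
    rw [h5, hd] at hr
    have h6 : Cfsg.charDegree χ₀.1 = Cfsg.charDegree χ₀.1 + Cfsg.charDegree χ₀.1 + r := by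
      exact_mod_cast hr
    omega
  intro g
  have h7 := hχ₁ g
  rw [heq] at h7
  exact Complex.conj_eq_iff_im.mp h7.symm

/-- the restriction of a character of indicator one, if irreducible, has indicator one -/
theorem fs_restrict_irr8 {G : Type*} [Group G] (N I : Subgroup G) [Fintype N]
    [Fintype I] (hNI : N ≤ I) (φ : Cfsg.IrrCharacter ↥N) (ψ : Cfsg.IrrCharacter ↥I)
    (hψ : ∀ n : ↥N, ψ.1 (Subgroup.inclusion hNI n) = φ.1 n)
    (hν : (Nat.card ↥I : ℂ)⁻¹ * ∑ g : ↥I, ψ.1 (g * g) = 1) :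
    (∀ i : I, (ψ.1 i).im = 0) ∧ (Nat.card ↥N : ℂ)⁻¹ * ∑ n : ↥N, φ.1 (n * n) = 1 := by
  have hreal : ∀ i : I, (ψ.1 i).im = 0 := by
    by_contra hnr
    have h0 := (FS.fs_cases ψ).2 hnr
    rw [h0] at hν
    exact zero_ne_one hν
  refine ⟨hreal, ?_⟩
  obtain ⟨m, ρ, hirr, hρ⟩ := ψ.2
  obtain ⟨a, b, h1, h2, -, h4, -, h6⟩ := FS.fs_irr ρ hirr
  rw [hρ] at h1 h2
  have hab := h2 hreal
  rw [hν] at h1
  have ha : a = 1 ∧ b = 0 := by
    have e1 : (a : ℂ) = 1 + b := by linear_combination h1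
    have e2 : a = 1 + b := by exact_mod_cast e1
    omega
  obtain ⟨M, hM0, hM⟩ := h6 (by omega)
  have hMsym := h4 ha.2 M hM
  obtain ⟨σ, hσ⟩ : ∃ σ : Representation ℂ N (Fin m → ℂ),
      σ = ρ.comp (Subgroup.inclusion hNI) := ⟨_, rfl⟩
  have hσchar : σ.character = φ.1 := by
    funext n
    rw [← hψ, ← hρ, hσ]
    rfl
  obtain ⟨a', b', g1, g2, -, g4, -⟩ := FS.fs_main σ
  rw [hσchar] at g1 g2
  have hφreal : ∀ n : N, (starRingEnd ℂ) (φ.1 n) = φ.1 n := by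
    intro n
    rw [← hψ]
    exact Complex.conj_eq_iff_im.mpr (hreal _)
  have hsum1 : (Nat.card N : ℂ)⁻¹ * ∑ n : N, φ.1 n ^ 2 = 1 := by
    have h7 := irr_inner_self φ
    unfold Cfsg.classInner at h7
    rw [← h7]
    congr 1
    apply Finset.sum_congr rfl
    intro n _
    rw [hφreal n, sq]
  rw [hsum1] at g1
  have hMσ : ∀ n : N, (FS.X σ n)ᵀ * M * FS.X σ n = M := by
    intro n
    have h8 := hM (Subgroup.inclusion hNI n)
    rw [hσ]
    exact h8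
  have ha' : a' ≠ 0 := by
    intro h0
    have hanti := g4 h0 M hMσ
    rw [hMsym] at hanti
    apply hM0
    ext i j
    have h9 := congrFun (congrFun hanti i) j
    simp only [Matrix.neg_apply, Matrix.zero_apply] at h9 ⊢
    linear_combination (1 / 2 : ℂ) * h9
  have hab' : a' + b' = 1 := by exact_mod_cast g1
  have h10 : a' = 1 ∧ b' = 0 := by omega
  rw [← g2, h10.1, h10.2]
  simp

theorem fs_conjFun8 {G : Type*} [Group G] (N : Subgroup G) [hN : N.Normal] [Fintype N]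
    (θ : N → ℂ) (x : G) :
    ∑ n : N, conjFun N θ x (n * n) = ∑ n : N, θ (n * n) := by
  apply Fintype.sum_equiv (MulAut.conjNormal x : N ≃* N).toEquiv
  intro n
  rw [conjFun_apply]
  refine congrArg θ (Subtype.ext ?_)
  show x * ((n * n : N) : G) * x⁻¹
    = (((MulAut.conjNormal x : N ≃* N) n * (MulAut.conjNormal x : N ≃* N) n : N) : G)
  rw [Subgroup.coe_mul, Subgroup.coe_mul, MulAut.conjNormal_apply]
  group

end Cfsg.Agent.Lib.Helper8
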