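import Mathlib
import Cfsg.Prelude.Def_Characters
import Cfsg.Agent.Lib.Helper8.Cliff11

set_option autoImplicit false

namespace Cfsg.Agent.Lib.Helper8

open Matrix Cfsg.Agent.Lib.Lead Cfsg.Agent.Lib.Helper7 Cfsg.Agent.Lib.Helper7.Cliff

/-- `clifford_ext_main8` together with the multiplicity of `φ` -/
theorem clifford_ext_main9 {G : Type*} [Group G] [Fintype G] (N : Subgroup G) [hN : N.Normal]
    [Fintype N] (φ : Cfsg.IrrCharacter ↥N) (I : Subgroup G) [Fintype I]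
    (hI : ∀ g : G, g ∈ I ↔ ∀ n n' : ↥N, (n' : G) = g * (n : G) * g⁻¹ → φ.1 n' = φ.1 n)
    (hNI : N ≤ I) (ψ : Cfsg.IrrCharacter ↥I)
    (hψ : ∀ n : ↥N, ψ.1 (Subgroup.inclusion hNI n) = φ.1 n) :
    ∃ χ₀ : Cfsg.IrrCharacter G,
      Cfsg.charDegree χ₀.1 = Cfsg.charDegree φ.1 * I.index ∧
      Cfsg.classInner (fun i : I => χ₀.1 i) ψ.1 ≠ 0 ∧
      (∀ η : Cfsg.IrrCharacter ↥I, Cfsg.classInner (fun i : I => χ₀.1 i) η.1 ≠ 0 →
        (∀ n : ↥N, η.1 (Subgroup.inclusion hNI n) = φ.1 n) → η = ψ) ∧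
      Cfsg.classInner (fun n : N => χ₀.1 n) φ.1 = 1 := by
  classical
  haveI : Fintype (Cfsg.IrrCharacter I) := Fintype.ofFinite _
  obtain ⟨χ₀, hχ₀⟩ := exists_over I ψ
  choose M hM using fun η : Cfsg.IrrCharacter I =>
    classInner_char_nat (isCharacter_restrict I (isCharacter_of_irr χ₀.2))
      (isCharacter_of_irr η.2)
  choose K hK using fun η : Cfsg.IrrCharacter I =>
    classInner_char_nat (isCharacter_comp (Subgroup.inclusion hNI) (isCharacter_of_irr η.2))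
      (isCharacter_of_irr φ.2)
  have hsum : Cfsg.classInner (fun n : N => χ₀.1 n) φ.1 = ((∑ η, M η * K η : ℕ) : ℂ) := by
    rw [inner_restrict_two_step8 N I hNI χ₀.1 (isClassFunction_of_irr χ₀) φ.1]
    push_cast
    exact Finset.sum_congr rfl (fun η _ => by rw [hM, hK])
  have hMne : ∀ η : Cfsg.IrrCharacter I,
      Cfsg.classInner (fun i : I => χ₀.1 i) η.1 ≠ 0 → M η ≠ 0 := by
    intro η hη h
    apply hη
    rw [hM, h]
    simp
  have hKone : ∀ η : Cfsg.IrrCharacter I,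
      (∀ n : ↥N, η.1 (Subgroup.inclusion hNI n) = φ.1 n) → K η = 1 := by
    intro η hηN
    have h1 : (fun x : N => η.1 (Subgroup.inclusion hNI x)) = φ.1 := funext hηN
    have h2 := hK η
    rw [h1, irr_inner_self] at h2
    exact_mod_cast h2.symm
  have hMψ := hMne ψ hχ₀
  have hKψ := hKone ψ hψ
  obtain ⟨E, hE⟩ : ∃ E : ℕ, E = ∑ η, M η * K η := ⟨_, rfl⟩
  have hE1 : 1 ≤ E := by
    rw [hE]
    calc 1 ≤ M ψ * K ψ := by rw [hKψ]; omega
      _ ≤ ∑ η, M η * K η :=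
        Finset.single_le_sum (f := fun η => M η * K η) (fun η _ => Nat.zero_le _)
          (Finset.mem_univ ψ)
  have hinner : Cfsg.classInner (fun n : N => χ₀.1 n) φ.1 = (E : ℂ) := by rw [hsum, hE]
  have hne : Cfsg.classInner (fun n : N => χ₀.1 n) φ.1 ≠ 0 := by
    rw [hinner]
    exact_mod_cast (by omega : E ≠ 0)
  have hdeg := clifford_deg_inner8 N χ₀ φ hne
  rw [hinner, card_conj_eq_index8 N φ I hI] at hdeg
  obtain ⟨r, hr⟩ := deg_le_index_mul I χ₀ ψ hχ₀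
  have hψ1 : ψ.1 1 = φ.1 1 := by
    have := hψ 1
    rwa [map_one] at this
  obtain ⟨hpos, hφ1, -⟩ := DZ.charDegree_spec φ
  rw [hψ1, hdeg, hφ1] at hr
  have hnat : I.index * Cfsg.charDegree φ.1 = E * I.index * Cfsg.charDegree φ.1 + r := by
    exact_mod_cast hr
  have hidx : 0 < I.index := Nat.pos_of_ne_zero Subgroup.index_ne_zero_of_finite
  have hpos2 : 0 < I.index * Cfsg.charDegree φ.1 := Nat.mul_pos hidx hpos
  have hE' : E = 1 := by
    by_contra hne1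
    have h2 : 2 ≤ E := by omega
    have h3 : 2 * (I.index * Cfsg.charDegree φ.1) ≤ E * (I.index * Cfsg.charDegree φ.1) :=
      Nat.mul_le_mul_right _ h2
    have h4 : E * I.index * Cfsg.charDegree φ.1 = E * (I.index * Cfsg.charDegree φ.1) :=
      Nat.mul_assoc _ _ _
    omega
  refine ⟨χ₀, ?_, hχ₀, ?_, ?_⟩
  · obtain ⟨-, hχ1, -⟩ := DZ.charDegree_spec χ₀
    rw [hdeg, hE', hφ1] at hχ1
    have h5 : 1 * I.index * Cfsg.charDegree φ.1 = Cfsg.charDegree χ₀.1 := by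
      exact_mod_cast hχ1
    rw [← h5, one_mul, mul_comm]
  · intro η hη hηN
    by_contra hneq
    have hMη := hMne η hη
    have hKη := hKone η hηN
    have h2 : 2 ≤ E := by
      rw [hE]
      calc 2 ≤ M ψ * K ψ + M η * K η := by rw [hKψ, hKη]; omega
        _ = ∑ x ∈ ({ψ, η} : Finset (Cfsg.IrrCharacter I)), M x * K x := by
          rw [Finset.sum_pair (Ne.symm hneq)]
        _ ≤ ∑ x, M x * K x := Finset.sum_le_sum_of_subset (Finset.subset_univ _)
    omega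
  · rw [hinner, hE']
    simp

/-- the Frobenius–Schur indicator of a real character lying with multiplicity one over a
character of indicator one of a normal subgroup -/
theorem fs_clifford_corr8 {G : Type*} [Group G] [Fintype G] (N : Subgroup G) [hN : N.Normal]
    [Fintype N] (φ : Cfsg.IrrCharacter ↥N)
    (hφν : (Nat.card ↥N : ℂ)⁻¹ * ∑ n : ↥N, φ.1 (n * n) = 1)
    (χ₀ : Cfsg.IrrCharacter G) (hχreal : ∀ g : G, (χ₀.1 g).im = 0)
    (hE : Cfsg.classInner (fun n : N => χ₀.1 n) φ.1 = 1) :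
    (Nat.card G : ℂ)⁻¹ * ∑ g : G, χ₀.1 (g * g) = 1 := by
  classical
  haveI : Fintype (Cfsg.IrrCharacter N) := Fintype.ofFinite _
  obtain ⟨t, ht⟩ : ∃ t : ℕ,
      t = Nat.card {ψ : Cfsg.IrrCharacter N // ∃ x : G, ψ.1 = conjFun N φ.1 x} := ⟨_, rfl⟩
  have hmult : ∀ θ : Cfsg.IrrCharacter N, Cfsg.classInner (fun n : N => χ₀.1 n) θ.1
      = if (∃ x : G, θ.1 = conjFun N φ.1 x) then 1 else 0 := by
    intro θ
    split_ifs with hx
    · obtain ⟨x, hx⟩ := hx
      rw [hx, inner_restrict_conjFun N χ₀.1 (isClassFunction_of_irr χ₀) φ.1 x, hE]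
    · by_contra h5
      exact hx (exists_conj_of_constituents N χ₀ φ θ (by rw [hE]; exact one_ne_zero) h5)
  have hexp := class_fn_expand' (fun n : N => χ₀.1 n)
    (isClassFunction_restrict N χ₀.1 (isClassFunction_of_irr χ₀))
  have hpt : ∀ n : N, χ₀.1 (n : G) = ∑ θ : Cfsg.IrrCharacter N,
      (if (∃ x : G, θ.1 = conjFun N φ.1 x) then θ.1 n else 0) := by
    intro n
    have h2 := congrFun hexp n
    rw [Finset.sum_apply] at h2
    have h3 : χ₀.1 (n : G) = ∑ θ : Cfsg.IrrCharacter N,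
        (Cfsg.classInner (fun n : N => χ₀.1 n) θ.1 • (θ : N → ℂ)) n := h2
    rw [h3]
    apply Finset.sum_congr rfl
    intro θ _
    rw [Pi.smul_apply, hmult θ]
    split_ifs <;> simp
  have hS2 : (Nat.card N : ℂ)⁻¹ * ∑ n : N, χ₀.1 ((n * n : N) : G) = (t : ℂ) := by
    rw [Finset.sum_congr rfl (fun n _ => hpt (n * n)), Finset.sum_comm, Finset.mul_sum]
    have h3 : ∀ θ : Cfsg.IrrCharacter N, (Nat.card N : ℂ)⁻¹ * ∑ n : N,
        (if (∃ x : G, θ.1 = conjFun N φ.1 x) then θ.1 (n * n) else 0)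
        = if (∃ x : G, θ.1 = conjFun N φ.1 x) then 1 else 0 := by
      intro θ
      split_ifs with hx
      · obtain ⟨x, hx⟩ := hx
        rw [hx, fs_conjFun8 N φ.1 x, hφν]
      · simp
    rw [Finset.sum_congr rfl (fun θ _ => h3 θ), Finset.sum_boole, ht, Nat.card_eq_fintype_card,
      Fintype.card_subtype]
  have hS1 : (Nat.card N : ℂ)⁻¹ * ∑ n : N, χ₀.1 (n : G) ^ 2 = (t : ℂ) := by
    have h4 := restrict_inner_clifford N φ χ₀ χ₀ 1 1 (by rw [hE]; simp) (by rw [hE]; simp)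
      one_ne_zero
    unfold Cfsg.classInner at h4
    rw [ht]
    have h5 : ∑ n : N, χ₀.1 (n : G) ^ 2
        = ∑ n : N, χ₀.1 n * (starRingEnd ℂ) (χ₀.1 n) := by
      apply Finset.sum_congr rfl
      intro n _
      rw [Complex.conj_eq_iff_im.mpr (hχreal n), sq]
    rw [h5, h4]
    simp
  obtain ⟨n₀, ρ, hirr, hρ⟩ := χ₀.2
  obtain ⟨σ, hσ⟩ : ∃ σ : Representation ℂ N (Fin n₀ → ℂ), σ = ρ.comp N.subtype := ⟨_, rfl⟩
  have hσchar : σ.character = fun n : N => χ₀.1 n := by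
    rw [hσ, ← hρ]
    rfl
  obtain ⟨a', b', g1, g2, g3, -, -⟩ := FS.fs_main σ
  rw [hσchar] at g1 g2
  have hb' : b' = 0 := by
    have e1 : (a' : ℂ) + b' = t := by rw [g1]; exact hS1
    have e2 : (a' : ℂ) - b' = t := by rw [g2]; exact hS2
    have e3 : (b' : ℂ) = 0 := by linear_combination (1 / 2 : ℂ) * e1 - (1 / 2 : ℂ) * e2
    exact_mod_cast e3
  obtain ⟨a, b, f1, f2, -, -, f5, f6⟩ := FS.fs_irr ρ hirr
  rw [hρ] at f1 f2
  have hab := f2 hχreal
  obtain ⟨M, hM0, hM⟩ := f6 (by omega)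
  have hMσ : ∀ n : N, (FS.X σ n)ᵀ * M * FS.X σ n = M := by
    intro n
    rw [hσ]
    exact hM n
  have hMsym := g3 hb' M hMσ
  have ha : a ≠ 0 := by
    intro h0
    have hanti := f5 h0 M hM
    rw [hMsym] at hanti
    apply hM0
    ext i j
    have h9 := congrFun (congrFun hanti i) j
    simp only [Matrix.neg_apply, Matrix.zero_apply] at h9 ⊢
    linear_combination (1 / 2 : ℂ) * h9
  have h10 : a = 1 ∧ b = 0 := by omega
  rw [← f1, h10.1, h10.2]
  simp

end Cfsg.Agent.Lib.Helper8
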