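import Mathlib
import Cfsg.Agent.Lib.Helper8.Codeg8
import Cfsg.Agent.Lib.Lead.Char13

set_option autoImplicit false

namespace Cfsg.Agent.Lib.Helper8

open Cfsg.Agent.Lib.Lead Module

universe u

/-- The codegree of the inflation of a character of a quotient. -/
theorem codeg_inflate {G : Type*} [Group G] [Finite G] (N : Subgroup G) [N.Normal]
    (ψ : Cfsg.IrrCharacter (G ⧸ N)) :
    Nat.card G / (Nat.card {g : G // ψ.1 (QuotientGroup.mk' N g) = ψ.1 (QuotientGroup.mk' N 1)} *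
        Cfsg.charDegree (fun x : G => ψ.1 (QuotientGroup.mk' N x))) =
      Nat.card (G ⧸ N) / (Nat.card {q : G ⧸ N // ψ.1 q = ψ.1 1} * Cfsg.charDegree ψ.1) := by
  obtain ⟨K', hK'n, hK'⟩ := exists_ker_subgroup ψ
  have hdeg : Cfsg.charDegree (fun x : G => ψ.1 (QuotientGroup.mk' N x)) = Cfsg.charDegree ψ.1 := by
    unfold Cfsg.charDegree
    show ⌊(ψ.1 (QuotientGroup.mk' N 1)).re⌋₊ = ⌊(ψ.1 1).re⌋₊
    rw [map_one]
  have hc1 : Nat.card {g : G // ψ.1 (QuotientGroup.mk' N g) = ψ.1 (QuotientGroup.mk' N 1)}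
      = Nat.card (K'.comap (QuotientGroup.mk' N)) := by
    apply Nat.card_congr
    apply Equiv.subtypeEquivRight
    intro g
    rw [Subgroup.mem_comap, hK', map_one]
  have hc2 : Nat.card {q : G ⧸ N // ψ.1 q = ψ.1 1} = Nat.card K' :=
    Nat.card_congr (Equiv.subtypeEquivRight (fun q => (hK' q).symm))
  have hidx : (K'.comap (QuotientGroup.mk' N)).index = K'.index :=
    Subgroup.index_comap_of_surjective K' (QuotientGroup.mk'_surjective N)
  rw [hdeg, hc1, hc2, ← Subgroup.card_mul_index (K'.comap (QuotientGroup.mk' N)),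
    ← Subgroup.card_mul_index K', hidx, Nat.mul_div_mul_left _ _ Nat.card_pos,
    Nat.mul_div_mul_left _ _ Nat.card_pos]

/-- Sum of squares of the degrees of the characters with a given normal subgroup in the kernel. -/
theorem sum_sq_over_normal {G : Type*} [Group G] [Finite G] (M : Subgroup G) [M.Normal]
    [Fintype (Cfsg.IrrCharacter G)]
    [DecidablePred fun χ : Cfsg.IrrCharacter G => ∀ m ∈ M, χ.1 m = χ.1 1] :
    ∑ χ ∈ Finset.univ.filter (fun χ : Cfsg.IrrCharacter G => ∀ m ∈ M, χ.1 m = χ.1 1),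
      Cfsg.charDegree χ.1 ^ 2 = Nat.card (G ⧸ M) := by
  classical
  haveI : Fintype (Cfsg.IrrCharacter (G ⧸ M)) := Fintype.ofFinite _
  obtain ⟨infl, hinfl⟩ : ∃ infl : Cfsg.IrrCharacter (G ⧸ M) → Cfsg.IrrCharacter G,
      ∀ ψ x, (infl ψ).1 x = ψ.1 (QuotientGroup.mk' M x) :=
    ⟨fun ψ => ⟨fun x => ψ.1 (QuotientGroup.mk' M x),
      isIrrCharacter_comp_surj _ (QuotientGroup.mk'_surjective M) ψ.2⟩, fun _ _ => rfl⟩
  have hinj : Function.Injective infl := by
    intro ψ ψ' h
    apply Subtype.ext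
    funext q
    obtain ⟨x, rfl⟩ := QuotientGroup.mk'_surjective M q
    rw [← hinfl, ← hinfl, h]
  have himg : Finset.univ.filter (fun χ : Cfsg.IrrCharacter G => ∀ m ∈ M, χ.1 m = χ.1 1)
      = Finset.univ.image infl := by
    ext χ
    rw [Finset.mem_filter, Finset.mem_image]
    constructor
    · rintro ⟨-, hχ⟩
      obtain ⟨ψ, hψ⟩ := Cfsg.Agent.Lib.Helper7.Codeg.exists_irr_quot χ M hχ
      refine ⟨ψ, Finset.mem_univ _, ?_⟩
      apply Subtype.ext
      funext x
      rw [hinfl]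
      exact hψ x
    · rintro ⟨ψ, -, rfl⟩
      refine ⟨Finset.mem_univ _, ?_⟩
      intro m hm
      rw [hinfl, hinfl, map_one]
      have : QuotientGroup.mk' M m = 1 := (QuotientGroup.eq_one_iff m).mpr hm
      rw [this]
  rw [himg, Finset.sum_image (fun a _ b _ h => hinj h)]
  have hdeg : ∀ ψ : Cfsg.IrrCharacter (G ⧸ M),
      Cfsg.charDegree (infl ψ).1 ^ 2 = Cfsg.charDegree ψ.1 ^ 2 := by
    intro ψ
    unfold Cfsg.charDegree
    rw [hinfl, map_one]
  rw [Finset.sum_congr rfl (fun ψ _ => hdeg ψ)]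
  exact sum_charDegree_sq

/-- A prime dividing the order divides some codegree. -/
theorem exists_codeg_dvd (p : ℕ) (hp : p.Prime) :
    ∀ (n : ℕ) (G : Type u) [Group G] [Finite G], Nat.card G = n → p ∣ n →
      ∃ χ : Cfsg.IrrCharacter G,
        p ∣ Nat.card G / (Nat.card {g : G // χ.1 g = χ.1 1} * Cfsg.charDegree χ.1) := by
  intro n
  induction n using Nat.strong_induction_on with
  | _ n ih =>
  intro G _ _ hn hpn
  classical
  haveI : Fintype (Cfsg.IrrCharacter G) := Fintype.ofFinite _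
  by_cases hcase : ∃ N : Subgroup G, N.Normal ∧ N ≠ ⊥ ∧ p ∣ Nat.card (G ⧸ N)
  · obtain ⟨N, hNn, hN0, hpN⟩ := hcase
    haveI := hNn
    have hlt : Nat.card (G ⧸ N) < n := by
      rw [← hn, Subgroup.card_eq_card_quotient_mul_card_subgroup N]
      have h1 : 1 < Nat.card N := (Subgroup.one_lt_card_iff_ne_bot N).mpr hN0
      have h2 : 0 < Nat.card (G ⧸ N) := Nat.card_pos
      nlinarith
    obtain ⟨ψ, hψ⟩ := ih _ hlt (G ⧸ N) rfl hpN
    refine ⟨⟨fun x => ψ.1 (QuotientGroup.mk' N x),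
      isIrrCharacter_comp_surj _ (QuotientGroup.mk'_surjective N) ψ.2⟩, ?_⟩
    show p ∣ Nat.card G / (Nat.card {g : G // ψ.1 (QuotientGroup.mk' N g)
        = ψ.1 (QuotientGroup.mk' N 1)} *
        Cfsg.charDegree (fun x : G => ψ.1 (QuotientGroup.mk' N x)))
    rw [codeg_inflate]
    exact hψ
  · push Not at hcase
    by_contra hno
    push Not at hno
    have hpG : p ∣ Nat.card G := hn ▸ hpn
    have hex : ∃ N : Subgroup G, N ∈ {N : Subgroup G | N.Normal ∧ N ≠ ⊥} := by
      refine ⟨⊤, inferInstance, ?_⟩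
      intro h
      have h1 : Nat.card (⊤ : Subgroup G) = 1 := by rw [h, Subgroup.card_bot]
      rw [Subgroup.card_top] at h1
      rw [h1] at hpG
      exact hp.one_lt.ne' (Nat.dvd_one.mp hpG)
    obtain ⟨N₀, ⟨hN₀n, hN₀0⟩, hmin⟩ := Set.exists_min_image {N : Subgroup G | N.Normal ∧ N ≠ ⊥}
      (fun N : Subgroup G => Nat.card N) (Set.toFinite _) hex
    haveI := hN₀n
    have hsub : ∀ N : Subgroup G, N.Normal → N ≠ ⊥ → N₀ ≤ N := by
      intro N hNn hN0
      haveI := hNn
      by_cases hint : N ⊓ N₀ = ⊥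
      · exfalso
        have hinj : Function.Injective ((QuotientGroup.mk' N).prod (QuotientGroup.mk' N₀)) := by
          rw [← MonoidHom.ker_eq_bot_iff, MonoidHom.ker_prod, QuotientGroup.ker_mk',
            QuotientGroup.ker_mk']
          exact hint
        have hdvd : Nat.card G ∣ Nat.card ((G ⧸ N) × (G ⧸ N₀)) := by
          have h1 := Subgroup.card_subgroup_dvd_card
            ((QuotientGroup.mk' N).prod (QuotientGroup.mk' N₀)).range
          rwa [Nat.card_congr (MonoidHom.ofInjective hinj).toEquiv.symm] at h1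
        rw [Nat.card_prod] at hdvd
        rcases (Nat.Prime.dvd_mul hp).mp (dvd_trans hpG hdvd) with h | h
        · exact hcase N hNn hN0 h
        · exact hcase N₀ hN₀n hN₀0 h
      · have hc : Nat.card N₀ ≤ Nat.card (N ⊓ N₀ : Subgroup G) :=
          hmin _ ⟨inferInstance, hint⟩
        have h1 : N ⊓ N₀ = N₀ := Subgroup.eq_of_le_of_card_ge inf_le_right hc
        rw [← h1]
        exact inf_le_left
    have hp_deg : ∀ χ : Cfsg.IrrCharacter G, ¬ (∀ m ∈ N₀, χ.1 m = χ.1 1) →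
        p ∣ Cfsg.charDegree χ.1 := by
      intro χ hχ
      obtain ⟨K, hKn, hK⟩ := exists_ker_subgroup χ
      have hKbot : K = ⊥ := by
        by_contra hK0
        exact hχ (fun m hm => (hK m).mp (hsub K hKn hK0 hm))
      have hcard : Nat.card {g : G // χ.1 g = χ.1 1} = 1 := by
        rw [Nat.card_congr (Equiv.subtypeEquivRight (fun g => (hK g).symm)), hKbot,
          Subgroup.card_bot]
      have h1 := hno χ
      rw [hcard, one_mul] at h1
      have hdd : Cfsg.charDegree χ.1 ∣ Nat.card G :=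
        (Cfsg.Agent.Lib.Helper7.DZ.charDegree_spec χ).2.2
      have h2 : p ∣ Cfsg.charDegree χ.1 * (Nat.card G / Cfsg.charDegree χ.1) := by
        rw [Nat.mul_div_cancel' hdd]
        exact hpG
      rcases (Nat.Prime.dvd_mul hp).mp h2 with h | h
      · exact h
      · exact absurd h h1
    have hsum1 := sum_charDegree_sq (G := G)
    have hsum2 := sum_sq_over_normal N₀
    have hsplit := Finset.sum_filter_add_sum_filter_not
      (Finset.univ : Finset (Cfsg.IrrCharacter G)) (fun χ => ∀ m ∈ N₀, χ.1 m = χ.1 1)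
      (fun χ => Cfsg.charDegree χ.1 ^ 2)
    rw [hsum1, hsum2] at hsplit
    have h3 : p ∣ ∑ χ ∈ Finset.univ.filter
        (fun χ : Cfsg.IrrCharacter G => ¬ ∀ m ∈ N₀, χ.1 m = χ.1 1), Cfsg.charDegree χ.1 ^ 2 := by
      apply Finset.dvd_sum
      intro χ hχ
      exact dvd_pow (hp_deg χ (Finset.mem_filter.mp hχ).2) (by norm_num)
    have h4 : p ∣ Nat.card (G ⧸ N₀) := by
      rw [← hsplit] at hpG
      exact (Nat.dvd_add_left h3).mp hpG
    exact hcase N₀ hN₀n hN₀0 h4

/-- S4808. -/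
theorem codeg_prime_iff {G : Type u} [Group G] [Finite G] (p : ℕ) (hp : p.Prime) :
    p ∣ Nat.card G ↔ ∃ χ : Cfsg.IrrCharacter G,
      p ∣ (Nat.card G / (Nat.card {g : G // (χ : G → ℂ) g = (χ : G → ℂ) 1} *
        Cfsg.charDegree (χ : G → ℂ))) :=
  ⟨fun h => exists_codeg_dvd p hp _ G rfl h, fun ⟨χ, hχ⟩ => dvd_trans hχ (codeg_dvd_card χ)⟩

end Cfsg.Agent.Lib.Helper8
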