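import Cfsg.Agent.Lib.Helper8.Inv2

set_option autoImplicit false
open Cfsg

namespace Cfsg.Agent.Lib.Helper8

variable {Ω : Type*} [Group Ω] {S : Subgroup Ω}

theorem sup_subgroupOf_top8 (P B : Subgroup Ω) :
    P.subgroupOf (P ⊔ B) ⊔ B.subgroupOf (P ⊔ B) = ⊤ := by
  exact (Subgroup.codisjoint_subgroupOf_sup P B).eq_top

/-- two-generator induction for membership in a subgroup of `P ⊔ B` -/
theorem sup_forall8 {P B : Subgroup Ω} (K : Subgroup ↥(P ⊔ B))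
    (hP : ∀ (x : Ω) (hx : x ∈ P), (⟨x, (le_sup_left : P ≤ P ⊔ B) hx⟩ : ↥(P ⊔ B)) ∈ K)
    (hB : ∀ (x : Ω) (hx : x ∈ B), (⟨x, (le_sup_right : B ≤ P ⊔ B) hx⟩ : ↥(P ⊔ B)) ∈ K) :
    ∀ y : ↥(P ⊔ B), y ∈ K := by
  have h : (⊤ : Subgroup ↥(P ⊔ B)) ≤ K := by
    rw [← sup_subgroupOf_top8 P B]
    apply sup_le
    · intro y hy; exact hP y.1 hy
    · intro y hy; exact hB y.1 hy
  intro y; exact h (Subgroup.mem_top y)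

/-- a map of the system restricted to a strongly closed subgroup takes values in it -/
theorem sc_val8 (F : FusionSystem S) {B K : Subgroup Ω} (hB : F.StronglyClosed B)
    {R : Subgroup Ω} (hRB : R ≤ B) (hRK : R ≤ K) {ρ : K →* Ω} (hρ : ρ ∈ F.Hom K) (x : Ω)
    (hx : x ∈ R) : ρ ⟨x, hRK hx⟩ ∈ B :=
  hB.2 R hRB (ρ.comp (Subgroup.inclusion hRK)) (fs_restrict F hRK hρ) ⟨x, hx⟩

/-- a map of the system maps a strongly closed subgroup of its source onto itself -/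
theorem sc_onto8 [Finite S] (F : FusionSystem S) {B K : Subgroup Ω} (hB : F.StronglyClosed B)
    (hBK : B ≤ K) {ρ : K →* Ω} (hρ : ρ ∈ F.Hom K) : (B.subgroupOf K).map ρ = B := by
  have : Finite B := finite_of_le hB.1
  exact map_subgroupOf_eq_of_mem hBK (F.injective_of_mem hρ)
    (fun x hx => sc_val8 F hB le_rfl hBK hρ x hx)

theorem sc_onto_ex8 [Finite S] (F : FusionSystem S) {B K : Subgroup Ω} (hB : F.StronglyClosed B)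
    (hBK : B ≤ K) {ρ : K →* Ω} (hρ : ρ ∈ F.Hom K) (b : Ω) (hb : b ∈ B) :
    ∃ (b' : Ω) (hb' : b' ∈ B), ρ ⟨b', hBK hb'⟩ = b := by
  have h := hb
  rw [← sc_onto8 F hB hBK hρ] at h
  obtain ⟨z, hz, hze⟩ := h
  exact ⟨z.1, hz, hze⟩

/-- extension of maps over a commuting strongly closed subgroup -/
theorem sc_extend8 [Finite S] {p : ℕ} [Fact p.Prime] (hS : IsPGroup p S) (F : FusionSystem S)
    (hF : F.IsSaturated p) {A B : Subgroup Ω} (hA : F.StronglyClosed A)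
    (hB : F.StronglyClosed B) (hcomm : ∀ a ∈ A, ∀ b ∈ B, a * b = b * a) {P : Subgroup Ω}
    (hPA : P ≤ A) {φ : P →* Ω} (hφ : φ ∈ F.Hom P) :
    ∃ ψ ∈ F.Hom (P ⊔ B), ∀ x : P, ψ (Subgroup.inclusion le_sup_left x) = φ x := by
  have hPS : P ≤ S := (F.le_of_mem hφ).1
  have hBS : B ≤ S := hB.1
  obtain ⟨Q', ⟨ψ₁, hψ₁, hψ₁r⟩, hfa, hrec⟩ := hF P hPS
  obtain ⟨ι, hι, hιe, hιr⟩ := fs_inv F hφ
  have hιP : ∀ y, ι y ∈ P := fs_mem_of_range hιr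
  have hψ₂ := F.comp_mem hι hψ₁ hιP
  obtain ⟨ψ₂, hψ₂def⟩ : ∃ ψ₂ : φ.range →* Ω, ψ₂ = ψ₁.comp (ι.codRestrict P hιP) := ⟨_, rfl⟩
  rw [← hψ₂def] at hψ₂
  have hψ₂φ : ∀ x : P, ψ₂ ⟨φ x, ⟨x, rfl⟩⟩ = ψ₁ x := by
    intro x
    rw [hψ₂def]
    show ψ₁ ⟨ι ⟨φ x, _⟩, _⟩ = ψ₁ x
    congr 1
    exact Subtype.ext (hιe x)
  have hψ₂r : ψ₂.range = Q' := by
    rw [← hψ₁r]
    ext y
    constructor
    · rintro ⟨z, rfl⟩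
      rw [hψ₂def]
      exact ⟨_, rfl⟩
    · rintro ⟨x, rfl⟩
      exact ⟨⟨φ x, ⟨x, rfl⟩⟩, hψ₂φ x⟩
  have hP₂A : φ.range ≤ A := by
    rintro _ ⟨x, rfl⟩
    exact hA.2 P hPA φ hφ x
  obtain ⟨ψh₁, hψh₁, hψh₁e⟩ := hrec.2 P ψ₁ hψ₁ hψ₁r
  obtain ⟨ψh₂, hψh₂, hψh₂e⟩ := hrec.2 φ.range ψ₂ hψ₂ hψ₂r
  have hBc : ∀ {P' : Subgroup Ω}, P' ≤ A → B ≤ FusionSystem.centralizerIn S P' := by
    intro P' hP' b hb
    refine ⟨hBS hb, Subgroup.mem_centralizer_iff.mpr ?_⟩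
    intro x hx
    exact hcomm x (hP' hx) b hb
  have hle₁ : P ⊔ B ≤ FusionSystem.extender S P ψ₁ :=
    sup_le (fs_le_extender F hψ₁) ((hBc hPA).trans (fs_centralizerIn_le_extender S P ψ₁))
  have hle₂ : φ.range ⊔ B ≤ FusionSystem.extender S φ.range ψ₂ :=
    sup_le (fs_le_extender F hψ₂) ((hBc hP₂A).trans (fs_centralizerIn_le_extender S _ ψ₂))
  have hr₁ := fs_restrict F hle₁ hψh₁
  have hr₂ := fs_restrict F hle₂ hψh₂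
  obtain ⟨ρ₁, hρ₁def⟩ : ∃ ρ₁ : ↥(P ⊔ B) →* Ω, ρ₁ = ψh₁.comp (Subgroup.inclusion hle₁) :=
    ⟨_, rfl⟩
  obtain ⟨ρ₂, hρ₂def⟩ : ∃ ρ₂ : ↥(φ.range ⊔ B) →* Ω,
      ρ₂ = ψh₂.comp (Subgroup.inclusion hle₂) := ⟨_, rfl⟩
  rw [← hρ₁def] at hr₁
  rw [← hρ₂def] at hr₂
  have hρ₁P : ∀ (x : Ω) (hx : x ∈ P),
      ρ₁ ⟨x, (le_sup_left : P ≤ P ⊔ B) hx⟩ = ψ₁ ⟨x, hx⟩ := by
    intro x hx
    rw [hρ₁def]
    exact hψh₁e x hx _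
  have hρ₂P : ∀ (x : Ω) (hx : x ∈ φ.range),
      ρ₂ ⟨x, (le_sup_left : φ.range ≤ φ.range ⊔ B) hx⟩ = ψ₂ ⟨x, hx⟩ := by
    intro x hx
    rw [hρ₂def]
    exact hψh₂e x hx _
  have hval : ∀ y : ↥(P ⊔ B), ρ₁ y ∈ ρ₂.range := by
    apply sup_forall8 (ρ₂.range.comap ρ₁)
    · intro x hx
      show ρ₁ _ ∈ ρ₂.range
      rw [hρ₁P x hx, ← hψ₂φ ⟨x, hx⟩, ← hρ₂P _ ⟨⟨x, hx⟩, rfl⟩]
      exact ⟨_, rfl⟩
    · intro x hx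
      show ρ₁ _ ∈ ρ₂.range
      have h1 := sc_val8 F hB le_rfl le_sup_right hr₁ x hx
      obtain ⟨b', hb', hb'e⟩ := sc_onto_ex8 F hB le_sup_right hr₂ _ h1
      exact ⟨_, hb'e⟩
  obtain ⟨κ, hκ, hκe, -⟩ := fs_inv F hr₂
  refine ⟨κ.comp (ρ₁.codRestrict ρ₂.range hval), F.comp_mem hr₁ hκ hval, ?_⟩
  intro x
  show κ ⟨ρ₁ (Subgroup.inclusion le_sup_left x), _⟩ = φ x
  have h2 : ρ₁ (Subgroup.inclusion le_sup_left x) =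
      ρ₂ ⟨φ x, (le_sup_left : φ.range ≤ φ.range ⊔ B) ⟨x, rfl⟩⟩ := by
    rw [hρ₂P _ ⟨x, rfl⟩, hψ₂φ x]
    exact hρ₁P x.1 x.2
  have h3 := hκe ⟨φ x, (le_sup_left : φ.range ≤ φ.range ⊔ B) ⟨x, rfl⟩⟩
  refine Eq.trans ?_ h3
  congr 1
  exact Subtype.ext h2

end Cfsg.Agent.Lib.Helper8
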