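import Cfsg.Agent.Lib.Helper8.DF1

set_option autoImplicit false
open Cfsg

namespace Cfsg.Agent.Lib.Helper8

variable {Ω : Type*} [Group Ω] {S : Subgroup Ω}

theorem idp_decomp8 {S₁ S₂ : Subgroup Ω} (h : IsInternalDirectProduct S₁ S₂ S) :
    ∀ g ∈ S, ∃ a ∈ S₁, ∃ b ∈ S₂, g = a * b := by
  obtain ⟨-, -, hc, -, hsup⟩ := h
  intro g hg
  rw [← hsup, Subgroup.sup_eq_closure] at hg
  induction hg using Subgroup.closure_induction with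
  | mem x hx =>
    rcases hx with hx | hx
    · exact ⟨x, hx, 1, S₂.one_mem, by simp⟩
    · exact ⟨1, S₁.one_mem, x, hx, by simp⟩
  | one => exact ⟨1, S₁.one_mem, 1, S₂.one_mem, by simp⟩
  | mul x y _ _ hx hy =>
    obtain ⟨a, ha, b, hb, rfl⟩ := hx
    obtain ⟨a', ha', b', hb', rfl⟩ := hy
    refine ⟨a * a', S₁.mul_mem ha ha', b * b', S₂.mul_mem hb hb', ?_⟩
    rw [mul_assoc, ← mul_assoc b, ← hc a' ha' b hb, mul_assoc, mul_assoc]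
  | inv x _ hx =>
    obtain ⟨a, ha, b, hb, rfl⟩ := hx
    refine ⟨a⁻¹, S₁.inv_mem ha, b⁻¹, S₂.inv_mem hb, ?_⟩
    rw [mul_inv_rev]
    exact (hc a⁻¹ (S₁.inv_mem ha) b⁻¹ (S₂.inv_mem hb)).symm

theorem idp_autInduced8 {S₁ S₂ : Subgroup Ω} (h : IsInternalDirectProduct S₁ S₂ S)
    {Q : Subgroup Ω} (hQ : Q ≤ S₁) : autInducedBy S₁ Q = autInducedBy S Q := by
  apply le_antisymm (autInducedBy_mono h.1 Q)
  intro α hα
  obtain ⟨g, hg, hh⟩ := (mem_autInducedBy_iff _ _ α).mp hα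
  obtain ⟨a, ha, b, hb, rfl⟩ := idp_decomp8 h g hg
  refine (mem_autInducedBy_iff _ _ α).mpr ⟨a, ha, fun x => ?_⟩
  rw [hh x]
  have hc := h.2.2.1 x (hQ x.2) b hb
  have hc' : b * (x : Ω) * b⁻¹ = x := by rw [← hc]; group
  calc a * b * (x : Ω) * (a * b)⁻¹ = a * (b * (x : Ω) * b⁻¹) * a⁻¹ := by group
    _ = a * x * a⁻¹ := by rw [hc']

theorem full_sub8 {S₁ : Subgroup Ω} (F : FusionSystem S) (R : FusionSystem S₁)
    (hR : ∀ P : Subgroup Ω, P ≤ S₁ → R.Hom P = F.Hom P) : R.IsSubsystemOf F := by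
  intro P φ hφ
  rw [← hR P (R.le_of_mem hφ).1]
  exact hφ

theorem full_autGroup8 {S₁ : Subgroup Ω} (F : FusionSystem S) (R : FusionSystem S₁)
    (hR : ∀ P : Subgroup Ω, P ≤ S₁ → R.Hom P = F.Hom P) {Q : Subgroup Ω} (hQ : Q ≤ S₁) :
    R.autGroup Q = F.autGroup Q := by
  unfold FusionSystem.autGroup
  rw [hR Q hQ]

theorem extender_le_df8 (S₁ P : Subgroup Ω) (φ : P →* Ω) :
    FusionSystem.extender S₁ P φ ≤ S₁ := by
  unfold FusionSystem.extender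
  rw [Subgroup.closure_le]
  intro g hg
  exact hg.1

theorem extender_mono8 {S₁ : Subgroup Ω} (h : S₁ ≤ S) (P : Subgroup Ω) (φ : P →* Ω) :
    FusionSystem.extender S₁ P φ ≤ FusionSystem.extender S P φ := by
  unfold FusionSystem.extender
  apply Subgroup.closure_mono
  rintro g ⟨hg, hn, k, hk, hh⟩
  exact ⟨h hg, hn, k, h hk, hh⟩

theorem full_saturated8 [Finite S] {p : ℕ} [Fact p.Prime] (F : FusionSystem S)
    (hF : F.IsSaturated p) {S₁ S₂ : Subgroup Ω} (hprod : IsInternalDirectProduct S₁ S₂ S)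
    (h₁ : F.StronglyClosed S₁) (R : FusionSystem S₁)
    (hR : ∀ P : Subgroup Ω, P ≤ S₁ → R.Hom P = F.Hom P) : R.IsSaturated p := by
  intro P hP
  obtain ⟨Q, ⟨φ, hφ, hφr⟩, hfa, hrec⟩ := hF P (hP.trans h₁.1)
  have hQ : Q ≤ S₁ := by
    rw [← hφr]
    rintro _ ⟨x, rfl⟩
    exact h₁.2 P hP φ hφ x
  refine ⟨Q, ⟨φ, by rw [hR P hP]; exact hφ, hφr⟩, ⟨hQ, ?_⟩, hQ, ?_⟩
  · rw [full_autGroup8 F R hR hQ, idp_autInduced8 hprod hQ]
    exact hfa.2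
  · intro P' φ' hφ' hφ'r
    have hP' : P' ≤ S₁ := (R.le_of_mem hφ').1
    rw [hR P' hP'] at hφ'
    obtain ⟨ψ, hψ, hψe⟩ := hrec.2 P' φ' hφ' hφ'r
    have hle := extender_mono8 h₁.1 P' φ'
    refine ⟨ψ.comp (Subgroup.inclusion hle), ?_, fun x hx hN => hψe x hx _⟩
    rw [hR _ (extender_le_df8 S₁ P' φ')]
    exact fs_restrict F hle hψ

/-- transport of a map of the system along another map of the system -/
theorem si_self8 (F : FusionSystem S) {P Q : Subgroup Ω} (hPQ : P ≤ Q) {φ : P →* Ω}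
    (hφ : φ ∈ F.Hom P) (hφQ : ∀ x : P, φ x ∈ Q) {ψ : Q →* Ω} (hψ : ψ ∈ F.Hom Q) :
    ∃ χ ∈ F.Hom ((P.subgroupOf Q).map ψ),
      ∀ (x : P) (hx : ψ (Subgroup.inclusion hPQ x) ∈ (P.subgroupOf Q).map ψ),
        χ ⟨ψ (Subgroup.inclusion hPQ x), hx⟩ = ψ ⟨φ x, hφQ x⟩ := by
  have hψP := fs_restrict F hPQ hψ
  have hrange : (ψ.comp (Subgroup.inclusion hPQ)).range = (P.subgroupOf Q).map ψ := by
    ext y
    constructor
    · rintro ⟨x, rfl⟩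
      exact ⟨Subgroup.inclusion hPQ x, x.2, rfl⟩
    · rintro ⟨z, hz, rfl⟩
      exact ⟨⟨z.1, hz⟩, rfl⟩
  obtain ⟨ι, hι, hιe, hιr⟩ := fs_inv' F hψP hrange
  have hιP : ∀ y, ι y ∈ P := fs_mem_of_range hιr
  have hc1 := F.comp_mem hι hφ hιP
  have hc1Q : ∀ y, (φ.comp (ι.codRestrict P hιP)) y ∈ Q := fun y => hφQ _
  have hc2 := F.comp_mem hc1 hψ hc1Q
  refine ⟨_, hc2, ?_⟩
  intro x hx
  have h5 : (⟨ι ⟨ψ (Subgroup.inclusion hPQ x), hx⟩, hιP _⟩ : P) = x :=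
    Subtype.ext (hιe x hx)
  show ψ ⟨φ (⟨ι ⟨ψ (Subgroup.inclusion hPQ x), hx⟩, hιP _⟩ : P), _⟩ = ψ ⟨φ x, hφQ x⟩
  congr 1
  apply Subtype.ext
  show φ _ = φ x
  rw [h5]

theorem full_si8 {S₁ : Subgroup Ω} (F : FusionSystem S) (h₁ : F.StronglyClosed S₁)
    (R : FusionSystem S₁) (hR : ∀ P : Subgroup Ω, P ≤ S₁ → R.Hom P = F.Hom P) :
    StrongInv R F := by
  intro P Q hPQ hQ φ hφ hφQ ψ hψ
  rw [hR P (hPQ.trans hQ)] at hφ
  obtain ⟨χ, hχ, hχe⟩ := si_self8 F hPQ hφ hφQ hψ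
  refine ⟨χ, ?_, hχe⟩
  have hle : (P.subgroupOf Q).map ψ ≤ S₁ := by
    rintro _ ⟨z, -, rfl⟩
    exact h₁.2 Q hQ ψ hψ z
  rw [hR _ hle]
  exact hχ

end Cfsg.Agent.Lib.Helper8
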