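import Cfsg.Agent.Lib.Helper8.DF2

set_option autoImplicit false
open Cfsg

namespace Cfsg.Agent.Lib.Helper8

variable {Ω : Type*} [Group Ω] {S : Subgroup Ω}

theorem hom_congr8 {K : Subgroup Ω} (f : K →* Ω) {a b : Ω} (h : a = b) (ha : a ∈ K)
    (hb : b ∈ K) : f ⟨a, ha⟩ = f ⟨b, hb⟩ := by
  subst h; rfl

theorem idp_le_cent8 {S₁ S₂ : Subgroup Ω} (hprod : IsInternalDirectProduct S₁ S₂ S) :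
    S₁ ≤ FusionSystem.centralizerIn S S₂ := by
  intro x hx
  exact ⟨hprod.1 hx,
    Subgroup.mem_centralizer_iff.mpr (fun b hb => (hprod.2.2.1 x hx b hb).symm)⟩

theorem cent_mem8 (F : FusionSystem S) {S₁ S₂ : Subgroup Ω}
    (hprod : IsInternalDirectProduct S₁ S₂ S) (h₁ : F.StronglyClosed S₁)
    {P : Subgroup Ω} (hP : P ≤ S₁) {φ : P →* Ω} (hφ : φ ∈ F.Hom P) (ψ : ↥(P ⊔ S₂) →* Ω)
    (hψ : ψ ∈ F.Hom (P ⊔ S₂))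
    (h1 : ∀ x : P, ψ (Subgroup.inclusion le_sup_left x) = φ x)
    (h2 : ∀ x : S₂, ψ (Subgroup.inclusion le_sup_right x) = x) :
    φ ∈ F.centralizerHom S₂ P :=
  ⟨hφ, hP.trans (idp_le_cent8 hprod), fun x => idp_le_cent8 hprod (h₁.2 P hP φ hφ x),
    ψ, hψ, h1, h2⟩

theorem cent_si8 [Finite S] {p : ℕ} [Fact p.Prime] (hS : IsPGroup p S) (F : FusionSystem S)
    (hF : F.IsSaturated p) {S₁ S₂ : Subgroup Ω} (hprod : IsInternalDirectProduct S₁ S₂ S)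
    (h₁ : F.StronglyClosed S₁) (h₂ : F.StronglyClosed S₂) (R' : FusionSystem S₁)
    (hR' : ∀ P : Subgroup Ω, P ≤ S₁ → R'.Hom P = F.centralizerHom S₂ P) :
    StrongInv R' F := by
  intro P Q hPQ hQ φ hφ hφQ ψ hψ
  have hP : P ≤ S₁ := hPQ.trans hQ
  rw [hR' P hP] at hφ
  obtain ⟨hφF, -, -, φh, hφh, hφhe, hφhS⟩ := hφ
  obtain ⟨ψh, hψh, hψhe⟩ := sc_extend8 hS F hF h₁ h₂ hprod.2.2.1 hQ hψ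
  obtain ⟨χ, hχ, hχe⟩ := si_self8 F hPQ hφF hφQ hψ
  have hP₁ : (P.subgroupOf Q).map ψ ≤ S₁ := by
    rintro _ ⟨z, -, rfl⟩
    exact h₁.2 Q hQ ψ hψ z
  refine ⟨χ, ?_, hχe⟩
  rw [hR' _ hP₁]
  have hle : P ⊔ S₂ ≤ Q ⊔ S₂ := sup_le_sup_right hPQ S₂
  have hφhQ : ∀ y : ↥(P ⊔ S₂), φh y ∈ Q ⊔ S₂ := by
    apply sup_forall8 ((Q ⊔ S₂).comap φh)
    · intro x hx
      show φh _ ∈ Q ⊔ S₂
      have h3 := hφhe ⟨x, hx⟩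
      have h4 : φh ⟨x, (le_sup_left : P ≤ P ⊔ S₂) hx⟩ = φ ⟨x, hx⟩ := h3
      rw [h4]
      exact (le_sup_left : Q ≤ Q ⊔ S₂) (hφQ _)
    · intro x hx
      show φh _ ∈ Q ⊔ S₂
      have h3 := hφhS ⟨x, hx⟩
      have h4 : φh ⟨x, (le_sup_right : S₂ ≤ P ⊔ S₂) hx⟩ = x := h3
      rw [h4]
      exact (le_sup_right : S₂ ≤ Q ⊔ S₂) hx
  obtain ⟨χ₂, hχ₂, hχ₂e⟩ := si_self8 F hle hφh hφhQ hψh
  have hY : (P.subgroupOf Q).map ψ ⊔ S₂ ≤ ((P ⊔ S₂).subgroupOf (Q ⊔ S₂)).map ψh := by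
    apply sup_le
    · rintro _ ⟨z, hz, rfl⟩
      exact ⟨Subgroup.inclusion le_sup_left z, (le_sup_left : P ≤ P ⊔ S₂) hz, hψhe z⟩
    · intro s hs
      obtain ⟨s', hs', hs'e⟩ := sc_onto_ex8 F h₂ le_sup_right hψh s hs
      exact ⟨⟨s', _⟩, (le_sup_right : S₂ ≤ P ⊔ S₂) hs', hs'e⟩
  refine cent_mem8 F hprod h₁ hP₁ hχ (χ₂.comp (Subgroup.inclusion hY))
    (fs_restrict F hY hχ₂) ?_ ?_
  · rintro ⟨w, hw⟩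
    obtain ⟨z, hz, rfl⟩ := hw
    have hz' : (z : Ω) ∈ P ⊔ S₂ := (le_sup_left : P ≤ P ⊔ S₂) hz
    have hmem : ψh (Subgroup.inclusion hle ⟨z.1, hz'⟩) ∈
        ((P ⊔ S₂).subgroupOf (Q ⊔ S₂)).map ψh := ⟨_, hz', rfl⟩
    have e0 : ψ z = ψh (Subgroup.inclusion hle ⟨z.1, hz'⟩) := (hψhe z).symm
    have e2 := hχ₂e ⟨z.1, hz'⟩ hmem
    have e3 : φh ⟨z.1, hz'⟩ = φ ⟨z.1, hz⟩ := hφhe ⟨z.1, hz⟩
    have e4 := hψhe ⟨φ ⟨z.1, hz⟩, hφQ _⟩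
    have e1 := hχe ⟨z.1, hz⟩ ⟨z, hz, rfl⟩
    calc (χ₂.comp (Subgroup.inclusion hY)) (Subgroup.inclusion le_sup_left ⟨ψ z, ⟨z, hz, rfl⟩⟩)
        = χ₂ ⟨ψ z, hY ((le_sup_left : _ ≤ (P.subgroupOf Q).map ψ ⊔ S₂) ⟨z, hz, rfl⟩)⟩ := rfl
      _ = χ₂ ⟨ψh (Subgroup.inclusion hle ⟨z.1, hz'⟩), hmem⟩ := hom_congr8 χ₂ e0 _ _
      _ = ψh ⟨φh ⟨z.1, hz'⟩, hφhQ _⟩ := e2
      _ = ψh ⟨φ ⟨z.1, hz⟩, (le_sup_left : Q ≤ Q ⊔ S₂) (hφQ _)⟩ := hom_congr8 ψh e3 _ _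
      _ = ψ ⟨φ ⟨z.1, hz⟩, hφQ _⟩ := e4
      _ = χ ⟨ψ z, ⟨z, hz, rfl⟩⟩ := e1.symm
  · rintro ⟨s, hs⟩
    obtain ⟨s', hs', hs'e⟩ := sc_onto_ex8 F h₂ le_sup_right hψh s hs
    have hs'' : s' ∈ P ⊔ S₂ := (le_sup_right : S₂ ≤ P ⊔ S₂) hs'
    have hmem : ψh (Subgroup.inclusion hle ⟨s', hs''⟩) ∈
        ((P ⊔ S₂).subgroupOf (Q ⊔ S₂)).map ψh := ⟨_, hs'', rfl⟩
    have e2 := hχ₂e ⟨s', hs''⟩ hmem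
    have e3 : φh ⟨s', hs''⟩ = s' := hφhS ⟨s', hs'⟩
    calc (χ₂.comp (Subgroup.inclusion hY)) (Subgroup.inclusion le_sup_right ⟨s, hs⟩)
        = χ₂ ⟨s, hY ((le_sup_right : S₂ ≤ (P.subgroupOf Q).map ψ ⊔ S₂) hs)⟩ := rfl
      _ = χ₂ ⟨ψh (Subgroup.inclusion hle ⟨s', hs''⟩), hmem⟩ := hom_congr8 χ₂ hs'e.symm _ _
      _ = ψh ⟨φh ⟨s', hs''⟩, hφhQ _⟩ := e2
      _ = ψh ⟨s', (le_sup_right : S₂ ≤ Q ⊔ S₂) hs'⟩ := hom_congr8 ψh e3 _ _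
      _ = s := hs'e

theorem aut_center8 {S₁ : Subgroup Ω} (α : MulAut S₁) (a : Ω) (ha : a ∈ S₁)
    (hc : ∀ t ∈ S₁, t * a = a * t) :
    a⁻¹ * ((α ⟨a, ha⟩ : S₁) : Ω) ∈ S₁ ⊓ Subgroup.centralizer (S₁ : Set Ω) := by
  refine ⟨S₁.mul_mem (S₁.inv_mem ha) (α _).2, Subgroup.mem_centralizer_iff.mpr ?_⟩
  intro t ht
  have h1 : t * a⁻¹ = a⁻¹ * t := by
    have := hc t ht
    calc t * a⁻¹ = a⁻¹ * (a * t) * a⁻¹ := by group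
      _ = a⁻¹ * (t * a) * a⁻¹ := by rw [this]
      _ = a⁻¹ * t := by group
  have h2 : t * ((α ⟨a, ha⟩ : S₁) : Ω) = ((α ⟨a, ha⟩ : S₁) : Ω) * t := by
    obtain ⟨t', ht'⟩ := α.surjective ⟨t, ht⟩
    have h3 : t' * ⟨a, ha⟩ = ⟨a, ha⟩ * t' := Subtype.ext (hc t'.1 t'.2)
    have h4 : α t' * α ⟨a, ha⟩ = α ⟨a, ha⟩ * α t' := by
      rw [← map_mul, ← map_mul, h3]
    rw [ht'] at h4
    exact congrArg Subtype.val h4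
  calc t * (a⁻¹ * ((α ⟨a, ha⟩ : S₁) : Ω)) = (t * a⁻¹) * ((α ⟨a, ha⟩ : S₁) : Ω) := by group
    _ = a⁻¹ * (t * ((α ⟨a, ha⟩ : S₁) : Ω)) := by rw [h1]; group
    _ = a⁻¹ * ((α ⟨a, ha⟩ : S₁) : Ω) * t := by rw [h2]; group

end Cfsg.Agent.Lib.Helper8
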