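import Cfsg.Agent.Lib.Helper8.DF3

set_option autoImplicit false
open Cfsg

namespace Cfsg.Agent.Lib.Helper8

variable {Ω : Type*} [Group Ω] {S : Subgroup Ω}

theorem cent_ext_F8 [Finite S] (F : FusionSystem S) {S₁ S₂ : Subgroup Ω}
    (hprod : IsInternalDirectProduct S₁ S₂ S) (R' : FusionSystem S₁)
    (hR' : ∀ P : Subgroup Ω, P ≤ S₁ → R'.Hom P = F.centralizerHom S₂ P) :
    ∀ α ∈ R'.autGroup S₁, ∃ β ∈ F.autGroup (S₁ ⊔ FusionSystem.centralizerIn S S₁),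
      (∀ x : S₁, ((β (Subgroup.inclusion le_sup_left x) :
          ↥(S₁ ⊔ FusionSystem.centralizerIn S S₁)) : Ω) = ((α x : S₁) : Ω)) ∧
      ∀ c : ↥(S₁ ⊔ FusionSystem.centralizerIn S S₁),
        (c : Ω) ∈ FusionSystem.centralizerIn S S₁ →
        (c : Ω)⁻¹ * ((β c : ↥(S₁ ⊔ FusionSystem.centralizerIn S S₁)) : Ω) ∈
          S₁ ⊓ Subgroup.centralizer (S₁ : Set Ω) := by
  intro α hα
  have hα' := (mem_autGroup_iff R' le_rfl α).mp hα
  rw [hR' S₁ le_rfl] at hα'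
  obtain ⟨-, -, -, ψ, hψ, hψe, hψS⟩ := hα'
  have hS₂c : S₂ ≤ FusionSystem.centralizerIn S S₁ := by
    intro b hb
    exact ⟨hprod.2.1 hb,
      Subgroup.mem_centralizer_iff.mpr (fun a ha => hprod.2.2.1 a ha b hb)⟩
  have hK : S₁ ⊔ S₂ = S₁ ⊔ FusionSystem.centralizerIn S S₁ := by
    apply le_antisymm (sup_le_sup_left hS₂c S₁)
    rw [hprod.2.2.2.2]
    exact sup_le hprod.1 inf_le_left
  obtain ⟨ψ', hψ', hψ'e⟩ := hom_cast F hK hψ
  have hSK : S ≤ S₁ ⊔ FusionSystem.centralizerIn S S₁ := by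
    rw [← hK, hprod.2.2.2.2]
  have hKK : ∀ z, ψ' z ∈ S₁ ⊔ FusionSystem.centralizerIn S S₁ :=
    fun z => hSK ((F.le_of_mem hψ').2 z)
  obtain ⟨β, hβ, hβe⟩ := exists_aut_of_hom F hψ' hKK
  refine ⟨β, hβ, ?_, ?_⟩
  · intro x
    rw [hβe]
    have e1 := hψ'e x.1 ((le_sup_left : S₁ ≤ S₁ ⊔ S₂) x.2)
      ((le_sup_left : S₁ ≤ S₁ ⊔ FusionSystem.centralizerIn S S₁) x.2)
    have e2 := hψe x
    exact e1.trans e2
  · intro c hc
    have hcS : (c : Ω) ∈ S := hc.1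
    obtain ⟨a, ha, b, hb, hab⟩ := idp_decomp8 hprod c hcS
    have hcc : ∀ t ∈ S₁, t * (c : Ω) = (c : Ω) * t :=
      fun t ht => Subgroup.mem_centralizer_iff.mp hc.2 t ht
    have hac : ∀ t ∈ S₁, t * a = a * t := by
      intro t ht
      have h1 := hcc t ht
      rw [hab] at h1
      have h2 := hprod.2.2.1 t ht b hb
      calc t * a = (t * (a * b)) * b⁻¹ := by group
        _ = (a * b * t) * b⁻¹ := by rw [h1]
        _ = a * (b * t) * b⁻¹ := by group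
        _ = a * (t * b) * b⁻¹ := by rw [h2]
        _ = a * t := by group
    have ha' : a ∈ S₁ ⊔ S₂ := (le_sup_left : S₁ ≤ S₁ ⊔ S₂) ha
    have hb' : b ∈ S₁ ⊔ S₂ := (le_sup_right : S₂ ≤ S₁ ⊔ S₂) hb
    have hβc : ((β c : ↥(S₁ ⊔ FusionSystem.centralizerIn S S₁)) : Ω) =
        ((α ⟨a, ha⟩ : S₁) : Ω) * b := by
      rw [hβe]
      have hc' : (c : Ω) ∈ S₁ ⊔ S₂ := by rw [hab]; exact mul_mem ha' hb'
      have e1 : ψ' c = ψ ⟨a * b, mul_mem ha' hb'⟩ := by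
        have e0 := hψ'e (c : Ω) hc' c.2
        exact e0.trans (hom_congr8 ψ hab _ _)
      rw [e1]
      have e2 : (⟨a * b, mul_mem ha' hb'⟩ : ↥(S₁ ⊔ S₂)) = ⟨a, ha'⟩ * ⟨b, hb'⟩ := rfl
      rw [e2, map_mul]
      have e3 : ψ ⟨a, ha'⟩ = ((α ⟨a, ha⟩ : S₁) : Ω) := hψe ⟨a, ha⟩
      have e4 : ψ ⟨b, hb'⟩ = b := hψS ⟨b, hb⟩
      rw [e3, e4]
    rw [hβc, hab]
    have h5 := aut_center8 α a ha hac
    have h6 : (a * b)⁻¹ * (((α ⟨a, ha⟩ : S₁) : Ω) * b) = a⁻¹ * ((α ⟨a, ha⟩ : S₁) : Ω) := by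
      have h7 := hprod.2.2.1 _ (S₁.mul_mem (S₁.inv_mem ha) (α ⟨a, ha⟩).2) b hb
      calc (a * b)⁻¹ * (((α ⟨a, ha⟩ : S₁) : Ω) * b)
          = b⁻¹ * ((a⁻¹ * ((α ⟨a, ha⟩ : S₁) : Ω)) * b) := by group
        _ = b⁻¹ * (b * (a⁻¹ * ((α ⟨a, ha⟩ : S₁) : Ω))) := by rw [h7]
        _ = a⁻¹ * ((α ⟨a, ha⟩ : S₁) : Ω) := by group
    rw [h6]
    exact h5

theorem cent_ext_R8 [Finite S] (F : FusionSystem S) {S₁ S₂ : Subgroup Ω}
    (hprod : IsInternalDirectProduct S₁ S₂ S) (R R' : FusionSystem S₁)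
    (hR : ∀ P : Subgroup Ω, P ≤ S₁ → R.Hom P = F.Hom P)
    (hR' : ∀ P : Subgroup Ω, P ≤ S₁ → R'.Hom P = F.centralizerHom S₂ P) :
    ∀ α ∈ R'.autGroup S₁, ∃ β ∈ R.autGroup (S₁ ⊔ FusionSystem.centralizerIn S₁ S₁),
      (∀ x : S₁, ((β (Subgroup.inclusion le_sup_left x) :
          ↥(S₁ ⊔ FusionSystem.centralizerIn S₁ S₁)) : Ω) = ((α x : S₁) : Ω)) ∧
      ∀ c : ↥(S₁ ⊔ FusionSystem.centralizerIn S₁ S₁),
        (c : Ω) ∈ FusionSystem.centralizerIn S₁ S₁ →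
        (c : Ω)⁻¹ * ((β c : ↥(S₁ ⊔ FusionSystem.centralizerIn S₁ S₁)) : Ω) ∈
          S₁ ⊓ Subgroup.centralizer (S₁ : Set Ω) := by
  intro α hα
  haveI : Finite S₁ := finite_of_le hprod.1
  have hα' := (mem_autGroup_iff R' le_rfl α).mp hα
  rw [hR' S₁ le_rfl] at hα'
  have hαF := hα'.1
  rw [← hR S₁ le_rfl] at hαF
  have hK : S₁ = S₁ ⊔ FusionSystem.centralizerIn S₁ S₁ := (sup_eq_left.mpr inf_le_left).symm
  obtain ⟨ψ', hψ', hψ'e⟩ := hom_cast R hK hαF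
  have hKK : ∀ z, ψ' z ∈ S₁ ⊔ FusionSystem.centralizerIn S₁ S₁ :=
    fun z => (le_sup_left : S₁ ≤ _) ((R.le_of_mem hψ').2 z)
  obtain ⟨β, hβ, hβe⟩ := exists_aut_of_hom R hψ' hKK
  refine ⟨β, hβ, ?_, ?_⟩
  · intro x
    rw [hβe]
    exact hψ'e x.1 x.2 _
  · intro c hc
    have hcS : (c : Ω) ∈ S₁ := hc.1
    have hβc : ((β c : ↥(S₁ ⊔ FusionSystem.centralizerIn S₁ S₁)) : Ω) =
        ((α ⟨c, hcS⟩ : S₁) : Ω) := by
      rw [hβe]
      exact hψ'e c.1 hcS c.2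
    rw [hβc]
    exact aut_center8 α c hcS (fun t ht => Subgroup.mem_centralizer_iff.mp hc.2 t ht)

/-- the range of an extension over a strongly closed subgroup -/
theorem range_sup8 [Finite S] (F : FusionSystem S) {B Q Q' : Subgroup Ω}
    (hB : F.StronglyClosed B) {φ : Q →* Ω} (hφr : φ.range = Q') {φh : ↥(Q ⊔ B) →* Ω}
    (hφh : φh ∈ F.Hom (Q ⊔ B))
    (hφhe : ∀ x : Q, φh (Subgroup.inclusion le_sup_left x) = φ x) :
    φh.range = Q' ⊔ B := by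
  apply le_antisymm
  · rintro _ ⟨y, rfl⟩
    revert y
    apply sup_forall8 ((Q' ⊔ B).comap φh)
    · intro x hx
      show φh _ ∈ Q' ⊔ B
      apply (le_sup_left : Q' ≤ Q' ⊔ B)
      rw [← hφr]
      exact ⟨⟨x, hx⟩, (hφhe ⟨x, hx⟩).symm⟩
    · intro x hx
      show φh _ ∈ Q' ⊔ B
      exact (le_sup_right : B ≤ Q' ⊔ B) (sc_val8 F hB le_rfl le_sup_right hφh x hx)
  · apply sup_le
    · rw [← hφr]
      rintro _ ⟨x, rfl⟩
      exact ⟨_, hφhe x⟩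
    · intro s hs
      obtain ⟨s', hs', hs'e⟩ := sc_onto_ex8 F hB le_sup_right hφh s hs
      exact ⟨_, hs'e⟩

theorem norm_sup_le8 (F : FusionSystem S) {B Q : Subgroup Ω} (hB : F.StronglyClosed B) :
    FusionSystem.normalizerIn S Q ≤ FusionSystem.normalizerIn S (Q ⊔ B) := by
  intro g hg
  have hn : g ∈ Subgroup.normalizer ((Q ⊔ B : Subgroup Ω) : Set Ω) := by
    rw [mem_normalizer_iff_cj, cj_sup, mem_normalizer_iff_cj.mp hg.2,
      mem_normalizer_iff_cj.mp (sc_le_normalizer F hB hg.1)]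
  exact ⟨hg.1, hn⟩

theorem sup_inf_le8 {S₁ S₂ : Subgroup Ω} (hprod : IsInternalDirectProduct S₁ S₂ S)
    {Q : Subgroup Ω} (hQ : Q ≤ S₁) : (Q ⊔ S₂) ⊓ S₁ ≤ Q := by
  intro x hx
  have hidp : IsInternalDirectProduct Q S₂ (Q ⊔ S₂) :=
    ⟨le_sup_left, le_sup_right, fun a ha b hb => hprod.2.2.1 a (hQ ha) b hb, by
      rw [eq_bot_iff, ← hprod.2.2.2.1]
      exact inf_le_inf_right S₂ hQ, rfl⟩
  obtain ⟨q, hq, s, hs, rfl⟩ := idp_decomp8 hidp x hx.1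
  have hs1 : s ∈ S₁ := by
    have h1 : s = q⁻¹ * (q * s) := by group
    rw [h1]
    exact S₁.mul_mem (S₁.inv_mem (hQ hq)) hx.2
  have hs0 : s ∈ S₁ ⊓ S₂ := ⟨hs1, hs⟩
  rw [hprod.2.2.2.1, Subgroup.mem_bot] at hs0
  rw [hs0, mul_one]
  exact hq

theorem norm_sup_ge8 [Finite S] (F : FusionSystem S) {S₁ S₂ : Subgroup Ω}
    (hprod : IsInternalDirectProduct S₁ S₂ S) (h₁ : F.StronglyClosed S₁) {Q : Subgroup Ω}
    (hQ : Q ≤ S₁) :
    FusionSystem.normalizerIn S (Q ⊔ S₂) ≤ FusionSystem.normalizerIn S Q := by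
  intro g hg
  suffices hn : g ∈ Subgroup.normalizer ((Q : Subgroup Ω) : Set Ω) from ⟨hg.1, hn⟩
  rw [mem_normalizer_iff_cj]
  have h1 : cj g (Q ⊔ S₂) = Q ⊔ S₂ := mem_normalizer_iff_cj.mp hg.2
  have h2 : cj g S₁ = S₁ := mem_normalizer_iff_cj.mp (sc_le_normalizer F h₁ hg.1)
  have h3 : cj g Q ≤ Q := by
    refine le_trans (le_inf ?_ ?_) (sup_inf_le8 hprod hQ)
    · rw [← h1]; exact cj_mono le_sup_left
    · rw [← h2]; exact cj_mono hQ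
  haveI : Finite Q := finite_of_le (hQ.trans hprod.1)
  exact Subgroup.eq_of_le_of_card_ge h3 (by rw [card_cj])

theorem autGroup_mono8 {T : Subgroup Ω} (E : FusionSystem T) (F : FusionSystem S)
    (h : E.IsSubsystemOf F) (Q : Subgroup Ω) : E.autGroup Q ≤ F.autGroup Q := by
  unfold FusionSystem.autGroup
  apply Subgroup.closure_mono
  intro α hα
  exact h Q hα

/-- an automorphism of `S` in the system does not decrease normalizer orders -/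
theorem norm_card8 [Finite S] (F : FusionSystem S) {γ : S →* Ω} (hγ : γ ∈ F.Hom S)
    (X : Subgroup Ω) :
    Nat.card (FusionSystem.normalizerIn S X) ≤
      Nat.card (FusionSystem.normalizerIn S ((X.subgroupOf S).map γ)) := by
  have hγS : ∀ z : S, γ z ∈ S := (F.le_of_mem hγ).2
  have hinj := F.injective_of_mem hγ
  have hmem : ∀ (g : Ω) (hgS : g ∈ S) (_ : g ∈ Subgroup.normalizer (X : Set Ω)),
      γ ⟨g, hgS⟩ ∈ FusionSystem.normalizerIn S ((X.subgroupOf S).map γ) := by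
    intro g hgS hgN
    suffices hn : γ ⟨g, hgS⟩ ∈
        Subgroup.normalizer (((X.subgroupOf S).map γ : Subgroup Ω) : Set Ω) from ⟨hγS _, hn⟩
    rw [Subgroup.mem_normalizer_iff]
    intro h
    constructor
    · rintro ⟨z, hz, rfl⟩
      refine ⟨⟨g, hgS⟩ * z * ⟨g, hgS⟩⁻¹, ?_, ?_⟩
      · exact conj_mem_of_mem_normalizer hgN hz
      · rw [map_mul, map_mul, map_inv]
    · rintro ⟨z, hz, hze⟩
      refine ⟨⟨g, hgS⟩⁻¹ * z * ⟨g, hgS⟩, ?_, ?_⟩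
      · have h1 := conj_mem_of_mem_normalizer (Subgroup.inv_mem _ hgN) hz
        rw [inv_inv] at h1
        exact h1
      · rw [map_mul, map_mul, map_inv, hze]
        group
  have hfin : Finite (FusionSystem.normalizerIn S ((X.subgroupOf S).map γ)) :=
    finite_of_le inf_le_left
  apply Nat.card_le_card_of_injective (fun g : FusionSystem.normalizerIn S X =>
    (⟨γ ⟨g.1, (Subgroup.mem_inf.mp g.2).1⟩,
      hmem g.1 (Subgroup.mem_inf.mp g.2).1 (Subgroup.mem_inf.mp g.2).2⟩ :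
    FusionSystem.normalizerIn S ((X.subgroupOf S).map γ)))
  intro a b hab
  have h1 : γ ⟨a.1, (Subgroup.mem_inf.mp a.2).1⟩ = γ ⟨b.1, (Subgroup.mem_inf.mp b.2).1⟩ :=
    congrArg Subtype.val hab
  have h2 := hinj h1
  have h3 : (a : Ω) = b := congrArg (fun z : S => (z : Ω)) h2
  exact Subtype.ext h3

end Cfsg.Agent.Lib.Helper8
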