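import Cfsg.Agent.Lib.Helper8.DF4

set_option autoImplicit false
open Cfsg

namespace Cfsg.Agent.Lib.Helper8

variable {Ω : Type*} [Group Ω] {S : Subgroup Ω}

theorem cent_sub8 (F : FusionSystem S) {S₁ S₂ : Subgroup Ω} (R' : FusionSystem S₁)
    (hR' : ∀ P : Subgroup Ω, P ≤ S₁ → R'.Hom P = F.centralizerHom S₂ P) :
    R'.IsSubsystemOf F := by
  intro P φ hφ
  rw [hR' P (R'.le_of_mem hφ).1] at hφ
  exact hφ.1

/-- the conjugation condition of the extender passes to an extension fixing `S₂` -/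
theorem extender_sup8 (F : FusionSystem S) {S₁ S₂ : Subgroup Ω}
    (hprod : IsInternalDirectProduct S₁ S₂ S) (h₂ : F.StronglyClosed S₂) {P' : Subgroup Ω}
    (hP' : P' ≤ S₁) (φ : P' →* Ω) (φh : ↥(P' ⊔ S₂) →* Ω)
    (hφhe : ∀ x : P', φh (Subgroup.inclusion le_sup_left x) = φ x)
    (hφhS : ∀ x : S₂, φh (Subgroup.inclusion le_sup_right x) = x) :
    FusionSystem.extender S₁ P' φ ≤ FusionSystem.extender S (P' ⊔ S₂) φh := by
  unfold FusionSystem.extender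
  rw [Subgroup.closure_le]
  rintro g ⟨hg, hgn, h, hh, hgh⟩
  apply Subgroup.subset_closure
  have hgN : g ∈ Subgroup.normalizer ((P' ⊔ S₂ : Subgroup Ω) : Set Ω) := by
    rw [mem_normalizer_iff_cj, cj_sup, mem_normalizer_iff_cj.mp hgn,
      mem_normalizer_iff_cj.mp (sc_le_normalizer F h₂ (hprod.1 hg))]
  refine ⟨hprod.1 hg, hgN, h, hprod.1 hh, ?_⟩
  obtain ⟨c, hcdef⟩ : ∃ c : ↥(P' ⊔ S₂) →* ↥(P' ⊔ S₂),
      c = ((MulAut.conj g).toMonoidHom.comp (Subgroup.subtype _)).codRestrict (P' ⊔ S₂)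
        (fun x => conj_mem_of_mem_normalizer hgN x.2) := ⟨_, rfl⟩
  have hc : ∀ x : ↥(P' ⊔ S₂), ((c x : ↥(P' ⊔ S₂)) : Ω) = g * x * g⁻¹ := by
    intro x
    rw [hcdef]
    rfl
  have key : ∀ y : ↥(P' ⊔ S₂), y ∈ MonoidHom.eqLocus (φh.comp c)
      ((MulAut.conj h).toMonoidHom.comp φh) := by
    apply sup_forall8
    · intro x hx
      show φh (c _) = h * φh _ * h⁻¹
      have hx' : g * x * g⁻¹ ∈ P' := conj_mem_of_mem_normalizer hgn hx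
      have e1 : φh (c ⟨x, (le_sup_left : P' ≤ P' ⊔ S₂) hx⟩) = φ ⟨g * x * g⁻¹, hx'⟩ := by
        have e0 : c ⟨x, (le_sup_left : P' ≤ P' ⊔ S₂) hx⟩ =
            Subgroup.inclusion le_sup_left (⟨g * x * g⁻¹, hx'⟩ : P') :=
          Subtype.ext (hc _)
        rw [e0]
        exact hφhe _
      have e2 : φh ⟨x, (le_sup_left : P' ≤ P' ⊔ S₂) hx⟩ = φ ⟨x, hx⟩ := hφhe ⟨x, hx⟩
      rw [e1, e2]
      exact hgh ⟨x, hx⟩ hx'
    · intro x hx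
      show φh (c _) = h * φh _ * h⁻¹
      have hgx : g * x * g⁻¹ = x := by
        have := hprod.2.2.1 g hg x hx
        rw [this]; group
      have e0 : c ⟨x, (le_sup_right : S₂ ≤ P' ⊔ S₂) hx⟩ =
          ⟨x, (le_sup_right : S₂ ≤ P' ⊔ S₂) hx⟩ := by
        apply Subtype.ext
        rw [hc]
        exact hgx
      have e2 : φh ⟨x, (le_sup_right : S₂ ≤ P' ⊔ S₂) hx⟩ = x := hφhS ⟨x, hx⟩
      rw [e0, e2]
      have := hprod.2.2.1 h hh x hx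
      rw [this]; group
  intro x hx
  have h1 : φh (c x) = h * φh x * h⁻¹ := key x
  have h2 : c x = ⟨g * (x : Ω) * g⁻¹, hx⟩ := Subtype.ext (hc x)
  rw [h2] at h1
  exact h1

theorem cent_saturated8 [Finite S] {p : ℕ} [Fact p.Prime] (hS : IsPGroup p S)
    (F : FusionSystem S) (hF : F.IsSaturated p) {S₁ S₂ : Subgroup Ω}
    (hprod : IsInternalDirectProduct S₁ S₂ S) (h₁ : F.StronglyClosed S₁)
    (h₂ : F.StronglyClosed S₂) (R' : FusionSystem S₁)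
    (hR' : ∀ P : Subgroup Ω, P ≤ S₁ → R'.Hom P = F.centralizerHom S₂ P) :
    R'.IsSaturated p := by
  intro P hP
  have hS₁S := hprod.1
  have hS₂S := hprod.2.1
  have hcomm := hprod.2.2.1
  have hPS₂ : P ⊔ S₂ ≤ S := sup_le (hP.trans hS₁S) hS₂S
  obtain ⟨X, ⟨θ, hθ, hθr⟩, hXfn⟩ := exists_fullyNormalized_conj F hPS₂
  have hθS₂ := fs_restrict F (le_sup_right : S₂ ≤ P ⊔ S₂) hθ
  obtain ⟨β₀, hβ₀, hβ₀e⟩ := sc_extend8 hS F hF h₂ h₁
    (fun a ha b hb => (hcomm b hb a ha).symm) le_rfl hθS₂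
  have hK : S₂ ⊔ S₁ = S := by rw [sup_comm]; exact hprod.2.2.2.2
  obtain ⟨β, hβ, hββ₀⟩ := hom_cast F hK hβ₀
  have hβS : ∀ z : S, β z ∈ S := (F.le_of_mem hβ).2
  have hβr : β.range = S := by
    apply Subgroup.eq_of_le_of_card_ge (fs_range_le F hβ)
    rw [fs_card_range F hβ]
  obtain ⟨γ, hγ, hγe, hγr⟩ := fs_inv' F hβ hβr
  have hθS : ∀ y, θ y ∈ S := (F.le_of_mem hθ).2
  have hθ₀ := F.comp_mem hθ hγ hθS
  obtain ⟨θ₀, hθ₀def⟩ : ∃ θ₀ : ↥(P ⊔ S₂) →* Ω, θ₀ = γ.comp (θ.codRestrict S hθS) :=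
    ⟨_, rfl⟩
  rw [← hθ₀def] at hθ₀
  have hθ₀S₂ : ∀ (s : Ω) (hs : s ∈ S₂), θ₀ ⟨s, (le_sup_right : S₂ ≤ P ⊔ S₂) hs⟩ = s := by
    intro s hs
    rw [hθ₀def]
    show γ ⟨θ ⟨s, _⟩, _⟩ = s
    have e1 : θ ⟨s, (le_sup_right : S₂ ≤ P ⊔ S₂) hs⟩ = β ⟨s, hS₂S hs⟩ := by
      have e0 := hβ₀e ⟨s, hs⟩
      rw [hββ₀ s ((le_sup_left : S₂ ≤ S₂ ⊔ S₁) hs) (hS₂S hs)]
      exact e0.symm
    have e2 := hγe ⟨s, hS₂S hs⟩ (hβS _)
    exact (hom_congr8 γ e1 _ _).trans e2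
  have hθ₀P := fs_restrict F (le_sup_left : P ≤ P ⊔ S₂) hθ₀
  obtain ⟨Q, hQdef⟩ : ∃ Q : Subgroup Ω,
      Q = (θ₀.comp (Subgroup.inclusion (le_sup_left : P ≤ P ⊔ S₂))).range := ⟨_, rfl⟩
  have hQS₁ : Q ≤ S₁ := by
    rw [hQdef]
    rintro _ ⟨x, rfl⟩
    exact h₁.2 P hP _ hθ₀P x
  have hθ₀PR : θ₀.comp (Subgroup.inclusion le_sup_left) ∈ R'.Hom P := by
    rw [hR' P hP]
    exact cent_mem8 F hprod h₁ hP hθ₀P θ₀ hθ₀ (fun x => rfl) (fun s => hθ₀S₂ s.1 s.2)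
  have hconj : R'.IsConj P Q := ⟨_, hθ₀PR, hQdef.symm⟩
  have hX₀ : θ₀.range = Q ⊔ S₂ := range_sup8 F h₂ hQdef.symm hθ₀ (fun x => rfl)
  have hX₀conj : F.IsConj (P ⊔ S₂) (Q ⊔ S₂) := ⟨θ₀, hθ₀, hX₀⟩
  have hXconj : F.IsConj (P ⊔ S₂) X := ⟨θ, hθ, hθr⟩
  have hXX₀ : F.IsConj X (Q ⊔ S₂) := fs_isConj_trans F (fs_isConj_symm F hXconj) hX₀conj
  have hγX : (X.subgroupOf S).map γ = Q ⊔ S₂ := by
    rw [← hX₀]
    ext w
    constructor
    · rintro ⟨z, hz, rfl⟩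
      have hz' : (z : Ω) ∈ θ.range := by rw [hθr]; exact hz
      obtain ⟨y, hy⟩ := hz'
      refine ⟨y, ?_⟩
      rw [hθ₀def]
      show γ ⟨θ y, _⟩ = γ z
      exact hom_congr8 γ hy _ _
    · rintro ⟨y, rfl⟩
      rw [hθ₀def]
      refine ⟨⟨θ y, hθS y⟩, ?_, rfl⟩
      show θ y ∈ X
      rw [← hθr]
      exact ⟨y, rfl⟩
  have hcardN : Nat.card (FusionSystem.normalizerIn S X) ≤
      Nat.card (FusionSystem.normalizerIn S (Q ⊔ S₂)) := by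
    have h := norm_card8 F hγ X
    rw [hγX] at h
    exact h
  have hX₀fn : F.IsFullyNormalized (Q ⊔ S₂) :=
    ⟨sup_le (hQS₁.trans hS₁S) hS₂S,
      fun Y hY => (hXfn.2 Y (fs_isConj_trans F hXX₀ hY)).trans hcardN⟩
  obtain ⟨hX₀fc, -⟩ := sat_fn hS F hF hX₀fn
  have hX₀rec := sat_fc_receptive hS F hF hX₀fc
  have hQfn : F.IsFullyNormalized Q := by
    refine ⟨hQS₁.trans hS₁S, fun Q' hQ' => ?_⟩
    obtain ⟨φ, hφ, hφr⟩ := hQ'
    obtain ⟨φh, hφh, hφhe⟩ := sc_extend8 hS F hF h₁ h₂ hcomm hQS₁ hφ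
    have hrange : φh.range = Q' ⊔ S₂ := range_sup8 F h₂ hφr hφh hφhe
    have hc := hX₀fn.2 (Q' ⊔ S₂) ⟨φh, hφh, hrange⟩
    haveI : Finite (FusionSystem.normalizerIn S (Q' ⊔ S₂)) := finite_of_le inf_le_left
    haveI : Finite (FusionSystem.normalizerIn S Q) := finite_of_le inf_le_left
    calc Nat.card (FusionSystem.normalizerIn S Q')
        ≤ Nat.card (FusionSystem.normalizerIn S (Q' ⊔ S₂)) :=
          Subgroup.card_le_of_le (norm_sup_le8 F h₂)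
      _ ≤ Nat.card (FusionSystem.normalizerIn S (Q ⊔ S₂)) := hc
      _ ≤ Nat.card (FusionSystem.normalizerIn S Q) :=
          Subgroup.card_le_of_le (norm_sup_ge8 F hprod h₁ hQS₁)
  have hQfa := (sat_fn hS F hF hQfn).2
  have hfaR' : R'.IsFullyAutomized p Q := by
    refine ⟨hQS₁, ?_⟩
    have hsyl : SylIn p (autInducedBy S Q) (F.autGroup Q) :=
      (sylIn_iff (autInducedBy_le_autGroup F hQfa.1)).mpr hQfa.2
    have hle1 : autInducedBy S₁ Q ≤ R'.autGroup Q := autInducedBy_le_autGroup R' hQS₁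
    have hle2 : R'.autGroup Q ≤ F.autGroup Q := autGroup_mono8 R' F (cent_sub8 F R' hR') Q
    rw [← idp_autInduced8 hprod hQS₁] at hsyl
    exact (sylIn_iff hle1).mp (hsyl.mono hle1 hle2)
  have hrecR' : R'.IsReceptive Q := by
    refine ⟨hQS₁, ?_⟩
    intro P' φ hφ hφr
    have hP' : P' ≤ S₁ := (R'.le_of_mem hφ).1
    rw [hR' P' hP'] at hφ
    obtain ⟨hφF, -, -, φh, hφh, hφhe, hφhS⟩ := hφ
    have hrange : φh.range = Q ⊔ S₂ := range_sup8 F h₂ hφr hφh hφhe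
    obtain ⟨ψh, hψh, hψhe⟩ := hX₀rec.2 (P' ⊔ S₂) φh hφh hrange
    have hN := extender_sup8 F hprod h₂ hP' φ φh hφhe hφhS
    have hS₂N : S₂ ≤ FusionSystem.extender S (P' ⊔ S₂) φh :=
      le_sup_right.trans (fs_le_extender F hφh)
    have hNS₁ := extender_le_df8 S₁ P' φ
    have hNS₂ : FusionSystem.extender S₁ P' φ ⊔ S₂ ≤ FusionSystem.extender S (P' ⊔ S₂) φh :=
      sup_le hN hS₂N
    refine ⟨ψh.comp (Subgroup.inclusion hN), ?_, ?_⟩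
    · rw [hR' _ hNS₁]
      refine cent_mem8 F hprod h₁ hNS₁ (fs_restrict F hN hψh)
        (ψh.comp (Subgroup.inclusion hNS₂)) (fs_restrict F hNS₂ hψh) (fun x => rfl) ?_
      intro s
      have e1 := hψhe s.1 ((le_sup_right : S₂ ≤ P' ⊔ S₂) s.2) (hS₂N s.2)
      exact e1.trans (hφhS s)
    · intro x hx hxN
      have e1 := hψhe x ((le_sup_left : P' ≤ P' ⊔ S₂) hx) (hN hxN)
      exact e1.trans (hφhe ⟨x, hx⟩)
  exact ⟨Q, hconj, hfaR', hrecR'⟩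

theorem df_result8 [Finite S] (p : ℕ) [Fact p.Prime] (hS : IsPGroup p S)
    (F : FusionSystem S) (hF : F.IsSaturated p) (S₁ S₂ : Subgroup Ω)
    (hprod : IsInternalDirectProduct S₁ S₂ S) (h₁ : F.StronglyClosed S₁)
    (h₂ : F.StronglyClosed S₂) (R R' : FusionSystem S₁)
    (hR : ∀ P : Subgroup Ω, P ≤ S₁ → R.Hom P = F.Hom P)
    (hR' : ∀ P : Subgroup Ω, P ≤ S₁ → R'.Hom P = F.centralizerHom S₂ P) :
    R.IsSaturated p ∧ R'.IsSaturated p ∧ R'.IsNormalIn F p ∧ R'.IsNormalIn R p ∧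
      R.IsWeaklyNormalIn F p := by
  haveI : Finite S₁ := finite_of_le hprod.1
  have hS₁ : IsPGroup p S₁ := hS.to_le hprod.1
  have hRsat := full_saturated8 F hF hprod h₁ R hR
  have hR'sat := cent_saturated8 hS F hF hprod h₁ h₂ R' hR'
  have hsiF := cent_si8 hS F hF hprod h₁ h₂ R' hR'
  have hR'F := cent_sub8 F R' hR'
  have hinvF := si_invariant hS hF hR'F h₁ hsiF
  have hR'R : R'.IsSubsystemOf R := by
    intro P φ hφ
    have hP := (R'.le_of_mem hφ).1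
    rw [hR P hP]
    exact hR'F P hφ
  have hscR : R.StronglyClosed S₁ := ⟨le_rfl, fun P _ φ hφ x => (R.le_of_mem hφ).2 x⟩
  have hsiR : StrongInv R' R := by
    intro P Q hPQ hQ φ hφ hφQ ψ hψ
    rw [hR Q hQ] at hψ
    exact hsiF P Q hPQ hQ φ hφ hφQ ψ hψ
  have hinvR := si_invariant hS₁ hRsat hR'R hscR hsiR
  have hinvRF := si_invariant hS hF (full_sub8 F R hR) h₁ (full_si8 F h₁ R hR)
  exact ⟨hRsat, hR'sat, ⟨⟨hR'sat, hF, hinvF⟩, cent_ext_F8 F hprod R' hR'⟩,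
    ⟨⟨hR'sat, hRsat, hinvR⟩, cent_ext_R8 F hprod R R' hR hR'⟩, ⟨hRsat, hF, hinvRF⟩⟩

end Cfsg.Agent.Lib.Helper8
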