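import Cfsg.Agent.Lib.Helper8.GL1
import Cfsg.Agent.Lib.Helper8.Chain
import Cfsg.Agent.Lib.Helper8.Sat

set_option autoImplicit false
open Cfsg

namespace Cfsg.Agent.Lib.Helper8

/-- conjugation inside a cyclic group of order `p` by an element of `p`-power order is trivial -/
theorem conj_zpowers_fix {G : Type*} [Group G] {p : ℕ} [Fact p.Prime] {t x : G} {a : ℕ}
    (ht : t ^ p ^ a = 1) (hx : x ^ p = 1) (h : t * x * t⁻¹ ∈ Subgroup.zpowers x) :
    t * x * t⁻¹ = x := by
  have hfin : IsOfFinOrder x :=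
    isOfFinOrder_iff_pow_eq_one.mpr ⟨p, (Fact.out : p.Prime).pos, hx⟩
  rw [← hfin.mem_powers_iff_mem_zpowers] at h
  obtain ⟨k, hk⟩ := h
  have hk' : x ^ k = t * x * t⁻¹ := hk
  have hpow : ∀ n : ℕ, t ^ n * x * (t ^ n)⁻¹ = x ^ (k ^ n) := by
    intro n
    induction n with
    | zero => simp
    | succ n ih =>
      calc t ^ (n + 1) * x * (t ^ (n + 1))⁻¹ = t * (t ^ n * x * (t ^ n)⁻¹) * t⁻¹ := by
            rw [pow_succ']; group
        _ = t * x ^ (k ^ n) * t⁻¹ := by rw [ih]
        _ = (t * x * t⁻¹) ^ (k ^ n) := conj_pow.symm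
        _ = (x ^ k) ^ (k ^ n) := by rw [hk']
        _ = x ^ (k ^ (n + 1)) := by rw [← pow_mul, pow_succ']
  have h1 := hpow (p ^ a)
  rw [ht, one_mul, inv_one, mul_one] at h1
  have hmod : k ^ p ^ a ≡ k [MOD p] := by
    rw [← ZMod.natCast_eq_natCast_iff, Nat.cast_pow, ZMod.pow_card_pow]
  have h2 : x ^ (k ^ p ^ a) = x ^ k := by
    rw [pow_eq_pow_iff_modEq]
    exact hmod.of_dvd (orderOf_dvd_of_pow_eq_one hx)
  rw [← hk', ← h2, ← h1]

theorem conj_zpowers_four {G : Type*} [Group G] {t x : G} (hx : x ^ 4 = 1)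
    (h : t * x * t⁻¹ ∈ Subgroup.zpowers x) : t * x * t⁻¹ = x ∨ t * x * t⁻¹ = x⁻¹ := by
  have hfin : IsOfFinOrder x := isOfFinOrder_iff_pow_eq_one.mpr ⟨4, by norm_num, hx⟩
  rw [← hfin.mem_powers_iff_mem_zpowers] at h
  obtain ⟨k, hk⟩ := h
  have hk0 : x ^ k = t * x * t⁻¹ := hk
  obtain ⟨r, hr⟩ : ∃ r : ℕ, r = k % 4 := ⟨_, rfl⟩
  have hk' : x ^ r = t * x * t⁻¹ := by
    rw [← hk0, hr]
    exact (pow_eq_pow_mod k hx).symm
  have hlt : r < 4 := by
    rw [hr]
    exact Nat.mod_lt _ (by norm_num)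
  have hx1 : t * x * t⁻¹ = 1 → x = 1 := by
    intro h1
    have e : x = t⁻¹ * (t * x * t⁻¹) * t := by group
    rw [e, h1]
    group
  interval_cases r
  · rw [pow_zero] at hk'
    have h0 := hx1 hk'.symm
    left
    rw [h0]
    group
  · left
    rw [← hk', pow_one]
  · have h2 : (t * x * t⁻¹) ^ 2 = 1 := by
      rw [← hk', ← pow_mul]
      exact hx
    have h3 : x ^ 2 = 1 := by
      have e0 : (t * x * t⁻¹) ^ 2 = t * x ^ 2 * t⁻¹ := conj_pow
      rw [e0] at h2
      have e : x ^ 2 = t⁻¹ * (t * x ^ 2 * t⁻¹) * t := by group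
      rw [e, h2]
      group
    rw [h3] at hk'
    have h0 := hx1 hk'.symm
    left
    rw [h0]
    group
  · right
    rw [← hk']
    apply eq_inv_of_mul_eq_one_left
    rw [← pow_succ]
    exact hx

variable {Ω : Type*} [Group Ω] {S : Subgroup Ω}

/-- S5300: if every cyclic subgroup of order `p` (or `4`) of the focal subgroup is normal in `S`,
then `S` is normal in the saturated system. -/
theorem focal_cyclic_normal [Finite S] {p : ℕ} [Fact p.Prime] (hS : IsPGroup p S)
    (F : FusionSystem S) (hF : F.IsSaturated p)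
    (hnorm : ∀ x ∈ F.focalSubgroup, (x ^ p = 1 ∨ (p = 2 ∧ x ^ 4 = 1)) →
      ∀ s ∈ S, s * x * s⁻¹ ∈ Subgroup.zpowers x) :
    F.IsNormal S := by
  have hsc : F.StronglyClosed S := ⟨le_rfl, fun R hR φ hφ x => (F.le_of_mem hφ).2 x⟩
  apply normal_of_sc_of_le_cr hS F hF hsc
  intro U _ hUc hUr
  have hUS := hUc.1
  haveI : Finite U := finite_of_le hUS
  haveI : Finite (MulAut U) := finite_mulAut U
  have hUp : IsPGroup p U := hS.to_le hUS
  have hgen : ∀ β ∈ F.autGroup U, ∀ x : U,
      (x : Ω)⁻¹ * ((β x : U) : Ω) ∈ F.focalSubgroup := by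
    intro β hβ x
    apply Subgroup.subset_closure
    exact ⟨U, U.subtype.comp β.toMonoidHom, x, (mem_autGroup_iff F hUS β).mp hβ, rfl⟩
  have hfocinv : ∀ β ∈ F.autGroup U, ∀ x : U, (x : Ω) ∈ F.focalSubgroup →
      ((β x : U) : Ω) ∈ F.focalSubgroup := by
    intro β hβ x hx
    have e : ((β x : U) : Ω) = (x : Ω) * ((x : Ω)⁻¹ * ((β x : U) : Ω)) := by group
    rw [e]
    exact Subgroup.mul_mem _ hx (hgen β hβ x)
  have hsm : ∀ (β : MulAut U) (x : U), SmallElt p (x : Ω) → SmallElt p ((β x : U) : Ω) := by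
    intro β x hx
    rcases hx with h | ⟨h2, h⟩
    · left
      have h0 : x ^ p = 1 := Subtype.ext h
      rw [← Subgroup.coe_pow, ← map_pow, h0, map_one]
      rfl
    · right
      refine ⟨h2, ?_⟩
      have h0 : x ^ 4 = 1 := Subtype.ext h
      rw [← Subgroup.coe_pow, ← map_pow, h0, map_one]
      rfl
  let D : Subgroup (MulAut U) :=
    { carrier := {α | α ∈ F.autGroup U ∧ ∀ x : U, (x : Ω) ∈ F.focalSubgroup →
        SmallElt p (x : Ω) → (α x = x ∨ (p = 2 ∧ α x = x⁻¹))}
      one_mem' := ⟨Subgroup.one_mem _, fun x _ _ => Or.inl rfl⟩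
      mul_mem' := by
        rintro α β ⟨hα, hα'⟩ ⟨hβ, hβ'⟩
        refine ⟨Subgroup.mul_mem _ hα hβ, fun x hx hs => ?_⟩
        rw [MulAut.mul_apply]
        rcases hβ' x hx hs with h1 | ⟨h2, h1⟩
        · rw [h1]
          exact hα' x hx hs
        · rw [h1, map_inv]
          rcases hα' x hx hs with h3 | ⟨_, h3⟩
          · rw [h3]
            exact Or.inr ⟨h2, rfl⟩
          · rw [h3, inv_inv]
            exact Or.inl rfl
      inv_mem' := by
        rintro α ⟨hα, hα'⟩
        refine ⟨Subgroup.inv_mem _ hα, fun x hx hs => ?_⟩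
        rcases hα' x hx hs with h1 | ⟨h2, h1⟩
        · left
          calc α⁻¹ x = α⁻¹ (α x) := by rw [h1]
            _ = x := MulAut.inv_apply_self _ _ _
        · right
          refine ⟨h2, ?_⟩
          have h0 : α⁻¹ x⁻¹ = x := by
            calc α⁻¹ x⁻¹ = α⁻¹ (α x) := by rw [h1]
              _ = x := MulAut.inv_apply_self _ _ _
          rw [map_inv] at h0
          exact inv_eq_iff_eq_inv.mp h0 }
  apply le_of_normal_pgroup_aut hS F hUc hUr (le_refl S)
    (fun s hs x hx => S.mul_mem (S.mul_mem hs hx) (S.inv_mem hs)) D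
  · intro α hα
    exact hα.1
  · rintro α ⟨hα, hα'⟩ β hβ
    refine ⟨Subgroup.mul_mem _ (Subgroup.mul_mem _ hβ hα) (Subgroup.inv_mem _ hβ),
      fun x hx hs => ?_⟩
    have hβi := Subgroup.inv_mem _ hβ
    have hy := hfocinv β⁻¹ hβi x hx
    have hys := hsm β⁻¹ x hs
    show β (α (β⁻¹ x)) = x ∨ (p = 2 ∧ β (α (β⁻¹ x)) = x⁻¹)
    rcases hα' (β⁻¹ x) hy hys with h1 | ⟨h2, h1⟩
    · left
      rw [h1, MulAut.apply_inv_self]
    · right
      refine ⟨h2, ?_⟩
      rw [h1, map_inv, MulAut.apply_inv_self]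
  · apply isPGroup_of_coprime_trivial
    rintro α ⟨hα, hα'⟩ m hm hαm
    have hfix0 : ∀ x : U, (x : Ω) ∈ F.focalSubgroup → SmallElt p (x : Ω) → α x = x := by
      intro x hx hs
      rcases hα' x hx hs with h1 | ⟨h2, h1⟩
      · exact h1
      · have hodd : Odd m := by
          rw [h2] at hm
          exact Nat.Coprime.odd_of_right hm
        obtain ⟨j, hj⟩ := hodd
        have h3 : (α ^ 2) x = x := by
          rw [pow_two, MulAut.mul_apply, h1, map_inv, h1, inv_inv]
        have h4 : ∀ i : ℕ, ((α ^ 2) ^ i) x = x := by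
          intro i
          induction i with
          | zero => rfl
          | succ i ih => rw [pow_succ, MulAut.mul_apply, h3, ih]
        have h5 : (α ^ m) x = x⁻¹ := by
          rw [hj, pow_succ, MulAut.mul_apply, h1, map_inv, pow_mul, h4]
        rw [hαm, MulAut.one_apply] at h5
        rw [h1, ← h5]
    have hW : ∀ x ∈ (F.focalSubgroup).subgroupOf U, α x = x := by
      apply gl1 hUp α hm hαm ((F.focalSubgroup).subgroupOf U)
      · intro x hx
        exact hfocinv α hα x hx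
      · intro x hx hs
        apply hfix0 x hx
        rcases hs with h | ⟨h2, h⟩
        · left
          rw [← Subgroup.coe_pow, h]
          rfl
        · right
          refine ⟨h2, ?_⟩
          rw [← Subgroup.coe_pow, h]
          rfl
    apply MulEquiv.ext
    intro x
    have h1 : x⁻¹ * α x ∈ (F.focalSubgroup).subgroupOf U := hgen α hα x
    have h2 := hW _ h1
    have h3 := coprime_fix hUp α hm hαm h2
    rw [h3]
    rfl
  · intro t ht α hα
    refine ⟨autInducedBy_le_autGroup F hUS ((mem_autInducedBy_iff S U α).mpr ⟨t, ht, hα⟩),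
      fun x hx hs => ?_⟩
    have hz := hnorm x hx hs t ht
    obtain ⟨a, ha⟩ := hS ⟨t, ht⟩
    have hta : t ^ p ^ a = 1 := congrArg Subtype.val ha
    rcases hs with h | ⟨h2, h⟩
    · left
      apply Subtype.ext
      rw [hα x]
      exact conj_zpowers_fix hta h hz
    · rcases conj_zpowers_four h hz with h1 | h1
      · left
        apply Subtype.ext
        rw [hα x]
        exact h1
      · right
        refine ⟨h2, ?_⟩
        apply Subtype.ext
        rw [hα x]
        exact h1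

end Cfsg.Agent.Lib.Helper8
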