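import Cfsg.Agent.Lib.Helper8.GL1

set_option autoImplicit false

namespace Cfsg.Agent.Lib.Helper8

open scoped commutatorElement

section
variable {T : Type*} [Group T]

/-- Structure of a minimal subgroup on which a `p'`-automorphism acts nontrivially: it is
generated by the elements `x⁻¹ α(x)`, all of which have order `p` (or dividing `4`). -/
theorem gl_min {p : ℕ} [Fact p.Prime] [Finite T] (hT : IsPGroup p T) (α : MulAut T) {m : ℕ}
    (hm : m.Coprime p) (hαm : α ^ m = 1) (W : Subgroup T) (hinv : ∀ x ∈ W, α x ∈ W)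
    (hmin : ∀ W' : Subgroup T, W' ≤ W → Nat.card W' < Nat.card W → (∀ x ∈ W', α x ∈ W') →
      ∀ x ∈ W', α x = x)
    (hne : ¬ ∀ x ∈ W, α x = x) :
    (∀ x ∈ W, SmallElt p (x⁻¹ * α x)) ∧
      W = Subgroup.closure {y | ∃ x ∈ W, y = x⁻¹ * α x} := by
  have hp : p.Prime := Fact.out
  obtain ⟨K, hKdef⟩ : ∃ K : Subgroup T, K = Subgroup.closure {y | ∃ x ∈ W, y = x⁻¹ * α x} :=
    ⟨_, rfl⟩
  have hKW : K ≤ W := by
    rw [hKdef, Subgroup.closure_le]
    rintro _ ⟨x, hx, rfl⟩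
    exact W.mul_mem (W.inv_mem hx) (hinv x hx)
  have hKinv : ∀ y ∈ K, α y ∈ K := by
    intro y hy
    rw [hKdef] at hy ⊢
    induction hy using Subgroup.closure_induction with
    | mem y hy =>
      obtain ⟨x, hx, rfl⟩ := hy
      apply Subgroup.subset_closure
      refine ⟨α x, hinv x hx, ?_⟩
      rw [map_mul, map_inv]
    | one => rw [map_one]; exact Subgroup.one_mem _
    | mul a b _ _ ha hb => rw [map_mul]; exact Subgroup.mul_mem _ ha hb
    | inv a _ ha => rw [map_inv]; exact Subgroup.inv_mem _ ha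
  have hgen : ∀ x ∈ W, x⁻¹ * α x ∈ K := by
    intro x hx
    rw [hKdef]
    exact Subgroup.subset_closure ⟨x, hx, rfl⟩
  have hKeq : K = W := by
    by_contra hK
    have hlt : Nat.card K < Nat.card W := by
      by_contra hlt
      exact hK (Subgroup.eq_of_le_of_card_ge hKW (not_lt.mp hlt))
    have hKfix := hmin K hKW hlt hKinv
    apply hne
    intro x hx
    exact coprime_fix hT α hm hαm (hKfix _ (hgen x hx))
  have hbot : W ≠ ⊥ := by
    intro hbot
    apply hne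
    intro x hx
    rw [hbot, Subgroup.mem_bot] at hx
    rw [hx, map_one]
  obtain ⟨H, hHW, hHlt, hcH, hpH⟩ := exists_index_p hT W hbot
  have hW'inv : ∀ y ∈ ⁅W, W⁆, α y ∈ ⁅W, W⁆ := by
    intro y hy
    have h1 : α y ∈ (⁅W, W⁆).map α.toMonoidHom := ⟨y, hy, rfl⟩
    rw [Subgroup.map_commutator] at h1
    have h2 : W.map α.toMonoidHom ≤ W := by
      rintro _ ⟨w, hw, rfl⟩
      exact hinv w hw
    exact Subgroup.commutator_mono h2 h2 h1
  have hW'lt : Nat.card (⁅W, W⁆ : Subgroup T) < Nat.card W :=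
    lt_of_le_of_lt (Subgroup.card_le_of_le hcH) hHlt
  have hW'fix := hmin ⁅W, W⁆ (Subgroup.commutator_le_self W) hW'lt hW'inv
  have hcent : ∀ w ∈ W, ∀ y ∈ ⁅W, W⁆, Commute w y := by
    intro w hw y hy
    rw [← hKeq, hKdef] at hw
    induction hw using Subgroup.closure_induction with
    | mem w hw =>
      obtain ⟨x, hx, rfl⟩ := hw
      have hyW : y ∈ W := Subgroup.commutator_le_self W hy
      have h1 : x * y * x⁻¹ ∈ ⁅W, W⁆ := by
        have h0 : x * y * x⁻¹ = ⁅x, y⁆ * y := by rw [commutatorElement_def]; group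
        rw [h0]
        exact Subgroup.mul_mem _ (Subgroup.commutator_mem_commutator hx hyW) hy
      have h2 := hW'fix _ h1
      rw [map_mul, map_mul, map_inv, hW'fix y hy] at h2
      show (x⁻¹ * α x) * y = y * (x⁻¹ * α x)
      calc (x⁻¹ * α x) * y = x⁻¹ * (α x * y * (α x)⁻¹) * α x := by group
        _ = x⁻¹ * (x * y * x⁻¹) * α x := by rw [h2]
        _ = y * (x⁻¹ * α x) := by group
    | one => exact Commute.one_left y
    | mul a b _ _ ha hb => exact ha.mul_left hb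
    | inv a _ ha => exact ha.inv_left
  obtain ⟨M, hMdef⟩ : ∃ M : Subgroup T, M = Subgroup.closure {y | ∃ x ∈ W, y = x ^ p} :=
    ⟨_, rfl⟩
  have hMH : M ≤ H := by
    rw [hMdef, Subgroup.closure_le]
    rintro _ ⟨x, hx, rfl⟩
    exact hpH x hx
  have hMinv : ∀ y ∈ M, α y ∈ M := by
    intro y hy
    rw [hMdef] at hy ⊢
    induction hy using Subgroup.closure_induction with
    | mem y hy =>
      obtain ⟨x, hx, rfl⟩ := hy
      apply Subgroup.subset_closure
      refine ⟨α x, hinv x hx, ?_⟩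
      rw [map_pow]
    | one => rw [map_one]; exact Subgroup.one_mem _
    | mul a b _ _ ha hb => rw [map_mul]; exact Subgroup.mul_mem _ ha hb
    | inv a _ ha => rw [map_inv]; exact Subgroup.inv_mem _ ha
  have hMlt : Nat.card M < Nat.card W :=
    lt_of_le_of_lt (Subgroup.card_le_of_le hMH) hHlt
  have hMfix := hmin M (hMH.trans hHW) hMlt hMinv
  refine ⟨?_, hKeq.symm.trans hKdef⟩
  intro x hx
  have hxp : α (x ^ p) = x ^ p := by
    apply hMfix
    rw [hMdef]
    exact Subgroup.subset_closure ⟨x, hx, rfl⟩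
  obtain ⟨c, hc⟩ : ∃ c : T, c = x⁻¹ * α x := ⟨_, rfl⟩
  have hcW : c ∈ W := by
    rw [hc]
    exact W.mul_mem (W.inv_mem hx) (hinv x hx)
  obtain ⟨z, hz⟩ : ∃ z : T, z = x⁻¹ * c * x * c⁻¹ := ⟨_, rfl⟩
  have hzW' : z ∈ ⁅W, W⁆ := by
    have h0 : z = ⁅x⁻¹, c⁆ := by rw [commutatorElement_def, inv_inv, hz]
    rw [h0]
    exact Subgroup.commutator_mem_commutator (W.inv_mem hx) hcW
  have hzx : Commute z x := (hcent x hx z hzW').symm
  have hzc : Commute z c := (hcent c hcW z hzW').symm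
  have hpow := class2_pow x c z hz hzx hzc p
  have hxc : x * c = α x := by rw [hc]; group
  rw [hxc, ← map_pow, hxp] at hpow
  have hcz : c ^ p * z ^ (∑ i ∈ Finset.range p, i) = 1 := by
    have h0 : x ^ p * 1 = x ^ p * (c ^ p * z ^ (∑ i ∈ Finset.range p, i)) := by
      rw [mul_one, ← mul_assoc]; exact hpow
    exact (mul_left_cancel h0).symm
  have hcpW' : c ^ p ∈ ⁅W, W⁆ := by
    have h0 : c ^ p = (z ^ (∑ i ∈ Finset.range p, i))⁻¹ := eq_inv_of_mul_eq_one_left hcz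
    rw [h0]
    exact Subgroup.inv_mem _ (Subgroup.pow_mem _ hzW' _)
  have hzp : z ^ p = 1 := by
    rw [zpow_id x c z hz hzc p]
    have h1 : Commute x (c ^ p) := hcent x hx _ hcpW'
    calc x⁻¹ * c ^ p * x * (c ^ p)⁻¹ = x⁻¹ * (c ^ p * x) * (c ^ p)⁻¹ := by group
      _ = x⁻¹ * (x * c ^ p) * (c ^ p)⁻¹ := by rw [h1.eq]
      _ = 1 := by group
  rw [← hc]
  rcases hp.eq_two_or_odd' with h2 | hodd
  · right
    refine ⟨h2, ?_⟩
    rw [h2] at hcz hzp
    have ht : ∑ i ∈ Finset.range 2, i = 1 := by decide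
    rw [ht, pow_one] at hcz
    have h0 : c ^ 2 = z⁻¹ := eq_inv_of_mul_eq_one_left hcz
    calc c ^ 4 = (c ^ 2) ^ 2 := by rw [← pow_mul]
      _ = (z⁻¹) ^ 2 := by rw [h0]
      _ = (z ^ 2)⁻¹ := inv_pow z 2
      _ = 1 := by rw [hzp, inv_one]
  · left
    obtain ⟨j, hj⟩ := hodd
    have ht : ∑ i ∈ Finset.range p, i = p * j := by
      have h1 := Finset.sum_range_id_mul_two p
      have h2 : p - 1 = j * 2 := by omega
      rw [h2, ← mul_assoc] at h1
      exact Nat.eq_of_mul_eq_mul_right (by norm_num) h1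
    rw [ht, pow_mul, hzp, one_pow, mul_one] at hcz
    exact hcz

/-- chain version: if `x⁻¹ α(x)` drops one step down a chain of normal subgroups for every
small `x`, then the `p'`-automorphism `α` is trivial -/
theorem gl2_aux {p : ℕ} [Fact p.Prime] [Finite T] (hT : IsPGroup p T) (α : MulAut T) {m : ℕ}
    (hm : m.Coprime p) (hαm : α ^ m = 1) (C : ℕ → Subgroup T) (k : ℕ) (hk : C k = ⊥)
    (hnorm : ∀ i, (C i).Normal) :
    ∀ (n : ℕ) (W : Subgroup T), Nat.card W = n → W ≤ C 0 → (∀ x ∈ W, α x ∈ W) →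
      (∀ x ∈ W, SmallElt p x → ∀ i, x ∈ C i → x⁻¹ * α x ∈ C (i + 1)) →
      ∀ x ∈ W, α x = x := by
  intro n
  induction n using Nat.strong_induction_on with
  | _ n ih =>
  intro W hWn hW0 hinv hC
  by_contra hne
  have hmin : ∀ W' : Subgroup T, W' ≤ W → Nat.card W' < Nat.card W → (∀ x ∈ W', α x ∈ W') →
      ∀ x ∈ W', α x = x := by
    intro W' hle hlt hinv'
    exact ih _ (hWn ▸ hlt) W' rfl (hle.trans hW0) hinv' (fun x hx => hC x (hle hx))
  obtain ⟨hsmall, hgenW⟩ := gl_min hT α hm hαm W hinv hmin hne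
  have hWbot : W ≠ ⊥ := by
    intro h
    apply hne
    intro x hx
    rw [h, Subgroup.mem_bot] at hx
    rw [hx, map_one]
  have hex : ∃ j, ¬ W ≤ C j := ⟨k, by rw [hk]; intro h; exact hWbot (le_bot_iff.mp h)⟩
  classical
  obtain ⟨j, hj, hjmin⟩ : ∃ j, ¬ W ≤ C j ∧ ∀ i < j, W ≤ C i :=
    ⟨Nat.find hex, Nat.find_spec hex, fun i hi => not_not.mp (Nat.find_min hex hi)⟩
  have hj0 : j ≠ 0 := by
    intro h0
    rw [h0] at hj
    exact hj hW0
  obtain ⟨i, hi⟩ := Nat.exists_eq_succ_of_ne_zero hj0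
  rw [hi] at hj hjmin
  have hWi : W ≤ C i := hjmin i (Nat.lt_succ_self i)
  have hY : ∀ y ∈ W, y⁻¹ * α y ∈ C (i + 1) := by
    intro y hy
    rw [hgenW] at hy
    induction hy using Subgroup.closure_induction with
    | mem y hy =>
      obtain ⟨x, hx, rfl⟩ := hy
      have hcW : x⁻¹ * α x ∈ W := W.mul_mem (W.inv_mem hx) (hinv x hx)
      exact hC _ hcW (hsmall x hx) i (hWi hcW)
    | one =>
      rw [map_one, inv_one, one_mul]
      exact Subgroup.one_mem _
    | mul a b _ _ ha hb =>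
      have e : (a * b)⁻¹ * α (a * b) = b⁻¹ * (a⁻¹ * α a) * b⁻¹⁻¹ * (b⁻¹ * α b) := by
        rw [map_mul]; group
      rw [e]
      exact Subgroup.mul_mem _ ((hnorm (i + 1)).conj_mem _ ha b⁻¹) hb
    | inv a _ ha =>
      have e : a⁻¹⁻¹ * α a⁻¹ = a * (a⁻¹ * α a)⁻¹ * a⁻¹ := by
        rw [map_inv]; group
      rw [e]
      exact (hnorm (i + 1)).conj_mem _ (Subgroup.inv_mem _ ha) a
  apply hj
  intro w hw
  have hw' := hw
  rw [hgenW] at hw'
  have hcl : Subgroup.closure {y | ∃ x ∈ W, y = x⁻¹ * α x} ≤ C (i + 1) := by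
    rw [Subgroup.closure_le]
    rintro _ ⟨x, hx, rfl⟩
    exact hY x hx
  exact hcl hw'

theorem gl2 {p : ℕ} [Fact p.Prime] [Finite T] (hT : IsPGroup p T) (α : MulAut T) {m : ℕ}
    (hm : m.Coprime p) (hαm : α ^ m = 1) (C : ℕ → Subgroup T) (k : ℕ) (hk : C k = ⊥)
    (hnorm : ∀ i, (C i).Normal) (W : Subgroup T) (hW0 : W ≤ C 0) (hinv : ∀ x ∈ W, α x ∈ W)
    (hC : ∀ x ∈ W, SmallElt p x → ∀ i, x ∈ C i → x⁻¹ * α x ∈ C (i + 1)) :
    ∀ x ∈ W, α x = x :=
  gl2_aux hT α hm hαm C k hk hnorm _ W rfl hW0 hinv hC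

end

end Cfsg.Agent.Lib.Helper8
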