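import Cfsg.Agent.Lib.Helper8.GL2

set_option autoImplicit false

namespace Cfsg.Agent.Lib.Helper8

open scoped commutatorElement

section
variable {T : Type*} [Group T]

/-- the small exponent: `4` for `p = 2`, `p` otherwise -/
def smallExp (p : ℕ) : ℕ := if p = 2 then 4 else p

theorem smallElt_iff {p : ℕ} (x : T) : SmallElt p x ↔ x ^ smallExp p = 1 := by
  unfold SmallElt smallExp
  by_cases h2 : p = 2
  · rw [if_pos h2]
    constructor
    · rintro (h | ⟨-, h⟩)
      · rw [h2] at h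
        calc x ^ 4 = (x ^ 2) ^ 2 := by rw [← pow_mul]
          _ = 1 := by rw [h, one_pow]
      · exact h
    · intro h
      exact Or.inr ⟨h2, h⟩
  · rw [if_neg h2]
    constructor
    · rintro (h | ⟨h', -⟩)
      · exact h
      · exact absurd h' h2
    · intro h
      exact Or.inl h

theorem smallExp_sum {p : ℕ} (hp : p.Prime) (z : T) (hz : z ^ p = 1) :
    z ^ (∑ i ∈ Finset.range (smallExp p), i) = 1 := by
  unfold smallExp
  by_cases h2 : p = 2
  · rw [if_pos h2]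
    have ht : ∑ i ∈ Finset.range 4, i = 2 * 3 := by decide
    rw [h2] at hz
    rw [ht, pow_mul, hz, one_pow]
  · rw [if_neg h2]
    obtain ⟨j, hj⟩ := hp.eq_two_or_odd'.resolve_left h2
    have ht : ∑ i ∈ Finset.range p, i = p * j := by
      have h1 := Finset.sum_range_id_mul_two p
      have h3 : p - 1 = j * 2 := by omega
      rw [h3, ← mul_assoc] at h1
      exact Nat.eq_of_mul_eq_mul_right (by norm_num) h1
    rw [ht, pow_mul, hz, one_pow]

theorem small_mul {p : ℕ} (hp : p.Prime) {a b : T} (ha : SmallElt p a) (hb : SmallElt p b)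
    (hza : Commute (a⁻¹ * b * a * b⁻¹) a) (hzb : Commute (a⁻¹ * b * a * b⁻¹) b)
    (hbp : Commute a (b ^ p)) : SmallElt p (a * b) := by
  rw [smallElt_iff] at ha hb ⊢
  have hzp : (a⁻¹ * b * a * b⁻¹) ^ p = 1 := by
    rw [zpow_id a b _ rfl hzb p]
    calc a⁻¹ * b ^ p * a * (b ^ p)⁻¹ = a⁻¹ * (b ^ p * a) * (b ^ p)⁻¹ := by group
      _ = a⁻¹ * (a * b ^ p) * (b ^ p)⁻¹ := by rw [hbp.eq]
      _ = 1 := by group
  rw [class2_pow a b _ rfl hza hzb, ha, hb, smallExp_sum hp _ hzp, mul_one, mul_one]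

theorem small_of_fix {p : ℕ} (hp : p.Prime) (γ : MulAut T) (x : T) (hxp : γ (x ^ p) = x ^ p)
    (hzx : Commute (x⁻¹ * (x⁻¹ * γ x) * x * (x⁻¹ * γ x)⁻¹) x)
    (hzc : Commute (x⁻¹ * (x⁻¹ * γ x) * x * (x⁻¹ * γ x)⁻¹) (x⁻¹ * γ x))
    (hcp : Commute x ((x⁻¹ * γ x) ^ p)) : SmallElt p (x⁻¹ * γ x) := by
  obtain ⟨c, hc⟩ : ∃ c : T, c = x⁻¹ * γ x := ⟨_, rfl⟩
  rw [← hc] at hzx hzc hcp ⊢
  obtain ⟨z, hz⟩ : ∃ z : T, z = x⁻¹ * c * x * c⁻¹ := ⟨_, rfl⟩
  rw [← hz] at hzx hzc
  have hpow := class2_pow x c z hz hzx hzc p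
  have hxc : x * c = γ x := by rw [hc]; group
  rw [hxc, ← map_pow, hxp] at hpow
  have hcz : c ^ p * z ^ (∑ i ∈ Finset.range p, i) = 1 := by
    have h0 : x ^ p * 1 = x ^ p * (c ^ p * z ^ (∑ i ∈ Finset.range p, i)) := by
      rw [mul_one, ← mul_assoc]; exact hpow
    exact (mul_left_cancel h0).symm
  have hzp : z ^ p = 1 := by
    rw [zpow_id x c z hz hzc p]
    calc x⁻¹ * c ^ p * x * (c ^ p)⁻¹ = x⁻¹ * (c ^ p * x) * (c ^ p)⁻¹ := by group
      _ = x⁻¹ * (x * c ^ p) * (c ^ p)⁻¹ := by rw [hcp.eq]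
      _ = 1 := by group
  rcases hp.eq_two_or_odd' with h2 | hodd
  · right
    refine ⟨h2, ?_⟩
    rw [h2] at hcz hzp
    have ht : ∑ i ∈ Finset.range 2, i = 1 := by decide
    rw [ht, pow_one] at hcz
    have h0 : c ^ 2 = z⁻¹ := eq_inv_of_mul_eq_one_left hcz
    calc c ^ 4 = (c ^ 2) ^ 2 := by rw [← pow_mul]
      _ = (z⁻¹) ^ 2 := by rw [h0]
      _ = (z ^ 2)⁻¹ := inv_pow z 2
      _ = 1 := by rw [hzp, inv_one]
  · left
    obtain ⟨j, hj⟩ := hodd
    have ht : ∑ i ∈ Finset.range p, i = p * j := by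
      have h1 := Finset.sum_range_id_mul_two p
      have h2 : p - 1 = j * 2 := by omega
      rw [h2, ← mul_assoc] at h1
      exact Nat.eq_of_mul_eq_mul_right (by norm_num) h1
    rw [ht, pow_mul, hzp, one_pow, mul_one] at hcz
    exact hcz

/-- Let `A` be a group of automorphisms of the finite `p`-group `T`, `P₀ ⊆ A` a set of
automorphisms acting trivially on the factors of a chain `C` of normal subgroups, and suppose
`A` preserves the terms of the chain on small elements of the `A`-invariant subgroup `V`.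
Then the `p'`-elements of the normal closure of `P₀` in `A` act trivially on `V`. -/
theorem pclosure_fix_aux {p : ℕ} [Fact p.Prime] [Finite T] (hT : IsPGroup p T)
    (A : Subgroup (MulAut T)) (P₀ : Set (MulAut T)) (hP₀ : P₀ ⊆ A)
    (V : Subgroup T) (C : ℕ → Subgroup T) (k : ℕ) (hk : C k = ⊥) (hnorm : ∀ i, (C i).Normal)
    (hV0 : V ≤ C 0)
    (h2 : ∀ α ∈ A, ∀ x ∈ V, SmallElt p x → ∀ i, x ∈ C i → α x ∈ C i)
    (h3 : ∀ γ ∈ P₀, ∀ x ∈ V, ∀ i, x ∈ C i → x⁻¹ * γ x ∈ C (i + 1)) :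
    ∀ (n : ℕ) (M : Subgroup T), Nat.card M = n → M ≤ V → (∀ α ∈ A, ∀ x ∈ M, α x ∈ M) →
      ∀ β ∈ Subgroup.closure {δ : MulAut T | ∃ α ∈ A, ∃ γ ∈ P₀, δ = α * γ * α⁻¹},
      ∀ m : ℕ, m.Coprime p → β ^ m = 1 → ∀ x ∈ M, β x = x := by
  have hp : p.Prime := Fact.out
  obtain ⟨R, hRdef⟩ : ∃ R : Subgroup (MulAut T),
      R = Subgroup.closure {δ : MulAut T | ∃ α ∈ A, ∃ γ ∈ P₀, δ = α * γ * α⁻¹} := ⟨_, rfl⟩
  rw [← hRdef]
  have hRA : R ≤ A := by
    rw [hRdef, Subgroup.closure_le]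
    rintro _ ⟨α, hα, γ, hγ, rfl⟩
    exact A.mul_mem (A.mul_mem hα (hP₀ hγ)) (A.inv_mem hα)
  have hRn : ∀ α ∈ A, ∀ β ∈ R, α * β * α⁻¹ ∈ R := by
    intro α hα β hβ
    rw [hRdef] at hβ ⊢
    induction hβ using Subgroup.closure_induction with
    | mem δ hδ =>
      obtain ⟨α', hα', γ, hγ, rfl⟩ := hδ
      apply Subgroup.subset_closure
      refine ⟨α * α', A.mul_mem hα hα', γ, hγ, ?_⟩
      group
    | one =>
      rw [mul_one, mul_inv_cancel]
      exact Subgroup.one_mem _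
    | mul a b _ _ ha hb =>
      have e : α * (a * b) * α⁻¹ = (α * a * α⁻¹) * (α * b * α⁻¹) := by group
      rw [e]
      exact Subgroup.mul_mem _ ha hb
    | inv a _ ha =>
      have e : α * a⁻¹ * α⁻¹ = (α * a * α⁻¹)⁻¹ := by group
      rw [e]
      exact Subgroup.inv_mem _ ha
  intro n
  induction n using Nat.strong_induction_on with
  | _ n ih =>
  intro M hMn hMV hMinv
  obtain ⟨M₀, hM₀def⟩ : ∃ M₀ : Subgroup T, M₀ = Subgroup.closure
      {y | ∃ x ∈ M, ∃ γ ∈ R, ∃ m : ℕ, m.Coprime p ∧ γ ^ m = 1 ∧ y = x⁻¹ * γ x} := ⟨_, rfl⟩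
  have hM₀M : M₀ ≤ M := by
    rw [hM₀def, Subgroup.closure_le]
    rintro _ ⟨x, hx, γ, hγ, m, -, -, rfl⟩
    exact M.mul_mem (M.inv_mem hx) (hMinv γ (hRA hγ) x hx)
  have hM₀inv : ∀ α ∈ A, ∀ y ∈ M₀, α y ∈ M₀ := by
    intro α hα y hy
    rw [hM₀def] at hy ⊢
    induction hy using Subgroup.closure_induction with
    | mem y hy =>
      obtain ⟨x, hx, γ, hγ, m, hm, hγm, rfl⟩ := hy
      apply Subgroup.subset_closure
      refine ⟨α x, hMinv α hα x hx, α * γ * α⁻¹, hRn α hα γ hγ, m, hm, ?_, ?_⟩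
      · rw [conj_pow, hγm, mul_one, mul_inv_cancel]
      · rw [map_mul, map_inv, MulAut.mul_apply, MulAut.mul_apply, MulAut.inv_apply_self]
    | one => rw [map_one]; exact Subgroup.one_mem _
    | mul a b _ _ ha hb => rw [map_mul]; exact Subgroup.mul_mem _ ha hb
    | inv a _ ha => rw [map_inv]; exact Subgroup.inv_mem _ ha
  have hgen : ∀ x ∈ M, ∀ γ ∈ R, ∀ m : ℕ, m.Coprime p → γ ^ m = 1 → x⁻¹ * γ x ∈ M₀ := by
    intro x hx γ hγ m hm hγm
    rw [hM₀def]
    exact Subgroup.subset_closure ⟨x, hx, γ, hγ, m, hm, hγm, rfl⟩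
  by_cases hlt : Nat.card M₀ < Nat.card M
  · have hK := ih (Nat.card M₀) (hMn ▸ hlt) M₀ rfl (hM₀M.trans hMV) hM₀inv
    intro β hβ m hm hβm x hx
    exact coprime_fix hT β hm hβm (hK β hβ m hm hβm _ (hgen x hx β hβ m hm hβm))
  · have hMeq : M₀ = M := Subgroup.eq_of_le_of_card_ge hM₀M (not_lt.mp hlt)
    by_cases hbot : M = ⊥
    · intro β _ m _ _ x hx
      rw [hbot, Subgroup.mem_bot] at hx
      rw [hx, map_one]
    obtain ⟨H, hHM, hHlt, hcH, hpH⟩ := exists_index_p hT M hbot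
    have hM'inv : ∀ α ∈ A, ∀ y ∈ ⁅M, M⁆, α y ∈ ⁅M, M⁆ := by
      intro α hα y hy
      have h1 : α y ∈ (⁅M, M⁆).map α.toMonoidHom := ⟨y, hy, rfl⟩
      rw [Subgroup.map_commutator] at h1
      have h2' : M.map α.toMonoidHom ≤ M := by
        rintro _ ⟨w, hw, rfl⟩
        exact hMinv α hα w hw
      exact Subgroup.commutator_mono h2' h2' h1
    have hM'lt : Nat.card (⁅M, M⁆ : Subgroup T) < n := by
      rw [← hMn]
      exact lt_of_le_of_lt (Subgroup.card_le_of_le hcH) hHlt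
    have hM'fix := ih _ hM'lt ⁅M, M⁆ rfl ((Subgroup.commutator_le_self M).trans hMV) hM'inv
    obtain ⟨Mp, hMpdef⟩ : ∃ Mp : Subgroup T, Mp = Subgroup.closure {y | ∃ x ∈ M, y = x ^ p} :=
      ⟨_, rfl⟩
    have hMpH : Mp ≤ H := by
      rw [hMpdef, Subgroup.closure_le]
      rintro _ ⟨x, hx, rfl⟩
      exact hpH x hx
    have hMpM : Mp ≤ M := hMpH.trans hHM
    have hMpinv : ∀ α ∈ A, ∀ y ∈ Mp, α y ∈ Mp := by
      intro α hα y hy
      rw [hMpdef] at hy ⊢
      induction hy using Subgroup.closure_induction with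
      | mem y hy =>
        obtain ⟨x, hx, rfl⟩ := hy
        apply Subgroup.subset_closure
        refine ⟨α x, hMinv α hα x hx, ?_⟩
        rw [map_pow]
      | one => rw [map_one]; exact Subgroup.one_mem _
      | mul a b _ _ ha hb => rw [map_mul]; exact Subgroup.mul_mem _ ha hb
      | inv a _ ha => rw [map_inv]; exact Subgroup.inv_mem _ ha
    have hMplt : Nat.card Mp < n := by
      rw [← hMn]
      exact lt_of_le_of_lt (Subgroup.card_le_of_le hMpH) hHlt
    have hMpfix := ih _ hMplt Mp rfl (hMpM.trans hMV) hMpinv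
    have hMpn : ∀ x ∈ M, ∀ y ∈ Mp, x * y * x⁻¹ ∈ Mp := by
      intro x hx y hy
      rw [hMpdef] at hy ⊢
      induction hy using Subgroup.closure_induction with
      | mem y hy =>
        obtain ⟨w, hw, rfl⟩ := hy
        apply Subgroup.subset_closure
        exact ⟨x * w * x⁻¹, M.mul_mem (M.mul_mem hx hw) (M.inv_mem hx), conj_pow.symm⟩
      | one =>
        rw [mul_one, mul_inv_cancel]
        exact Subgroup.one_mem _
      | mul a b _ _ ha hb =>
        have e : x * (a * b) * x⁻¹ = (x * a * x⁻¹) * (x * b * x⁻¹) := by group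
        rw [e]
        exact Subgroup.mul_mem _ ha hb
      | inv a _ ha =>
        have e : x * a⁻¹ * x⁻¹ = (x * a * x⁻¹)⁻¹ := by group
        rw [e]
        exact Subgroup.inv_mem _ ha
    have hM'n : ∀ x ∈ M, ∀ y ∈ ⁅M, M⁆, x * y * x⁻¹ ∈ ⁅M, M⁆ := by
      intro x hx y hy
      have hyM : y ∈ M := Subgroup.commutator_le_self M hy
      have h0 : x * y * x⁻¹ = ⁅x, y⁆ * y := by rw [commutatorElement_def]; group
      rw [h0]
      exact Subgroup.mul_mem _ (Subgroup.commutator_mem_commutator hx hyM) hy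
    have hcentral : ∀ L : Subgroup T, (∀ x ∈ M, ∀ y ∈ L, x * y * x⁻¹ ∈ L) →
        (∀ β ∈ R, ∀ m : ℕ, m.Coprime p → β ^ m = 1 → ∀ y ∈ L, β y = y) →
        ∀ w ∈ M, ∀ y ∈ L, Commute w y := by
      intro L hLn hLfix w hw y hy
      rw [← hMeq, hM₀def] at hw
      induction hw using Subgroup.closure_induction with
      | mem w hw =>
        obtain ⟨x, hx, γ, hγ, m, hm, hγm, rfl⟩ := hw
        have h1 := hLn x hx y hy
        have h2' := hLfix γ hγ m hm hγm _ h1
        rw [map_mul, map_mul, map_inv, hLfix γ hγ m hm hγm y hy] at h2'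
        show (x⁻¹ * γ x) * y = y * (x⁻¹ * γ x)
        calc (x⁻¹ * γ x) * y = x⁻¹ * (γ x * y * (γ x)⁻¹) * γ x := by group
          _ = x⁻¹ * (x * y * x⁻¹) * γ x := by rw [h2']
          _ = y * (x⁻¹ * γ x) := by group
      | one => exact Commute.one_left y
      | mul a b _ _ ha hb => exact ha.mul_left hb
      | inv a _ ha => exact ha.inv_left
    have hcM' := hcentral ⁅M, M⁆ hM'n hM'fix
    have hcMp := hcentral Mp hMpn hMpfix
    have hsmall : ∀ x ∈ M, SmallElt p x := by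
      intro x hx
      rw [← hMeq, hM₀def] at hx
      induction hx using Subgroup.closure_induction with
      | mem y hy =>
        obtain ⟨x, hx, γ, hγ, m, hm, hγm, rfl⟩ := hy
        have hcM : x⁻¹ * γ x ∈ M := M.mul_mem (M.inv_mem hx) (hMinv γ (hRA hγ) x hx)
        have hzM' : x⁻¹ * (x⁻¹ * γ x) * x * (x⁻¹ * γ x)⁻¹ ∈ ⁅M, M⁆ := by
          have h0 : x⁻¹ * (x⁻¹ * γ x) * x * (x⁻¹ * γ x)⁻¹ = ⁅x⁻¹, x⁻¹ * γ x⁆ := by
            rw [commutatorElement_def, inv_inv]
          rw [h0]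
          exact Subgroup.commutator_mem_commutator (M.inv_mem hx) hcM
        apply small_of_fix hp γ x
        · apply hMpfix γ hγ m hm hγm
          rw [hMpdef]
          exact Subgroup.subset_closure ⟨x, hx, rfl⟩
        · exact (hcM' x hx _ hzM').symm
        · exact (hcM' _ hcM _ hzM').symm
        · apply hcMp x hx
          rw [hMpdef]
          exact Subgroup.subset_closure ⟨_, hcM, rfl⟩
      | one =>
        left
        exact one_pow p
      | mul a b ha' hb' ha hb =>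
        have haM : a ∈ M := hM₀M (by rw [hM₀def]; exact ha')
        have hbM : b ∈ M := hM₀M (by rw [hM₀def]; exact hb')
        have hzM' : a⁻¹ * b * a * b⁻¹ ∈ ⁅M, M⁆ := by
          have h0 : a⁻¹ * b * a * b⁻¹ = ⁅a⁻¹, b⁆ := by
            rw [commutatorElement_def, inv_inv]
          rw [h0]
          exact Subgroup.commutator_mem_commutator (M.inv_mem haM) hbM
        apply small_mul hp ha hb
        · exact (hcM' a haM _ hzM').symm
        · exact (hcM' b hbM _ hzM').symm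
        · apply hcMp a haM
          rw [hMpdef]
          exact Subgroup.subset_closure ⟨b, hbM, rfl⟩
      | inv a _ ha =>
        rcases ha with h | ⟨h2', h⟩
        · left
          rw [inv_pow, h, inv_one]
        · right
          refine ⟨h2', ?_⟩
          rw [inv_pow, h, inv_one]
    have hMC : ∀ α ∈ A, ∀ x ∈ M, ∀ i, x ∈ C i → α x ∈ C i :=
      fun α hα x hx i hxi => h2 α hα x (hMV hx) (hsmall x hx) i hxi
    have hRC : ∀ γ ∈ R, ∀ x ∈ M, ∀ i, x ∈ C i → x⁻¹ * γ x ∈ C (i + 1) := by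
      rw [hRdef]
      intro γ hγ
      induction hγ using Subgroup.closure_induction with
      | mem δ hδ =>
        obtain ⟨α, hα, c, hc, rfl⟩ := hδ
        intro x hx i hxi
        have hαi := A.inv_mem hα
        have hyM := hMinv α⁻¹ hαi x hx
        have hyC := hMC α⁻¹ hαi x hx i hxi
        have hw := h3 c hc (α⁻¹ x) (hMV hyM) i hyC
        have hwM : (α⁻¹ x)⁻¹ * c (α⁻¹ x) ∈ M :=
          M.mul_mem (M.inv_mem hyM) (hMinv c (hP₀ hc) _ hyM)
        have e : x⁻¹ * (α * c * α⁻¹) x = α ((α⁻¹ x)⁻¹ * c (α⁻¹ x)) := by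
          rw [map_mul, map_inv, MulAut.apply_inv_self, MulAut.mul_apply, MulAut.mul_apply]
        rw [e]
        exact hMC α hα _ hwM (i + 1) hw
      | one =>
        intro x hx i hxi
        rw [MulAut.one_apply, inv_mul_cancel]
        exact Subgroup.one_mem _
      | mul a b ha' hb' ha hb =>
        intro x hx i hxi
        have hbR : b ∈ R := by rw [hRdef]; exact hb'
        have hbx := hMinv b (hRA hbR) x hx
        have hbxC := hMC b (hRA hbR) x hx i hxi
        have e : x⁻¹ * (a * b) x = (x⁻¹ * b x) * ((b x)⁻¹ * a (b x)) := by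
          rw [MulAut.mul_apply]
          group
        rw [e]
        exact Subgroup.mul_mem _ (hb x hx i hxi) (ha _ hbx i hbxC)
      | inv a ha' ha =>
        intro x hx i hxi
        have haR : a ∈ R := by rw [hRdef]; exact ha'
        have hai := A.inv_mem (hRA haR)
        have hy := hMinv a⁻¹ hai x hx
        have hyC := hMC a⁻¹ hai x hx i hxi
        have h1 := ha _ hy i hyC
        rw [MulAut.apply_inv_self] at h1
        have e : x⁻¹ * a⁻¹ x = ((a⁻¹ x)⁻¹ * x)⁻¹ := by group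
        rw [e]
        exact Subgroup.inv_mem _ h1
    intro β hβ m hm hβm
    exact gl2 hT β hm hβm C k hk hnorm M (hMV.trans hV0)
      (fun x hx => hMinv β (hRA hβ) x hx) (fun x hx _ i hxi => hRC β hβ x hx i hxi)

end

end Cfsg.Agent.Lib.Helper8
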