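import Mathlib
import Cfsg.Agent.Lib.Helper8.Gagola2
import Cfsg.Agent.Lib.Helper7.Clifford

set_option autoImplicit false

namespace Cfsg.Agent.Lib.Helper8

open Cfsg.Agent.Lib.Lead

theorem gagola_cent_pgroup {G : Type*} [Group G] [Finite G] (hG : 2 < Nat.card G)
    (χ : Cfsg.IrrCharacter G)
    (hχ : Nat.card {C : ConjClasses G // ∃ g ∈ C.carrier, (χ : G → ℂ) g ≠ 0} = 2)
    (p : ℕ) [Fact p.Prime] (N : Subgroup G)
    (hN : ∀ g : G, g ∈ N ↔ (χ : G → ℂ) g ≠ 0) (hNp : IsPGroup p N)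
    (x : G) (hxN : x ∈ N) (hx1 : x ≠ 1) :
    IsPGroup p (Subgroup.centralizer ({x} : Set G)) := by
  obtain ⟨x0, hx01, hx00, hsupp⟩ := gagola_two_classes χ hχ
  obtain ⟨hne1, h1, h2⟩ := gagola_struct hG χ x0 hx01 hsupp
  have hconj : IsConj x0 x := by
    rcases hsupp x ((hN x).mp hxN) with h | h
    · exact absurd h hx1
    · exact h
  have hker : ∀ ψ : Cfsg.IrrCharacter G, ψ ≠ χ → ψ.1 x = ψ.1 1 := by
    intro ψ hψ
    rw [← isClassFunction_conj_eq (isClassFunction_of_irr ψ) hconj]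
    exact h1 ψ hψ
  obtain ⟨k, hk⟩ := hNp ⟨x, hxN⟩
  have hxk : x ^ (p ^ k) = 1 := by
    have := congrArg Subtype.val hk
    simpa using this
  have hprime : ∀ q : ℕ, q.Prime → q ∣ Nat.card (Subgroup.centralizer ({x} : Set G)) → q = p := by
    intro q hq hqd
    by_contra hqp
    haveI : Fact q.Prime := ⟨hq⟩
    obtain ⟨⟨y, hy⟩, hyo⟩ := exists_prime_orderOf_dvd_card' q hqd
    have hyo' : orderOf y = q := by
      rw [← hyo]
      exact (Subgroup.orderOf_mk y hy).symm
    have hcomm : y * x = x * y := Subgroup.mem_centralizer_singleton_iff.mp hy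
    have hyN : y ∉ N := by
      intro hyN
      obtain ⟨j, hj⟩ := hNp ⟨y, hyN⟩
      have hyj : y ^ (p ^ j) = 1 := by
        have := congrArg Subtype.val hj
        simpa using this
      have h3 : q ∣ p ^ j := by
        rw [← hyo']
        exact orderOf_dvd_of_pow_eq_one hyj
      exact hqp ((Nat.prime_dvd_prime_iff_eq hq (Fact.out : p.Prime)).mp (hq.dvd_of_dvd_pow h3))
    have hxyN : y * x ∉ N := fun h => hyN ((Subgroup.mul_mem_cancel_right N hxN).mp h)
    have hc : IsConj y (y * x) := by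
      rw [isConj_iff_irr]
      intro ψ
      by_cases hψ : ψ = χ
      · rw [hψ]
        have e1 : χ.1 y = 0 := by
          by_contra h
          exact hyN ((hN y).mpr h)
        have e2 : χ.1 (y * x) = 0 := by
          by_contra h
          exact hxyN ((hN _).mpr h)
        rw [e1, e2]
      · exact (irr_mul_ker ψ x y (hker ψ hψ)).symm
    have h6 : y ^ q = 1 := by
      rw [← hyo']
      exact pow_orderOf_eq_one _
    have h5 : (y * x) ^ q = 1 := by
      obtain ⟨c, hc'⟩ := isConj_iff.mp hc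
      rw [← hc', conj_pow, h6]
      group
    rw [(Commute.mul_pow hcomm q : (y * x) ^ q = y ^ q * x ^ q), h6, one_mul] at h5
    have h7 : orderOf x ∣ q := orderOf_dvd_of_pow_eq_one h5
    have h8 : orderOf x ∣ p ^ k := orderOf_dvd_of_pow_eq_one hxk
    rcases (Nat.dvd_prime hq).mp h7 with h | h
    · exact hx1 (orderOf_eq_one_iff.mp h)
    · rw [h] at h8
      exact hqp ((Nat.prime_dvd_prime_iff_eq hq (Fact.out : p.Prime)).mp (hq.dvd_of_dvd_pow h8))
  have hcard := Nat.eq_prime_pow_of_unique_prime_dvd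
    (Nat.card_pos (α := Subgroup.centralizer ({x} : Set G))).ne'
    (fun {d} hd hdd => hprime d hd hdd)
  exact IsPGroup.of_card hcard

theorem gagola_class_card {G : Type*} [Group G] [Finite G]
    (χ : Cfsg.IrrCharacter G)
    (hχ : Nat.card {C : ConjClasses G // ∃ g ∈ C.carrier, (χ : G → ℂ) g ≠ 0} = 2)
    (N : Subgroup G) (hN : ∀ g : G, g ∈ N ↔ (χ : G → ℂ) g ≠ 0)
    (x : G) (hxN : x ∈ N) (hx1 : x ≠ 1) :
    Nat.card {y : G // IsConj x y} + 1 = Nat.card N := by
  obtain ⟨x0, hx01, hx00, hsupp⟩ := gagola_two_classes χ hχ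
  have hconj : IsConj x0 x := by
    rcases hsupp x ((hN x).mp hxN) with h | h
    · exact absurd h hx1
    · exact h
  have hset : {y : G | IsConj x y} = (N : Set G) \ {1} := by
    ext y
    simp only [Set.mem_setOf_eq, Set.mem_diff, SetLike.mem_coe, Set.mem_singleton_iff]
    constructor
    · intro hy
      have h0 : χ.1 y ≠ 0 := by
        rw [← isClassFunction_conj_eq (isClassFunction_of_irr χ) hy]
        exact (hN x).mp hxN
      refine ⟨(hN y).mpr h0, ?_⟩
      rintro rfl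
      exact hx1 (isConj_one_left.mp hy)
    · rintro ⟨hyN, hy1⟩
      rcases hsupp y ((hN y).mp hyN) with h | h
      · exact absurd h hy1
      · exact hconj.symm.trans h
  have h1 : Nat.card {y : G // IsConj x y} = Set.ncard {y : G | IsConj x y} :=
    Nat.card_coe_set_eq _
  have h2 : Nat.card N = Set.ncard (N : Set G) := Nat.card_coe_set_eq _
  rw [h1, h2, hset]
  exact Set.ncard_diff_singleton_add_one N.one_mem (Set.toFinite _)

theorem gagola_cent_index {G : Type*} [Group G] [Finite G]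
    (χ : Cfsg.IrrCharacter G)
    (hχ : Nat.card {C : ConjClasses G // ∃ g ∈ C.carrier, (χ : G → ℂ) g ≠ 0} = 2)
    (N : Subgroup G) (hN : ∀ g : G, g ∈ N ↔ (χ : G → ℂ) g ≠ 0)
    (x : G) (hxN : x ∈ N) (hx1 : x ≠ 1) :
    (Subgroup.centralizer ({x} : Set G)).index + 1 = Nat.card N := by
  have h1 := card_conj_mul_card_centralizer x
  have h2 := Subgroup.index_mul_card (Subgroup.centralizer ({x} : Set G))
  have h3 : (Subgroup.centralizer ({x} : Set G)).index = Nat.card {y : G // IsConj x y} := by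
    have hpos : 0 < Nat.card (Subgroup.centralizer ({x} : Set G)) := Nat.card_pos
    exact Nat.eq_of_mul_eq_mul_right hpos (h2.trans h1.symm)
  rw [h3]
  exact gagola_class_card χ hχ N hN x hxN hx1

theorem pgroup_pred_not_dvd {G : Type*} [Group G] [Finite G] (p : ℕ) [Fact p.Prime]
    (N : Subgroup G) (hNp : IsPGroup p N) (hN1 : N ≠ ⊥) (m : ℕ) (hm : m + 1 = Nat.card N) :
    ¬ p ∣ m := by
  obtain ⟨k, hk⟩ := (IsPGroup.iff_card).mp hNp
  have hk0 : k ≠ 0 := by
    rintro rfl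
    rw [pow_zero] at hk
    exact hN1 (Subgroup.card_eq_one.mp hk)
  intro hd
  have h1 : p ∣ Nat.card N := by
    rw [hk]
    exact dvd_pow_self p hk0
  rw [← hm] at h1
  have h2 : p ∣ 1 := (Nat.dvd_add_right hd).mp h1
  exact (Fact.out : p.Prime).one_lt.ne' (Nat.dvd_one.mp h2)

theorem card_conjClasses_of_comm8 {A : Type*} [Group A] (h : ∀ a b : A, a * b = b * a) :
    Nat.card (ConjClasses A) = Nat.card A := by
  apply Nat.card_congr
  refine (Equiv.ofBijective ConjClasses.mk ⟨?_, ConjClasses.mk_surjective⟩).symm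
  intro a b hab
  rw [ConjClasses.mk_eq_mk_iff_isConj] at hab
  obtain ⟨c, hc⟩ := isConj_iff.mp hab
  rw [← hc, h c a, mul_inv_cancel_right]

theorem gagola_constituent {G : Type*} [Group G] [Finite G] (hG : 2 < Nat.card G)
    (χ : Cfsg.IrrCharacter G)
    (hχ : Nat.card {C : ConjClasses G // ∃ g ∈ C.carrier, (χ : G → ℂ) g ≠ 0} = 2)
    (N : Subgroup G) [Fintype N] (hN : ∀ g : G, g ∈ N ↔ (χ : G → ℂ) g ≠ 0)
    (ψ : Cfsg.IrrCharacter N) (hψ : ψ ≠ irrOne N) :
    Cfsg.classInner (fun h : N => χ.1 h) ψ.1 ≠ 0 := by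
  classical
  obtain ⟨x0, hx01, hx00, hsupp⟩ := gagola_two_classes χ hχ
  obtain ⟨hne1, h1, h2⟩ := gagola_struct hG χ x0 hx01 hsupp
  have hval : ∀ h : N, χ.1 h = χ.1 x0 + (if h = 1 then χ.1 1 - χ.1 x0 else 0) := by
    intro h
    by_cases hh : h = 1
    · rw [if_pos hh, hh]
      simp
    · rw [if_neg hh, add_zero]
      rcases hsupp h ((hN h).mp h.2) with h' | h'
      · exact absurd (Subtype.ext h') hh
      · exact (isClassFunction_conj_eq (isClassFunction_of_irr χ) h').symm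
  have hc : (Nat.card N : ℂ)⁻¹ ≠ 0 := inv_ne_zero card_ne_zero_C
  have hsum0 : ∑ h : N, (starRingEnd ℂ) (ψ.1 h) = 0 := by
    have h3 := irr_inner_ne (Ne.symm hψ)
    unfold Cfsg.classInner at h3
    have h4 := (mul_eq_zero.mp h3).resolve_left hc
    rw [← h4]
    apply Finset.sum_congr rfl
    intro h _
    show _ = (1 : ℂ) * _
    rw [one_mul]
  unfold Cfsg.classInner
  refine mul_ne_zero hc ?_
  have hs : ∑ h : N, χ.1 h * (starRingEnd ℂ) (ψ.1 h)
      = (χ.1 1 - χ.1 x0) * (starRingEnd ℂ) (ψ.1 1) := by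
    calc ∑ h : N, χ.1 h * (starRingEnd ℂ) (ψ.1 h)
        = ∑ h : N, (χ.1 x0 * (starRingEnd ℂ) (ψ.1 h)
            + (if h = 1 then (χ.1 1 - χ.1 x0) * (starRingEnd ℂ) (ψ.1 h) else 0)) := by
          apply Finset.sum_congr rfl
          intro h _
          rw [hval h]
          split_ifs <;> ring
      _ = χ.1 x0 * ∑ h : N, (starRingEnd ℂ) (ψ.1 h)
            + (χ.1 1 - χ.1 x0) * (starRingEnd ℂ) (ψ.1 1) := by
          rw [Finset.sum_add_distrib, ← Finset.mul_sum, Finset.sum_ite_eq',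
            if_pos (Finset.mem_univ _)]
      _ = _ := by rw [hsum0, mul_zero, zero_add]
  rw [hs]
  exact mul_ne_zero (sub_ne_zero.mpr (Ne.symm h2)) ((map_ne_zero _).mpr (irr_deg_ne_zero ψ))

theorem gagola_inertia {G : Type*} [Group G] [Finite G] (hG : 2 < Nat.card G)
    (χ : Cfsg.IrrCharacter G)
    (hχ : Nat.card {C : ConjClasses G // ∃ g ∈ C.carrier, (χ : G → ℂ) g ≠ 0} = 2)
    (p : ℕ) [Fact p.Prime] (N : Subgroup G) [N.Normal]
    (hN : ∀ g : G, g ∈ N ↔ (χ : G → ℂ) g ≠ 0) (hNp : IsPGroup p N) (hN1 : N ≠ ⊥)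
    (μ : Cfsg.IrrCharacter N) (hμ : (μ : N → ℂ) ≠ (fun _ => (1 : ℂ))) :
    ∃ P : Sylow p G, ∀ g : G, g ∈ (P : Subgroup G) ↔
      ∀ n n' : N, (n' : G) = g * n * g⁻¹ → (μ : N → ℂ) n' = (μ : N → ℂ) n := by
  classical
  haveI : Fintype G := Fintype.ofFinite G
  haveI : Fintype N := Fintype.ofFinite N
  letI := Cfsg.Agent.Lib.Helper7.Cliff.irrAction N
  have hsmul : ∀ (g : G) (θ : Cfsg.IrrCharacter N), (g • θ).1 = conjFun N θ.1 g⁻¹ :=
    fun g θ => rfl
  have hμ1 : μ ≠ irrOne N := by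
    intro h
    apply hμ
    rw [h]
    rfl
  have hcommN : ∀ a b : N, a * b = b * a := by
    obtain ⟨N', hN'n, hN'0, hmin, ⟨p', hp', hel⟩, hiff, htrans⟩ := gagola_minimal hG χ hχ
    have hNN' : N' = N := by
      ext g
      rw [hN g]
      exact (hiff g).symm
    subst hNN'
    intro a b
    exact hel.1.is_comm.comm a b
  have horb : ∀ ψ : Cfsg.IrrCharacter N, ψ ∈ MulAction.orbit G μ ↔ ψ ≠ irrOne N := by
    intro ψ
    constructor
    · rintro ⟨g, hg⟩ h
      apply hμ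
      have e1 : conjFun N μ.1 g⁻¹ = fun _ => 1 := by
        rw [← hsmul]
        have : g • μ = irrOne N := hg.trans h
        rw [this]
        rfl
      have e2 := conjFun_mul N μ.1 g⁻¹ g
      rw [inv_mul_cancel, conjFun_one, e1] at e2
      rw [← e2]
      rfl
    · intro h
      obtain ⟨x, hx⟩ := Cfsg.Agent.Lib.Helper7.Cliff.exists_conj_of_constituents N χ μ ψ
        (gagola_constituent hG χ hχ N hN μ hμ1) (gagola_constituent hG χ hχ N hN ψ h)
      refine ⟨x⁻¹, Subtype.ext ?_⟩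
      show conjFun N μ.1 (x⁻¹)⁻¹ = ψ.1
      rw [inv_inv, hx]
  have hcard : Nat.card (MulAction.orbit G μ) + 1 = Nat.card N := by
    have hset : MulAction.orbit G μ = (Set.univ : Set (Cfsg.IrrCharacter N)) \ {irrOne N} := by
      ext ψ
      rw [horb]
      simp
    have h1 : Nat.card (MulAction.orbit G μ) = Set.ncard (MulAction.orbit G μ) :=
      Nat.card_coe_set_eq _
    rw [h1, hset, Set.ncard_diff_singleton_add_one (Set.mem_univ _) (Set.toFinite _),
      Set.ncard_univ, card_irr]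
    exact card_conjClasses_of_comm8 hcommN
  obtain ⟨x, hxN, hx1⟩ : ∃ x ∈ N, x ≠ 1 := by
    by_contra hcon
    push Not at hcon
    exact hN1 ((Subgroup.eq_bot_iff_forall N).mpr hcon)
  have hCp := gagola_cent_pgroup hG χ hχ p N hN hNp x hxN hx1
  have hCi := gagola_cent_index χ hχ N hN x hxN hx1
  have hSi : (MulAction.stabilizer G μ).index + 1 = Nat.card N := by
    rw [← hcard]
    congr 1
    rw [Subgroup.index, Nat.card_congr (MulAction.orbitEquivQuotientStabilizer G μ)]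
  have hidx : (MulAction.stabilizer G μ).index = (Subgroup.centralizer ({x} : Set G)).index := by
    omega
  have hSc : Nat.card (MulAction.stabilizer G μ)
      = Nat.card (Subgroup.centralizer ({x} : Set G)) := by
    have e1 := Subgroup.index_mul_card (MulAction.stabilizer G μ)
    have e2 := Subgroup.index_mul_card (Subgroup.centralizer ({x} : Set G))
    rw [hidx] at e1
    have hpos : 0 < (Subgroup.centralizer ({x} : Set G)).index :=
      Nat.pos_of_ne_zero Subgroup.index_ne_zero_of_finite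
    exact Nat.eq_of_mul_eq_mul_left hpos (e1.trans e2.symm)
  obtain ⟨k, hk⟩ := (IsPGroup.iff_card).mp hCp
  have hSp : IsPGroup p (MulAction.stabilizer G μ) := IsPGroup.of_card (hSc.trans hk)
  have hSnd : ¬ p ∣ (MulAction.stabilizer G μ).index := pgroup_pred_not_dvd p N hNp hN1 _ hSi
  refine ⟨hSp.toSylow hSnd, ?_⟩
  intro g
  rw [IsPGroup.toSylow_coe, MulAction.mem_stabilizer_iff]
  constructor
  · intro hg n n' hnn'
    have e : conjFun N μ.1 g⁻¹ n' = μ.1 n' := by
      have := congrArg (fun θ : Cfsg.IrrCharacter N => θ.1 n') hg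
      exact this
    rw [← e, conjFun_apply]
    refine congrArg μ.1 (Subtype.ext ?_)
    show g⁻¹ * (n' : G) * g⁻¹⁻¹ = n
    rw [hnn']
    group
  · intro h
    apply Subtype.ext
    funext m
    show conjFun N μ.1 g⁻¹ m = μ.1 m
    rw [conjFun_apply]
    exact (h _ m (by show (m : G) = g * (g⁻¹ * (m : G) * g⁻¹⁻¹) * g⁻¹; group)).symm

theorem gagola_sylow {G : Type*} [Group G] [Finite G] (hG : 2 < Nat.card G)
    (χ : Cfsg.IrrCharacter G)
    (hχ : Nat.card {C : ConjClasses G // ∃ g ∈ C.carrier, (χ : G → ℂ) g ≠ 0} = 2)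
    (p : ℕ) [Fact p.Prime] (N : Subgroup G) [N.Normal]
    (hN : ∀ g : G, g ∈ N ↔ (χ : G → ℂ) g ≠ 0) (hNp : IsPGroup p N) (hN1 : N ≠ ⊥) :
    (∀ x ∈ N, x ≠ 1 → ∃ P : Sylow p G, Subgroup.centralizer ({x} : Set G) = P) ∧
      (∀ μ : Cfsg.IrrCharacter N, (μ : N → ℂ) ≠ (fun _ => (1 : ℂ)) →
        ∃ P : Sylow p G, ∀ g : G, g ∈ (P : Subgroup G) ↔
          ∀ n n' : N, (n' : G) = g * n * g⁻¹ → (μ : N → ℂ) n' = (μ : N → ℂ) n) := by
  refine ⟨fun x hxN hx1 => ?_, fun μ hμ => gagola_inertia hG χ hχ p N hN hNp hN1 μ hμ⟩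
  have hCp := gagola_cent_pgroup hG χ hχ p N hN hNp x hxN hx1
  have hCi := gagola_cent_index χ hχ N hN x hxN hx1
  exact ⟨hCp.toSylow (pgroup_pred_not_dvd p N hNp hN1 _ hCi), (IsPGroup.toSylow_coe _ _).symm⟩

end Cfsg.Agent.Lib.Helper8
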