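import Mathlib
import Cfsg.Agent.Lib.Helper8.Gagola3

set_option autoImplicit false

namespace Cfsg.Agent.Lib.Helper8

open Cfsg.Agent.Lib.Lead

theorem gagola_coset_conj {G : Type*} [Group G] [Finite G] (hG : 2 < Nat.card G)
    (χ : Cfsg.IrrCharacter G)
    (hχ : Nat.card {C : ConjClasses G // ∃ g ∈ C.carrier, (χ : G → ℂ) g ≠ 0} = 2)
    (N : Subgroup G) (hN : ∀ g : G, g ∈ N ↔ (χ : G → ℂ) g ≠ 0)
    (k n : G) (hk : k ∉ N) (hn : n ∈ N) : IsConj k (k * n) := by
  obtain ⟨x0, hx01, hx00, hsupp⟩ := gagola_two_classes χ hχ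
  obtain ⟨hne1, h1, h2⟩ := gagola_struct hG χ x0 hx01 hsupp
  have hker : ∀ ψ : Cfsg.IrrCharacter G, ψ ≠ χ → ψ.1 n = ψ.1 1 := by
    intro ψ hψ
    rcases hsupp n ((hN n).mp hn) with h | h
    · rw [h]
    · rw [← isClassFunction_conj_eq (isClassFunction_of_irr ψ) h]
      exact h1 ψ hψ
  rw [isConj_iff_irr]
  intro ψ
  by_cases hψ : ψ = χ
  · rw [hψ]
    have e1 : χ.1 k = 0 := by
      by_contra h
      exact hk ((hN k).mpr h)
    have e2 : χ.1 (k * n) = 0 := by
      by_contra h
      exact hk ((Subgroup.mul_mem_cancel_right N hn).mp ((hN _).mpr h))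
    rw [e1, e2]
  · exact (irr_mul_ker ψ n k (hker ψ hψ)).symm

theorem gagola_cent_quot {G : Type*} [Group G] [Finite G] (hG : 2 < Nat.card G)
    (χ : Cfsg.IrrCharacter G)
    (hχ : Nat.card {C : ConjClasses G // ∃ g ∈ C.carrier, (χ : G → ℂ) g ≠ 0} = 2)
    (N : Subgroup G) [N.Normal] (hN : ∀ g : G, g ∈ N ↔ (χ : G → ℂ) g ≠ 0)
    (x : G) (hx : x ∉ N) :
    Nat.card (Subgroup.centralizer ({x} : Set G))
      = Nat.card (Subgroup.centralizer ({(x : G ⧸ N)} : Set (G ⧸ N))) := by
  have hset : {y : G | IsConj x y}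
      = (QuotientGroup.mk : G → G ⧸ N) ⁻¹' {z : G ⧸ N | IsConj (x : G ⧸ N) z} := by
    ext y
    simp only [Set.mem_setOf_eq, Set.mem_preimage]
    constructor
    · intro h
      exact (QuotientGroup.mk' N).map_isConj h
    · intro h
      obtain ⟨c, hc⟩ := isConj_iff.mp h
      obtain ⟨c, rfl⟩ := QuotientGroup.mk_surjective c
      have h1 : (c * x * c⁻¹)⁻¹ * y ∈ N := by
        rw [← QuotientGroup.eq]
        exact hc
      have h2 : c * x * c⁻¹ ∉ N := by
        intro h3
        apply hx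
        have := Subgroup.Normal.conj_mem inferInstance _ h3 c⁻¹
        simpa [mul_assoc] using this
      have h3 := gagola_coset_conj hG χ hχ N hN (c * x * c⁻¹) _ h2 h1
      rw [mul_inv_cancel_left] at h3
      exact (isConj_iff.mpr ⟨c, rfl⟩).trans h3
  have h1 := card_conj_mul_card_centralizer x
  have h2 := card_conj_mul_card_centralizer (x : G ⧸ N)
  have h3 : Nat.card {y : G // IsConj x y}
      = Nat.card N * Nat.card {z : G ⧸ N // IsConj (x : G ⧸ N) z} := by
    have := QuotientGroup.card_preimage_mk N {z : G ⧸ N | IsConj (x : G ⧸ N) z}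
    rw [← hset] at this
    exact this
  have h4 := Subgroup.card_eq_card_quotient_mul_card_subgroup N
  rw [h3, h4, ← h2] at h1
  have hpos : 0 < Nat.card N * Nat.card {z : G ⧸ N // IsConj (x : G ⧸ N) z} := by
    apply Nat.mul_pos Nat.card_pos
    haveI : Nonempty {z : G ⧸ N // IsConj (x : G ⧸ N) z} := ⟨⟨_, IsConj.refl _⟩⟩
    exact Nat.card_pos
  apply Nat.eq_of_mul_eq_mul_left hpos
  rw [h1]
  ring

theorem gagola_key {G : Type*} [Group G] [Finite G] (hG : 2 < Nat.card G)
    (χ : Cfsg.IrrCharacter G)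
    (hχ : Nat.card {C : ConjClasses G // ∃ g ∈ C.carrier, (χ : G → ℂ) g ≠ 0} = 2)
    (p : ℕ) [Fact p.Prime] (N : Subgroup G) [N.Normal]
    (hN : ∀ g : G, g ∈ N ↔ (χ : G → ℂ) g ≠ 0) (hNp : IsPGroup p N) (P : Sylow p G)
    (x : ↥(P : Subgroup G)) (hx : (x : G) ∉ N) :
    Nat.card (Subgroup.centralizer ({x} : Set ↥(P : Subgroup G))) * Nat.card N
      ∣ Nat.card (P : Subgroup G) := by
  have h1 : Nat.card (Subgroup.centralizer ({x} : Set ↥(P : Subgroup G)))
      ∣ Nat.card (Subgroup.centralizer ({(x : G)} : Set G)) := by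
    have hle : (Subgroup.centralizer ({x} : Set ↥(P : Subgroup G))).map (P : Subgroup G).subtype
        ≤ Subgroup.centralizer ({(x : G)} : Set G) := by
      rintro _ ⟨y, hy, rfl⟩
      rw [SetLike.mem_coe, Subgroup.mem_centralizer_singleton_iff] at hy
      rw [Subgroup.mem_centralizer_singleton_iff]
      exact congrArg Subtype.val hy
    have := Subgroup.card_dvd_of_le hle
    rwa [Subgroup.card_map_of_injective (Subgroup.subtype_injective _)] at this
  rw [gagola_cent_quot hG χ hχ N hN x hx] at h1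
  have h3 := h1.trans (Subgroup.card_subgroup_dvd_card _)
  obtain ⟨c, hc⟩ := (IsPGroup.iff_card).mp
    (P.isPGroup'.to_subgroup (Subgroup.centralizer ({x} : Set ↥(P : Subgroup G))))
  obtain ⟨n, hn⟩ := (IsPGroup.iff_card).mp hNp
  obtain ⟨a, ha⟩ := (IsPGroup.iff_card).mp P.isPGroup'
  have h4 := Subgroup.card_eq_card_quotient_mul_card_subgroup N
  have h5 := Subgroup.index_mul_card (P : Subgroup G)
  have h6 : ¬ p ∣ (P : Subgroup G).index := P.not_dvd_index
  rw [hc] at h3
  have h7 : p ^ c * Nat.card N ∣ (P : Subgroup G).index * Nat.card (P : Subgroup G) := by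
    rw [h5, h4]
    exact Nat.mul_dvd_mul_right h3 _
  rw [hc]
  rw [hn, ha] at h7 ⊢
  have hcop : (p ^ c * p ^ n).Coprime (P : Subgroup G).index := by
    rw [← pow_add]
    exact Nat.Coprime.pow_left _ ((Nat.Prime.coprime_iff_not_dvd Fact.out).mpr h6)
  exact hcop.dvd_of_dvd_mul_left h7

theorem gagola_center_le {G : Type*} [Group G] [Finite G] (hG : 2 < Nat.card G)
    (χ : Cfsg.IrrCharacter G)
    (hχ : Nat.card {C : ConjClasses G // ∃ g ∈ C.carrier, (χ : G → ℂ) g ≠ 0} = 2)
    (p : ℕ) [Fact p.Prime] (N : Subgroup G) [N.Normal]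
    (hN : ∀ g : G, g ∈ N ↔ (χ : G → ℂ) g ≠ 0) (hNp : IsPGroup p N) (hN1 : N ≠ ⊥)
    (P : Sylow p G) :
    (Subgroup.center ↥(P : Subgroup G)).map (P : Subgroup G).subtype ≤ N := by
  rintro _ ⟨z, hz, rfl⟩
  by_contra hzN
  have hK := gagola_key hG χ hχ p N hN hNp P z hzN
  have hC : Subgroup.centralizer ({z} : Set ↥(P : Subgroup G)) = ⊤ := by
    rw [eq_top_iff]
    intro y _
    rw [Subgroup.mem_centralizer_singleton_iff]
    exact (Subgroup.mem_center_iff.mp hz y)
  rw [hC, Subgroup.card_top] at hK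
  have hpos : 0 < Nat.card (P : Subgroup G) := Nat.card_pos
  have h1 : Nat.card N ∣ 1 := by
    have h2 : Nat.card (P : Subgroup G) * Nat.card N ∣ Nat.card (P : Subgroup G) * 1 := by
      rwa [mul_one]
    exact Nat.dvd_of_mul_dvd_mul_left hpos h2
  exact hN1 (Subgroup.card_eq_one.mp (Nat.dvd_one.mp h1))

theorem gagola_center_eq_iff {G : Type*} [Group G] [Finite G] (hG : 2 < Nat.card G)
    (χ : Cfsg.IrrCharacter G)
    (hχ : Nat.card {C : ConjClasses G // ∃ g ∈ C.carrier, (χ : G → ℂ) g ≠ 0} = 2)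
    (p : ℕ) [Fact p.Prime] (N : Subgroup G) [N.Normal]
    (hN : ∀ g : G, g ∈ N ↔ (χ : G → ℂ) g ≠ 0) (hNp : IsPGroup p N) (hN1 : N ≠ ⊥)
    (P : Sylow p G) :
    (Subgroup.center ↥(P : Subgroup G)).map (P : Subgroup G).subtype = N
      ↔ (P : Subgroup G).Normal := by
  have hNP : N ≤ P := hNp.le_sylow_of_normal P
  have hS := (gagola_sylow hG χ hχ p N hN hNp hN1).1
  constructor
  · intro hZ
    have hCP : ∀ x ∈ N, x ≠ 1 → Subgroup.centralizer ({x} : Set G) = (P : Subgroup G) := by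
      intro x hxN hx1
      obtain ⟨Q, hQ⟩ := hS x hxN hx1
      have hle : (P : Subgroup G) ≤ Q := by
        rw [← hQ]
        intro y hy
        rw [Subgroup.mem_centralizer_singleton_iff]
        rw [← hZ] at hxN
        obtain ⟨z, hz, rfl⟩ := hxN
        have := Subgroup.mem_center_iff.mp hz ⟨y, hy⟩
        exact congrArg Subtype.val this
      rw [hQ]
      exact P.is_maximal' Q.isPGroup' hle
    obtain ⟨x, hxN, hx1⟩ : ∃ x ∈ N, x ≠ 1 := by
      by_contra hcon
      push Not at hcon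
      exact hN1 ((Subgroup.eq_bot_iff_forall N).mpr hcon)
    refine ⟨fun n hn g => ?_⟩
    have hx' : g * x * g⁻¹ ∈ N := Subgroup.Normal.conj_mem inferInstance x hxN g
    have hx'1 : g * x * g⁻¹ ≠ 1 := by
      intro h
      apply hx1
      have e : x = g⁻¹ * (g * x * g⁻¹) * g := by group
      rw [e, h]
      group
    rw [← hCP _ hx' hx'1, Subgroup.mem_centralizer_singleton_iff]
    have hnx : n * x = x * n := by
      have : n ∈ Subgroup.centralizer ({x} : Set G) := by
        rw [hCP x hxN hx1]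
        exact hn
      exact Subgroup.mem_centralizer_singleton_iff.mp this
    calc g * n * g⁻¹ * (g * x * g⁻¹) = g * (n * x) * g⁻¹ := by group
      _ = g * (x * n) * g⁻¹ := by rw [hnx]
      _ = g * x * g⁻¹ * (g * n * g⁻¹) := by group
  · intro hPn
    apply le_antisymm (gagola_center_le hG χ hχ p N hN hNp hN1 P)
    intro n hn
    refine ⟨⟨n, hNP hn⟩, ?_, rfl⟩
    rw [SetLike.mem_coe, Subgroup.mem_center_iff]
    intro y
    apply Subtype.ext
    show (y : G) * n = n * y
    by_cases hn1 : n = 1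
    · rw [hn1, mul_one, one_mul]
    · obtain ⟨Q, hQ⟩ := hS n hn hn1
      have hQP : Q = P := by
        haveI := hPn
        obtain ⟨g, hg⟩ := MulAction.exists_smul_eq G P Q
        rw [← hg]
        exact Sylow.smul_eq_of_normal
      have : (y : G) ∈ Subgroup.centralizer ({n} : Set G) := by
        rw [hQ, hQP]
        exact y.2
      exact Subgroup.mem_centralizer_singleton_iff.mp this

theorem gagola_upper {G : Type*} [Group G] [Finite G] (hG : 2 < Nat.card G)
    (χ : Cfsg.IrrCharacter G)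
    (hχ : Nat.card {C : ConjClasses G // ∃ g ∈ C.carrier, (χ : G → ℂ) g ≠ 0} = 2)
    (p : ℕ) [Fact p.Prime] (N : Subgroup G) [N.Normal]
    (hN : ∀ g : G, g ∈ N ↔ (χ : G → ℂ) g ≠ 0) (hNp : IsPGroup p N)
    (P : Sylow p G) :
    ∃ i : ℕ, Subgroup.upperCentralSeries ↥(P : Subgroup G) i = N.subgroupOf (P : Subgroup G) := by
  classical
  have hNP : N ≤ P := hNp.le_sylow_of_normal P
  haveI : Group.IsNilpotent ↥(P : Subgroup G) := P.isPGroup'.isNilpotent
  obtain ⟨c, hc⟩ := Group.IsNilpotent.nilpotent' (G := ↥(P : Subgroup G))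
  by_cases hall : ∀ i, Subgroup.upperCentralSeries ↥(P : Subgroup G) i
      ≤ N.subgroupOf (P : Subgroup G)
  · refine ⟨c, le_antisymm (hall c) ?_⟩
    rw [hc]
    exact le_top
  · push Not at hall
    have hfind := Nat.find_spec hall
    have hmin := fun m => Nat.find_min hall (m := m)
    obtain ⟨i, hi⟩ : ∃ i, i = Nat.find hall := ⟨_, rfl⟩
    rw [← hi] at hfind hmin
    have hi0 : i ≠ 0 := by
      rintro rfl
      rw [Subgroup.upperCentralSeries_zero] at hfind
      exact hfind bot_le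
    obtain ⟨j, rfl⟩ := Nat.exists_eq_succ_of_ne_zero hi0
    have hj : Subgroup.upperCentralSeries ↥(P : Subgroup G) j
        ≤ N.subgroupOf (P : Subgroup G) := by
      by_contra h
      exact hmin j (Nat.lt_succ_self j) h
    obtain ⟨x, hxZ, hxN⟩ := SetLike.not_le_iff_exists.mp hfind
    refine ⟨j, ?_⟩
    have hxN' : (x : G) ∉ N := fun h => hxN (Subgroup.mem_subgroupOf.mpr h)
    have hK := gagola_key hG χ hχ p N hN hNp P x hxN'
    have hcl := card_conj_mul_card_centralizer x
    have hinj : Nat.card {y : ↥(P : Subgroup G) // IsConj x y}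
        ≤ Nat.card (Subgroup.upperCentralSeries ↥(P : Subgroup G) j) := by
      have hmem : ∀ y : {y : ↥(P : Subgroup G) // IsConj x y},
          y.1 * x⁻¹ ∈ Subgroup.upperCentralSeries ↥(P : Subgroup G) j := by
        rintro ⟨y, hy⟩
        obtain ⟨c', hc'⟩ := isConj_iff.mp hy
        have h1 := (Subgroup.mem_upperCentralSeries_succ_iff.mp hxZ) c'
        rw [commutatorElement_def] at h1
        have h2 := Subgroup.inv_mem _ h1
        have e : (x * c' * x⁻¹ * c'⁻¹)⁻¹ = c' * x * c'⁻¹ * x⁻¹ := by group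
        rw [e, hc'] at h2
        exact h2
      apply Nat.card_le_card_of_injective (fun y =>
        (⟨y.1 * x⁻¹, hmem y⟩ : Subgroup.upperCentralSeries ↥(P : Subgroup G) j))
      intro y y' h
      have h1 := congrArg Subtype.val h
      simp only at h1
      exact Subtype.ext (mul_right_cancel h1)
    have hcardN : Nat.card (N.subgroupOf (P : Subgroup G)) = Nat.card N :=
      Nat.card_congr (Subgroup.subgroupOfEquivOfLe hNP).toEquiv
    apply Subgroup.eq_of_le_of_card_ge hj
    rw [hcardN]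
    have hCpos : 0 < Nat.card (Subgroup.centralizer ({x} : Set ↥(P : Subgroup G))) :=
      Nat.card_pos
    have h1 : Nat.card (Subgroup.centralizer ({x} : Set ↥(P : Subgroup G))) * Nat.card N
        ≤ Nat.card (P : Subgroup G) := Nat.le_of_dvd Nat.card_pos hK
    rw [← hcl] at h1
    have h2 : Nat.card (Subgroup.centralizer ({x} : Set ↥(P : Subgroup G))) * Nat.card N
        ≤ Nat.card (Subgroup.centralizer ({x} : Set ↥(P : Subgroup G)))
          * Nat.card (Subgroup.upperCentralSeries ↥(P : Subgroup G) j) := by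
      calc _ ≤ Nat.card {y : ↥(P : Subgroup G) // IsConj x y}
              * Nat.card (Subgroup.centralizer ({x} : Set ↥(P : Subgroup G))) := h1
        _ ≤ Nat.card (Subgroup.upperCentralSeries ↥(P : Subgroup G) j)
              * Nat.card (Subgroup.centralizer ({x} : Set ↥(P : Subgroup G))) :=
            Nat.mul_le_mul_right _ hinj
        _ = _ := mul_comm _ _
    exact Nat.le_of_mul_le_mul_left h2 hCpos

theorem gagola_s4838 {G : Type*} [Group G] [Finite G] (hG : 2 < Nat.card G)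
    (χ : Cfsg.IrrCharacter G)
    (hχ : Nat.card {C : ConjClasses G // ∃ g ∈ C.carrier, (χ : G → ℂ) g ≠ 0} = 2)
    (p : ℕ) [Fact p.Prime] (N : Subgroup G) [N.Normal]
    (hN : ∀ g : G, g ∈ N ↔ (χ : G → ℂ) g ≠ 0) (hNp : IsPGroup p N) (hN1 : N ≠ ⊥)
    (P : Sylow p G) :
    (∀ x : G, x ∉ N → Nat.card (Subgroup.centralizer ({x} : Set G))
        = Nat.card (Subgroup.centralizer ({(x : G ⧸ N)} : Set (G ⧸ N)))) ∧
      ((Subgroup.center ↥(P : Subgroup G)).map (P : Subgroup G).subtype ≤ N ∧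
        ((Subgroup.center ↥(P : Subgroup G)).map (P : Subgroup G).subtype = N
          ↔ (P : Subgroup G).Normal)) ∧
      (∃ i : ℕ, Subgroup.upperCentralSeries ↥(P : Subgroup G) i
        = N.subgroupOf (P : Subgroup G)) :=
  ⟨fun x hx => gagola_cent_quot hG χ hχ N hN x hx,
    ⟨gagola_center_le hG χ hχ p N hN hNp hN1 P, gagola_center_eq_iff hG χ hχ p N hN hNp hN1 P⟩,
    gagola_upper hG χ hχ p N hN hNp P⟩

end Cfsg.Agent.Lib.Helper8
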