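import Cfsg.Agent.Lib.Helper8.Abel
import Cfsg.Agent.Lib.Helper8.Alp

set_option autoImplicit false
open Cfsg

namespace Cfsg.Agent.Lib.Helper8

/-- `x` has order at most 2 and is a `2^j`-th power. -/
def PO (A : Type*) [CommGroup A] (j : ℕ) (x : A) : Prop := x ^ 2 = 1 ∧ ∃ y : A, x = y ^ (2 ^ j)

section abstract

variable {A : Type*} [CommGroup A]

theorem PO_map (α : MulAut A) {j : ℕ} {x : A} (h : PO A j x) : PO A j (α x) := by
  obtain ⟨h1, y, rfl⟩ := h
  refine ⟨?_, α y, map_pow α y _⟩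
  rw [← map_pow, h1, map_one]

theorem odd_fix {α : MulAut A} {m : ℕ} (hm : Odd m) (hα : α ^ m = 1) {x : A}
    (h : α (α x) = x) : α x = x := by
  obtain ⟨k, rfl⟩ := hm
  have h1 : ∀ k : ℕ, (α ^ (2 * k)) x = x := by
    intro k
    induction k with
    | zero => simp
    | succ k ih =>
      have e : 2 * (k + 1) = 2 * k + 1 + 1 := by ring
      rw [e, pow_succ, pow_succ, mul_assoc, MulAut.mul_apply, MulAut.mul_apply, h, ih]
  have h2 : (α ^ (2 * k + 1)) x = α x := by
    rw [pow_succ', MulAut.mul_apply, h1]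
  rw [hα] at h2
  exact h2.symm

theorem odd_aut_trivial (J K : ℕ) (hI : ∀ x : A, PO A J x → x = 1)
    (hII : ∀ (j : ℕ) (x x' : A), PO A j x → PO A j x' → ¬ PO A (j + 1) x → ¬ PO A (j + 1) x' →
      PO A (j + 1) (x * x'))
    (hIII : ∀ y : A, y ^ (2 ^ K) = 1) (α : MulAut A) (m : ℕ) (hm : Odd m) (hα : α ^ m = 1) :
    α = 1 := by
  have step1 : ∀ d j : ℕ, j + d = J → ∀ x : A, PO A j x → α x = x := by
    intro d
    induction d with
    | zero =>
      intro j hj x hx
      have e : j = J := by omega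
      subst e
      rw [hI x hx, map_one]
    | succ d ih =>
      intro j hj x hx
      have ih' := ih (j + 1) (by omega)
      by_cases h1 : PO A (j + 1) x
      · exact ih' x h1
      · have h2 : ¬ PO A (j + 1) (α x) := by
          intro h3
          have h4 := PO_map α⁻¹ h3
          rw [MulAut.inv_apply_self] at h4
          exact h1 h4
        have h5 := hII j x (α x) hx (PO_map α hx) h1 h2
        have h6 := ih' _ h5
        rw [map_mul] at h6
        have h7 : α (α x) = x := by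
          have e : α x * α (α x) = α x * x := by rw [h6, mul_comm]
          exact mul_left_cancel e
        exact odd_fix hm hα h7
  have step2 : ∀ x : A, x ^ 2 = 1 → α x = x := by
    intro x hx
    exact step1 J 0 (by omega) x ⟨hx, x, by simp⟩
  have step3 : ∀ k : ℕ, ∀ x : A, (x⁻¹ * α x) ^ (2 ^ k) = 1 → α x = x := by
    intro k
    induction k with
    | zero =>
      intro x hx
      rw [pow_zero, pow_one] at hx
      exact (inv_mul_eq_one.mp hx).symm
    | succ k ih =>
      intro x hx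
      apply ih
      have hz2 : ((x⁻¹ * α x) ^ (2 ^ k)) ^ 2 = 1 := by
        rw [← pow_mul, ← pow_succ]
        exact hx
      have hz := step2 _ hz2
      have hx' : α (x ^ (2 ^ k)) = x ^ (2 ^ k) * (x⁻¹ * α x) ^ (2 ^ k) := by
        rw [mul_pow, inv_pow, map_pow]
        exact (mul_inv_cancel_left _ _).symm
      have h7 : α (α (x ^ (2 ^ k))) = x ^ (2 ^ k) := by
        rw [hx', map_mul, hz, hx', mul_assoc, ← pow_two, hz2, mul_one]
      have h8 := odd_fix hm hα h7
      rw [hx'] at h8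
      exact mul_left_cancel (h8.trans (mul_one _).symm)
  ext x
  exact step3 K x (hIII _)

end abstract

theorem PO_mult_iff {B : Type*} [AddCommGroup B] (j : ℕ) (x : Multiplicative B) :
    PO (Multiplicative B) j x ↔
      (2 • Multiplicative.toAdd x = 0 ∧ ∃ y : B, Multiplicative.toAdd x = (2 ^ j) • y) := by
  constructor
  · rintro ⟨h1, y, h2⟩
    exact ⟨h1, Multiplicative.toAdd y, h2⟩
  · rintro ⟨h1, y, h2⟩
    exact ⟨h1, Multiplicative.ofAdd y, h2⟩

theorem zmod_two_torsion {k : ℕ} (hk : 1 ≤ k) (c : ZMod (2 ^ k)) (h : 2 • c = 0) :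
    c = 0 ∨ c = ((2 ^ (k - 1) : ℕ) : ZMod (2 ^ k)) := by
  have h1 : ((2 * c.val : ℕ) : ZMod (2 ^ k)) = 0 := by
    rw [Nat.cast_mul, ZMod.natCast_zmod_val, ← nsmul_eq_mul]
    exact h
  rw [ZMod.natCast_eq_zero_iff] at h1
  obtain ⟨k', rfl⟩ : ∃ k', k = k' + 1 := ⟨k - 1, by omega⟩
  have h3 : c.val < 2 ^ (k' + 1) := ZMod.val_lt c
  have h6 : c = ((c.val : ℕ) : ZMod (2 ^ (k' + 1))) := (ZMod.natCast_zmod_val c).symm
  generalize c.val = v at h1 h3 h6
  have e2 : 2 ^ (k' + 1) = 2 * 2 ^ k' := by rw [pow_succ, mul_comm]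
  rw [e2] at h1 h3
  have h2 : 2 ^ k' ∣ v := (Nat.mul_dvd_mul_iff_left (by norm_num : 0 < 2)).mp h1
  obtain ⟨t, ht⟩ := h2
  have h4 : t < 2 := by
    by_contra hcon
    push Not at hcon
    have h5 : 2 ^ k' * 2 ≤ 2 ^ k' * t := Nat.mul_le_mul_left _ hcon
    omega
  interval_cases t
  · left
    rw [h6, ht]
    simp
  · right
    rw [h6, ht]
    simp

theorem zmod_pow_smul_zero {k j : ℕ} (h : k ≤ j) (c : ZMod (2 ^ k)) : (2 ^ j) • c = 0 := by
  rw [nsmul_eq_mul]
  have e : ((2 ^ j : ℕ) : ZMod (2 ^ k)) = 0 :=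
    (ZMod.natCast_eq_zero_iff _ _).mpr (pow_dvd_pow 2 h)
  rw [e, zero_mul]

end Cfsg.Agent.Lib.Helper8
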