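import Cfsg.Agent.Lib.Helper8.OddAut

set_option autoImplicit false
open Cfsg

namespace Cfsg.Agent.Lib.Helper8

section coords

variable {n : ℕ} (a : Fin n → ℕ)

theorem coord_div_iff (ha1 : ∀ i, 1 ≤ a i) (j : ℕ) (x : (i : Fin n) → ZMod (2 ^ a i))
    (hx : 2 • x = 0) :
    (∃ y : (i : Fin n) → ZMod (2 ^ a i), x = (2 ^ j) • y) ↔ ∀ i, x i ≠ 0 → j < a i := by
  constructor
  · rintro ⟨y, rfl⟩ i hi
    by_contra hcon
    apply hi
    show (2 ^ j) • y i = 0
    exact zmod_pow_smul_zero (by omega) _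
  · intro h
    classical
    refine ⟨fun i => if x i = 0 then 0 else ((2 ^ (a i - 1 - j) : ℕ) : ZMod (2 ^ a i)), ?_⟩
    funext i
    show x i = (2 ^ j) • (if x i = 0 then 0 else ((2 ^ (a i - 1 - j) : ℕ) : ZMod (2 ^ a i)))
    by_cases hi : x i = 0
    · rw [if_pos hi, hi, smul_zero]
    · rw [if_neg hi]
      have h2 : 2 • x i = 0 := congrFun hx i
      rcases zmod_two_torsion (ha1 i) (x i) h2 with h3 | h3
      · exact absurd h3 hi
      · have hj := h i hi
        rw [nsmul_eq_mul, ← Nat.cast_mul, ← pow_add]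
        have e : j + (a i - 1 - j) = a i - 1 := by omega
        rw [e]
        exact h3

theorem coord_I (J : ℕ) (hJ : ∀ i, a i ≤ J)
    (x : Multiplicative ((i : Fin n) → ZMod (2 ^ a i))) (h : PO _ J x) : x = 1 := by
  obtain ⟨-, y, hy⟩ := (PO_mult_iff J x).mp h
  have h1 : Multiplicative.toAdd x = 0 := by
    rw [hy]
    funext i
    exact zmod_pow_smul_zero (hJ i) _
  exact h1

theorem coord_III (K : ℕ) (hK : ∀ i, a i ≤ K)
    (y : Multiplicative ((i : Fin n) → ZMod (2 ^ a i))) : y ^ (2 ^ K) = 1 := by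
  have h1 : (2 ^ K) • Multiplicative.toAdd y = 0 := by
    funext i
    exact zmod_pow_smul_zero (hK i) _
  exact h1

theorem coord_II (ha : Function.Injective a) (ha1 : ∀ i, 1 ≤ a i) (j : ℕ)
    (x x' : Multiplicative ((i : Fin n) → ZMod (2 ^ a i)))
    (h1 : PO _ j x) (h2 : PO _ j x') (h3 : ¬ PO _ (j + 1) x) (h4 : ¬ PO _ (j + 1) x') :
    PO _ (j + 1) (x * x') := by
  rw [PO_mult_iff] at h1 h2 h3 h4 ⊢
  obtain ⟨hu, hud⟩ := h1
  obtain ⟨hu', hud'⟩ := h2
  rw [coord_div_iff a ha1 j _ hu] at hud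
  rw [coord_div_iff a ha1 j _ hu'] at hud'
  have h3' : ¬ ∀ i, Multiplicative.toAdd x i ≠ 0 → j + 1 < a i :=
    fun hh => h3 ⟨hu, (coord_div_iff a ha1 (j + 1) _ hu).mpr hh⟩
  have h4' : ¬ ∀ i, Multiplicative.toAdd x' i ≠ 0 → j + 1 < a i :=
    fun hh => h4 ⟨hu', (coord_div_iff a ha1 (j + 1) _ hu').mpr hh⟩
  push Not at h3' h4'
  obtain ⟨i, hi, hia⟩ := h3'
  obtain ⟨i', hi', hia'⟩ := h4'
  have hai : a i = j + 1 := by
    have h5 := hud i hi
    omega
  have hai' : a i' = j + 1 := by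
    have h5 := hud' i' hi'
    omega
  have hii : i' = i := ha (hai'.trans hai.symm)
  subst hii
  have hsum : 2 • (Multiplicative.toAdd x + Multiplicative.toAdd x') = 0 := by
    rw [smul_add, hu, hu', add_zero]
  refine ⟨hsum, ?_⟩
  show ∃ y, Multiplicative.toAdd x + Multiplicative.toAdd x' = (2 ^ (j + 1)) • y
  rw [coord_div_iff a ha1 (j + 1) _ hsum]
  intro k hk
  by_cases hki : k = i'
  · subst hki
    exfalso
    apply hk
    have e1 := (zmod_two_torsion (ha1 k) _ (congrFun hu k)).resolve_left hi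
    have e2 := (zmod_two_torsion (ha1 k) _ (congrFun hu' k)).resolve_left hi'
    show Multiplicative.toAdd x k + Multiplicative.toAdd x' k = 0
    rw [e2, ← e1, ← two_nsmul]
    exact congrFun hu k
  · have hak : a k ≠ j + 1 := fun h => hki (ha (h.trans hai.symm))
    have h6 : Multiplicative.toAdd x k ≠ 0 ∨ Multiplicative.toAdd x' k ≠ 0 := by
      by_contra hcon
      push Not at hcon
      apply hk
      show Multiplicative.toAdd x k + Multiplicative.toAdd x' k = 0
      rw [hcon.1, hcon.2, add_zero]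
    rcases h6 with h | h
    · have h7 := hud k h
      omega
    · have h7 := hud' k h
      omega

end coords

theorem distinct_cyclic_inner {Ω : Type*} [Group Ω] {S : Subgroup Ω} [Finite S] (n : ℕ)
    (a : Fin n → ℕ) (ha : StrictMono a) (ha1 : ∀ i, 1 ≤ a i)
    (e : ↥S ≃* Multiplicative ((i : Fin n) → ZMod (2 ^ a i))) (F : FusionSystem S)
    (hF : F.IsSaturated 2) (P : Subgroup Ω) : F.Hom P = (innerFusionSystem S).Hom P := by
  haveI : Fact (Nat.Prime 2) := ⟨Nat.prime_two⟩
  obtain ⟨K, hK⟩ : ∃ K, ∀ i, a i ≤ K :=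
    ⟨∑ i, a i, fun i => Finset.single_le_sum (fun _ _ => Nat.zero_le _) (Finset.mem_univ i)⟩
  have hIII : ∀ y : Multiplicative ((i : Fin n) → ZMod (2 ^ a i)), y ^ (2 ^ K) = 1 :=
    coord_III a K hK
  have hS : IsPGroup 2 S := by
    intro s
    refine ⟨K, ?_⟩
    apply e.injective
    rw [map_pow, map_one]
    exact hIII _
  have hab : ∀ x ∈ S, ∀ y ∈ S, x * y = y * x := by
    intro x hx y hy
    have h1 : (⟨x, hx⟩ : S) * ⟨y, hy⟩ = ⟨y, hy⟩ * ⟨x, hx⟩ := by
      apply e.injective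
      rw [map_mul, map_mul, mul_comm]
    exact congrArg Subtype.val h1
  have htriv : ∀ α ∈ F.autGroup S, α = 1 := by
    intro α hα
    have hcop := abel_aut_coprime F hF hab
    have hodd : Odd (Nat.card (F.autGroup S)) := Nat.Coprime.odd_of_right hcop
    have hpow : α ^ Nat.card (F.autGroup S) = 1 := by
      have h1 : (⟨α, hα⟩ : F.autGroup S) ^ Nat.card (F.autGroup S) = 1 := pow_card_eq_one'
      have h5 := congrArg (F.autGroup S).subtype h1
      rw [map_pow, map_one] at h5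
      exact h5
    have h2 : (MulAut.congr e α) ^ Nat.card (F.autGroup S) = 1 := by
      rw [← map_pow, hpow, map_one]
    have h3 := odd_aut_trivial K K (coord_I a K hK) (coord_II a ha.injective ha1) hIII _ _
      hodd h2
    have h4 : MulAut.congr e α = MulAut.congr e 1 := by rw [h3, map_one]
    exact (MulAut.congr e).injective h4
  apply Set.Subset.antisymm
  · intro φ hφ
    obtain ⟨α, hα, hαe⟩ := abel_ext hS F hF hab hφ
    have h1 := htriv α hα
    refine ⟨(F.le_of_mem hφ).1, 1, S.one_mem, fun x => ?_⟩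
    rw [← hαe x, h1]
    simp
  · exact inner_le F P

end Cfsg.Agent.Lib.Helper8
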