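import Mathlib
import Cfsg.Prelude
import Cfsg.Agent.Lib.Helper8.Hyp
import Cfsg.Agent.Lib.Helper8.HypGen
import Cfsg.Agent.Lib.Helper8.Alp
import Cfsg.Agent.Lib.Helper8.GrpNormal
import Cfsg.Agent.Lib.Helper8.Syl
import Cfsg.Agent.Lib.Helper8.Sat

namespace Cfsg.Agent.Lib.Helper8

open Cfsg Cfsg.FusionSystem

variable {Ω : Type*} [Group Ω] {S : Subgroup Ω}

theorem subsys_le {T : Subgroup Ω} (E : FusionSystem T) (F : FusionSystem S)
    (h : E.IsSubsystemOf F) : T ≤ S :=
  (F.le_of_mem (h T (fs_id_mem E le_rfl))).1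

theorem subsys_autGroup_le {T : Subgroup Ω} (E : FusionSystem T) (F : FusionSystem S)
    (h : E.IsSubsystemOf F) {P : Subgroup Ω} (hP : P ≤ T) : E.autGroup P ≤ F.autGroup P := by
  intro β hβ
  rw [mem_autGroup_iff F (hP.trans (subsys_le E F h))]
  exact h P ((mem_autGroup_iff E hP β).mp hβ)

/-- A saturated subsystem over `T` is contained in any subsystem over `T` of `p`-power index. -/
theorem pidx_le [Finite S] {p : ℕ} [Fact p.Prime] (hS : IsPGroup p S) (F : FusionSystem S)
    {T : Subgroup Ω} (E₁ E₂ : FusionSystem T) (h1 : E₁.IsSaturated p)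
    (h1s : E₁.IsSubsystemOf F) (h2 : E₂.HasPPowerIndexIn F p) : E₁ ≤ E₂ := by
  have hTS : T ≤ S := subsys_le E₁ F h1s
  haveI : Finite T := finite_of_le hTS
  have hT : IsPGroup p T := by
    have := hS.to_le hTS
    exact this
  apply alperin_ind hT E₁ h1 E₂
  intro R hRfa _ _ α hα
  obtain ⟨hR, R₀, hR₀⟩ := hRfa
  haveI : Finite R := finite_of_le hR
  haveI : Finite (MulAut R) := finite_mulAut R
  have hαm : α ∈ E₁.autGroup R := (mem_autGroup_iff E₁ hR α).mpr hα
  obtain ⟨t, ht, n, hn, htn⟩ := sylow_mul_pResidual R₀ ⟨α, hαm⟩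
  have ht' : (t : MulAut R) ∈ E₂.autGroup R := by
    rw [hR₀] at ht
    exact autInducedBy_le_autGroup E₂ hR (Subgroup.mem_subgroupOf.mp ht)
  have hle := subsys_autGroup_le E₁ F h1s hR
  have hn' : (n : MulAut R) ∈ E₂.autGroup R := by
    apply h2.2.2 R hR
    exact ⟨Subgroup.inclusion hle n, pResidual_map_mem p (Subgroup.inclusion hle) hn, rfl⟩
  have hα2 : α ∈ E₂.autGroup R := by
    have e : α = (t : MulAut R) * (n : MulAut R) := congrArg Subtype.val htn
    rw [e]
    exact mul_mem ht' hn'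
  exact (mem_autGroup_iff E₂ hR α).mp hα2

/-- Uniqueness of the saturated subsystem of `p`-power index over a given subgroup. -/
theorem pidx_unique [Finite S] {p : ℕ} [Fact p.Prime] (hS : IsPGroup p S) (F : FusionSystem S)
    {T₁ T₂ : Subgroup Ω} (hT : T₁ = T₂) (E₁ : FusionSystem T₁) (E₂ : FusionSystem T₂)
    (h1 : E₁.IsSaturated p) (h1p : E₁.HasPPowerIndexIn F p)
    (h2 : E₂.IsSaturated p) (h2p : E₂.HasPPowerIndexIn F p) :
    ∀ P : Subgroup Ω, E₁.Hom P = E₂.Hom P := by
  subst hT
  intro P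
  exact Set.Subset.antisymm (pidx_le hS F E₁ E₂ h1 h1p.1 h2p P) (pidx_le hS F E₂ E₁ h2 h2p.1 h1p P)

theorem conj_pow_aux {G : Type*} [Group G] {P : Subgroup G} (a : MulAut P) (g : G)
    (h : ∀ x : P, ((a x : P) : G) = g * x * g⁻¹) (n : ℕ) :
    ∀ x : P, (((a ^ n) x : P) : G) = g ^ n * x * (g ^ n)⁻¹ := by
  induction n with
  | zero => intro x; simp
  | succ k ih =>
    intro x
    rw [pow_succ, MulAut.mul_apply, ih, h, pow_succ]
    group

/-- The fusion system of `O^p(G)` on `S ∩ O^p(G)` has `p`-power index in that of `G`. -/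
theorem res_pidx {G : Type*} [Group G] [Finite G] (p : ℕ) [Fact p.Prime] (S : Sylow p G)
    (hhyp : (groupFusionSystem (S : Subgroup G)).hyperfocalSubgroup p
      = (S : Subgroup G) ⊓ pResidual p G) :
    (fusionSystemOfSubgroup (pResidual p G) ((S : Subgroup G) ⊓ pResidual p G)
      inf_le_right).HasPPowerIndexIn (groupFusionSystem (S : Subgroup G)) p := by
  refine ⟨?_, hhyp.le, ?_⟩
  · rintro P φ ⟨hP, hφ, g, -, hg⟩
    exact ⟨hP.trans inf_le_left, fun x => (hφ x).1, g, hg⟩
  · intro P hP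
    rw [Subgroup.map_le_iff_le_comap]
    unfold pResidual
    rw [Subgroup.closure_le]
    intro a ha
    have ha : Nat.Coprime (orderOf a) p := ha
    show (a : MulAut P) ∈ (fusionSystemOfSubgroup (pResidual p G)
      ((S : Subgroup G) ⊓ pResidual p G) inf_le_right).autGroup P
    have hPS : P ≤ (S : Subgroup G) := hP.trans inf_le_left
    have ham := (mem_autGroup_iff (groupFusionSystem (S : Subgroup G)) hPS (a : MulAut P)).mp a.2
    obtain ⟨-, -, g, hg⟩ := ham
    obtain ⟨e, he1, he2⟩ := exists_pprime_pow g (orderOf a) ha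
    have hae : a ^ e = a := pow_eq_self_of_modEq (pow_orderOf_eq_one a) he2
    have hae' : (a : MulAut P) ^ e = (a : MulAut P) := by
      have := congrArg Subtype.val hae
      simpa using this
    have hc := conj_pow_aux (a : MulAut P) g (fun x => hg x) e
    rw [hae'] at hc
    rw [mem_autGroup_iff _ hP]
    refine ⟨hP, fun x => hP ((a : MulAut P) x).2, g ^ e, ?_, fun x => hc x⟩
    exact Subgroup.subset_closure he1

theorem res_sat {G : Type*} [Group G] [Finite G] (p : ℕ) [Fact p.Prime] (S : Sylow p G) :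
    (fusionSystemOfSubgroup (pResidual p G) ((S : Subgroup G) ⊓ pResidual p G)
      inf_le_right).IsSaturated p := by
  apply fsub_saturated
  haveI := pResidual_normal p G
  apply (sylIn_top S).inf_of_normal le_top
  rw [Subgroup.normalizer_eq_top]

theorem res_eq {G : Type*} [Group G] [Finite G] (p : ℕ) [Fact p.Prime] (S : Sylow p G)
    (hhyp : (groupFusionSystem (S : Subgroup G)).hyperfocalSubgroup p
      = (S : Subgroup G) ⊓ pResidual p G)
    (E : FusionSystem ((groupFusionSystem (S : Subgroup G)).hyperfocalSubgroup p))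
    (hE : (groupFusionSystem (S : Subgroup G)).IsPResidual p E) :
    ∃ h : (S : Subgroup G) ⊓ pResidual p G ≤ pResidual p G, ∀ P : Subgroup G,
      E.Hom P = (fusionSystemOfSubgroup (pResidual p G) ((S : Subgroup G) ⊓ pResidual p G) h).Hom P :=
  ⟨inf_le_right, pidx_unique S.isPGroup' (groupFusionSystem (S : Subgroup G)) hhyp E _ hE.1 hE.2
    (res_sat p S) (res_pidx p S hhyp)⟩

end Cfsg.Agent.Lib.Helper8
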