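import Mathlib

set_option autoImplicit false

namespace Cfsg.Agent.Lib.Helper8

universe u

/-- the action on the complement of an invariant set -/
def complAct8 {L : Type*} [Group L] {X : Type*} [MulAction L X] (O : Set X)
    (hO : ∀ (l : L) (x : X), x ∈ O → l • x ∈ O) : MulAction L {x : X // x ∉ O} where
  smul l x := ⟨l • x.1, fun h => x.2 (by
    have h1 := hO l⁻¹ _ h
    rwa [inv_smul_smul] at h1)⟩
  one_smul x := Subtype.ext (one_smul L x.1)
  mul_smul a b x := Subtype.ext (mul_smul a b x.1)

theorem complAct_val8 {L : Type*} [Group L] {X : Type*} [MulAction L X] (O : Set X)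
    (hO : ∀ (l : L) (x : X), x ∈ O → l • x ∈ O) (l : L) (x : {x : X // x ∉ O}) :
    ((complAct8 O hO).smul l x).1 = l • x.1 := rfl

theorem orbit_eq_iff8 {L : Type*} [Group L] {X Y : Type*} [MulAction L X] [MulAction L Y]
    {x₀ : X} {y₀ : Y} (hst : MulAction.stabilizer L y₀ = MulAction.stabilizer L x₀) (l l' : L) :
    l • x₀ = l' • x₀ ↔ l • y₀ = l' • y₀ := by
  have h1 : l • x₀ = l' • x₀ ↔ l'⁻¹ * l ∈ MulAction.stabilizer L x₀ := by
    rw [MulAction.mem_stabilizer_iff, mul_smul, inv_smul_eq_iff]
  have h2 : l • y₀ = l' • y₀ ↔ l'⁻¹ * l ∈ MulAction.stabilizer L y₀ := by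
    rw [MulAction.mem_stabilizer_iff, mul_smul, inv_smul_eq_iff]
  rw [h1, h2, hst]

/-- Burnside: finite `L`-sets with the same marks are isomorphic -/
theorem marks_iso8 {L : Type*} [Group L] [Finite L] (n : ℕ) :
    ∀ (X Y : Type u) [Finite X] [Finite Y] [MulAction L X] [MulAction L Y],
      Nat.card X = n →
      (∀ Λ : Subgroup L, Nat.card {x : X // ∀ l ∈ Λ, l • x = x}
        = Nat.card {y : Y // ∀ l ∈ Λ, l • y = y}) →
      ∃ f : X ≃ Y, ∀ (l : L) (x : X), f (l • x) = l • f x := by
  induction n using Nat.strong_induction_on with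
  | _ n ih =>
    intro X Y _ _ _ _ hn hmarks
    classical
    have hXY : Nat.card X = Nat.card Y := by
      have h := hmarks ⊥
      rw [Nat.card_congr (Equiv.subtypeUnivEquiv (fun x => by
            intro l hl; rw [Subgroup.mem_bot.mp hl, one_smul])),
          Nat.card_congr (Equiv.subtypeUnivEquiv (fun y => by
            intro l hl; rw [Subgroup.mem_bot.mp hl, one_smul]))] at h
      exact h
    rcases isEmpty_or_nonempty X with hX | hX
    · haveI : IsEmpty Y := by
        have h0 : Nat.card Y = 0 := by rw [← hXY]; exact Nat.card_of_isEmpty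
        rcases Nat.card_eq_zero.mp h0 with h | h
        · exact h
        · exact absurd ‹Finite Y› (not_finite_iff_infinite.mpr h)
      exact ⟨Equiv.equivOfIsEmpty X Y, fun l x => isEmptyElim x⟩
    · obtain ⟨x₀, hx₀⟩ : ∃ x₀ : X, ∀ x : X,
          Nat.card (MulAction.stabilizer L x) ≤ Nat.card (MulAction.stabilizer L x₀) :=
        Finite.exists_max (fun x : X => Nat.card (MulAction.stabilizer L x))
      have hfixY : Nonempty {y : Y // ∀ l ∈ MulAction.stabilizer L x₀, l • y = y} := by
        haveI : Nonempty {x : X // ∀ l ∈ MulAction.stabilizer L x₀, l • x = x} :=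
          ⟨⟨x₀, fun l hl => hl⟩⟩
        have h0 : 0 < Nat.card {x : X // ∀ l ∈ MulAction.stabilizer L x₀, l • x = x} :=
          Nat.card_pos
        rw [hmarks] at h0
        exact (Nat.card_pos_iff.mp h0).1
      obtain ⟨⟨y₀, hy₀⟩⟩ := hfixY
      have hstab : MulAction.stabilizer L y₀ = MulAction.stabilizer L x₀ := by
        have hle : MulAction.stabilizer L x₀ ≤ MulAction.stabilizer L y₀ := fun l hl => hy₀ l hl
        have hfixX' : Nonempty {x : X // ∀ l ∈ MulAction.stabilizer L y₀, l • x = x} := by
          haveI : Nonempty {y : Y // ∀ l ∈ MulAction.stabilizer L y₀, l • y = y} :=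
            ⟨⟨y₀, fun l hl => hl⟩⟩
          have h0 : 0 < Nat.card {y : Y // ∀ l ∈ MulAction.stabilizer L y₀, l • y = y} :=
            Nat.card_pos
          rw [← hmarks] at h0
          exact (Nat.card_pos_iff.mp h0).1
        obtain ⟨⟨x₁, hx₁⟩⟩ := hfixX'
        have hle' : MulAction.stabilizer L y₀ ≤ MulAction.stabilizer L x₁ := fun l hl => hx₁ l hl
        have hc := hx₀ x₁
        have hc' := Subgroup.card_le_of_le hle'
        exact (Subgroup.eq_of_le_of_card_ge hle (hc'.trans hc)).symm
      have hK1 := orbit_eq_iff8 (L := L) hstab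
      have hOX : ∀ (l : L) (x : X), x ∈ MulAction.orbit L x₀ → l • x ∈ MulAction.orbit L x₀ := by
        rintro l _ ⟨k, rfl⟩
        exact ⟨l * k, mul_smul l k x₀⟩
      have hOY : ∀ (l : L) (y : Y), y ∈ MulAction.orbit L y₀ → l • y ∈ MulAction.orbit L y₀ := by
        rintro l _ ⟨k, rfl⟩
        exact ⟨l * k, mul_smul l k y₀⟩
      -- the orbit map
      obtain ⟨β, hβ⟩ : ∃ β : X → Y, ∀ l : L, β (l • x₀) = l • y₀ := by
        refine ⟨fun x => if h : x ∈ MulAction.orbit L x₀ then (Classical.choose h) • y₀ else y₀,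
          fun l => ?_⟩
        have hmem : l • x₀ ∈ MulAction.orbit L x₀ := ⟨l, rfl⟩
        beta_reduce
        rw [dif_pos hmem]
        exact (hK1 _ _).mp (Classical.choose_spec hmem)
      -- marks of the complements
      letI actX : MulAction L {x : X // x ∉ MulAction.orbit L x₀} := complAct8 _ hOX
      letI actY : MulAction L {y : Y // y ∉ MulAction.orbit L y₀} := complAct8 _ hOY
      have hmarks' : ∀ Λ : Subgroup L,
          Nat.card {x : {x : X // x ∉ MulAction.orbit L x₀} // ∀ l ∈ Λ, l • x = x}
          = Nat.card {y : {y : Y // y ∉ MulAction.orbit L y₀} // ∀ l ∈ Λ, l • y = y} := by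
        intro Λ
        have e1 : Nat.card {x : {x : X // x ∉ MulAction.orbit L x₀} // ∀ l ∈ Λ, l • x = x}
            = ({x : X | ∀ l ∈ Λ, l • x = x} \ MulAction.orbit L x₀).ncard := by
          rw [← Nat.card_coe_set_eq]
          exact Nat.card_congr
            { toFun := fun x => ⟨x.1.1, ⟨fun l hl => congrArg Subtype.val (x.2 l hl), x.1.2⟩⟩
              invFun := fun z => ⟨⟨z.1, z.2.2⟩, fun l hl => Subtype.ext (z.2.1 l hl)⟩
              left_inv := fun x => rfl
              right_inv := fun z => rfl }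
        have e2 : Nat.card {y : {y : Y // y ∉ MulAction.orbit L y₀} // ∀ l ∈ Λ, l • y = y}
            = ({y : Y | ∀ l ∈ Λ, l • y = y} \ MulAction.orbit L y₀).ncard := by
          rw [← Nat.card_coe_set_eq]
          exact Nat.card_congr
            { toFun := fun x => ⟨x.1.1, ⟨fun l hl => congrArg Subtype.val (x.2 l hl), x.1.2⟩⟩
              invFun := fun z => ⟨⟨z.1, z.2.2⟩, fun l hl => Subtype.ext (z.2.1 l hl)⟩
              left_inv := fun x => rfl
              right_inv := fun z => rfl }
        have e3 := Set.ncard_inter_add_ncard_diff_eq_ncard {x : X | ∀ l ∈ Λ, l • x = x}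
          (MulAction.orbit L x₀)
        have e4 := Set.ncard_inter_add_ncard_diff_eq_ncard {y : Y | ∀ l ∈ Λ, l • y = y}
          (MulAction.orbit L y₀)
        have e5 : ({x : X | ∀ l ∈ Λ, l • x = x}).ncard = ({y : Y | ∀ l ∈ Λ, l • y = y}).ncard := by
          have h0 := hmarks Λ
          rw [← Nat.card_coe_set_eq, ← Nat.card_coe_set_eq]
          exact h0
        have e6 : ({x : X | ∀ l ∈ Λ, l • x = x} ∩ MulAction.orbit L x₀).ncard
            = ({y : Y | ∀ l ∈ Λ, l • y = y} ∩ MulAction.orbit L y₀).ncard := by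
          have himg : β '' ({x : X | ∀ l ∈ Λ, l • x = x} ∩ MulAction.orbit L x₀)
              = {y : Y | ∀ l ∈ Λ, l • y = y} ∩ MulAction.orbit L y₀ := by
            ext y
            constructor
            · rintro ⟨_, ⟨hfix, ⟨k, rfl⟩⟩, rfl⟩
              refine ⟨fun l hl => ?_, ⟨k, (hβ k).symm⟩⟩
              have h1 := hfix l hl
              have h1' : (l * k) • x₀ = k • x₀ := by rw [mul_smul]; exact h1
              have h2 := (hK1 _ _).mp h1'
              rw [hβ, ← mul_smul]
              exact h2
            · rintro ⟨hfix, ⟨k, rfl⟩⟩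
              refine ⟨k • x₀, ⟨fun l hl => ?_, ⟨k, rfl⟩⟩, hβ k⟩
              have h1 := hfix l hl
              have h1' : (l * k) • y₀ = k • y₀ := by rw [mul_smul]; exact h1
              have h2 := (hK1 _ _).mpr h1'
              rw [← mul_smul]
              exact h2
          rw [← himg]
          symm
          apply Set.ncard_image_of_injOn
          rintro _ ⟨-, ⟨k, rfl⟩⟩ _ ⟨-, ⟨k', rfl⟩⟩ hkk
          rw [hβ, hβ] at hkk
          exact (hK1 _ _).mpr hkk
        rw [e1, e2]
        omega
      have hlt : Nat.card {x : X // x ∉ MulAction.orbit L x₀} < n := by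
        rw [← hn]
        exact Finite.card_subtype_lt (x := x₀) (fun h => h (MulAction.mem_orbit_self x₀))
      obtain ⟨f', hf'⟩ := ih _ hlt {x : X // x ∉ MulAction.orbit L x₀}
        {y : Y // y ∉ MulAction.orbit L y₀} rfl hmarks'
      obtain ⟨g, hg1, hg2⟩ : ∃ g : X → Y, (∀ l : L, g (l • x₀) = l • y₀) ∧
          (∀ (x : X) (h : x ∉ MulAction.orbit L x₀), g x = (f' ⟨x, h⟩).1) := by
        refine ⟨fun x => if h : x ∈ MulAction.orbit L x₀ then β x else (f' ⟨x, h⟩).1,
          fun l => ?_, fun x h => ?_⟩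
        · have hmem : l • x₀ ∈ MulAction.orbit L x₀ := ⟨l, rfl⟩
          beta_reduce
          rw [dif_pos hmem]
          exact hβ l
        · beta_reduce
          rw [dif_neg h]
      have hginj : Function.Injective g := by
        intro a b hab
        by_cases ha : a ∈ MulAction.orbit L x₀
        · obtain ⟨k, rfl⟩ := ha
          by_cases hb : b ∈ MulAction.orbit L x₀
          · obtain ⟨k', rfl⟩ := hb
            rw [hg1, hg1] at hab
            exact (hK1 _ _).mpr hab
          · exfalso
            rw [hg1, hg2 b hb] at hab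
            exact (f' ⟨b, hb⟩).2 ⟨k, hab⟩
        · by_cases hb : b ∈ MulAction.orbit L x₀
          · obtain ⟨k', rfl⟩ := hb
            exfalso
            rw [hg1, hg2 a ha] at hab
            exact (f' ⟨a, ha⟩).2 ⟨k', hab.symm⟩
          · rw [hg2 a ha, hg2 b hb] at hab
            have h1 := f'.injective (Subtype.ext hab)
            exact congrArg Subtype.val h1
      have hgbij : Function.Bijective g :=
        hginj.bijective_of_nat_card_le (by rw [hXY])
      refine ⟨Equiv.ofBijective g hgbij, fun l x => ?_⟩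
      show g (l • x) = l • g x
      by_cases hx : x ∈ MulAction.orbit L x₀
      · obtain ⟨k, rfl⟩ := hx
        rw [← mul_smul, hg1, hg1, mul_smul]
      · have hlx : l • x ∉ MulAction.orbit L x₀ := fun h => hx (by
          have h1 := hOX l⁻¹ _ h
          rwa [inv_smul_smul] at h1)
        rw [hg2 _ hlx, hg2 _ hx]
        have h1 := hf' l ⟨x, hx⟩
        have h2 : (⟨l • x, hlx⟩ : {x : X // x ∉ MulAction.orbit L x₀}) = l • ⟨x, hx⟩ :=
          Subtype.ext rfl
        rw [h2, h1]
        rfl

end Cfsg.Agent.Lib.Helper8
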