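import Mathlib
import Cfsg.Prelude.Def_FusionSystem
import Cfsg.Agent.Lib.Helper8.Fusion
import Cfsg.Agent.Lib.Helper8.Sat

set_option autoImplicit false
open Cfsg

namespace Cfsg.Agent.Lib.Helper8

variable {Ω : Type*} [Group Ω] {S : Subgroup Ω}

/-- `Γ` is the graph `{(χ v, v)}` of a map of the system -/
def IsFGraph8 (F : FusionSystem S) (Γ : Subgroup (↥S × ↥S)) : Prop :=
  ∃ (V : Subgroup Ω) (χ : V →* Ω), χ ∈ F.Hom V ∧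
    ∀ a b : ↥S, (a, b) ∈ Γ ↔ ∃ h : (b : Ω) ∈ V, χ ⟨b, h⟩ = (a : Ω)

/-- the diagonal subgroup -/
def diag8 (S : Subgroup Ω) : Subgroup (↥S × ↥S) where
  carrier := {x | x.1 = x.2}
  mul_mem' := by
    rintro ⟨a, b⟩ ⟨a', b'⟩ h h'
    have h1 : a = b := h
    have h2 : a' = b' := h'
    show a * a' = b * b'
    rw [h1, h2]
  one_mem' := rfl
  inv_mem' := by
    rintro ⟨a, b⟩ h
    have h1 : a = b := h
    show a⁻¹ = b⁻¹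
    rw [h1]

theorem mem_diag8 (a b : ↥S) : (a, b) ∈ diag8 S ↔ a = b := Iff.rfl

theorem diag_fgraph8 (F : FusionSystem S) : IsFGraph8 F (diag8 S) := by
  refine ⟨S, S.subtype, fs_id_mem F le_rfl, fun a b => ?_⟩
  rw [mem_diag8]
  constructor
  · intro h
    exact ⟨b.2, by rw [h]; rfl⟩
  · rintro ⟨_, e⟩
    exact Subtype.ext e.symm

theorem fgraph_of_le8 (F : FusionSystem S) {Γ Γ' : Subgroup (↥S × ↥S)} (hΓ : IsFGraph8 F Γ)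
    (hle : Γ' ≤ Γ) : IsFGraph8 F Γ' := by
  obtain ⟨V, χ, hχ, hg⟩ := hΓ
  obtain ⟨V', hV'⟩ : ∃ V' : Subgroup Ω, V' = (Γ'.map (MonoidHom.snd ↥S ↥S)).map S.subtype :=
    ⟨_, rfl⟩
  have hmemV' : ∀ b : Ω, b ∈ V' ↔ ∃ x ∈ Γ', ((x.2 : ↥S) : Ω) = b := by
    intro b
    rw [hV']
    constructor
    · rintro ⟨_, ⟨x, hx, rfl⟩, rfl⟩
      exact ⟨x, hx, rfl⟩
    · rintro ⟨x, hx, rfl⟩
      exact ⟨x.2, ⟨x, hx, rfl⟩, rfl⟩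
  have hV'V : V' ≤ V := by
    intro b hb
    obtain ⟨⟨a, b'⟩, hx, rfl⟩ := (hmemV' b).mp hb
    exact ((hg a b').mp (hle hx)).1
  refine ⟨V', χ.comp (Subgroup.inclusion hV'V), fs_restrict F hV'V hχ, fun a b => ?_⟩
  constructor
  · intro hab
    obtain ⟨h, e⟩ := (hg a b).mp (hle hab)
    exact ⟨(hmemV' _).mpr ⟨(a, b), hab, rfl⟩, e⟩
  · rintro ⟨h, e⟩
    obtain ⟨⟨a', b'⟩, hx, hb⟩ := (hmemV' _).mp h
    have hbb : b' = b := Subtype.ext hb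
    subst hbb
    obtain ⟨h', e'⟩ := (hg a' b').mp (hle hx)
    have haa : a' = a := Subtype.ext (e'.symm.trans e)
    rw [← haa]
    exact hx

theorem mem_of_graph_le8 (F : FusionSystem S) {P : Subgroup Ω} (hP : P ≤ S) (φ : P →* Ω)
    (hφ : ∀ x : P, φ x ∈ S) {Γ : Subgroup (↥S × ↥S)} (hΓ : IsFGraph8 F Γ)
    (h : ∀ u : P, ((⟨φ u, hφ u⟩, ⟨u, hP u.2⟩) : ↥S × ↥S) ∈ Γ) : φ ∈ F.Hom P := by
  obtain ⟨V, χ, hχ, hg⟩ := hΓ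
  have hPV : P ≤ V := fun u hu => ((hg _ _).mp (h ⟨u, hu⟩)).1
  have h1 := fs_restrict F hPV hχ
  have h2 : χ.comp (Subgroup.inclusion hPV) = φ := by
    ext u
    obtain ⟨hu, e⟩ := (hg _ _).mp (h u)
    exact e
  rwa [h2] at h1

theorem fgraph_card_le8 (F : FusionSystem S) [Finite S] {Γ : Subgroup (↥S × ↥S)}
    (hΓ : IsFGraph8 F Γ) : Nat.card Γ ≤ Nat.card S := by
  obtain ⟨V, χ, hχ, hg⟩ := hΓ
  apply Nat.card_le_card_of_injective (fun x : Γ => x.1.2)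
  rintro ⟨⟨a, b⟩, hx⟩ ⟨⟨a', b'⟩, hy⟩ hxy
  have hb : b = b' := hxy
  subst hb
  obtain ⟨h, e⟩ := (hg a b).mp hx
  obtain ⟨h', e'⟩ := (hg a' b).mp hy
  have ha : a = a' := Subtype.ext (e.symm.trans e')
  subst ha
  rfl

theorem fgraph_free8 (F : FusionSystem S) {Γ : Subgroup (↥S × ↥S)} (hΓ : IsFGraph8 F Γ)
    {s : ↥S} (h : ((s, 1) : ↥S × ↥S) ∈ Γ) : s = 1 := by
  obtain ⟨V, χ, hχ, hg⟩ := hΓ
  obtain ⟨h1, e⟩ := (hg s 1).mp h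
  apply Subtype.ext
  rw [← e]
  exact map_one χ

theorem fgraph_conj8 (F : FusionSystem S) {Γ : Subgroup (↥S × ↥S)} (hΓ : IsFGraph8 F Γ)
    (g : ↥S × ↥S) : IsFGraph8 F (Γ.map (MulAut.conj g).toMonoidHom) := by
  obtain ⟨V, χ, hχ, hg⟩ := hΓ
  obtain ⟨s, t⟩ := g
  have hVS : V ≤ S := (F.le_of_mem hχ).1
  have hχS : ∀ v : V, χ v ∈ S := (F.le_of_mem hχ).2
  obtain ⟨V', hV'⟩ : ∃ V' : Subgroup Ω, V' = V.map (MulAut.conj (t : Ω)).toMonoidHom :=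
    ⟨_, rfl⟩
  have hmemV' : ∀ w : Ω, w ∈ V' ↔ (t : Ω)⁻¹ * w * t ∈ V := by
    intro w
    rw [hV']
    constructor
    · rintro ⟨v, hv, rfl⟩
      have e : (t : Ω)⁻¹ * ((MulAut.conj (t : Ω)).toMonoidHom v) * t = v := by
        show (t : Ω)⁻¹ * ((t : Ω) * v * (t : Ω)⁻¹) * t = v
        group
      rw [e]; exact hv
    · intro h
      refine ⟨_, h, ?_⟩
      show (t : Ω) * ((t : Ω)⁻¹ * w * t) * (t : Ω)⁻¹ = w
      group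
  have hV'S : V' ≤ S := by
    intro w hw
    have h1 := hVS ((hmemV' w).mp hw)
    have e : w = (t : Ω) * ((t : Ω)⁻¹ * w * t) * (t : Ω)⁻¹ := by group
    rw [e]
    exact S.mul_mem (S.mul_mem t.2 h1) (S.inv_mem t.2)
  have h1 : ∀ w : V', conjHom V' ((t : Ω)⁻¹) w ∈ V := by
    intro w
    show (t : Ω)⁻¹ * (w : Ω) * ((t : Ω)⁻¹)⁻¹ ∈ V
    rw [inv_inv]
    exact (hmemV' w).mp w.2
  have hstep1 := F.comp_mem (F.conj_mem hV'S (S.inv_mem t.2)) hχ h1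
  have h2 : ∀ w : V', (χ.comp ((conjHom V' ((t : Ω)⁻¹)).codRestrict V h1)) w ∈ S :=
    fun w => hχS _
  have hstep2 := F.comp_mem hstep1 (F.conj_mem (le_refl S) s.2) h2
  refine ⟨V', _, hstep2, fun a b => ?_⟩
  have hval : ∀ (w : Ω) (hw : w ∈ V'),
      ((conjHom S (s : Ω)).comp ((χ.comp ((conjHom V' ((t : Ω)⁻¹)).codRestrict V h1)).codRestrict
        S h2)) ⟨w, hw⟩ = (s : Ω) * χ ⟨(t : Ω)⁻¹ * w * t, (hmemV' w).mp hw⟩ * (s : Ω)⁻¹ := by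
    intro w hw
    show (s : Ω) * χ ⟨(t : Ω)⁻¹ * w * ((t : Ω)⁻¹)⁻¹, _⟩ * (s : Ω)⁻¹ = _
    congr 3
    apply Subtype.ext
    show (t : Ω)⁻¹ * w * ((t : Ω)⁻¹)⁻¹ = (t : Ω)⁻¹ * w * t
    rw [inv_inv]
  constructor
  · rintro ⟨⟨a₀, b₀⟩, hx, hxe⟩
    have hxe' : ((s, t) : ↥S × ↥S) * (a₀, b₀) * ((s, t) : ↥S × ↥S)⁻¹ = (a, b) := hxe
    have ha : s * a₀ * s⁻¹ = a := congrArg Prod.fst hxe'
    have hb : t * b₀ * t⁻¹ = b := congrArg Prod.snd hxe'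
    obtain ⟨hb₀, e⟩ := (hg a₀ b₀).mp hx
    have hbV' : (b : Ω) ∈ V' := by
      rw [hmemV', ← hb]
      have e2 : (t : Ω)⁻¹ * ((t * b₀ * t⁻¹ : ↥S) : Ω) * t = b₀ := by
        show (t : Ω)⁻¹ * ((t : Ω) * b₀ * (t : Ω)⁻¹) * t = b₀
        group
      rw [e2]; exact hb₀
    refine ⟨hbV', ?_⟩
    rw [hval]
    have e3 : (⟨(t : Ω)⁻¹ * (b : Ω) * t, (hmemV' _).mp hbV'⟩ : V) = ⟨b₀, hb₀⟩ := by
      apply Subtype.ext
      show (t : Ω)⁻¹ * (b : Ω) * t = b₀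
      rw [← hb]
      show (t : Ω)⁻¹ * ((t : Ω) * b₀ * (t : Ω)⁻¹) * t = b₀
      group
    rw [e3, e, ← ha]
    rfl
  · rintro ⟨hbV', e⟩
    rw [hval] at e
    have hv := (hmemV' _).mp hbV'
    refine ⟨(⟨χ ⟨(t : Ω)⁻¹ * (b : Ω) * t, hv⟩, hχS _⟩, ⟨(t : Ω)⁻¹ * (b : Ω) * t, hVS hv⟩),
      (hg _ _).mpr ⟨hv, rfl⟩, ?_⟩
    show ((s, t) : ↥S × ↥S) * (_, _) * ((s, t) : ↥S × ↥S)⁻¹ = (a, b)
    apply Prod.ext
    · apply Subtype.ext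
      show (s : Ω) * χ ⟨(t : Ω)⁻¹ * (b : Ω) * t, hv⟩ * (s : Ω)⁻¹ = a
      exact e
    · apply Subtype.ext
      show (t : Ω) * ((t : Ω)⁻¹ * (b : Ω) * t) * (t : Ω)⁻¹ = b
      group

end Cfsg.Agent.Lib.Helper8
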