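import Mathlib
import Cfsg.Prelude.Def_FusionSystem
import Cfsg.Agent.Lib.Helper8.Park2

set_option autoImplicit false
open Cfsg

namespace Cfsg.Agent.Lib.Helper8

universe u

theorem fix_sum8 {K : Type*} [Group K] {α β : Type*} [MulAction K α] [MulAction K β]
    [Finite α] [Finite β] (Λ : Subgroup K) :
    Nat.card {z : α ⊕ β // ∀ g ∈ Λ, g • z = z} =
      Nat.card {a : α // ∀ g ∈ Λ, g • a = a} + Nat.card {b : β // ∀ g ∈ Λ, g • b = b} := by
  rw [← Nat.card_sum]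
  apply Nat.card_congr
  refine Equiv.subtypeSum.trans
    (Equiv.sumCongr (Equiv.subtypeEquivRight ?_) (Equiv.subtypeEquivRight ?_))
  · intro a
    constructor
    · intro h g hg
      exact Sum.inl_injective (h g hg)
    · intro h g hg
      show Sum.inl (g • a) = Sum.inl a
      rw [h g hg]
  · intro b
    constructor
    · intro h g hg
      exact Sum.inr_injective (h g hg)
    · intro h g hg
      show Sum.inr (g • b) = Sum.inr b
      rw [h g hg]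

theorem fix_const8 {K : Type*} [Group K] {T Y : Type*} [MulAction K Y] [Finite T] [Finite Y]
    (Λ : Subgroup K) :
    Nat.card {z : (Σ _ : T, Y) // ∀ g ∈ Λ, g • z = z} =
      Nat.card T * Nat.card {y : Y // ∀ g ∈ Λ, g • y = y} := by
  rw [← Nat.card_prod]
  apply Nat.card_congr
  refine ⟨fun z => (z.1.1, ⟨z.1.2, fun g hg => ?_⟩), fun p => ⟨⟨p.1, p.2.1⟩, fun g hg => ?_⟩,
    ?_, ?_⟩
  · have h := z.2 g hg
    exact congrArg (fun w : (Σ _ : T, Y) => w.2) h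
  · show (⟨p.1, g • p.2.1⟩ : Σ _ : T, Y) = ⟨p.1, p.2.1⟩
    rw [p.2.2 g hg]
  · rintro ⟨⟨t, y⟩, h⟩
    rfl
  · rintro ⟨t, ⟨y, h⟩⟩
    rfl

theorem fix_sigma8 {K : Type*} [Group K] {ι : Type*} {α : ι → Type*} [∀ i, MulAction K (α i)]
    (Λ : Subgroup K) :
    Nat.card {z : (Σ i, α i) // ∀ g ∈ Λ, g • z = z} =
      Nat.card (Σ i, {a : α i // ∀ g ∈ Λ, g • a = a}) := by
  apply Nat.card_congr
  refine ⟨fun z => ⟨z.1.1, ⟨z.1.2, fun g hg => ?_⟩⟩, fun p => ⟨⟨p.1, p.2.1⟩, fun g hg => ?_⟩,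
    ?_, ?_⟩
  · obtain ⟨⟨i, a⟩, hz⟩ := z
    exact sigma_mk_injective (hz g hg)
  · show (⟨p.1, g • p.2.1⟩ : Σ i, α i) = ⟨p.1, p.2.1⟩
    rw [p.2.2 g hg]
  · rintro ⟨⟨i, a⟩, h⟩
    rfl
  · rintro ⟨i, ⟨a, h⟩⟩
    rfl

theorem fix_quot8 {K : Type*} [Group K] (Γ Γ' : Subgroup K) (k : K) :
    (∀ g ∈ Γ', g • (k : K ⧸ Γ) = (k : K ⧸ Γ)) ↔
      Γ'.map (MulAut.conj k⁻¹).toMonoidHom ≤ Γ := by
  constructor
  · rintro h _ ⟨g, hg, rfl⟩
    have h1 := h g hg
    have h2 : ((g * k : K) : K ⧸ Γ) = (k : K ⧸ Γ) := h1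
    rw [QuotientGroup.eq] at h2
    have h3 := Γ.inv_mem h2
    have e : ((g * k)⁻¹ * k)⁻¹ = (MulAut.conj k⁻¹).toMonoidHom g := by
      show ((g * k)⁻¹ * k)⁻¹ = k⁻¹ * g * k⁻¹⁻¹
      group
    rwa [e] at h3
  · intro h g hg
    show ((g * k : K) : K ⧸ Γ) = (k : K ⧸ Γ)
    rw [QuotientGroup.eq]
    have h1 := h ⟨g, hg, rfl⟩
    have e : (MulAut.conj k⁻¹).toMonoidHom g = ((g * k)⁻¹ * k)⁻¹ := by
      show k⁻¹ * g * k⁻¹⁻¹ = ((g * k)⁻¹ * k)⁻¹
      group
    rw [e] at h1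
    exact Γ.inv_mem_iff.mp h1

theorem stab_quot8 {K : Type*} [Group K] (Γ : Subgroup K) (k : K) :
    MulAction.stabilizer K (k : K ⧸ Γ) = Γ.map (MulAut.conj k).toMonoidHom := by
  have h1 : (k : K ⧸ Γ) = k • ((1 : K) : K ⧸ Γ) := by
    show (k : K ⧸ Γ) = ((k * 1 : K) : K ⧸ Γ)
    rw [mul_one]
  rw [h1, MulAction.stabilizer_smul_eq_stabilizer_map_conj, MulAction.stabilizer_quotient]

theorem card_map_conj8 {K : Type*} [Group K] (Γ : Subgroup K) (k : K) :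
    Nat.card (Γ.map (MulAut.conj k).toMonoidHom) = Nat.card Γ :=
  Subgroup.card_map_of_injective (MulAut.conj k).injective

theorem quot_count8 {K : Type*} [Group K] [Finite K] (Γ Γ' : Subgroup K)
    (hc : Nat.card Γ' = Nat.card Γ) :
    Nat.card {k : K // Γ'.map (MulAut.conj k⁻¹).toMonoidHom = Γ} =
      Nat.card Γ * Nat.card {q : K ⧸ Γ // ∀ g ∈ Γ', g • q = q} := by
  have e1 : {k : K // Γ'.map (MulAut.conj k⁻¹).toMonoidHom = Γ} ≃
      {p : (K ⧸ Γ) × Γ // ∀ g ∈ Γ', g • p.1 = p.1} := by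
    refine Equiv.subtypeEquiv Subgroup.groupEquivQuotientProdSubgroup (fun k => ?_)
    have hk : (Subgroup.groupEquivQuotientProdSubgroup k : (K ⧸ Γ) × Γ).1 = (k : K ⧸ Γ) := rfl
    rw [hk, fix_quot8]
    constructor
    · intro h
      rw [h]
    · intro h
      apply Subgroup.eq_of_le_of_card_ge h
      rw [card_map_conj8, hc]
  have e2 : {p : (K ⧸ Γ) × Γ // ∀ g ∈ Γ', g • p.1 = p.1} ≃
      {q : K ⧸ Γ // ∀ g ∈ Γ', g • q = q} × Γ :=
    Equiv.prodSubtypeFstEquivSubtypeProd (p := fun q : K ⧸ Γ => ∀ g ∈ Γ', g • q = q)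
  rw [Nat.card_congr e1, Nat.card_congr e2, Nat.card_prod, mul_comm]

theorem nonfix_conj8 {K : Type*} [Group K] {X : Type*} [MulAction K X] (Γ' : Subgroup K)
    (k : K) :
    Nat.card {x : X // ¬ ∀ g ∈ Γ'.map (MulAut.conj k⁻¹).toMonoidHom, g • x = x} =
      Nat.card {x : X // ¬ ∀ g ∈ Γ', g • x = x} := by
  apply Nat.card_congr
  refine Equiv.subtypeEquiv (MulAction.toPerm k) (fun x => not_congr ?_)
  constructor
  · intro h g hg
    have h1 := h (k⁻¹ * g * k⁻¹⁻¹) ⟨g, hg, rfl⟩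
    show g • k • x = k • x
    rw [inv_inv, mul_smul, mul_smul] at h1
    have h2 := congrArg (fun y => k • y) h1
    simp only [smul_inv_smul] at h2
    exact h2
  · rintro h _ ⟨g, hg, rfl⟩
    have h1 : g • k • x = k • x := h g hg
    show (k⁻¹ * g * k⁻¹⁻¹) • x = x
    rw [inv_inv, mul_smul, mul_smul, h1, smul_smul, inv_mul_cancel, one_smul]

/-- the enlarged set of one step of the construction -/
abbrev ParkT8 {K : Type u} [Group K] (G : Subgroup K → Prop) (m : ℕ) (X : Type u)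
    [MulAction K X] : Type u :=
  (Σ _ : Fin (Nat.card K), X) ⊕
    (Σ Γ : {Γ : Subgroup K // G Γ ∧ Nat.card Γ = m},
      Σ _ : (↥Γ.1 × {x : X // ¬ ∀ g ∈ Γ.1, g • x = x}), K ⧸ Γ.1)

theorem parkT_stab_inl8 {K : Type u} [Group K] (G : Subgroup K → Prop) (m : ℕ) (X : Type u)
    [MulAction K X] (i : Fin (Nat.card K)) (x : X) :
    MulAction.stabilizer K (Sum.inl ⟨i, x⟩ : ParkT8 G m X) = MulAction.stabilizer K x := by
  ext g
  rw [MulAction.mem_stabilizer_iff, MulAction.mem_stabilizer_iff]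
  constructor
  · intro h
    exact congrArg (fun w : (Σ _ : Fin (Nat.card K), X) => w.2) (Sum.inl_injective h)
  · intro h
    show (Sum.inl ⟨i, g • x⟩ : ParkT8 G m X) = Sum.inl ⟨i, x⟩
    rw [h]

theorem parkT_stab_inr8 {K : Type u} [Group K] (G : Subgroup K → Prop) (m : ℕ) (X : Type u)
    [MulAction K X] (Γ : {Γ : Subgroup K // G Γ ∧ Nat.card Γ = m})
    (t : ↥Γ.1 × {x : X // ¬ ∀ g ∈ Γ.1, g • x = x}) (q : K ⧸ Γ.1) :
    MulAction.stabilizer K (Sum.inr ⟨Γ, ⟨t, q⟩⟩ : ParkT8 G m X) = MulAction.stabilizer K q := by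
  ext g
  rw [MulAction.mem_stabilizer_iff, MulAction.mem_stabilizer_iff]
  constructor
  · intro h
    have h2 : (⟨Γ, ⟨t, g • q⟩⟩ : Σ Γ : {Γ : Subgroup K // G Γ ∧ Nat.card Γ = m},
        Σ _ : (↥Γ.1 × {x : X // ¬ ∀ g ∈ Γ.1, g • x = x}), K ⧸ Γ.1) = ⟨Γ, ⟨t, q⟩⟩ :=
      Sum.inr_injective h
    have h3 : (⟨t, g • q⟩ : Σ _ : (↥Γ.1 × {x : X // ¬ ∀ g ∈ Γ.1, g • x = x}), K ⧸ Γ.1) =
        ⟨t, q⟩ := eq_of_heq (Sigma.mk.inj_iff.mp h2).2
    exact eq_of_heq (Sigma.mk.inj_iff.mp h3).2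
  · intro h
    show (Sum.inr ⟨Γ, ⟨t, g • q⟩⟩ : ParkT8 G m X) = Sum.inr ⟨Γ, ⟨t, q⟩⟩
    rw [h]

theorem parkT_count8 {K : Type u} [Group K] [Finite K] (G : Subgroup K → Prop) (m : ℕ)
    (X : Type u) [MulAction K X] [Finite X]
    [Fintype {Γ : Subgroup K // G Γ ∧ Nat.card Γ = m}] (Γ' : Subgroup K) :
    Nat.card {x' : ParkT8 G m X // ∀ g ∈ Γ', g • x' = x'} =
      Nat.card K * Nat.card {x : X // ∀ g ∈ Γ', g • x = x} +
      ∑ Γ : {Γ : Subgroup K // G Γ ∧ Nat.card Γ = m},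
        (Nat.card Γ.1 * Nat.card {x : X // ¬ ∀ g ∈ Γ.1, g • x = x}) *
          Nat.card {q : K ⧸ Γ.1 // ∀ g ∈ Γ', g • q = q} := by
  rw [fix_sum8, fix_const8, fix_sigma8, Nat.card_sigma, Nat.card_fin]
  congr 1
  apply Finset.sum_congr rfl
  intro Γ _
  rw [fix_const8, Nat.card_prod]

theorem park_step8 {K : Type u} [Group K] [Finite K] (G : Subgroup K → Prop)
    (hG : ∀ Γ, G Γ → ∀ k : K, G (Γ.map (MulAut.conj k).toMonoidHom)) (m : ℕ)
    (X : Type u) [MulAction K X] [Finite X] :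
    ∃ (X' : Type u) (_ : MulAction K X') (_ : Finite X'),
      (∀ x' : X', (∃ x : X, MulAction.stabilizer K x' = MulAction.stabilizer K x) ∨
        G (MulAction.stabilizer K x')) ∧
      (∀ x : X, ∃ x' : X', MulAction.stabilizer K x' = MulAction.stabilizer K x) ∧
      (∀ Γ' : Subgroup K, m < Nat.card Γ' →
        Nat.card {x' : X' // ∀ g ∈ Γ', g • x' = x'} =
          Nat.card K * Nat.card {x : X // ∀ g ∈ Γ', g • x = x}) ∧
      (∀ Γ' : Subgroup K, G Γ' → Nat.card Γ' = m →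
        Nat.card {x' : X' // ∀ g ∈ Γ', g • x' = x'} = Nat.card K * Nat.card X) := by
  have : Finite (Subgroup K) :=
    Finite.of_injective (fun H : Subgroup K => (H : Set K)) SetLike.coe_injective
  letI : Fintype {Γ : Subgroup K // G Γ ∧ Nat.card Γ = m} := Fintype.ofFinite _
  refine ⟨ParkT8 G m X, inferInstance, inferInstance, ?_, ?_, ?_, ?_⟩
  · rintro (⟨i, x⟩ | ⟨Γ, t, q⟩)
    · left
      exact ⟨x, parkT_stab_inl8 G m X i x⟩
    · right
      rw [parkT_stab_inr8]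
      induction q using QuotientGroup.induction_on with
      | H k =>
        rw [stab_quot8]
        exact hG _ Γ.2.1 k
  · intro x
    exact ⟨Sum.inl ⟨⟨0, Nat.card_pos⟩, x⟩, parkT_stab_inl8 G m X _ x⟩
  · intro Γ' hm
    rw [parkT_count8]
    have h0 : ∑ Γ : {Γ : Subgroup K // G Γ ∧ Nat.card Γ = m},
        (Nat.card Γ.1 * Nat.card {x : X // ¬ ∀ g ∈ Γ.1, g • x = x}) *
          Nat.card {q : K ⧸ Γ.1 // ∀ g ∈ Γ', g • q = q} = 0 := by
      apply Finset.sum_eq_zero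
      intro Γ _
      have hemp : IsEmpty {q : K ⧸ Γ.1 // ∀ g ∈ Γ', g • q = q} := by
        constructor
        rintro ⟨q, hq⟩
        induction q using QuotientGroup.induction_on with
        | H k =>
          rw [fix_quot8] at hq
          have h1 := Subgroup.card_le_of_le hq
          rw [card_map_conj8, Γ.2.2] at h1
          omega
      have hz := @Nat.card_of_isEmpty _ hemp
      rw [hz, mul_zero]
    rw [h0, add_zero]
  · intro Γ' hΓ' hm
    classical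
    rw [parkT_count8]
    obtain ⟨f, hf⟩ : ∃ f : K → {Γ : Subgroup K // G Γ ∧ Nat.card Γ = m},
        ∀ k, (f k).1 = Γ'.map (MulAut.conj k⁻¹).toMonoidHom :=
      ⟨fun k => ⟨Γ'.map (MulAut.conj k⁻¹).toMonoidHom, hG Γ' hΓ' k⁻¹,
        (card_map_conj8 Γ' k⁻¹).trans hm⟩, fun k => rfl⟩
    have hterm : ∀ Γ : {Γ : Subgroup K // G Γ ∧ Nat.card Γ = m},
        (Nat.card Γ.1 * Nat.card {x : X // ¬ ∀ g ∈ Γ.1, g • x = x}) *
          Nat.card {q : K ⧸ Γ.1 // ∀ g ∈ Γ', g • q = q} =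
        Nat.card {k : K // f k = Γ} * Nat.card {x : X // ¬ ∀ g ∈ Γ', g • x = x} := by
      intro Γ
      have h1 : Nat.card {k : K // f k = Γ} =
          Nat.card Γ.1 * Nat.card {q : K ⧸ Γ.1 // ∀ g ∈ Γ', g • q = q} := by
        rw [← quot_count8 Γ.1 Γ' (hm.trans Γ.2.2.symm)]
        apply Nat.card_congr
        refine Equiv.subtypeEquivRight (fun k => ?_)
        rw [Subtype.ext_iff, hf]
      by_cases h0 : Nat.card {k : K // f k = Γ} = 0
      · rw [h0, zero_mul]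
        rw [h0] at h1
        rw [mul_right_comm, ← h1, zero_mul]
      · have hne : Nonempty {k : K // f k = Γ} := by
          by_contra hcon
          rw [not_nonempty_iff] at hcon
          exact h0 Nat.card_of_isEmpty
        obtain ⟨⟨k, hk⟩⟩ := hne
        have hk' : Γ.1 = Γ'.map (MulAut.conj k⁻¹).toMonoidHom := by
          rw [← hf, hk]
        have h2 : Nat.card {x : X // ¬ ∀ g ∈ Γ.1, g • x = x} =
            Nat.card {x : X // ¬ ∀ g ∈ Γ', g • x = x} := by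
          rw [hk']
          exact nonfix_conj8 Γ' k
        rw [h1, h2, mul_right_comm]
    rw [Finset.sum_congr rfl (fun Γ _ => hterm Γ), ← Finset.sum_mul, ← Nat.card_sigma,
      Nat.card_congr (Equiv.sigmaFiberEquiv f), ← mul_add]
    congr 1
    rw [← Nat.card_sum]
    exact Nat.card_congr (Equiv.sumCompl _)

end Cfsg.Agent.Lib.Helper8
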