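import Mathlib
import Cfsg.Prelude.Def_FusionSystem
import Cfsg.Agent.Lib.Helper8.Park1
import Cfsg.Agent.Lib.Helper8.Park3

set_option autoImplicit false
open Cfsg

namespace Cfsg.Agent.Lib.Helper8

universe u

variable {Ω : Type u} [Group Ω] {S : Subgroup Ω}

/-- the biset invariant at level `m` -/
def Good8 (F : FusionSystem S) (m : ℕ) (X : Type u) [MulAction (↥S × ↥S) X] : Prop :=
  (∀ x : X, IsFGraph8 F (MulAction.stabilizer (↥S × ↥S) x)) ∧
  (∃ x₀ : X, ∀ s : ↥S, ((s, s) : ↥S × ↥S) • x₀ = x₀) ∧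
  (∀ Γ Γ' : Subgroup (↥S × ↥S), IsFGraph8 F Γ → IsFGraph8 F Γ' → Nat.card Γ = Nat.card Γ' →
     m ≤ Nat.card Γ →
     Nat.card {x : X // ∀ g ∈ Γ, g • x = x} = Nat.card {x : X // ∀ g ∈ Γ', g • x = x})

theorem good_base8 (F : FusionSystem S) [Finite S] :
    Good8 F (Nat.card S + 1) ((↥S × ↥S) ⧸ diag8 S) := by
  refine ⟨fun x => ?_, ⟨((1 : ↥S × ↥S) : (↥S × ↥S) ⧸ diag8 S), fun s => ?_⟩,
    fun Γ Γ' hΓ hΓ' hc hm => ?_⟩
  · induction x using QuotientGroup.induction_on with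
    | H k =>
      rw [stab_quot8]
      exact fgraph_conj8 F (diag_fgraph8 F) k
  · show (((s, s) * 1 : ↥S × ↥S) : (↥S × ↥S) ⧸ diag8 S) =
      ((1 : ↥S × ↥S) : (↥S × ↥S) ⧸ diag8 S)
    rw [QuotientGroup.eq, mul_one, mul_one]
    exact (diag8 S).inv_mem ((mem_diag8 s s).mpr rfl)
  · have := fgraph_card_le8 F hΓ
    omega

theorem good_step8 (F : FusionSystem S) [Finite S] (m : ℕ) (X : Type u)
    [MulAction (↥S × ↥S) X] [Finite X] (h : Good8 F (m + 1) X) :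
    ∃ (X' : Type u) (_ : MulAction (↥S × ↥S) X') (_ : Finite X'), Good8 F m X' := by
  obtain ⟨h1, ⟨x₀, hx₀⟩, h3⟩ := h
  obtain ⟨X', i1, i2, k1, k2, k3, k4⟩ := park_step8 (K := ↥S × ↥S) (IsFGraph8 F)
    (fun Γ hΓ k => fgraph_conj8 F hΓ k) m X
  refine ⟨X', i1, i2, ?_, ?_, ?_⟩
  · intro x'
    rcases k1 x' with ⟨x, hx⟩ | hx
    · rw [hx]; exact h1 x
    · exact hx
  · obtain ⟨x', hx'⟩ := k2 x₀
    refine ⟨x', fun s => ?_⟩
    have h4 : ((s, s) : ↥S × ↥S) ∈ MulAction.stabilizer (↥S × ↥S) x' := by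
      rw [hx']; exact hx₀ s
    exact h4
  · intro Γ Γ' hΓ hΓ' hc hm
    rcases Nat.lt_or_ge m (Nat.card Γ) with hlt | hge
    · rw [k3 Γ hlt, k3 Γ' (hc ▸ hlt), h3 Γ Γ' hΓ hΓ' hc hlt]
    · have e : Nat.card Γ = m := le_antisymm hge hm
      rw [k4 Γ hΓ e, k4 Γ' hΓ' (hc.symm.trans e)]

theorem good_exists8 (F : FusionSystem S) [Finite S] :
    ∃ (X : Type u) (_ : MulAction (↥S × ↥S) X) (_ : Finite X), Good8 F 0 X := by
  have key : ∀ d : ℕ, ∃ (X : Type u) (_ : MulAction (↥S × ↥S) X) (_ : Finite X),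
      Good8 F (Nat.card S + 1 - d) X := by
    intro d
    induction d with
    | zero => exact ⟨(↥S × ↥S) ⧸ diag8 S, inferInstance, inferInstance, good_base8 F⟩
    | succ d ih =>
      obtain ⟨X, i1, i2, hX⟩ := ih
      rcases Nat.eq_zero_or_pos (Nat.card S + 1 - d) with h0 | hpos
      · have e : Nat.card S + 1 - (d + 1) = 0 := by omega
        rw [e]; rw [h0] at hX
        exact ⟨X, i1, i2, hX⟩
      · obtain ⟨n, hn⟩ : ∃ n, Nat.card S + 1 - d = n + 1 :=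
          ⟨Nat.card S + 1 - d - 1, by omega⟩
        have e : Nat.card S + 1 - (d + 1) = n := by omega
        rw [e]; rw [hn] at hX
        exact good_step8 F n X hX
  have h := key (Nat.card S + 1)
  rwa [Nat.sub_self] at h

theorem twist_fgraph8 (F : FusionSystem S) {P : Subgroup Ω} (hP : P ≤ S) (φ : P →* Ω)
    (hφ : ∀ x : P, φ x ∈ S) (hmem : φ ∈ F.Hom P) (Λ : Subgroup (↥P × ↥S)) :
    IsFGraph8 F (Λ.map (MonoidHom.prodMap (Subgroup.inclusion hP) (MonoidHom.id ↥S))) ↔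
      IsFGraph8 F (Λ.map (MonoidHom.prodMap (φ.codRestrict S hφ) (MonoidHom.id ↥S))) := by
  have hm1 : ∀ a b : ↥S,
      (a, b) ∈ Λ.map (MonoidHom.prodMap (Subgroup.inclusion hP) (MonoidHom.id ↥S)) ↔
      ∃ u : P, (u, b) ∈ Λ ∧ (u : Ω) = a := by
    intro a b
    constructor
    · rintro ⟨⟨u, s⟩, hx, hxe⟩
      have h1 : (⟨u, hP u.2⟩ : ↥S) = a := congrArg Prod.fst hxe
      have h2 : s = b := congrArg Prod.snd hxe
      subst h2
      exact ⟨u, hx, congrArg Subtype.val h1⟩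
    · rintro ⟨u, hx, hu⟩
      refine ⟨(u, b), hx, ?_⟩
      apply Prod.ext
      · apply Subtype.ext
        exact hu
      · rfl
  have hm2 : ∀ a b : ↥S,
      (a, b) ∈ Λ.map (MonoidHom.prodMap (φ.codRestrict S hφ) (MonoidHom.id ↥S)) ↔
      ∃ u : P, (u, b) ∈ Λ ∧ φ u = a := by
    intro a b
    constructor
    · rintro ⟨⟨u, s⟩, hx, hxe⟩
      have h1 : (⟨φ u, hφ u⟩ : ↥S) = a := congrArg Prod.fst hxe
      have h2 : s = b := congrArg Prod.snd hxe
      subst h2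
      exact ⟨u, hx, congrArg Subtype.val h1⟩
    · rintro ⟨u, hx, hu⟩
      refine ⟨(u, b), hx, ?_⟩
      apply Prod.ext
      · apply Subtype.ext
        exact hu
      · rfl
  constructor
  · rintro ⟨V, χ, hχ, hg⟩
    have hVS : V ≤ S := (F.le_of_mem hχ).1
    have hχS : ∀ v : V, χ v ∈ S := (F.le_of_mem hχ).2
    have hχu : ∀ v : V, ∃ u : P, (u, (⟨v, hVS v.2⟩ : ↥S)) ∈ Λ ∧ (u : Ω) = χ v := by
      intro v
      have h1 := (hg ⟨χ v, hχS v⟩ ⟨v, hVS v.2⟩).mpr ⟨v.2, rfl⟩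
      exact (hm1 _ _).mp h1
    have hχP : ∀ v : V, χ v ∈ P := by
      intro v
      obtain ⟨u, _, hu⟩ := hχu v
      rw [← hu]; exact u.2
    refine ⟨V, φ.comp (χ.codRestrict P hχP), F.comp_mem hχ hmem hχP, fun a b => ?_⟩
    rw [hm2]
    constructor
    · rintro ⟨u, hx, hu⟩
      obtain ⟨hb, e⟩ := (hg ⟨u, hP u.2⟩ b).mp ((hm1 _ _).mpr ⟨u, hx, rfl⟩)
      refine ⟨hb, ?_⟩
      show φ ⟨χ ⟨b, hb⟩, _⟩ = a
      rw [← hu]
      congr 1
      exact Subtype.ext e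
    · rintro ⟨hb, e⟩
      obtain ⟨u, hx, hu⟩ := hχu ⟨b, hb⟩
      refine ⟨u, hx, ?_⟩
      rw [← e]
      show φ u = φ ⟨χ ⟨b, hb⟩, _⟩
      congr 1
      exact Subtype.ext hu
  · rintro ⟨V, χ, hχ, hg⟩
    have hVS : V ≤ S := (F.le_of_mem hχ).1
    have hχS : ∀ v : V, χ v ∈ S := (F.le_of_mem hχ).2
    have hχu : ∀ v : V, ∃ u : P, (u, (⟨v, hVS v.2⟩ : ↥S)) ∈ Λ ∧ φ u = χ v := by
      intro v
      have h1 := (hg ⟨χ v, hχS v⟩ ⟨v, hVS v.2⟩).mpr ⟨v.2, rfl⟩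
      exact (hm2 _ _).mp h1
    have hχR : ∀ v : V, χ v ∈ φ.range := by
      intro v
      obtain ⟨u, _, hu⟩ := hχu v
      exact ⟨u, hu⟩
    obtain ⟨ψ, hψ, hψe, _⟩ := fs_inv F hmem
    have hψ' : ∀ (y : Ω) (hy : y ∈ φ.range) (u : P), φ u = y → ψ ⟨y, hy⟩ = (u : Ω) := by
      intro y hy u e
      subst e
      exact hψe u
    refine ⟨V, ψ.comp (χ.codRestrict φ.range hχR), F.comp_mem hχ hψ hχR, fun a b => ?_⟩
    rw [hm1]
    constructor
    · rintro ⟨u, hx, hu⟩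
      obtain ⟨hb, e⟩ := (hg ⟨φ u, hφ u⟩ b).mp ((hm2 _ _).mpr ⟨u, hx, rfl⟩)
      refine ⟨hb, ?_⟩
      show ψ ⟨χ ⟨b, hb⟩, _⟩ = a
      rw [hψ' _ _ u e.symm, hu]
    · rintro ⟨hb, e⟩
      obtain ⟨u, hx, hu⟩ := hχu ⟨b, hb⟩
      refine ⟨u, hx, ?_⟩
      rw [← e]
      show (u : Ω) = ψ ⟨χ ⟨b, hb⟩, _⟩
      rw [hψ' _ _ u hu]

theorem park_realize8 (F : FusionSystem S) [Finite S] :
    ∃ (G : Type u) (_ : Group G) (_ : Finite G) (ι : ↥S →* G), F.IsRealizedBy ι := by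
  obtain ⟨X, iA, iF, hstab, ⟨x₀, hx₀⟩, hfix⟩ := good_exists8 F
  obtain ⟨G, hGdef⟩ : ∃ G : Subgroup (Equiv.Perm X), ∀ g : Equiv.Perm X,
      g ∈ G ↔ ∀ (s : ↥S) (x : X),
        g (((1 : ↥S), s) • x) = (((1 : ↥S), s) : ↥S × ↥S) • g x := by
    refine ⟨{ carrier := {g | ∀ (s : ↥S) (x : X),
                g (((1 : ↥S), s) • x) = (((1 : ↥S), s) : ↥S × ↥S) • g x}
              mul_mem' := ?_
              one_mem' := ?_
              inv_mem' := ?_ }, fun g => Iff.rfl⟩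
    · intro a b ha hb s x
      show a (b _) = _ • a (b x)
      rw [hb s x, ha s (b x)]
    · intro s x
      rfl
    · intro a ha s x
      show a⁻¹ _ = _ • a⁻¹ x
      apply a.injective
      rw [ha s (a⁻¹ x)]
      simp only [Equiv.Perm.inv_def, Equiv.apply_symm_apply]
  have hι0 : ∀ s : ↥S, MulAction.toPerm ((s, 1) : ↥S × ↥S) ∈ G := by
    intro s
    rw [hGdef]
    intro t x
    show ((s, 1) : ↥S × ↥S) • ((1, t) : ↥S × ↥S) • x =
      ((1, t) : ↥S × ↥S) • ((s, 1) : ↥S × ↥S) • x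
    rw [smul_smul, smul_smul]
    congr 1
    apply Prod.ext
    · show s * 1 = 1 * s
      rw [mul_one, one_mul]
    · show 1 * t = t * 1
      rw [mul_one, one_mul]
  obtain ⟨ι, hι⟩ : ∃ ι : ↥S →* ↥G, ∀ (s : ↥S) (x : X),
      (ι s : Equiv.Perm X) x = ((s, 1) : ↥S × ↥S) • x :=
    ⟨((MulAction.toPermHom (↥S × ↥S) X).comp (MonoidHom.inl ↥S ↥S)).codRestrict G hι0,
      fun s x => rfl⟩
  refine ⟨↥G, inferInstance, inferInstance, ι, ?_, ?_⟩
  · intro s s' hss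
    have h1 : ((s, 1) : ↥S × ↥S) • x₀ = ((s', 1) : ↥S × ↥S) • x₀ := by
      rw [← hι s x₀, ← hι s' x₀, hss]
    have h2 : ((s'⁻¹ * s, 1) : ↥S × ↥S) ∈ MulAction.stabilizer (↥S × ↥S) x₀ := by
      rw [MulAction.mem_stabilizer_iff]
      have e : ((s'⁻¹ * s, 1) : ↥S × ↥S) = ((s', 1) : ↥S × ↥S)⁻¹ * (s, 1) := by
        apply Prod.ext
        · rfl
        · show (1 : ↥S) = 1⁻¹ * 1
          rw [inv_one, mul_one]
      rw [e, mul_smul, h1, inv_smul_smul]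
    have h3 := fgraph_free8 F (hstab x₀) h2
    exact (inv_mul_eq_one.mp h3).symm
  · intro P hP φ hφ
    constructor
    · intro hmem
      have hPfin : Finite ↥P :=
        Finite.of_injective (Subgroup.inclusion hP) (Subgroup.inclusion_injective hP)
      obtain ⟨j₁, hj₁⟩ : ∃ j : ↥P × ↥S →* ↥S × ↥S,
          j = MonoidHom.prodMap (Subgroup.inclusion hP) (MonoidHom.id ↥S) := ⟨_, rfl⟩
      obtain ⟨j₂, hj₂⟩ : ∃ j : ↥P × ↥S →* ↥S × ↥S,
          j = MonoidHom.prodMap (φ.codRestrict S hφ) (MonoidHom.id ↥S) := ⟨_, rfl⟩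
      have hj₁v : ∀ (u : P) (s : ↥S), j₁ (u, s) = (⟨u, hP u.2⟩, s) := by
        intro u s; rw [hj₁]; rfl
      have hj₂v : ∀ (u : P) (s : ↥S), j₂ (u, s) = (⟨φ u, hφ u⟩, s) := by
        intro u s; rw [hj₂]; rfl
      have hinj₁ : Function.Injective j₁ := by
        rintro ⟨u, s⟩ ⟨u', s'⟩ h
        rw [hj₁v, hj₁v] at h
        have h1 : (⟨u, hP u.2⟩ : ↥S) = ⟨u', hP u'.2⟩ := congrArg Prod.fst h
        have h2 := congrArg Prod.snd h
        have h3 := congrArg Subtype.val h1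
        apply Prod.ext
        · apply Subtype.ext
          exact h3
        · exact h2
      have hinj₂ : Function.Injective j₂ := by
        rintro ⟨u, s⟩ ⟨u', s'⟩ h
        rw [hj₂v, hj₂v] at h
        have h1 : (⟨φ u, hφ u⟩ : ↥S) = ⟨φ u', hφ u'⟩ := congrArg Prod.fst h
        have h2 := congrArg Prod.snd h
        have h3 := congrArg Subtype.val h1
        apply Prod.ext
        · apply F.injective_of_mem hmem
          exact h3
        · exact h2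
      have htw : ∀ Λ : Subgroup (↥P × ↥S),
          IsFGraph8 F (Λ.map j₁) ↔ IsFGraph8 F (Λ.map j₂) := by
        intro Λ; rw [hj₁, hj₂]; exact twist_fgraph8 F hP φ hφ hmem Λ
      have hfixeq : ∀ (j : ↥P × ↥S →* ↥S × ↥S) (Λ : Subgroup (↥P × ↥S)),
          Nat.card {x : X // ∀ l ∈ Λ, j l • x = x} =
            Nat.card {x : X // ∀ g ∈ Λ.map j, g • x = x} := by
        intro j Λ
        apply Nat.card_congr
        refine Equiv.subtypeEquivRight (fun x => ?_)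
        constructor
        · rintro h _ ⟨l, hl, rfl⟩
          exact h l hl
        · intro h l hl
          exact h (j l) ⟨l, hl, rfl⟩
      have hempty : ∀ (Γ : Subgroup (↥S × ↥S)), ¬ IsFGraph8 F Γ →
          Nat.card {x : X // ∀ g ∈ Γ, g • x = x} = 0 := by
        intro Γ hΓ
        have hemp : IsEmpty {x : X // ∀ g ∈ Γ, g • x = x} := by
          constructor
          rintro ⟨x, hx⟩
          exact hΓ (fgraph_of_le8 F (hstab x) (fun g hg => hx g hg))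
        exact Nat.card_of_isEmpty
      have hmarks : ∀ Λ : Subgroup (↥P × ↥S),
          Nat.card {x : X // ∀ l ∈ Λ, j₁ l • x = x} =
            Nat.card {x : X // ∀ l ∈ Λ, j₂ l • x = x} := by
        intro Λ
        rw [hfixeq, hfixeq]
        by_cases hG1 : IsFGraph8 F (Λ.map j₁)
        · have hG2 := (htw Λ).mp hG1
          apply hfix _ _ hG1 hG2
          · rw [Subgroup.card_map_of_injective hinj₁, Subgroup.card_map_of_injective hinj₂]
          · exact Nat.zero_le _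
        · have hG2 : ¬ IsFGraph8 F (Λ.map j₂) := fun h => hG1 ((htw Λ).mpr h)
          rw [hempty _ hG1, hempty _ hG2]
      obtain ⟨f, hf⟩ := @marks_iso8 (↥P × ↥S) _ _ (Nat.card X) X X _ _
        (MulAction.compHom X j₁) (MulAction.compHom X j₂) rfl hmarks
      have hf' : ∀ (l : ↥P × ↥S) (x : X), f (j₁ l • x) = j₂ l • f x := hf
      have hfG : f ∈ G := by
        rw [hGdef]
        intro s x
        have h1 := hf' ((1 : ↥P), s) x
        rw [hj₁v, hj₂v] at h1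
        have e1 : ((⟨((1 : ↥P) : Ω), hP (1 : ↥P).2⟩ : ↥S), s) = ((1 : ↥S), s) := rfl
        have e2 : ((⟨φ (1 : ↥P), hφ 1⟩ : ↥S), s) = ((1 : ↥S), s) := by
          apply Prod.ext
          · apply Subtype.ext
            exact map_one φ
          · rfl
        rw [e1, e2] at h1
        exact h1
      refine ⟨⟨f, hfG⟩, fun u => ?_⟩
      apply Subtype.ext
      apply Equiv.ext
      intro x
      show (ι ⟨φ u, hφ u⟩ : Equiv.Perm X) x = f ((ι ⟨u, hP u.2⟩ : Equiv.Perm X) (f.symm x))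
      rw [hι, hι]
      have h1 := hf' (u, (1 : ↥S)) (f.symm x)
      rw [hj₁v, hj₂v, Equiv.apply_symm_apply] at h1
      exact h1.symm
    · rintro ⟨g, hg⟩
      have hgG : ∀ (s : ↥S) (x : X), (g : Equiv.Perm X) (((1 : ↥S), s) • x) =
          (((1 : ↥S), s) : ↥S × ↥S) • (g : Equiv.Perm X) x := (hGdef _).mp g.2
      apply mem_of_graph_le8 F hP φ hφ (hstab ((g : Equiv.Perm X) x₀))
      intro u
      rw [MulAction.mem_stabilizer_iff]
      have h1 : (ι ⟨φ u, hφ u⟩ : Equiv.Perm X) =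
          (g : Equiv.Perm X) * (ι ⟨u, hP u.2⟩ : Equiv.Perm X) * (g : Equiv.Perm X)⁻¹ := by
        rw [hg u]; rfl
      have h2 : ∀ y : X, ((⟨φ u, hφ u⟩, 1) : ↥S × ↥S) • (g : Equiv.Perm X) y =
          (g : Equiv.Perm X) (((⟨u, hP u.2⟩, 1) : ↥S × ↥S) • y) := by
        intro y
        rw [← hι, ← hι, h1]
        show (g : Equiv.Perm X) ((ι ⟨u, hP u.2⟩ : Equiv.Perm X)
          ((g : Equiv.Perm X)⁻¹ ((g : Equiv.Perm X) y))) = _
        rw [Equiv.Perm.inv_def, Equiv.symm_apply_apply]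
      have e : ((⟨φ u, hφ u⟩, ⟨u, hP u.2⟩) : ↥S × ↥S) =
          ((⟨φ u, hφ u⟩, 1) : ↥S × ↥S) * ((1, ⟨u, hP u.2⟩) : ↥S × ↥S) := by
        apply Prod.ext
        · show _ = _ * 1
          rw [mul_one]
        · show _ = 1 * _
          rw [one_mul]
      rw [e, mul_smul, ← hgG, h2, smul_smul]
      have e' : ((⟨u, hP u.2⟩, 1) : ↥S × ↥S) * ((1, ⟨u, hP u.2⟩) : ↥S × ↥S) =
          ((⟨u, hP u.2⟩, ⟨u, hP u.2⟩) : ↥S × ↥S) := by
        apply Prod.ext
        · show _ * 1 = _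
          rw [mul_one]
        · show 1 * _ = _
          rw [one_mul]
      rw [e', hx₀]

end Cfsg.Agent.Lib.Helper8
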