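import Mathlib

/-!
# Abstract Sylow lemmas used for products of saturated fusion systems
-/

namespace Cfsg.Agent.Lib.Helper8

open scoped Pointwise

/-- Moving a point so that a fixed Sylow subgroup meets its stabilizer in a Sylow subgroup. -/
theorem sylow_stab_move8 {𝔸 𝔹 X : Type*} [Group 𝔸] [Finite 𝔸] [Group 𝔹] [MulAction 𝔹 X]
    (p : ℕ) [Fact p.Prime] (R : Sylow p 𝔸) (Φ : 𝔸 →* 𝔹) (x : X) :
    ∃ g : 𝔸, ¬ p ∣ ((R : Subgroup 𝔸).subgroupOf
      ((MulAction.stabilizer 𝔹 (Φ g • x)).comap Φ)).index := by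
  classical
  obtain ⟨H, hH⟩ : ∃ H : Subgroup 𝔸, H = (MulAction.stabilizer 𝔹 x).comap Φ := ⟨_, rfl⟩
  obtain ⟨T⟩ : Nonempty (Sylow p H) := inferInstance
  have hTp : IsPGroup p ((T : Subgroup H).map H.subtype) := T.2.map _
  obtain ⟨R', hR'⟩ := hTp.exists_le_sylow
  obtain ⟨g', hg'⟩ := MulAction.exists_smul_eq 𝔸 R' R
  refine ⟨g', ?_⟩
  have hstab : (MulAction.stabilizer 𝔹 (Φ g' • x)).comap Φ = MulAut.conj g' • H := by
    ext y
    rw [Subgroup.mem_comap, MulAction.mem_stabilizer_iff,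
      Subgroup.mem_pointwise_smul_iff_inv_smul_mem, hH, Subgroup.mem_comap,
      MulAction.mem_stabilizer_iff]
    have e : (MulAut.conj g')⁻¹ • y = g'⁻¹ * y * g' := by
      rw [MulAut.smul_def, MulAut.conj_inv_apply]
    rw [e, map_mul, map_mul, map_inv, mul_smul, mul_smul]
    constructor
    · intro h
      rw [h, inv_smul_smul]
    · intro h
      have := congrArg (fun z => Φ g' • z) h
      simpa only [smul_inv_smul] using this
  have hRR : (R : Subgroup 𝔸) = MulAut.conj g' • (R' : Subgroup 𝔸) := by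
    rw [← hg', Sylow.coe_subgroup_smul]
  have hrel : ((R : Subgroup 𝔸).subgroupOf ((MulAction.stabilizer 𝔹 (Φ g' • x)).comap Φ)).index
      = ((R' : Subgroup 𝔸).subgroupOf H).index := by
    rw [hstab, hRR]
    exact Subgroup.relIndex_pointwise_smul (MulAut.conj g') (R' : Subgroup 𝔸) H
  rw [hrel]
  have h1 : (T : Subgroup H) ≤ (R' : Subgroup 𝔸).subgroupOf H := by
    intro t ht
    rw [Subgroup.mem_subgroupOf]
    exact hR' ⟨t, ht, rfl⟩
  have h2 : ((R' : Subgroup 𝔸).subgroupOf H).index ∣ (T : Subgroup H).index :=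
    Subgroup.index_dvd_of_le h1
  intro hdvd
  exact T.not_dvd_index (dvd_trans hdvd h2)

theorem sylow_prod8 {A B : Type*} [Group A] [Group B] [Finite A] [Finite B] (p : ℕ)
    [Fact p.Prime] (R₁ : Sylow p A) (R₂ : Sylow p B) :
    ∃ R : Sylow p (A × B), (R : Subgroup (A × B)) = (R₁ : Subgroup A).prod (R₂ : Subgroup B) := by
  have hcard : Nat.card ((R₁ : Subgroup A).prod (R₂ : Subgroup B))
      = p ^ (Nat.card (A × B)).factorization p := by
    rw [Nat.card_congr (Subgroup.prodEquiv _ _).toEquiv, Nat.card_prod, Nat.card_prod,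
      R₁.card_eq_multiplicity, R₂.card_eq_multiplicity,
      Nat.factorization_mul Nat.card_pos.ne' Nat.card_pos.ne', Finsupp.add_apply, pow_add]
  exact ⟨Sylow.ofCard _ hcard, rfl⟩

theorem sylow_of_surj8 {H A : Type*} [Group H] [Group A] (p : ℕ) [Fact p.Prime]
    (ρ : H →* A) (hρ : Function.Surjective ρ) (T : Subgroup H) (hT : ¬ p ∣ T.index)
    (K : Subgroup A) (hK : IsPGroup p K) (hTK : ∀ t ∈ T, ρ t ∈ K) :
    ∃ R : Sylow p A, (R : Subgroup A) = K := by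
  have h1 : T.map ρ ≤ K := by
    rintro _ ⟨t, ht, rfl⟩
    exact hTK t ht
  have h2 : K.index ∣ T.index :=
    dvd_trans (Subgroup.index_dvd_of_le h1) (Subgroup.index_map_dvd T hρ)
  exact ⟨hK.toSylow (fun h => hT (dvd_trans h h2)), IsPGroup.toSylow_coe _ _⟩

theorem isPGroup_prod8 {A B : Type*} [Group A] [Group B] {p : ℕ} {S₁ : Subgroup A}
    {S₂ : Subgroup B} (h₁ : IsPGroup p S₁) (h₂ : IsPGroup p S₂) : IsPGroup p (S₁.prod S₂) := by
  rintro ⟨⟨a, b⟩, ha, hb⟩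
  obtain ⟨k₁, hk₁⟩ := h₁ ⟨a, ha⟩
  obtain ⟨k₂, hk₂⟩ := h₂ ⟨b, hb⟩
  have e1 : a ^ p ^ k₁ = 1 := by simpa using congrArg Subtype.val hk₁
  have e2 : b ^ p ^ k₂ = 1 := by simpa using congrArg Subtype.val hk₂
  refine ⟨k₁ + k₂, ?_⟩
  apply Subtype.ext
  show (a, b) ^ p ^ (k₁ + k₂) = 1
  rw [Prod.pow_mk, pow_add, pow_mul, e1, one_pow, mul_comm, pow_mul, e2, one_pow]
  rfl

end Cfsg.Agent.Lib.Helper8
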