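import Cfsg.Agent.Lib.Helper8.ProdSys
import Cfsg.Agent.Lib.Helper8.Sat

/-!
# Product fusion systems: receptive subgroups
-/

set_option autoImplicit false
open Cfsg

namespace Cfsg.Agent.Lib.Helper8

variable {Ω₁ Ω₂ : Type*} [Group Ω₁] [Group Ω₂] {S₁ : Subgroup Ω₁} {S₂ : Subgroup Ω₂}

/-- Build a product map on a subgroup `N` from maps on subgroups containing its projections. -/
def prodMapOn8 (N : Subgroup (Ω₁ × Ω₂)) {N₁ : Subgroup Ω₁} {N₂ : Subgroup Ω₂}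
    (h₁ : N.map (MonoidHom.fst Ω₁ Ω₂) ≤ N₁) (h₂ : N.map (MonoidHom.snd Ω₁ Ω₂) ≤ N₂)
    (ψ₁ : N₁ →* Ω₁) (ψ₂ : N₂ →* Ω₂) : N →* Ω₁ × Ω₂ :=
  MonoidHom.prod
    (ψ₁.comp (((MonoidHom.fst Ω₁ Ω₂).comp N.subtype).codRestrict N₁ (fun x => h₁ (fst_mem x))))
    (ψ₂.comp (((MonoidHom.snd Ω₁ Ω₂).comp N.subtype).codRestrict N₂ (fun x => h₂ (snd_mem x))))

theorem prodMapOn8_apply (N : Subgroup (Ω₁ × Ω₂)) {N₁ : Subgroup Ω₁} {N₂ : Subgroup Ω₂}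
    (h₁ : N.map (MonoidHom.fst Ω₁ Ω₂) ≤ N₁) (h₂ : N.map (MonoidHom.snd Ω₁ Ω₂) ≤ N₂)
    (ψ₁ : N₁ →* Ω₁) (ψ₂ : N₂ →* Ω₂) (x : N) :
    prodMapOn8 N h₁ h₂ ψ₁ ψ₂ x
      = (ψ₁ ⟨(x : Ω₁ × Ω₂).1, h₁ (fst_mem x)⟩, ψ₂ ⟨(x : Ω₁ × Ω₂).2, h₂ (snd_mem x)⟩) := rfl

theorem prodMapOn8_mem (F₁ : FusionSystem S₁) (F₂ : FusionSystem S₂)
    (E : FusionSystem (S₁.prod S₂)) (hE : FusionSystem.IsProductSystem F₁ F₂ E)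
    (N : Subgroup (Ω₁ × Ω₂)) (hN : N ≤ S₁.prod S₂) {N₁ : Subgroup Ω₁} {N₂ : Subgroup Ω₂}
    (h₁ : N.map (MonoidHom.fst Ω₁ Ω₂) ≤ N₁) (h₂ : N.map (MonoidHom.snd Ω₁ Ω₂) ≤ N₂)
    {ψ₁ : N₁ →* Ω₁} {ψ₂ : N₂ →* Ω₂} (hψ₁ : ψ₁ ∈ F₁.Hom N₁) (hψ₂ : ψ₂ ∈ F₂.Hom N₂) :
    prodMapOn8 N h₁ h₂ ψ₁ ψ₂ ∈ E.Hom N := by
  rw [hE]
  refine ⟨hN, ψ₁.comp (Subgroup.inclusion h₁), fs_restrict F₁ h₁ hψ₁,
    ψ₂.comp (Subgroup.inclusion h₂), fs_restrict F₂ h₂ hψ₂, ?_⟩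
  intro x hx₁ hx₂
  rfl

theorem prod_proj_le8 {P : Subgroup (Ω₁ × Ω₂)} (hP : P ≤ S₁.prod S₂) :
    P.map (MonoidHom.fst Ω₁ Ω₂) ≤ S₁ ∧ P.map (MonoidHom.snd Ω₁ Ω₂) ≤ S₂ := by
  constructor
  · rintro _ ⟨x, hx, rfl⟩
    exact (hP hx).1
  · rintro _ ⟨x, hx, rfl⟩
    exact (hP hx).2

theorem prod_extender_fst8 {R : Subgroup (Ω₁ × Ω₂)} (φ : R →* Ω₁ × Ω₂)
    (φ₁ : R.map (MonoidHom.fst Ω₁ Ω₂) →* Ω₁)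
    (hφ : ∀ x : R, (φ x).1 = φ₁ ⟨(x : Ω₁ × Ω₂).1, fst_mem x⟩) :
    (FusionSystem.extender (S₁.prod S₂) R φ).map (MonoidHom.fst Ω₁ Ω₂)
      ≤ FusionSystem.extender S₁ (R.map (MonoidHom.fst Ω₁ Ω₂)) φ₁ := by
  unfold FusionSystem.extender
  rw [MonoidHom.map_closure, Subgroup.closure_le]
  rintro _ ⟨g, ⟨hgS, hgN, h, hhS, hh⟩, rfl⟩
  apply Subgroup.subset_closure
  have hconj : ∀ x ∈ R, g * x * g⁻¹ ∈ R := fun x hx => conj_mem_of_mem_normalizer hgN hx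
  have hconj' : ∀ x ∈ R, g⁻¹ * x * g ∈ R := fun x hx =>
    (Subgroup.mem_normalizer_iff''.mp hgN x).mp hx
  refine ⟨hgS.1, ?_, h.1, hhS.1, ?_⟩
  · rw [Subgroup.mem_normalizer_iff]
    intro y
    constructor
    · rintro ⟨x, hx, rfl⟩
      exact ⟨g * x * g⁻¹, hconj x hx, rfl⟩
    · rintro ⟨x, hx, hxy⟩
      refine ⟨g⁻¹ * x * g, hconj' x hx, ?_⟩
      show g.1⁻¹ * x.1 * g.1 = y
      have hxy' : x.1 = g.1 * y * g.1⁻¹ := hxy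
      rw [hxy']
      group
  · rintro ⟨_, x, hx, rfl⟩ hy
    have h1 := hh ⟨x, hx⟩ (hconj x hx)
    have h2 := congrArg Prod.fst h1
    rw [hφ ⟨g * x * g⁻¹, hconj x hx⟩] at h2
    have h3 : (h * φ ⟨x, hx⟩ * h⁻¹).1 = h.1 * (φ ⟨x, hx⟩).1 * h.1⁻¹ := rfl
    rw [h3, hφ ⟨x, hx⟩] at h2
    exact h2

theorem prod_extender_snd8 {R : Subgroup (Ω₁ × Ω₂)} (φ : R →* Ω₁ × Ω₂)
    (φ₂ : R.map (MonoidHom.snd Ω₁ Ω₂) →* Ω₂)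
    (hφ : ∀ x : R, (φ x).2 = φ₂ ⟨(x : Ω₁ × Ω₂).2, snd_mem x⟩) :
    (FusionSystem.extender (S₁.prod S₂) R φ).map (MonoidHom.snd Ω₁ Ω₂)
      ≤ FusionSystem.extender S₂ (R.map (MonoidHom.snd Ω₁ Ω₂)) φ₂ := by
  unfold FusionSystem.extender
  rw [MonoidHom.map_closure, Subgroup.closure_le]
  rintro _ ⟨g, ⟨hgS, hgN, h, hhS, hh⟩, rfl⟩
  apply Subgroup.subset_closure
  have hconj : ∀ x ∈ R, g * x * g⁻¹ ∈ R := fun x hx => conj_mem_of_mem_normalizer hgN hx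
  have hconj' : ∀ x ∈ R, g⁻¹ * x * g ∈ R := fun x hx =>
    (Subgroup.mem_normalizer_iff''.mp hgN x).mp hx
  refine ⟨hgS.2, ?_, h.2, hhS.2, ?_⟩
  · rw [Subgroup.mem_normalizer_iff]
    intro y
    constructor
    · rintro ⟨x, hx, rfl⟩
      exact ⟨g * x * g⁻¹, hconj x hx, rfl⟩
    · rintro ⟨x, hx, hxy⟩
      refine ⟨g⁻¹ * x * g, hconj' x hx, ?_⟩
      show g.2⁻¹ * x.2 * g.2 = y
      have hxy' : x.2 = g.2 * y * g.2⁻¹ := hxy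
      rw [hxy']
      group
  · rintro ⟨_, x, hx, rfl⟩ hy
    have h1 := hh ⟨x, hx⟩ (hconj x hx)
    have h2 := congrArg Prod.snd h1
    rw [hφ ⟨g * x * g⁻¹, hconj x hx⟩] at h2
    have h3 : (h * φ ⟨x, hx⟩ * h⁻¹).2 = h.2 * (φ ⟨x, hx⟩).2 * h.2⁻¹ := rfl
    rw [h3, hφ ⟨x, hx⟩] at h2
    exact h2

theorem extender_le8 {Ω : Type*} [Group Ω] (S P : Subgroup Ω) (φ : P →* Ω) :
    FusionSystem.extender S P φ ≤ S := by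
  unfold FusionSystem.extender
  rw [Subgroup.closure_le]
  rintro g ⟨hg, -⟩
  exact hg

theorem prod_receptive8 (F₁ : FusionSystem S₁) (F₂ : FusionSystem S₂)
    (E : FusionSystem (S₁.prod S₂)) (hE : FusionSystem.IsProductSystem F₁ F₂ E)
    {Q : Subgroup (Ω₁ × Ω₂)} (hQ : Q ≤ S₁.prod S₂)
    (h₁ : F₁.IsReceptive (Q.map (MonoidHom.fst Ω₁ Ω₂)))
    (h₂ : F₂.IsReceptive (Q.map (MonoidHom.snd Ω₁ Ω₂))) :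
    E.IsReceptive Q := by
  refine ⟨hQ, ?_⟩
  intro R φ hφ hrange
  obtain ⟨hR, φ₁, hφ₁, φ₂, hφ₂, hφe⟩ := (hE R φ).mp hφ
  have hφe' : ∀ x : R, φ x = (φ₁ ⟨(x : Ω₁ × Ω₂).1, fst_mem x⟩,
      φ₂ ⟨(x : Ω₁ × Ω₂).2, snd_mem x⟩) := fun x => hφe x _ _
  have hr₁ : φ₁.range = Q.map (MonoidHom.fst Ω₁ Ω₂) := by
    ext y
    constructor
    · rintro ⟨⟨_, x, hx, rfl⟩, rfl⟩
      refine ⟨φ ⟨x, hx⟩, hrange ▸ ⟨⟨x, hx⟩, rfl⟩, ?_⟩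
      rw [hφe' ⟨x, hx⟩]
      rfl
    · rintro ⟨z, hz, rfl⟩
      rw [← hrange] at hz
      obtain ⟨x, rfl⟩ := hz
      refine ⟨⟨(x : Ω₁ × Ω₂).1, fst_mem x⟩, ?_⟩
      rw [hφe' x]
      rfl
  have hr₂ : φ₂.range = Q.map (MonoidHom.snd Ω₁ Ω₂) := by
    ext y
    constructor
    · rintro ⟨⟨_, x, hx, rfl⟩, rfl⟩
      refine ⟨φ ⟨x, hx⟩, hrange ▸ ⟨⟨x, hx⟩, rfl⟩, ?_⟩
      rw [hφe' ⟨x, hx⟩]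
      rfl
    · rintro ⟨z, hz, rfl⟩
      rw [← hrange] at hz
      obtain ⟨x, rfl⟩ := hz
      refine ⟨⟨(x : Ω₁ × Ω₂).2, snd_mem x⟩, ?_⟩
      rw [hφe' x]
      rfl
  obtain ⟨ψ₁, hψ₁, hψ₁e⟩ := h₁.2 _ φ₁ hφ₁ hr₁
  obtain ⟨ψ₂, hψ₂, hψ₂e⟩ := h₂.2 _ φ₂ hφ₂ hr₂
  have hN₁ := prod_extender_fst8 (S₁ := S₁) (S₂ := S₂) φ φ₁ (fun x => by rw [hφe' x])
  have hN₂ := prod_extender_snd8 (S₁ := S₁) (S₂ := S₂) φ φ₂ (fun x => by rw [hφe' x])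
  refine ⟨prodMapOn8 _ hN₁ hN₂ ψ₁ ψ₂,
    prodMapOn8_mem F₁ F₂ E hE _ (extender_le8 _ _ _) hN₁ hN₂ hψ₁ hψ₂, ?_⟩
  intro x hP hN
  rw [prodMapOn8_apply, hφe' ⟨x, hP⟩]
  have e1 := hψ₁e x.1 (fst_mem ⟨x, hP⟩) (hN₁ (fst_mem ⟨x, hN⟩))
  have e2 := hψ₂e x.2 (snd_mem ⟨x, hP⟩) (hN₂ (snd_mem ⟨x, hN⟩))
  exact Prod.ext e1 e2

end Cfsg.Agent.Lib.Helper8
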