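import Cfsg.Agent.Lib.Helper8.PrSat1
import Cfsg.Agent.Lib.Helper8.PrSat2
import Cfsg.Agent.Lib.Helper8.HypGen

/-!
# Product fusion systems: the automorphism action on subgroups of a product
-/

set_option autoImplicit false
open Cfsg
open scoped Pointwise

namespace Cfsg.Agent.Lib.Helper8

variable {Ω₁ Ω₂ : Type*} [Group Ω₁] [Group Ω₂]

/-- The inclusion of a product of subgroups. -/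
def prodIncl8 (Q₁ : Subgroup Ω₁) (Q₂ : Subgroup Ω₂) : ↥Q₁ × ↥Q₂ →* Ω₁ × Ω₂ :=
  Q₁.subtype.prodMap Q₂.subtype

/-- Pairs of automorphisms act on the product. -/
def prodAut8 (A B : Type*) [Group A] [Group B] : MulAut A × MulAut B →* MulAut (A × B) where
  toFun a := MulEquiv.prodCongr a.1 a.2
  map_one' := by ext x <;> rfl
  map_mul' a b := by ext x <;> rfl

/-- The action homomorphism of a product of automorphism groups. -/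
def prodPhi8 {Q₁ : Subgroup Ω₁} {Q₂ : Subgroup Ω₂} (A₁ : Subgroup (MulAut Q₁))
    (A₂ : Subgroup (MulAut Q₂)) : ↥A₁ × ↥A₂ →* MulAut (↥Q₁ × ↥Q₂) :=
  (prodAut8 ↥Q₁ ↥Q₂).comp (A₁.subtype.prodMap A₂.subtype)

theorem prodPhi8_smul {Q₁ : Subgroup Ω₁} {Q₂ : Subgroup Ω₂} (A₁ : Subgroup (MulAut Q₁))
    (A₂ : Subgroup (MulAut Q₂)) (g : ↥A₁ × ↥A₂) (y : ↥Q₁ × ↥Q₂) :
    prodPhi8 A₁ A₂ g • y = ((g.1 : MulAut Q₁) y.1, (g.2 : MulAut Q₂) y.2) := rfl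

section
variable {Q₁ : Subgroup Ω₁} {Q₂ : Subgroup Ω₂} (Y : Subgroup (↥Q₁ × ↥Q₂))

theorem map_fst_mem8 (x : ↥(Y.map (prodIncl8 Q₁ Q₂))) : (x : Ω₁ × Ω₂).1 ∈ Q₁ := by
  obtain ⟨y, -, hy⟩ := x.2
  rw [← hy]
  exact y.1.2

theorem map_snd_mem8 (x : ↥(Y.map (prodIncl8 Q₁ Q₂))) : (x : Ω₁ × Ω₂).2 ∈ Q₂ := by
  obtain ⟨y, -, hy⟩ := x.2
  rw [← hy]
  exact y.2.2

theorem map_pair_mem8 (x : ↥(Y.map (prodIncl8 Q₁ Q₂))) :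
    ((⟨(x : Ω₁ × Ω₂).1, map_fst_mem8 Y x⟩, ⟨(x : Ω₁ × Ω₂).2, map_snd_mem8 Y x⟩) : ↥Q₁ × ↥Q₂)
      ∈ Y := by
  obtain ⟨y, hy, hyx⟩ := x.2
  have e : ((⟨(x : Ω₁ × Ω₂).1, map_fst_mem8 Y x⟩, ⟨(x : Ω₁ × Ω₂).2, map_snd_mem8 Y x⟩) :
      ↥Q₁ × ↥Q₂) = y := by
    apply Prod.ext
    · apply Subtype.ext
      exact (congrArg Prod.fst hyx).symm
    · apply Subtype.ext
      exact (congrArg Prod.snd hyx).symm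
  rw [e]
  exact hy

theorem map_le_prod8 : Y.map (prodIncl8 Q₁ Q₂) ≤ Q₁.prod Q₂ := by
  rintro _ ⟨y, -, rfl⟩
  exact ⟨y.1.2, y.2.2⟩

theorem map_proj_fst_le8 : (Y.map (prodIncl8 Q₁ Q₂)).map (MonoidHom.fst Ω₁ Ω₂) ≤ Q₁ := by
  rintro _ ⟨_, ⟨y, -, rfl⟩, rfl⟩
  exact y.1.2

theorem map_proj_snd_le8 : (Y.map (prodIncl8 Q₁ Q₂)).map (MonoidHom.snd Ω₁ Ω₂) ≤ Q₂ := by
  rintro _ ⟨_, ⟨y, -, rfl⟩, rfl⟩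
  exact y.2.2

/-- The map of the product system induced on `Y` by a pair of automorphisms. -/
def pairMap8 (a₁ : MulAut Q₁) (a₂ : MulAut Q₂) : ↥(Y.map (prodIncl8 Q₁ Q₂)) →* Ω₁ × Ω₂ :=
  prodMapOn8 (Y.map (prodIncl8 Q₁ Q₂)) (map_proj_fst_le8 Y) (map_proj_snd_le8 Y)
    (Q₁.subtype.comp a₁.toMonoidHom) (Q₂.subtype.comp a₂.toMonoidHom)

theorem pairMap8_apply (a₁ : MulAut Q₁) (a₂ : MulAut Q₂) (x : ↥(Y.map (prodIncl8 Q₁ Q₂))) :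
    pairMap8 Y a₁ a₂ x = (((a₁ ⟨(x : Ω₁ × Ω₂).1, map_fst_mem8 Y x⟩ : Q₁) : Ω₁),
      ((a₂ ⟨(x : Ω₁ × Ω₂).2, map_snd_mem8 Y x⟩ : Q₂) : Ω₂)) := rfl

theorem pairMap8_range (A₁ : Subgroup (MulAut Q₁)) (A₂ : Subgroup (MulAut Q₂))
    (g : ↥A₁ × ↥A₂) :
    (pairMap8 Y (g.1 : MulAut Q₁) (g.2 : MulAut Q₂)).range
      = (prodPhi8 A₁ A₂ g • Y).map (prodIncl8 Q₁ Q₂) := by
  ext z
  constructor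
  · rintro ⟨x, rfl⟩
    exact ⟨prodPhi8 A₁ A₂ g • (⟨(x : Ω₁ × Ω₂).1, map_fst_mem8 Y x⟩,
      ⟨(x : Ω₁ × Ω₂).2, map_snd_mem8 Y x⟩),
      Subgroup.smul_mem_pointwise_smul _ _ _ (map_pair_mem8 Y x), rfl⟩
  · rintro ⟨w, hw, rfl⟩
    obtain ⟨y, hy, rfl⟩ := hw
    exact ⟨⟨prodIncl8 Q₁ Q₂ y, ⟨y, hy, rfl⟩⟩, rfl⟩

theorem smul_proj_fst8 (A₁ : Subgroup (MulAut Q₁)) (A₂ : Subgroup (MulAut Q₂))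
    (g : ↥A₁ × ↥A₂) (h : (Y.map (prodIncl8 Q₁ Q₂)).map (MonoidHom.fst Ω₁ Ω₂) = Q₁) :
    ((prodPhi8 A₁ A₂ g • Y).map (prodIncl8 Q₁ Q₂)).map (MonoidHom.fst Ω₁ Ω₂) = Q₁ := by
  apply le_antisymm (map_proj_fst_le8 _)
  intro z hz
  have hu : (((g.1 : MulAut Q₁)⁻¹ ⟨z, hz⟩ : Q₁) : Ω₁) ∈
      (Y.map (prodIncl8 Q₁ Q₂)).map (MonoidHom.fst Ω₁ Ω₂) := h.ge ((g.1 : MulAut Q₁)⁻¹ ⟨z, hz⟩).2
  obtain ⟨_, ⟨y, hy, rfl⟩, hyu⟩ := hu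
  refine ⟨prodIncl8 Q₁ Q₂ (prodPhi8 A₁ A₂ g • y),
    ⟨_, Subgroup.smul_mem_pointwise_smul _ _ _ hy, rfl⟩, ?_⟩
  have hy1 : y.1 = (g.1 : MulAut Q₁)⁻¹ ⟨z, hz⟩ := Subtype.ext hyu
  show (((g.1 : MulAut Q₁) y.1 : Q₁) : Ω₁) = z
  rw [hy1, MulAut.apply_inv_self]

theorem smul_proj_snd8 (A₁ : Subgroup (MulAut Q₁)) (A₂ : Subgroup (MulAut Q₂))
    (g : ↥A₁ × ↥A₂) (h : (Y.map (prodIncl8 Q₁ Q₂)).map (MonoidHom.snd Ω₁ Ω₂) = Q₂) :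
    ((prodPhi8 A₁ A₂ g • Y).map (prodIncl8 Q₁ Q₂)).map (MonoidHom.snd Ω₁ Ω₂) = Q₂ := by
  apply le_antisymm (map_proj_snd_le8 _)
  intro z hz
  have hu : (((g.2 : MulAut Q₂)⁻¹ ⟨z, hz⟩ : Q₂) : Ω₂) ∈
      (Y.map (prodIncl8 Q₁ Q₂)).map (MonoidHom.snd Ω₁ Ω₂) := h.ge ((g.2 : MulAut Q₂)⁻¹ ⟨z, hz⟩).2
  obtain ⟨_, ⟨y, hy, rfl⟩, hyu⟩ := hu
  refine ⟨prodIncl8 Q₁ Q₂ (prodPhi8 A₁ A₂ g • y),
    ⟨_, Subgroup.smul_mem_pointwise_smul _ _ _ hy, rfl⟩, ?_⟩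
  have hy2 : y.2 = (g.2 : MulAut Q₂)⁻¹ ⟨z, hz⟩ := Subtype.ext hyu
  show (((g.2 : MulAut Q₂) y.2 : Q₂) : Ω₂) = z
  rw [hy2, MulAut.apply_inv_self]

/-- The stabilizer of `Y` in a product of automorphism groups. -/
def stabY8 (A₁ : Subgroup (MulAut Q₁)) (A₂ : Subgroup (MulAut Q₂)) : Subgroup (↥A₁ × ↥A₂) :=
  (MulAction.stabilizer (MulAut (↥Q₁ × ↥Q₂)) Y).comap (prodPhi8 A₁ A₂)

theorem stabY8_smul_mem (A₁ : Subgroup (MulAut Q₁)) (A₂ : Subgroup (MulAut Q₂))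
    (h : ↥(stabY8 Y A₁ A₂)) (x : ↥(Y.map (prodIncl8 Q₁ Q₂))) :
    ((((h : ↥A₁ × ↥A₂).1 : MulAut Q₁) ⟨(x : Ω₁ × Ω₂).1, map_fst_mem8 Y x⟩ : Ω₁),
      (((h : ↥A₁ × ↥A₂).2 : MulAut Q₂) ⟨(x : Ω₁ × Ω₂).2, map_snd_mem8 Y x⟩ : Ω₂))
      ∈ Y.map (prodIncl8 Q₁ Q₂) := by
  have h1 : prodPhi8 A₁ A₂ (h : ↥A₁ × ↥A₂) • Y = Y := h.2
  have h2 := Subgroup.smul_mem_pointwise_smul _ (prodPhi8 A₁ A₂ (h : ↥A₁ × ↥A₂)) _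
    (map_pair_mem8 Y x)
  rw [h1] at h2
  exact ⟨_, h2, rfl⟩

/-- The stabilizer acts on the subgroup by automorphisms. -/
def stabMDMA8 (A₁ : Subgroup (MulAut Q₁)) (A₂ : Subgroup (MulAut Q₂)) :
    MulDistribMulAction ↥(stabY8 Y A₁ A₂) ↥(Y.map (prodIncl8 Q₁ Q₂)) where
  smul h x := ⟨_, stabY8_smul_mem Y A₁ A₂ h x⟩
  one_smul x := rfl
  mul_smul a b x := rfl
  smul_mul a x y := by
    apply Subtype.ext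
    apply Prod.ext
    · show ((((a : ↥A₁ × ↥A₂).1 : MulAut Q₁)
        (⟨(x : Ω₁ × Ω₂).1, map_fst_mem8 Y x⟩ * ⟨(y : Ω₁ × Ω₂).1, map_fst_mem8 Y y⟩) : Q₁) : Ω₁) = _
      rw [map_mul]
      rfl
    · show ((((a : ↥A₁ × ↥A₂).2 : MulAut Q₂)
        (⟨(x : Ω₁ × Ω₂).2, map_snd_mem8 Y x⟩ * ⟨(y : Ω₁ × Ω₂).2, map_snd_mem8 Y y⟩) : Q₂) : Ω₂) = _
      rw [map_mul]
      rfl
  smul_one a := by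
    apply Subtype.ext
    apply Prod.ext
    · show ((((a : ↥A₁ × ↥A₂).1 : MulAut Q₁) 1 : Q₁) : Ω₁) = 1
      rw [map_one]
      rfl
    · show ((((a : ↥A₁ × ↥A₂).2 : MulAut Q₂) 1 : Q₂) : Ω₂) = 1
      rw [map_one]
      rfl

/-- The restriction homomorphism from the stabilizer to automorphisms of the subgroup. -/
def stabRho8 (A₁ : Subgroup (MulAut Q₁)) (A₂ : Subgroup (MulAut Q₂)) :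
    ↥(stabY8 Y A₁ A₂) →* MulAut ↥(Y.map (prodIncl8 Q₁ Q₂)) :=
  @MulDistribMulAction.toMulAut ↥(stabY8 Y A₁ A₂) ↥(Y.map (prodIncl8 Q₁ Q₂)) _ _
    (stabMDMA8 Y A₁ A₂)

theorem stabRho8_apply (A₁ : Subgroup (MulAut Q₁)) (A₂ : Subgroup (MulAut Q₂))
    (h : ↥(stabY8 Y A₁ A₂)) (x : ↥(Y.map (prodIncl8 Q₁ Q₂))) :
    ((stabRho8 Y A₁ A₂ h x : ↥(Y.map (prodIncl8 Q₁ Q₂))) : Ω₁ × Ω₂)
      = ((((h : ↥A₁ × ↥A₂).1 : MulAut Q₁) ⟨(x : Ω₁ × Ω₂).1, map_fst_mem8 Y x⟩ : Ω₁),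
      (((h : ↥A₁ × ↥A₂).2 : MulAut Q₂) ⟨(x : Ω₁ × Ω₂).2, map_snd_mem8 Y x⟩ : Ω₂)) := rfl

end

end Cfsg.Agent.Lib.Helper8
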