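import Cfsg.Agent.Lib.Helper8.PrSat3

/-!
# The product of two saturated fusion systems is saturated
-/

set_option autoImplicit false
open Cfsg
open scoped Pointwise

namespace Cfsg.Agent.Lib.Helper8

variable {Ω₁ Ω₂ : Type*} [Group Ω₁] [Group Ω₂] {S₁ : Subgroup Ω₁} {S₂ : Subgroup Ω₂}

section
variable (F₁ : FusionSystem S₁) (F₂ : FusionSystem S₂) (E : FusionSystem (S₁.prod S₂))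
  (hE : FusionSystem.IsProductSystem F₁ F₂ E) {Q₁ : Subgroup Ω₁} {Q₂ : Subgroup Ω₂}
  (hQ₁ : Q₁ ≤ S₁) (hQ₂ : Q₂ ≤ S₂) (Y : Subgroup (↥Q₁ × ↥Q₂))

include hE hQ₁ hQ₂

theorem map_le_S8 : Y.map (prodIncl8 Q₁ Q₂) ≤ S₁.prod S₂ := by
  rintro _ ⟨y, -, rfl⟩
  exact ⟨hQ₁ y.1.2, hQ₂ y.2.2⟩

theorem pairMap8_mem (g : ↥(F₁.autGroup Q₁) × ↥(F₂.autGroup Q₂)) :
    pairMap8 Y (g.1 : MulAut Q₁) (g.2 : MulAut Q₂) ∈ E.Hom (Y.map (prodIncl8 Q₁ Q₂)) :=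
  prodMapOn8_mem F₁ F₂ E hE _ (map_le_S8 F₁ F₂ E hE hQ₁ hQ₂ Y) _ _
    ((mem_autGroup_iff F₁ hQ₁ _).mp g.1.2) ((mem_autGroup_iff F₂ hQ₂ _).mp g.2.2)

theorem prod_isConj8 (g : ↥(F₁.autGroup Q₁) × ↥(F₂.autGroup Q₂)) :
    E.IsConj (Y.map (prodIncl8 Q₁ Q₂))
      ((prodPhi8 (F₁.autGroup Q₁) (F₂.autGroup Q₂) g • Y).map (prodIncl8 Q₁ Q₂)) :=
  ⟨_, pairMap8_mem F₁ F₂ E hE hQ₁ hQ₂ Y g, pairMap8_range Y _ _ g⟩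

theorem stabRho8_mem (h : ↥(stabY8 Y (F₁.autGroup Q₁) (F₂.autGroup Q₂))) :
    stabRho8 Y (F₁.autGroup Q₁) (F₂.autGroup Q₂) h ∈ E.autGroup (Y.map (prodIncl8 Q₁ Q₂)) := by
  rw [mem_autGroup_iff E (map_le_S8 F₁ F₂ E hE hQ₁ hQ₂ Y)]
  have e : (Y.map (prodIncl8 Q₁ Q₂)).subtype.comp
      (stabRho8 Y (F₁.autGroup Q₁) (F₂.autGroup Q₂) h).toMonoidHom
      = pairMap8 Y ((h : ↥(F₁.autGroup Q₁) × ↥(F₂.autGroup Q₂)).1 : MulAut Q₁)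
        ((h : ↥(F₁.autGroup Q₁) × ↥(F₂.autGroup Q₂)).2 : MulAut Q₂) := by
    ext x <;> rfl
  rw [e]
  exact pairMap8_mem F₁ F₂ E hE hQ₁ hQ₂ Y _

theorem stabRho8_surj [Finite S₁] [Finite S₂]
    (h1 : (Y.map (prodIncl8 Q₁ Q₂)).map (MonoidHom.fst Ω₁ Ω₂) = Q₁)
    (h2 : (Y.map (prodIncl8 Q₁ Q₂)).map (MonoidHom.snd Ω₁ Ω₂) = Q₂)
    (a : MulAut ↥(Y.map (prodIncl8 Q₁ Q₂))) (ha : a ∈ E.autGroup (Y.map (prodIncl8 Q₁ Q₂))) :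
    ∃ h : ↥(stabY8 Y (F₁.autGroup Q₁) (F₂.autGroup Q₂)),
      stabRho8 Y (F₁.autGroup Q₁) (F₂.autGroup Q₂) h = a := by
  have hPS := map_le_S8 F₁ F₂ E hE hQ₁ hQ₂ Y
  have ha' := (mem_autGroup_iff E hPS a).mp ha
  obtain ⟨-, φ₁, hφ₁, φ₂, hφ₂, hφe⟩ := (hE _ _).mp ha'
  have hφe' : ∀ x : ↥(Y.map (prodIncl8 Q₁ Q₂)),
      ((a x : ↥(Y.map (prodIncl8 Q₁ Q₂))) : Ω₁ × Ω₂)
        = (φ₁ ⟨(x : Ω₁ × Ω₂).1, fst_mem x⟩, φ₂ ⟨(x : Ω₁ × Ω₂).2, snd_mem x⟩) :=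
    fun x => hφe x _ _
  have hφ₁Q : ∀ z : Q₁, (φ₁.comp (Subgroup.inclusion h1.ge)) z ∈ Q₁ := by
    rintro ⟨z, hz⟩
    obtain ⟨x, hx, rfl⟩ := h1.ge hz
    have e := congrArg Prod.fst (hφe' ⟨x, hx⟩)
    have hmem : ((a ⟨x, hx⟩ : ↥(Y.map (prodIncl8 Q₁ Q₂))) : Ω₁ × Ω₂).1 ∈ Q₁ :=
      h1.le (fst_mem (a ⟨x, hx⟩))
    rw [e] at hmem
    exact hmem
  have hφ₂Q : ∀ z : Q₂, (φ₂.comp (Subgroup.inclusion h2.ge)) z ∈ Q₂ := by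
    rintro ⟨z, hz⟩
    obtain ⟨x, hx, rfl⟩ := h2.ge hz
    have e := congrArg Prod.snd (hφe' ⟨x, hx⟩)
    have hmem : ((a ⟨x, hx⟩ : ↥(Y.map (prodIncl8 Q₁ Q₂))) : Ω₁ × Ω₂).2 ∈ Q₂ :=
      h2.le (snd_mem (a ⟨x, hx⟩))
    rw [e] at hmem
    exact hmem
  obtain ⟨a₁, ha₁, ha₁e⟩ := exists_aut_of_hom F₁ (fs_restrict F₁ h1.ge hφ₁) hφ₁Q
  obtain ⟨a₂, ha₂, ha₂e⟩ := exists_aut_of_hom F₂ (fs_restrict F₂ h2.ge hφ₂) hφ₂Q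
  -- the action of the pair on elements of the subgroup
  have hact : ∀ x : ↥(Y.map (prodIncl8 Q₁ Q₂)),
      (((a₁ ⟨(x : Ω₁ × Ω₂).1, map_fst_mem8 Y x⟩ : Q₁) : Ω₁),
        ((a₂ ⟨(x : Ω₁ × Ω₂).2, map_snd_mem8 Y x⟩ : Q₂) : Ω₂))
        = ((a x : ↥(Y.map (prodIncl8 Q₁ Q₂))) : Ω₁ × Ω₂) := by
    intro x
    rw [hφe' x]
    exact Prod.ext (ha₁e _) (ha₂e _)
  have hsm : ∀ y : ↥Q₁ × ↥Q₂, ∀ hy : y ∈ Y,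
      prodIncl8 Q₁ Q₂ (prodPhi8 (F₁.autGroup Q₁) (F₂.autGroup Q₂) (⟨a₁, ha₁⟩, ⟨a₂, ha₂⟩) • y)
        = ((a ⟨prodIncl8 Q₁ Q₂ y, ⟨y, hy, rfl⟩⟩ : ↥(Y.map (prodIncl8 Q₁ Q₂))) : Ω₁ × Ω₂) := by
    intro y hy
    rw [← hact]
    rfl
  have hinj : Function.Injective (prodIncl8 Q₁ Q₂) := by
    intro u v huv
    apply Prod.ext
    · exact Subtype.ext (congrArg Prod.fst huv)
    · exact Subtype.ext (congrArg Prod.snd huv)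
  have hstab : prodPhi8 (F₁.autGroup Q₁) (F₂.autGroup Q₂) (⟨a₁, ha₁⟩, ⟨a₂, ha₂⟩) • Y = Y := by
    apply le_antisymm
    · rintro w ⟨y, hy, rfl⟩
      have h3 := map_pair_mem8 Y (a ⟨prodIncl8 Q₁ Q₂ y, ⟨y, hy, rfl⟩⟩)
      have e : ((⟨((a ⟨prodIncl8 Q₁ Q₂ y, ⟨y, hy, rfl⟩⟩ : ↥(Y.map (prodIncl8 Q₁ Q₂))) :
            Ω₁ × Ω₂).1, map_fst_mem8 Y _⟩,
          ⟨((a ⟨prodIncl8 Q₁ Q₂ y, ⟨y, hy, rfl⟩⟩ : ↥(Y.map (prodIncl8 Q₁ Q₂))) : Ω₁ × Ω₂).2,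
            map_snd_mem8 Y _⟩) : ↥Q₁ × ↥Q₂)
          = prodPhi8 (F₁.autGroup Q₁) (F₂.autGroup Q₂) (⟨a₁, ha₁⟩, ⟨a₂, ha₂⟩) • y := by
        apply hinj
        rw [hsm y hy]
        rfl
      rw [e] at h3
      exact h3
    · intro y hy
      obtain ⟨y', hy', hyy'⟩ := (a⁻¹ ⟨prodIncl8 Q₁ Q₂ y, ⟨y, hy, rfl⟩⟩).2
      refine ⟨y', hy', ?_⟩
      apply hinj
      show prodIncl8 Q₁ Q₂
        (prodPhi8 (F₁.autGroup Q₁) (F₂.autGroup Q₂) (⟨a₁, ha₁⟩, ⟨a₂, ha₂⟩) • y') = _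
      rw [hsm y' hy']
      have e : (⟨prodIncl8 Q₁ Q₂ y', ⟨y', hy', rfl⟩⟩ : ↥(Y.map (prodIncl8 Q₁ Q₂)))
          = a⁻¹ ⟨prodIncl8 Q₁ Q₂ y, ⟨y, hy, rfl⟩⟩ := Subtype.ext hyy'
      rw [e, MulAut.apply_inv_self]
  refine ⟨⟨(⟨a₁, ha₁⟩, ⟨a₂, ha₂⟩), hstab⟩, ?_⟩
  ext x
  · exact congrArg Prod.fst (hact x)
  · exact congrArg Prod.snd (hact x)

end

theorem prod_fa8 [Finite S₁] [Finite S₂] (p : ℕ) [Fact p.Prime] (hS₁ : IsPGroup p S₁)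
    (hS₂ : IsPGroup p S₂) (F₁ : FusionSystem S₁) (F₂ : FusionSystem S₂)
    (E : FusionSystem (S₁.prod S₂)) (hE : FusionSystem.IsProductSystem F₁ F₂ E)
    {Q₁ : Subgroup Ω₁} {Q₂ : Subgroup Ω₂}
    (hf₁ : F₁.IsFullyAutomized p Q₁) (hf₂ : F₂.IsFullyAutomized p Q₂)
    (Y : Subgroup (↥Q₁ × ↥Q₂))
    (h1 : (Y.map (prodIncl8 Q₁ Q₂)).map (MonoidHom.fst Ω₁ Ω₂) = Q₁)
    (h2 : (Y.map (prodIncl8 Q₁ Q₂)).map (MonoidHom.snd Ω₁ Ω₂) = Q₂) :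
    ∃ g : ↥(F₁.autGroup Q₁) × ↥(F₂.autGroup Q₂),
      E.IsFullyAutomized p
        ((prodPhi8 (F₁.autGroup Q₁) (F₂.autGroup Q₂) g • Y).map (prodIncl8 Q₁ Q₂)) := by
  obtain ⟨hQ₁, R₁, hR₁⟩ := hf₁
  obtain ⟨hQ₂, R₂, hR₂⟩ := hf₂
  haveI : Finite Q₁ := finite_of_le hQ₁
  haveI : Finite Q₂ := finite_of_le hQ₂
  haveI := finite_mulAut Q₁
  haveI := finite_mulAut Q₂
  obtain ⟨R, hR⟩ := sylow_prod8 p R₁ R₂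
  obtain ⟨g, hg⟩ := sylow_stab_move8 p R (prodPhi8 (F₁.autGroup Q₁) (F₂.autGroup Q₂)) Y
  refine ⟨g, ?_⟩
  obtain ⟨Y', hY'⟩ : ∃ Y' : Subgroup (↥Q₁ × ↥Q₂),
      Y' = prodPhi8 (F₁.autGroup Q₁) (F₂.autGroup Q₂) g • Y := ⟨_, rfl⟩
  rw [← hY'] at hg ⊢
  have h1' : (Y'.map (prodIncl8 Q₁ Q₂)).map (MonoidHom.fst Ω₁ Ω₂) = Q₁ := by
    rw [hY']; exact smul_proj_fst8 Y _ _ g h1
  have h2' : (Y'.map (prodIncl8 Q₁ Q₂)).map (MonoidHom.snd Ω₁ Ω₂) = Q₂ := by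
    rw [hY']; exact smul_proj_snd8 Y _ _ g h2
  have hPS := map_le_S8 F₁ F₂ E hE hQ₁ hQ₂ Y'
  refine ⟨hPS, ?_⟩
  have hSp : IsPGroup p (S₁.prod S₂) := isPGroup_prod8 hS₁ hS₂
  have hKp : IsPGroup p ((autInducedBy (S₁.prod S₂) (Y'.map (prodIncl8 Q₁ Q₂))).subgroupOf
      (E.autGroup (Y'.map (prodIncl8 Q₁ Q₂)))) :=
    (isPGroup_autInducedBy hSp _).comap_subtype
  refine sylow_of_surj8 p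
    ((stabRho8 Y' (F₁.autGroup Q₁) (F₂.autGroup Q₂)).codRestrict
      (E.autGroup (Y'.map (prodIncl8 Q₁ Q₂)))
      (fun h => stabRho8_mem F₁ F₂ E hE hQ₁ hQ₂ Y' h)) ?_
    ((R : Subgroup (↥(F₁.autGroup Q₁) × ↥(F₂.autGroup Q₂))).subgroupOf
      (stabY8 Y' (F₁.autGroup Q₁) (F₂.autGroup Q₂))) hg _ hKp ?_
  · rintro ⟨a, ha⟩
    obtain ⟨h, hh⟩ := stabRho8_surj F₁ F₂ E hE hQ₁ hQ₂ Y' h1' h2' a ha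
    exact ⟨h, Subtype.ext hh⟩
  · intro t ht
    rw [Subgroup.mem_subgroupOf] at ht ⊢
    rw [hR] at ht
    obtain ⟨ht1, ht2⟩ := ht
    have ht1' : ((t : ↥(F₁.autGroup Q₁) × ↥(F₂.autGroup Q₂)).1 : MulAut Q₁)
        ∈ autInducedBy S₁ Q₁ := by
      have : (t : ↥(F₁.autGroup Q₁) × ↥(F₂.autGroup Q₂)).1 ∈ (R₁ : Subgroup _) := ht1
      rw [hR₁, Subgroup.mem_subgroupOf] at this
      exact this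
    have ht2' : ((t : ↥(F₁.autGroup Q₁) × ↥(F₂.autGroup Q₂)).2 : MulAut Q₂)
        ∈ autInducedBy S₂ Q₂ := by
      have : (t : ↥(F₁.autGroup Q₁) × ↥(F₂.autGroup Q₂)).2 ∈ (R₂ : Subgroup _) := ht2
      rw [hR₂, Subgroup.mem_subgroupOf] at this
      exact this
    obtain ⟨s₁, hs₁, e1⟩ := (mem_autInducedBy_iff S₁ Q₁ _).mp ht1'
    obtain ⟨s₂, hs₂, e2⟩ := (mem_autInducedBy_iff S₂ Q₂ _).mp ht2'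
    show stabRho8 Y' (F₁.autGroup Q₁) (F₂.autGroup Q₂) t
      ∈ autInducedBy (S₁.prod S₂) (Y'.map (prodIncl8 Q₁ Q₂))
    rw [mem_autInducedBy_iff]
    refine ⟨(s₁, s₂), ⟨hs₁, hs₂⟩, fun x => ?_⟩
    rw [stabRho8_apply]
    exact Prod.ext (e1 _) (e2 _)

theorem prod_saturated8 [Finite S₁] [Finite S₂] (p : ℕ) [Fact p.Prime] (hS₁ : IsPGroup p S₁)
    (hS₂ : IsPGroup p S₂) (F₁ : FusionSystem S₁) (F₂ : FusionSystem S₂)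
    (hF₁ : F₁.IsSaturated p) (hF₂ : F₂.IsSaturated p)
    (E : FusionSystem (S₁.prod S₂)) (hE : FusionSystem.IsProductSystem F₁ F₂ E) :
    E.IsSaturated p := by
  intro P hP
  obtain ⟨hP₁, hP₂⟩ := prod_proj_le8 hP
  obtain ⟨Q₁, ⟨ψ₁, hψ₁, hr₁⟩, hf₁, hrc₁⟩ := hF₁ _ hP₁
  obtain ⟨Q₂, ⟨ψ₂, hψ₂, hr₂⟩, hf₂, hrc₂⟩ := hF₂ _ hP₂
  have hQ₁ : Q₁ ≤ S₁ := hf₁.1
  have hQ₂ : Q₂ ≤ S₂ := hf₂.1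
  -- first move: P → P₀ with projections Q₁, Q₂
  obtain ⟨ψ, hψ⟩ : ∃ ψ : P →* Ω₁ × Ω₂, ψ = prodMapOn8 P le_rfl le_rfl ψ₁ ψ₂ := ⟨_, rfl⟩
  have hψE : ψ ∈ E.Hom P := by
    rw [hψ]; exact prodMapOn8_mem F₁ F₂ E hE P hP le_rfl le_rfl hψ₁ hψ₂
  have hψa : ∀ x : P, ψ x = (ψ₁ ⟨(x : Ω₁ × Ω₂).1, fst_mem x⟩, ψ₂ ⟨(x : Ω₁ × Ω₂).2, snd_mem x⟩) := by
    intro x; rw [hψ]; rfl
  have hP₀le : ψ.range ≤ Q₁.prod Q₂ := by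
    rintro _ ⟨x, rfl⟩
    rw [hψa x]
    exact ⟨hr₁ ▸ ⟨_, rfl⟩, hr₂ ▸ ⟨_, rfl⟩⟩
  have hjrange : (prodIncl8 Q₁ Q₂).range = Q₁.prod Q₂ := by
    ext z
    constructor
    · rintro ⟨y, rfl⟩
      exact ⟨y.1.2, y.2.2⟩
    · rintro ⟨hz1, hz2⟩
      exact ⟨(⟨z.1, hz1⟩, ⟨z.2, hz2⟩), rfl⟩
  obtain ⟨Y, hY⟩ : ∃ Y : Subgroup (↥Q₁ × ↥Q₂), Y = ψ.range.comap (prodIncl8 Q₁ Q₂) := ⟨_, rfl⟩
  have hYmap : Y.map (prodIncl8 Q₁ Q₂) = ψ.range := by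
    rw [hY, Subgroup.map_comap_eq, hjrange]
    exact inf_eq_right.mpr hP₀le
  have h1 : (Y.map (prodIncl8 Q₁ Q₂)).map (MonoidHom.fst Ω₁ Ω₂) = Q₁ := by
    rw [hYmap]
    ext z
    constructor
    · rintro ⟨_, ⟨x, rfl⟩, rfl⟩
      rw [hψa x]
      exact hr₁ ▸ ⟨_, rfl⟩
    · intro hz
      rw [← hr₁] at hz
      obtain ⟨⟨_, x, hx, rfl⟩, rfl⟩ := hz
      exact ⟨ψ ⟨x, hx⟩, ⟨_, rfl⟩, by rw [hψa]; rfl⟩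
  have h2 : (Y.map (prodIncl8 Q₁ Q₂)).map (MonoidHom.snd Ω₁ Ω₂) = Q₂ := by
    rw [hYmap]
    ext z
    constructor
    · rintro ⟨_, ⟨x, rfl⟩, rfl⟩
      rw [hψa x]
      exact hr₂ ▸ ⟨_, rfl⟩
    · intro hz
      rw [← hr₂] at hz
      obtain ⟨⟨_, x, hx, rfl⟩, rfl⟩ := hz
      exact ⟨ψ ⟨x, hx⟩, ⟨_, rfl⟩, by rw [hψa]; rfl⟩
  obtain ⟨g, hg⟩ := prod_fa8 p hS₁ hS₂ F₁ F₂ E hE hf₁ hf₂ Y h1 h2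
  have hconj1 : E.IsConj P (Y.map (prodIncl8 Q₁ Q₂)) := ⟨ψ, hψE, hYmap.symm⟩
  have hconj2 := prod_isConj8 F₁ F₂ E hE hQ₁ hQ₂ Y g
  refine ⟨_, fs_isConj_trans E hconj1 hconj2, hg, ?_⟩
  apply prod_receptive8 F₁ F₂ E hE hg.1
  · rw [smul_proj_fst8 Y _ _ g h1]; exact hrc₁
  · rw [smul_proj_snd8 Y _ _ g h2]; exact hrc₂

end Cfsg.Agent.Lib.Helper8
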