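import Cfsg.Agent.Lib.Helper8.Fusion
import Cfsg.Prelude.Def_FusionComponents

set_option autoImplicit false
open Cfsg

namespace Cfsg.Agent.Lib.Helper8

variable {Ω₁ Ω₂ : Type*} [Group Ω₁] [Group Ω₂] {S₁ : Subgroup Ω₁} {S₂ : Subgroup Ω₂}

def prodHomSet (F₁ : FusionSystem S₁) (F₂ : FusionSystem S₂) (P : Subgroup (Ω₁ × Ω₂)) :
    Set (P →* Ω₁ × Ω₂) :=
  {φ | P ≤ S₁.prod S₂ ∧
      ∃ φ₁ ∈ F₁.Hom (P.map (MonoidHom.fst Ω₁ Ω₂)), ∃ φ₂ ∈ F₂.Hom (P.map (MonoidHom.snd Ω₁ Ω₂)),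
        ∀ (x : P) (h₁ : (x : Ω₁ × Ω₂).1 ∈ P.map (MonoidHom.fst Ω₁ Ω₂))
          (h₂ : (x : Ω₁ × Ω₂).2 ∈ P.map (MonoidHom.snd Ω₁ Ω₂)),
          φ x = (φ₁ ⟨(x : Ω₁ × Ω₂).1, h₁⟩, φ₂ ⟨(x : Ω₁ × Ω₂).2, h₂⟩)}

theorem fst_mem {P : Subgroup (Ω₁ × Ω₂)} (x : P) : (x : Ω₁ × Ω₂).1 ∈ P.map (MonoidHom.fst Ω₁ Ω₂) :=
  ⟨x, x.2, rfl⟩

theorem snd_mem {P : Subgroup (Ω₁ × Ω₂)} (x : P) : (x : Ω₁ × Ω₂).2 ∈ P.map (MonoidHom.snd Ω₁ Ω₂) :=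
  ⟨x, x.2, rfl⟩

theorem prodSys_le (F₁ : FusionSystem S₁) (F₂ : FusionSystem S₂) {P : Subgroup (Ω₁ × Ω₂)}
    {φ : P →* Ω₁ × Ω₂} (h : φ ∈ prodHomSet F₁ F₂ P) : P ≤ S₁.prod S₂ ∧ ∀ x : P, φ x ∈ S₁.prod S₂ := by
  obtain ⟨hP, φ₁, hφ₁, φ₂, hφ₂, hφ⟩ := h
  refine ⟨hP, fun x => ?_⟩
  rw [hφ x (fst_mem x) (snd_mem x)]
  exact ⟨(F₁.le_of_mem hφ₁).2 _, (F₂.le_of_mem hφ₂).2 _⟩

theorem prodSys_inj (F₁ : FusionSystem S₁) (F₂ : FusionSystem S₂) {P : Subgroup (Ω₁ × Ω₂)}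
    {φ : P →* Ω₁ × Ω₂} (h : φ ∈ prodHomSet F₁ F₂ P) : Function.Injective φ := by
  obtain ⟨hP, φ₁, hφ₁, φ₂, hφ₂, hφ⟩ := h
  intro x y hxy
  rw [hφ x (fst_mem x) (snd_mem x), hφ y (fst_mem y) (snd_mem y)] at hxy
  have h1 := F₁.injective_of_mem hφ₁ (congrArg Prod.fst hxy)
  have h2 := F₂.injective_of_mem hφ₂ (congrArg Prod.snd hxy)
  apply Subtype.ext
  exact Prod.ext (congrArg Subtype.val h1) (congrArg Subtype.val h2)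

theorem prodSys_conj (F₁ : FusionSystem S₁) (F₂ : FusionSystem S₂) {P : Subgroup (Ω₁ × Ω₂)}
    {g : Ω₁ × Ω₂} (hP : P ≤ S₁.prod S₂) (hg : g ∈ S₁.prod S₂) :
    conjHom P g ∈ prodHomSet F₁ F₂ P := by
  have h1 : P.map (MonoidHom.fst Ω₁ Ω₂) ≤ S₁ := by
    rintro _ ⟨x, hx, rfl⟩
    exact (hP hx).1
  have h2 : P.map (MonoidHom.snd Ω₁ Ω₂) ≤ S₂ := by
    rintro _ ⟨x, hx, rfl⟩
    exact (hP hx).2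
  exact ⟨hP, conjHom _ g.1, F₁.conj_mem h1 hg.1, conjHom _ g.2, F₂.conj_mem h2 hg.2,
    fun x _ _ => rfl⟩

theorem prodSys_comp (F₁ : FusionSystem S₁) (F₂ : FusionSystem S₂) {P Q : Subgroup (Ω₁ × Ω₂)}
    {φ : P →* Ω₁ × Ω₂} {ψ : Q →* Ω₁ × Ω₂} (hφ : φ ∈ prodHomSet F₁ F₂ P)
    (hψ : ψ ∈ prodHomSet F₁ F₂ Q) (h : ∀ x : P, φ x ∈ Q) :
    ψ.comp (φ.codRestrict Q h) ∈ prodHomSet F₁ F₂ P := by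
  obtain ⟨hP, φ₁, hφ₁, φ₂, hφ₂, hφe⟩ := hφ
  obtain ⟨hQ, ψ₁, hψ₁, ψ₂, hψ₂, hψe⟩ := hψ
  have h1 : ∀ y : P.map (MonoidHom.fst Ω₁ Ω₂), φ₁ y ∈ Q.map (MonoidHom.fst Ω₁ Ω₂) := by
    rintro ⟨_, x, hx, rfl⟩
    refine ⟨φ ⟨x, hx⟩, h ⟨x, hx⟩, ?_⟩
    rw [hφe ⟨x, hx⟩ (fst_mem _) (snd_mem _)]
    rfl
  have h2 : ∀ y : P.map (MonoidHom.snd Ω₁ Ω₂), φ₂ y ∈ Q.map (MonoidHom.snd Ω₁ Ω₂) := by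
    rintro ⟨_, x, hx, rfl⟩
    refine ⟨φ ⟨x, hx⟩, h ⟨x, hx⟩, ?_⟩
    rw [hφe ⟨x, hx⟩ (fst_mem _) (snd_mem _)]
    rfl
  refine ⟨hP, ψ₁.comp (φ₁.codRestrict _ h1), F₁.comp_mem hφ₁ hψ₁ h1,
    ψ₂.comp (φ₂.codRestrict _ h2), F₂.comp_mem hφ₂ hψ₂ h2, ?_⟩
  intro x hx1 hx2
  show ψ ⟨φ x, h x⟩ = _
  rw [hψe ⟨φ x, h x⟩ (fst_mem _) (snd_mem _)]
  have e := hφe x hx1 hx2
  apply Prod.ext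
  · show ψ₁ ⟨(φ x).1, _⟩ = ψ₁ ⟨φ₁ ⟨_, hx1⟩, _⟩
    congr 1
    apply Subtype.ext
    exact congrArg Prod.fst e
  · show ψ₂ ⟨(φ x).2, _⟩ = ψ₂ ⟨φ₂ ⟨_, hx2⟩, _⟩
    congr 1
    apply Subtype.ext
    exact congrArg Prod.snd e

theorem prodSys_inv (F₁ : FusionSystem S₁) (F₂ : FusionSystem S₂) {P : Subgroup (Ω₁ × Ω₂)}
    {φ : P →* Ω₁ × Ω₂} (hφ : φ ∈ prodHomSet F₁ F₂ P) :
    ∃ ψ ∈ prodHomSet F₁ F₂ φ.range, ∀ x : P, ψ ⟨φ x, ⟨x, rfl⟩⟩ = (x : Ω₁ × Ω₂) := by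
  have hle := prodSys_le F₁ F₂ hφ
  obtain ⟨hP, φ₁, hφ₁, φ₂, hφ₂, hφe⟩ := hφ
  obtain ⟨ψ₁, hψ₁, hψ₁e⟩ := F₁.inv_mem hφ₁
  obtain ⟨ψ₂, hψ₂, hψ₂e⟩ := F₂.inv_mem hφ₂
  have hr1 : φ.range.map (MonoidHom.fst Ω₁ Ω₂) ≤ φ₁.range := by
    rintro _ ⟨_, ⟨x, rfl⟩, rfl⟩
    refine ⟨⟨_, fst_mem x⟩, ?_⟩
    rw [hφe x (fst_mem _) (snd_mem _)]
    rfl
  have hr2 : φ.range.map (MonoidHom.snd Ω₁ Ω₂) ≤ φ₂.range := by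
    rintro _ ⟨_, ⟨x, rfl⟩, rfl⟩
    refine ⟨⟨_, snd_mem x⟩, ?_⟩
    rw [hφe x (fst_mem _) (snd_mem _)]
    rfl
  have hψ₁' := fs_restrict F₁ hr1 hψ₁
  have hψ₂' := fs_restrict F₂ hr2 hψ₂
  refine ⟨MonoidHom.prod
      ((ψ₁.comp (Subgroup.inclusion hr1)).comp ((MonoidHom.fst Ω₁ Ω₂).subgroupMap φ.range))
      ((ψ₂.comp (Subgroup.inclusion hr2)).comp ((MonoidHom.snd Ω₁ Ω₂).subgroupMap φ.range)),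
    ⟨?_, _, hψ₁', _, hψ₂', fun x _ _ => rfl⟩, ?_⟩
  · rintro _ ⟨x, rfl⟩
    exact hle.2 x
  · intro x
    have e := hφe x (fst_mem _) (snd_mem _)
    apply Prod.ext
    · show ψ₁ ⟨(φ x).1, _⟩ = (x : Ω₁ × Ω₂).1
      refine Eq.trans ?_ (hψ₁e ⟨_, fst_mem x⟩)
      congr 1
      apply Subtype.ext
      exact congrArg Prod.fst e
    · show ψ₂ ⟨(φ x).2, _⟩ = (x : Ω₁ × Ω₂).2
      refine Eq.trans ?_ (hψ₂e ⟨_, snd_mem x⟩)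
      congr 1
      apply Subtype.ext
      exact congrArg Prod.snd e

def prodSys (F₁ : FusionSystem S₁) (F₂ : FusionSystem S₂) : FusionSystem (S₁.prod S₂) where
  Hom P := prodHomSet F₁ F₂ P
  le_of_mem := fun h => prodSys_le F₁ F₂ h
  injective_of_mem := fun h => prodSys_inj F₁ F₂ h
  conj_mem := fun hP hg => prodSys_conj F₁ F₂ hP hg
  comp_mem := fun hφ hψ h => prodSys_comp F₁ F₂ hφ hψ h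
  inv_mem := fun hφ => prodSys_inv F₁ F₂ hφ

theorem prodSys_isProduct (F₁ : FusionSystem S₁) (F₂ : FusionSystem S₂) :
    FusionSystem.IsProductSystem F₁ F₂ (prodSys F₁ F₂) :=
  fun _ _ => Iff.rfl

end Cfsg.Agent.Lib.Helper8
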