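import Mathlib
import Cfsg.Prelude.Def_Characters
import Cfsg.Agent.Lib.Lead.Char13

set_option autoImplicit false

namespace Cfsg.Agent.Lib.Helper8

open Cfsg.Agent.Lib.Lead

/-- the orbit relation of a bare action is an equivalence relation -/
theorem orbit_rel_equivalence8 {G Ω : Type*} [Group G] (act : G → Ω → Ω)
    (h1 : ∀ a, act 1 a = a) (hm : ∀ g h a, act (g * h) a = act g (act h a)) :
    Equivalence (fun a b : Ω => ∃ g, act g a = b) := by
  refine ⟨fun a => ⟨1, h1 a⟩, ?_, ?_⟩
  · rintro a b ⟨g, rfl⟩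
    refine ⟨g⁻¹, ?_⟩
    rw [← hm, inv_mul_cancel, h1]
  · rintro a b c ⟨g, rfl⟩ ⟨h, rfl⟩
    exact ⟨h * g, hm h g a⟩

/-- Burnside's lemma for a bare action -/
theorem burnside_rel8 {G Ω : Type*} [Group G] [Fintype G] [Finite Ω] (act : G → Ω → Ω)
    (h1 : ∀ a, act 1 a = a) (hm : ∀ g h a, act (g * h) a = act g (act h a)) :
    Nat.card (Quot (fun a b : Ω => ∃ g, act g a = b)) * Nat.card G
      = ∑ g : G, Nat.card {a : Ω // act g a = a} := by
  classical
  letI : MulAction G Ω := { smul := act, one_smul := h1, mul_smul := hm }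
  haveI : Fintype Ω := Fintype.ofFinite Ω
  have hrel : (fun a b : Ω => ∃ g, act g a = b) = (MulAction.orbitRel G Ω).r := by
    funext a b
    apply propext
    constructor
    · rintro ⟨g, rfl⟩
      exact ⟨g⁻¹, by
        show act g⁻¹ (act g a) = a
        rw [← hm, inv_mul_cancel, h1]⟩
    · rintro ⟨g, hg⟩
      refine ⟨g⁻¹, ?_⟩
      have hg' : act g b = a := hg
      rw [← hg', ← hm, inv_mul_cancel, h1]
  rw [hrel]
  have hB := MulAction.sum_card_fixedBy_eq_card_orbits_mul_card_group G Ω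
  have e1 : Nat.card (Quot (MulAction.orbitRel G Ω).r)
      = Fintype.card (Quotient (MulAction.orbitRel G Ω)) := by
    rw [← Nat.card_eq_fintype_card]
    rfl
  rw [e1, Nat.card_eq_fintype_card, ← hB]
  apply Finset.sum_congr rfl
  intro g _
  rw [Nat.card_eq_fintype_card]
  rfl

/-- quotients by relations matched by a surjection have the same cardinality -/
theorem card_quot_of_surj8 {A B : Type*} (r : A → A → Prop) (s : B → B → Prop)
    (hs : Equivalence s) (f : A → B) (hf : Function.Surjective f)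
    (hrs : ∀ a b, r a b ↔ s (f a) (f b)) :
    Nat.card (Quot r) = Nat.card (Quot s) := by
  apply Nat.card_congr
  refine Equiv.ofBijective (Quot.map f (fun a b h => (hrs a b).mp h)) ⟨?_, ?_⟩
  · intro x y
    refine Quot.inductionOn x (fun a => ?_)
    refine Quot.inductionOn y (fun b => ?_)
    intro h
    have h1 : Quot.mk s (f a) = Quot.mk s (f b) := h
    have h2 := Quot.eqvGen_exact h1
    have h3 := (hs.eqvGen_iff).mp h2
    exact Quot.sound ((hrs a b).mpr h3)
  · intro y
    refine Quot.inductionOn y (fun b => ?_)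
    obtain ⟨a, rfl⟩ := hf b
    exact ⟨Quot.mk r a, rfl⟩

/-- cardinality of a double subtype -/
theorem card_subtype_subtype8 {α : Type*} (p q : α → Prop) (r : {a : α // p a} → Prop)
    (hq : ∀ a, q a ↔ ∃ h : p a, r ⟨a, h⟩) :
    Nat.card {x : {a : α // p a} // r x} = Nat.card {a : α // q a} := by
  apply Nat.card_congr
  exact
    { toFun := fun x => ⟨x.1.1, (hq _).mpr ⟨x.1.2, x.2⟩⟩
      invFun := fun y => ⟨⟨y.1, ((hq _).mp y.2).1⟩, ((hq _).mp y.2).2⟩
      left_inv := fun x => rfl
      right_inv := fun y => rfl }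

theorem pow_two_fix8 {K : Type*} [Group K] {R : Type*} (θ : K → R) (c : MulAut K)
    (h2 : ∀ k, θ (c (c k)) = θ k) (j : ℕ) : ∀ k, θ ((c ^ (2 * j)) k) = θ k := by
  induction j with
  | zero => intro k; simp
  | succ j ih =>
    intro k
    have e : c ^ (2 * (j + 1)) = c ^ (2 * j) * (c * c) := by
      rw [mul_add, pow_add, mul_one, pow_two]
    rw [e, MulAut.mul_apply, MulAut.mul_apply, ih]
    exact h2 k

/-- odd-index trick, character side -/
theorem real_fixed_iff_char8 {K : Type*} [Group K] [Finite K] (θ : Cfsg.IrrCharacter K)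
    (c : MulAut K) (n : ℕ) (hn : Odd n) (a : K) (ha : ∀ y, (c ^ n) y = a * y * a⁻¹) :
    ((∀ k, (θ.1 k).im = 0) ∧ ∀ k, θ.1 (c k) = θ.1 k) ↔ ∀ k, θ.1 (c k⁻¹) = θ.1 k := by
  constructor
  · rintro ⟨hr, hc⟩ k
    rw [hc, irr_conj_inv]
    exact Complex.conj_eq_iff_im.mpr (hr k)
  · intro h
    have h2 : ∀ k, θ.1 (c (c k)) = θ.1 k := by
      intro k
      have e1 := h (c k⁻¹)
      rw [← map_inv, inv_inv] at e1
      rw [e1]
      exact h k
    obtain ⟨m, rfl⟩ := hn
    have hcfix : ∀ k, θ.1 (c k) = θ.1 k := by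
      intro k
      have e1 := pow_two_fix8 θ.1 c h2 m (c k)
      have e2 : (c ^ (2 * m)) (c k) = (c ^ (2 * m + 1)) k := by
        rw [pow_succ, MulAut.mul_apply]
      rw [e2, ha] at e1
      rw [← e1]
      exact isClassFunction_of_irr θ k a
    refine ⟨fun k => ?_, hcfix⟩
    have e := h k
    rw [hcfix, irr_conj_inv] at e
    exact Complex.conj_eq_iff_im.mp e

theorem isConj_inv8 {K : Type*} [Group K] {a b : K} (h : IsConj a b) : IsConj a⁻¹ b⁻¹ := by
  rw [isConj_iff] at h ⊢
  obtain ⟨x, rfl⟩ := h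
  exact ⟨x, by group⟩

theorem isConj_aut8 {K : Type*} [Group K] (c : MulAut K) {a b : K} (h : IsConj a b) :
    IsConj (c a) (c b) := by
  rw [isConj_iff] at h ⊢
  obtain ⟨x, rfl⟩ := h
  exact ⟨c x, by rw [map_mul, map_mul, map_inv]⟩

theorem isConj_aut_iff8 {K : Type*} [Group K] (c : MulAut K) {a b : K} :
    IsConj (c a) (c b) ↔ IsConj a b := by
  constructor
  · intro h
    have h1 := isConj_aut8 c⁻¹ h
    rw [MulAut.inv_apply_self, MulAut.inv_apply_self] at h1
    exact h1
  · exact isConj_aut8 c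

theorem map_mk8 {K : Type*} [Group K] (c : MulAut K) (x : K) :
    ConjClasses.map c.toMonoidHom (ConjClasses.mk x) = ConjClasses.mk (c x) := rfl

/-- odd-index trick, class side -/
theorem real_fixed_iff_class8 {K : Type*} [Group K] (C : ConjClasses K) (c : MulAut K)
    (n : ℕ) (hn : Odd n) (a : K) (ha : ∀ y, (c ^ n) y = a * y * a⁻¹) :
    ((∀ k, ConjClasses.mk k = C → IsConj k k⁻¹) ∧ ConjClasses.map c.toMonoidHom C = C)
      ↔ ∀ k, ConjClasses.mk k = C → IsConj k (c k⁻¹) := by
  constructor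
  · rintro ⟨hr, hc⟩ k hk
    have h1 : IsConj (c k) k := by
      rw [← hk, map_mk8] at hc
      exact ConjClasses.mk_eq_mk_iff_isConj.mp hc
    have h2 : IsConj (c k) (c k⁻¹) := isConj_aut8 c (hr k hk)
    exact h1.symm.trans h2
  · intro h
    obtain ⟨x, rfl⟩ := ConjClasses.exists_rep C
    have key : ∀ k, IsConj k x → IsConj k (c k⁻¹) :=
      fun k hk => h k (ConjClasses.mk_eq_mk_iff_isConj.mpr hk)
    have h2 : ∀ k, IsConj k x → IsConj k (c (c k)) := by
      intro k hk
      have e1 := key k hk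
      have e2 := key (c k⁻¹) (e1.symm.trans hk)
      rw [← map_inv, inv_inv] at e2
      exact e1.trans e2
    have h3 : ∀ j : ℕ, IsConj x ((c ^ (2 * j)) x) := by
      intro j
      induction j with
      | zero =>
        rw [Nat.mul_zero, pow_zero, MulAut.one_apply]
      | succ j ih =>
        have e : c ^ (2 * (j + 1)) = (c * c) * c ^ (2 * j) := by
          rw [mul_add, mul_one, add_comm, pow_add, pow_two]
        rw [e, MulAut.mul_apply, MulAut.mul_apply]
        exact ih.trans (h2 _ ih.symm)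
    obtain ⟨m, rfl⟩ := hn
    have hcx : IsConj (c x) x := by
      have e1 : IsConj (c x) (c ((c ^ (2 * m)) x)) := isConj_aut8 c (h3 m)
      have e2 : c ((c ^ (2 * m)) x) = (c ^ (2 * m + 1)) x := by
        rw [pow_succ', MulAut.mul_apply]
      rw [e2, ha] at e1
      refine e1.trans ?_
      rw [isConj_iff]
      exact ⟨a⁻¹, by group⟩
    refine ⟨fun k hk => ?_, ?_⟩
    · have hk' : IsConj k x := ConjClasses.mk_eq_mk_iff_isConj.mp hk
      have e1 := key k hk'
      have e2 : IsConj (c k) k := (isConj_aut8 c hk').trans (hcx.trans hk'.symm)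
      exact (isConj_aut_iff8 c).mp (e2.trans e1)
    · rw [map_mk8]
      exact ConjClasses.mk_eq_mk_iff_isConj.mpr hcx

end Cfsg.Agent.Lib.Helper8
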