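import Mathlib
import Cfsg.Prelude.Def_Characters
import Cfsg.Agent.Lib.Helper8.ROdd

set_option autoImplicit false

namespace Cfsg.Agent.Lib.Helper8

open Cfsg.Agent.Lib.Lead

section
variable {G : Type*} [Group G] (K : Subgroup G) [K.Normal]

/-- action on real irreducible characters of `K` -/
noncomputable def actX8 (g : G)
    (θ : {θ : Cfsg.IrrCharacter ↥K // ∀ k : ↥K, ((θ : ↥K → ℂ) k).im = 0}) :
    {θ : Cfsg.IrrCharacter ↥K // ∀ k : ↥K, ((θ : ↥K → ℂ) k).im = 0} :=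
  ⟨⟨fun k => θ.1.1 ((MulAut.conjNormal g⁻¹ : MulAut K) k),
    isIrrCharacter_comp_surj (MulAut.conjNormal g⁻¹ : MulAut K).toMonoidHom
      (MulAut.conjNormal g⁻¹ : MulAut K).surjective θ.1.2⟩,
   fun _ => θ.2 _⟩

theorem actX8_one (θ : {θ : Cfsg.IrrCharacter ↥K // ∀ k : ↥K, ((θ : ↥K → ℂ) k).im = 0}) :
    actX8 K 1 θ = θ := by
  apply Subtype.ext
  apply Subtype.ext
  funext k
  show θ.1.1 ((MulAut.conjNormal (1 : G)⁻¹ : MulAut K) k) = θ.1.1 k
  rw [inv_one, map_one, MulAut.one_apply]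

theorem actX8_mul (g h : G)
    (θ : {θ : Cfsg.IrrCharacter ↥K // ∀ k : ↥K, ((θ : ↥K → ℂ) k).im = 0}) :
    actX8 K (g * h) θ = actX8 K g (actX8 K h θ) := by
  apply Subtype.ext
  apply Subtype.ext
  funext k
  show θ.1.1 ((MulAut.conjNormal (g * h)⁻¹ : MulAut K) k)
    = θ.1.1 ((MulAut.conjNormal h⁻¹ : MulAut K) ((MulAut.conjNormal g⁻¹ : MulAut K) k))
  rw [mul_inv_rev, map_mul, MulAut.mul_apply]

/-- action on real classes of `K` -/
def actC8 (g : G)
    (C : {C : ConjClasses ↥K // ∀ k : ↥K, ConjClasses.mk k = C → IsConj k k⁻¹}) :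
    {C : ConjClasses ↥K // ∀ k : ↥K, ConjClasses.mk k = C → IsConj k k⁻¹} :=
  ⟨ConjClasses.map (MulAut.conjNormal g : MulAut K).toMonoidHom C.1, by
    intro k hk
    obtain ⟨x, hx⟩ := ConjClasses.exists_rep C.1
    rw [← hx, map_mk8] at hk
    have h1 : IsConj k ((MulAut.conjNormal g : MulAut K) x) :=
      ConjClasses.mk_eq_mk_iff_isConj.mp hk
    have h2 : IsConj x x⁻¹ := C.2 x hx
    have h3 := isConj_aut8 (MulAut.conjNormal g : MulAut K) h2
    rw [map_inv] at h3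
    exact h1.trans (h3.trans (isConj_inv8 h1).symm)⟩

theorem actC8_one
    (C : {C : ConjClasses ↥K // ∀ k : ↥K, ConjClasses.mk k = C → IsConj k k⁻¹}) :
    actC8 K 1 C = C := by
  apply Subtype.ext
  obtain ⟨x, hx⟩ := ConjClasses.exists_rep C.1
  show ConjClasses.map (MulAut.conjNormal (1 : G) : MulAut K).toMonoidHom C.1 = C.1
  rw [← hx, map_mk8, map_one, MulAut.one_apply]

theorem actC8_mul (g h : G)
    (C : {C : ConjClasses ↥K // ∀ k : ↥K, ConjClasses.mk k = C → IsConj k k⁻¹}) :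
    actC8 K (g * h) C = actC8 K g (actC8 K h C) := by
  apply Subtype.ext
  obtain ⟨x, hx⟩ := ConjClasses.exists_rep C.1
  show ConjClasses.map (MulAut.conjNormal (g * h) : MulAut K).toMonoidHom C.1
    = ConjClasses.map (MulAut.conjNormal g : MulAut K).toMonoidHom
        (ConjClasses.map (MulAut.conjNormal h : MulAut K).toMonoidHom C.1)
  rw [← hx, map_mk8, map_mk8, map_mk8, map_mul, MulAut.mul_apply]

theorem fix_count8 [Finite G] (hodd : Odd K.index) (g : G) :
    Nat.card {θ : {θ : Cfsg.IrrCharacter ↥K // ∀ k : ↥K, ((θ : ↥K → ℂ) k).im = 0} //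
        actX8 K g θ = θ}
      = Nat.card {C : {C : ConjClasses ↥K // ∀ k : ↥K, ConjClasses.mk k = C → IsConj k k⁻¹} //
        actC8 K g⁻¹ C = C} := by
  haveI : Fintype K := Fintype.ofFinite K
  obtain ⟨c, hc⟩ : ∃ c : MulAut K, c = MulAut.conjNormal g⁻¹ := ⟨_, rfl⟩
  have hpow : ∃ a : K, ∀ y, (c ^ K.index) y = a * y * a⁻¹ := by
    refine ⟨⟨g⁻¹ ^ K.index, Subgroup.pow_index_mem K g⁻¹⟩, fun y => ?_⟩
    rw [hc, ← map_pow]
    apply Subtype.ext
    rw [MulAut.conjNormal_apply]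
    rfl
  obtain ⟨a, ha⟩ := hpow
  have hτ : ∀ k h : K, IsConj k h → IsConj (c k⁻¹) (c h⁻¹) :=
    fun k h hkh => isConj_aut8 c (isConj_inv8 hkh)
  have hirr : ∀ χ : Cfsg.IrrCharacter K, Cfsg.IsIrrCharacter K (fun k => χ.1 (c k⁻¹)) :=
    fun χ => isIrrCharacter_inv (isIrrCharacter_comp_surj c.toMonoidHom c.surjective χ.2)
  have hfc := fixed_count (fun k : K => c k⁻¹) hτ hirr
  rw [card_subtype_subtype8 (fun θ : Cfsg.IrrCharacter K => ∀ k : K, (θ.1 k).im = 0)
      (fun χ : Cfsg.IrrCharacter K => (fun k => χ.1 (c k⁻¹)) = χ.1)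
      (fun θ => actX8 K g θ = θ) ?_,
    card_subtype_subtype8 (fun C : ConjClasses K => ∀ k : K, ConjClasses.mk k = C → IsConj k k⁻¹)
      (fun C : ConjClasses K => ∀ k : K, ConjClasses.mk k = C → IsConj k (c k⁻¹))
      (fun C => actC8 K g⁻¹ C = C) ?_]
  · exact hfc
  · intro C
    have key := real_fixed_iff_class8 C c K.index hodd a ha
    constructor
    · intro h
      obtain ⟨hr, hm⟩ := key.mpr h
      refine ⟨hr, Subtype.ext ?_⟩
      subst hc
      exact hm
    · rintro ⟨hr, hfix⟩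
      refine key.mp ⟨hr, ?_⟩
      have h1 := congrArg Subtype.val hfix
      subst hc
      exact h1
  · intro χ
    have key := real_fixed_iff_char8 χ c K.index hodd a ha
    constructor
    · intro h
      obtain ⟨hr, hcf⟩ := key.mpr (fun k => congrFun h k)
      refine ⟨hr, ?_⟩
      apply Subtype.ext
      apply Subtype.ext
      funext k
      show χ.1 ((MulAut.conjNormal g⁻¹ : MulAut K) k) = χ.1 k
      rw [← hc]
      exact hcf k
    · rintro ⟨hr, hfix⟩
      funext k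
      refine key.mp ⟨hr, fun k => ?_⟩ k
      have h1 := congrFun (congrArg (fun η => η.1.1) hfix) k
      subst hc
      exact h1

/-- the class of a real element, as a real class -/
def toRC8 (x : {x : ↥K // IsConj x x⁻¹}) :
    {C : ConjClasses ↥K // ∀ k : ↥K, ConjClasses.mk k = C → IsConj k k⁻¹} :=
  ⟨ConjClasses.mk x.1, fun k hk => by
    have h1 : IsConj k x.1 := ConjClasses.mk_eq_mk_iff_isConj.mp hk
    exact h1.trans (x.2.trans (isConj_inv8 h1).symm)⟩

theorem toRC8_surj : Function.Surjective (toRC8 K) := by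
  intro C
  obtain ⟨x, hx⟩ := ConjClasses.exists_rep C.1
  exact ⟨⟨x, C.2 x hx⟩, Subtype.ext hx⟩

theorem toRC8_rel (x y : {x : ↥K // IsConj x x⁻¹}) :
    (∃ g : G, (y.1 : G) = g * x.1 * g⁻¹) ↔ ∃ g : G, actC8 K g (toRC8 K x) = toRC8 K y := by
  constructor
  · rintro ⟨g, hg⟩
    refine ⟨g, Subtype.ext ?_⟩
    show ConjClasses.map (MulAut.conjNormal g : MulAut K).toMonoidHom (ConjClasses.mk x.1)
      = ConjClasses.mk y.1
    rw [map_mk8]
    congr 1
    apply Subtype.ext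
    rw [MulAut.conjNormal_apply]
    exact hg.symm
  · rintro ⟨g, hg⟩
    have h1 : ConjClasses.mk ((MulAut.conjNormal g : MulAut K) x.1) = ConjClasses.mk y.1 :=
      congrArg Subtype.val hg
    rw [ConjClasses.mk_eq_mk_iff_isConj, isConj_iff] at h1
    obtain ⟨k, hk⟩ := h1
    refine ⟨k * g, ?_⟩
    have h2 := congrArg Subtype.val hk
    rw [← h2]
    show (k : G) * ((MulAut.conjNormal g : MulAut K) x.1 : K) * (k : G)⁻¹ = _
    rw [MulAut.conjNormal_apply]
    group

theorem real_orbits_odd8 [Finite G] (hodd : Odd K.index) :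
    Nat.card (Quot (fun θ η : {θ : Cfsg.IrrCharacter ↥K //
        (∀ k : ↥K, ((θ : ↥K → ℂ) k).im = 0)} =>
        ∃ g : G, ∀ k k' : ↥K, (k' : G) = g * (k : G) * g⁻¹ →
          (η.1 : ↥K → ℂ) k' = (θ.1 : ↥K → ℂ) k))
      = Nat.card (Quot (fun x y : {x : ↥K // IsConj x x⁻¹} =>
        ∃ g : G, (y.1 : G) = g * x.1 * g⁻¹)) := by
  haveI : Fintype G := Fintype.ofFinite G
  have hrelX : (fun θ η : {θ : Cfsg.IrrCharacter ↥K //
        (∀ k : ↥K, ((θ : ↥K → ℂ) k).im = 0)} =>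
        ∃ g : G, ∀ k k' : ↥K, (k' : G) = g * (k : G) * g⁻¹ →
          (η.1 : ↥K → ℂ) k' = (θ.1 : ↥K → ℂ) k)
      = (fun θ η => ∃ g : G, actX8 K g θ = η) := by
    funext θ η
    apply propext
    constructor
    · rintro ⟨g, hg⟩
      refine ⟨g, ?_⟩
      apply Subtype.ext
      apply Subtype.ext
      funext k'
      show θ.1.1 ((MulAut.conjNormal g⁻¹ : MulAut K) k') = η.1.1 k'
      refine (hg _ k' ?_).symm
      rw [MulAut.conjNormal_apply]
      group
    · rintro ⟨g, rfl⟩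
      refine ⟨g, fun k k' hk => ?_⟩
      show θ.1.1 ((MulAut.conjNormal g⁻¹ : MulAut K) k') = θ.1.1 k
      refine congrArg θ.1.1 (Subtype.ext ?_)
      rw [MulAut.conjNormal_apply, hk]
      group
  rw [hrelX]
  have hB1 := burnside_rel8 (actX8 K) (actX8_one K) (actX8_mul K)
  have hB2 := burnside_rel8 (actC8 K) (actC8_one K) (actC8_mul K)
  have hsum : ∑ g : G, Nat.card {a // actX8 K g a = a}
      = ∑ g : G, Nat.card {a // actC8 K g a = a} := by
    rw [← Equiv.sum_comp (Equiv.inv G) (fun g => Nat.card {a // actC8 K g a = a})]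
    apply Finset.sum_congr rfl
    intro g _
    exact fix_count8 K hodd g
  have hcard : Nat.card (Quot (fun θ η => ∃ g : G, actX8 K g θ = η))
      = Nat.card (Quot (fun C D => ∃ g : G, actC8 K g C = D)) := by
    have hpos : 0 < Nat.card G := Nat.card_pos
    apply Nat.eq_of_mul_eq_mul_right hpos
    rw [hB1, hB2, hsum]
  rw [hcard]
  symm
  exact card_quot_of_surj8 _ _ (orbit_rel_equivalence8 (actC8 K) (actC8_one K) (actC8_mul K))
    (toRC8 K) (toRC8_surj K) (toRC8_rel K)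

end

end Cfsg.Agent.Lib.Helper8
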