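import Cfsg.Agent.Lib.Helper8.Alp

set_option autoImplicit false
open Cfsg

namespace Cfsg.Agent.Lib.Helper8

variable {Ω : Type*} [Group Ω]

/-- Restriction of a fusion system over `U` to a subgroup `T ≤ U`. -/
def restrSys {U : Subgroup Ω} (F₀ : FusionSystem U) (T : Subgroup Ω) (hT : T ≤ U) :
    FusionSystem T where
  Hom P := {φ | φ ∈ F₀.Hom P ∧ P ≤ T ∧ ∀ x : P, φ x ∈ T}
  le_of_mem h := ⟨h.2.1, h.2.2⟩
  injective_of_mem h := F₀.injective_of_mem h.1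
  conj_mem := by
    intro P g hP hg
    exact ⟨F₀.conj_mem (hP.trans hT) (hT hg), hP,
      fun x => T.mul_mem (T.mul_mem hg (hP x.2)) (T.inv_mem hg)⟩
  comp_mem := by
    rintro P Q φ ψ ⟨hφ, hP, hφT⟩ ⟨hψ, hQ, hψT⟩ h
    exact ⟨F₀.comp_mem hφ hψ h, hP, fun x => hψT _⟩
  inv_mem := by
    rintro P φ ⟨hφ, hP, hφT⟩
    obtain ⟨ψ, hψ, hψe⟩ := F₀.inv_mem hφ
    refine ⟨ψ, ⟨hψ, ?_, ?_⟩, hψe⟩
    · rintro _ ⟨x, rfl⟩
      exact hφT x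
    · rintro ⟨_, x, rfl⟩
      rw [hψe]
      exact hP x.2

end Cfsg.Agent.Lib.Helper8
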