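import Mathlib

set_option autoImplicit false

namespace Cfsg.Agent.Lib.Helper8

/-- decomposition of an element of a product `N P` with `N` normal -/
theorem sd_decomp8 {G : Type*} [Group G] (N P : Subgroup G) [hN : N.Normal]
    (hprod : N ⊔ P = ⊤) (g : G) : ∃ n ∈ N, ∃ p ∈ P, g = n * p := by
  have h : g ∈ (↑(N ⊔ P) : Set G) := by
    rw [hprod]
    exact Set.mem_univ g
  rw [Subgroup.normal_mul] at h
  obtain ⟨n, hn, p, hp, rfl⟩ := Set.mem_mul.mp h
  exact ⟨n, hn, p, hp, rfl⟩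

/-- uniqueness of the decomposition -/
theorem sd_unique8 {G : Type*} [Group G] (N P : Subgroup G) (hdisj : N ⊓ P = ⊥)
    (n n' p p' : G) (hn : n ∈ N) (hn' : n' ∈ N) (hp : p ∈ P) (hp' : p' ∈ P)
    (h : n * p = n' * p') : n = n' ∧ p = p' := by
  have h1 : n'⁻¹ * n = p' * p⁻¹ := by
    calc n'⁻¹ * n = n'⁻¹ * (n * p) * p⁻¹ := by group
      _ = n'⁻¹ * (n' * p') * p⁻¹ := by rw [h]
      _ = p' * p⁻¹ := by group
  have h2 : n'⁻¹ * n ∈ N ⊓ P :=
    Subgroup.mem_inf.mpr ⟨N.mul_mem (N.inv_mem hn') hn, by rw [h1]; exact P.mul_mem hp' (P.inv_mem hp)⟩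
  rw [hdisj, Subgroup.mem_bot] at h2
  have h3 : n = n' := by
    have := inv_mul_eq_one.mp h2
    exact this.symm
  refine ⟨h3, ?_⟩
  subst h3
  exact mul_left_cancel h

/-- the index of the normal factor is a power of two -/
theorem sd_index8 {G : Type*} [Group G] [Finite G] (N P : Subgroup G) [hN : N.Normal]
    (hP : IsPGroup 2 ↥P) (hdisj : N ⊓ P = ⊥) (hprod : N ⊔ P = ⊤) :
    ∃ a : ℕ, N.index = 2 ^ a := by
  have hc : Subgroup.IsComplement' N P := by
    apply Subgroup.isComplement'_of_disjoint_and_mul_eq_univ (disjoint_iff.mpr hdisj)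
    rw [← Subgroup.normal_mul, hprod]
    rfl
  have h1 := hc.symm.index_eq_card
  obtain ⟨a, ha⟩ := (IsPGroup.iff_card (p := 2)).mp hP
  exact ⟨a, by rw [h1, ha]⟩

/-- a central involution of the complement inverts the minimal normal subgroup -/
theorem sd_invol8 {G : Type*} [Group G] [Finite G] (N P : Subgroup G) [hN : N.Normal]
    (hcomm : ∀ a ∈ N, ∀ b ∈ N, a * b = b * a)
    (hP : IsPGroup 2 ↥P) (hP1 : P ≠ ⊥) (hdisj : N ⊓ P = ⊥) (hprod : N ⊔ P = ⊤)
    (hmin : N ≠ ⊥ ∧ ∀ M : Subgroup G, M.Normal → M ≠ ⊥ → N ≤ M) :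
    ∃ z : G, z ∈ P ∧ z ∉ N ∧ z * z = 1 ∧ (∀ p ∈ P, z * p = p * z) ∧
      ∀ n ∈ N, z * n * z⁻¹ = n⁻¹ := by
  classical
  haveI : Nontrivial ↥P := (Subgroup.nontrivial_iff_ne_bot P).mpr hP1
  haveI : Nontrivial ↥(Subgroup.center ↥P) := hP.center_nontrivial
  have h2 : 2 ∣ Nat.card ↥(Subgroup.center ↥P) := by
    obtain ⟨k, hk⟩ := (IsPGroup.iff_card (p := 2)).mp (hP.to_subgroup (Subgroup.center ↥P))
    have h1 : 1 < Nat.card ↥(Subgroup.center ↥P) := Finite.one_lt_card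
    rw [hk] at h1 ⊢
    have hk0 : k ≠ 0 := by
      rintro rfl
      simp at h1
    exact dvd_pow_self 2 hk0
  obtain ⟨c, hc⟩ := exists_prime_orderOf_dvd_card' 2 h2
  have hc2 : c ^ 2 = 1 := hc ▸ pow_orderOf_eq_one c
  have hc1 : c ≠ 1 := by
    intro h
    rw [h, orderOf_one] at hc
    norm_num at hc
  obtain ⟨z, hz⟩ : ∃ z : G, z = ((c : ↥P) : G) := ⟨_, rfl⟩
  have hzP : z ∈ P := by rw [hz]; exact (c : ↥P).2
  have hz2 : z * z = 1 := by
    have h3 : ((c ^ 2 : ↥(Subgroup.center ↥P)) : ↥P) = 1 := by rw [hc2]; rfl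
    have h4 := congrArg (Subtype.val) h3
    rw [hz, ← pow_two]
    exact h4
  have hz1 : z ≠ 1 := by
    intro h
    apply hc1
    apply Subtype.ext
    apply Subtype.ext
    rw [← hz, h]
    rfl
  have hzN : z ∉ N := by
    intro h
    have h3 : z ∈ N ⊓ P := Subgroup.mem_inf.mpr ⟨h, hzP⟩
    rw [hdisj, Subgroup.mem_bot] at h3
    exact hz1 h3
  have hzp : ∀ p ∈ P, z * p = p * z := by
    intro p hp
    have h3 := Subgroup.mem_center_iff.mp c.2 ⟨p, hp⟩
    have h4 := congrArg (Subtype.val) h3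
    rw [hz]
    exact h4.symm
  have hzi : z⁻¹ = z := inv_eq_of_mul_eq_one_left hz2
  -- the centraliser of z in N
  obtain ⟨C, hC⟩ : ∃ C : Subgroup G, ∀ g, g ∈ C ↔ (g ∈ N ∧ z * g = g * z) := by
    refine ⟨{ carrier := {g | g ∈ N ∧ z * g = g * z}
              mul_mem' := ?_
              one_mem' := ⟨N.one_mem, by rw [mul_one, one_mul]⟩
              inv_mem' := ?_ }, fun g => Iff.rfl⟩
    · rintro a b ⟨ha, ha'⟩ ⟨hb, hb'⟩
      exact ⟨N.mul_mem ha hb, ((Commute.mul_right ha' hb') : Commute z (a * b)).eq⟩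
    · rintro a ⟨ha, ha'⟩
      exact ⟨N.inv_mem ha, ((Commute.inv_right ha') : Commute z a⁻¹).eq⟩
  have hCnormal : C.Normal := by
    constructor
    intro x hx g
    obtain ⟨hxN, hxz⟩ := (hC x).mp hx
    obtain ⟨n, hn, p, hp, rfl⟩ := sd_decomp8 N P hprod g
    have hyN : p * x * p⁻¹ ∈ N := hN.conj_mem x hxN p
    have e1 : n * p * x * (n * p)⁻¹ = p * x * p⁻¹ := by
      have h3 := hcomm n hn _ hyN
      calc n * p * x * (n * p)⁻¹ = (n * (p * x * p⁻¹)) * n⁻¹ := by group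
        _ = ((p * x * p⁻¹) * n) * n⁻¹ := by rw [h3]
        _ = p * x * p⁻¹ := by group
    rw [e1]
    refine (hC _).mpr ⟨hyN, ?_⟩
    have c1 : Commute z p := hzp p hp
    have c2 : Commute z x := hxz
    exact ((c1.mul_right c2).mul_right c1.inv_right).eq
  have hCbot : C = ⊥ := by
    by_contra hne
    have hNC := hmin.2 C hCnormal hne
    -- z is central in G
    have hzc : ∀ g : G, g * z = z * g := by
      intro g
      obtain ⟨n, hn, p, hp, rfl⟩ := sd_decomp8 N P hprod g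
      have c1 : Commute z p := hzp p hp
      have c2 : Commute z n := ((hC n).mp (hNC hn)).2
      exact ((c2.mul_right c1).eq).symm
    have hMn : (Subgroup.center G ⊓ P).Normal := by
      constructor
      intro x hx g
      obtain ⟨hx1, hx2⟩ := Subgroup.mem_inf.mp hx
      have h3 : g * x * g⁻¹ = x := by
        have := Subgroup.mem_center_iff.mp hx1 g
        rw [this]
        group
      rw [h3]
      exact hx
    have hMne : Subgroup.center G ⊓ P ≠ ⊥ := by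
      intro h
      have h3 : z ∈ Subgroup.center G ⊓ P :=
        Subgroup.mem_inf.mpr ⟨Subgroup.mem_center_iff.mpr hzc, hzP⟩
      rw [h, Subgroup.mem_bot] at h3
      exact hz1 h3
    have hNM := hmin.2 _ hMn hMne
    apply hmin.1
    rw [eq_bot_iff]
    intro x hx
    have h3 : x ∈ N ⊓ P := Subgroup.mem_inf.mpr ⟨hx, (Subgroup.mem_inf.mp (hNM hx)).2⟩
    rw [hdisj] at h3
    exact h3
  refine ⟨z, hzP, hzN, hz2, hzp, ?_⟩
  intro n hn
  have hm : z * n * z⁻¹ ∈ N := hN.conj_mem n hn z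
  have h3 : n * (z * n * z⁻¹) ∈ C := by
    refine (hC _).mpr ⟨N.mul_mem hn hm, ?_⟩
    rw [hzi] at hm ⊢
    have h4 := hcomm _ hm n hn
    calc z * (n * (z * n * z)) = (z * n * z) * n * z := by group
      _ = n * (z * n * z) * z := by rw [h4]
  rw [hCbot, Subgroup.mem_bot] at h3
  exact eq_inv_of_mul_eq_one_right h3

end Cfsg.Agent.Lib.Helper8
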