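import Mathlib
import Cfsg.Prelude.Def_Characters
import Cfsg.Agent.Lib.Helper8.Cliff12
import Cfsg.Agent.Lib.Lead.Char8
import Cfsg.Agent.Lib.Helper7.ClassProd

set_option autoImplicit false

namespace Cfsg.Agent.Lib.Helper8

open Matrix Cfsg.Agent.Lib.Lead Cfsg.Agent.Lib.Helper7 Cfsg.Agent.Lib.Helper7.Cliff

/-- a hom to the units of `ℂ` is an irreducible character -/
theorem isIrrCharacter_of_hom8 {G : Type*} [Group G] (μ : G →* ℂˣ) :
    Cfsg.IsIrrCharacter G (fun g => (μ g : ℂ)) := by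
  let ρ : Representation ℂ G (Fin 1 → ℂ) :=
    { toFun := fun g => ((μ g : ℂ)) • (1 : Module.End ℂ (Fin 1 → ℂ))
      map_one' := by simp
      map_mul' := by
        intro a b
        rw [smul_mul_smul_comm, one_mul, map_mul, Units.val_mul] }
  refine ⟨1, ρ, irr_of_finrank_one ρ (by simp), ?_⟩
  funext g
  show LinearMap.trace ℂ _ (((μ g : ℂ)) • (1 : Module.End ℂ (Fin 1 → ℂ))) = _
  rw [map_smul, LinearMap.trace_one]
  simp

/-- the values of a nontrivial hom sum to zero -/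
theorem sum_hom_nontrivial8 {H : Type*} [Group H] [Fintype H] (μ : H →* ℂˣ) (n₀ : H)
    (h : μ n₀ ≠ 1) : ∑ n : H, (μ n : ℂ) = 0 := by
  have h1 : (μ n₀ : ℂ) * ∑ n : H, (μ n : ℂ) = ∑ n : H, (μ n : ℂ) := by
    rw [Finset.mul_sum]
    refine Fintype.sum_equiv (Equiv.mulLeft n₀) _ _ (fun n => ?_)
    simp
  have h2 : (μ n₀ : ℂ) ≠ 1 := by
    intro h3
    apply h
    exact Units.ext (by simpa using h3)
  have h4 : ((μ n₀ : ℂ) - 1) * ∑ n : H, (μ n : ℂ) = 0 := by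
    rw [sub_mul, h1, one_mul, sub_self]
  rcases mul_eq_zero.mp h4 with h5 | h5
  · exact absurd (sub_eq_zero.mp h5) h2
  · exact h5

/-- uniqueness of the character over an extension with the degree of the induced one -/
theorem unique_over9 {G : Type*} [Group G] [Fintype G] (I : Subgroup G) [Fintype I]
    (ψ : Cfsg.IrrCharacter ↥I)
    (χ₀ : Cfsg.IrrCharacter G) (hχ₀ : Cfsg.classInner (fun i : I => χ₀.1 i) ψ.1 ≠ 0)
    (hdeg : χ₀.1 1 = (I.index : ℂ) * ψ.1 1) (χ₁ : Cfsg.IrrCharacter G)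
    (hχ₁ : Cfsg.classInner (fun i : I => χ₁.1 i) ψ.1 ≠ 0) : χ₁ = χ₀ := by
  classical
  have hover : ∀ χ : Cfsg.IrrCharacter G, Cfsg.classInner (fun i : I => χ.1 i) ψ.1 ≠ 0 →
      Cfsg.classInner (Cfsg.indFun I ψ.1) χ.1 ≠ 0 := by
    intro χ h
    rw [frobenius_reciprocity I ψ.1 χ.1 (isClassFunction_of_irr χ)]
    intro h0
    apply h
    rw [← classInner_conj_symm, h0, map_zero]
  by_contra hne
  obtain ⟨r, hr⟩ := two_constituents_deg8 (Cfsg.indFun I ψ.1)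
    (isCharacter_indFun I ψ.1 (isCharacter_of_irr ψ.2)) χ₀ χ₁ (Ne.symm hne) (hover χ₀ hχ₀)
    (hover χ₁ hχ₁)
  rw [Cfsg.Agent.Lib.Lead.indFun_one_eq] at hr
  have h2 : (Fintype.card G : ℂ) = (Nat.card I : ℂ) * (I.index : ℂ) := by
    rw [← Nat.cast_mul, Subgroup.card_mul_index, Nat.card_eq_fintype_card]
  have h3 : (Nat.card I : ℂ) ≠ 0 := by exact_mod_cast Nat.card_pos.ne'
  have h4 : (Nat.card I : ℂ)⁻¹ * ((Fintype.card G : ℂ) * ψ.1 1) = χ₀.1 1 := by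
    rw [h2, hdeg]
    field_simp
  rw [h4] at hr
  obtain ⟨hpos, hd, -⟩ := DZ.charDegree_spec χ₀
  obtain ⟨hpos1, hd1, -⟩ := DZ.charDegree_spec χ₁
  rw [hd, hd1] at hr
  have h6 : Cfsg.charDegree χ₀.1 = Cfsg.charDegree χ₀.1 + Cfsg.charDegree χ₁.1 + r := by
    exact_mod_cast hr
  omega

/-- the Clifford correspondent of an extension inverted by an involution is real -/
theorem sd_real8 {G : Type*} [Group G] [Fintype G] (I : Subgroup G) [Fintype I]
    (ψ : Cfsg.IrrCharacter ↥I)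
    (z : G) (hz2 : z * z = 1) (hzI : ∀ i ∈ I, z * i * z⁻¹ ∈ I)
    (hzψ : ∀ (i : I), ψ.1 ⟨z * i * z⁻¹, hzI i i.2⟩ = (starRingEnd ℂ) (ψ.1 i))
    (χ₀ : Cfsg.IrrCharacter G)
    (hχ₀ : Cfsg.classInner (fun i : I => χ₀.1 i) ψ.1 ≠ 0)
    (hdeg : χ₀.1 1 = (I.index : ℂ) * ψ.1 1) : ∀ g : G, (χ₀.1 g).im = 0 := by
  classical
  obtain ⟨χ₁, hχ₁⟩ : ∃ χ₁ : Cfsg.IrrCharacter G, ∀ g, χ₁.1 g = (starRingEnd ℂ) (χ₀.1 g) :=
    ⟨⟨fun g => (starRingEnd ℂ) (χ₀.1 g), isIrrCharacter_conj χ₀.2⟩, fun _ => rfl⟩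
  have hzi : z⁻¹ = z := inv_eq_of_mul_eq_one_left hz2
  have hχ₁over : Cfsg.classInner (fun i : I => χ₁.1 i) ψ.1 ≠ 0 := by
    have e : Cfsg.classInner (fun i : I => χ₁.1 i) ψ.1
        = (starRingEnd ℂ) (Cfsg.classInner (fun i : I => χ₀.1 i) ψ.1) := by
      unfold Cfsg.classInner
      rw [map_mul, map_inv₀, Complex.conj_natCast, map_sum]
      congr 1
      let c : I → I := fun i => ⟨z * i * z⁻¹, hzI i i.2⟩
      have hc : Function.Involutive c := by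
        intro i
        apply Subtype.ext
        show z * (z * (i : G) * z⁻¹) * z⁻¹ = i
        rw [hzi]
        calc z * (z * (i : G) * z) * z = (z * z) * i * (z * z) := by group
          _ = i := by rw [hz2, one_mul, mul_one]
      refine Fintype.sum_equiv (Function.Involutive.toPerm c hc) _ _ (fun i => ?_)
      show χ₁.1 (i : G) * (starRingEnd ℂ) (ψ.1 i)
        = (starRingEnd ℂ) (χ₀.1 ((c i : I) : G) * (starRingEnd ℂ) (ψ.1 (c i)))
      have h1 : χ₀.1 ((c i : I) : G) = χ₀.1 i := isClassFunction_of_irr χ₀ i z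
      have h2 : ψ.1 (c i) = (starRingEnd ℂ) (ψ.1 i) := hzψ i
      rw [h1, h2, Complex.conj_conj, hχ₁, map_mul]
    rw [e]
    intro h0
    apply hχ₀
    have := congrArg (starRingEnd ℂ) h0
    rwa [Complex.conj_conj, map_zero] at this
  have heq : χ₁ = χ₀ := unique_over9 I ψ χ₀ hχ₀ hdeg χ₁ hχ₁over
  intro g
  have h7 := hχ₁ g
  rw [heq] at h7
  exact Complex.conj_eq_iff_im.mp h7.symm

end Cfsg.Agent.Lib.Helper8
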