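import Mathlib
import Cfsg.Prelude.Def_Characters
import Cfsg.Agent.Lib.Helper8.Sd2

set_option autoImplicit false

namespace Cfsg.Agent.Lib.Helper8

open Matrix Cfsg.Agent.Lib.Lead Cfsg.Agent.Lib.Helper7 Cfsg.Agent.Lib.Helper7.Cliff

/-- the indicator of a real character lying with multiplicity one over a nontrivial linear
character of an odd-order normal subgroup inverted by an involution -/
theorem sd_fs8 {G : Type*} [Group G] [Fintype G] (N : Subgroup G) [hN : N.Normal]
    [Fintype N] (lam : ↥N →* ℂˣ) (φ : Cfsg.IrrCharacter ↥N)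
    (hφ : ∀ n : N, φ.1 n = (lam n : ℂ))
    (n₀ : N) (hn₀ : lam n₀ ≠ 1) (hodd : Odd (Nat.card N))
    (z : G) (hz2 : z * z = 1) (hzN : z ∉ N) (hzinv : ∀ n ∈ N, z * n * z⁻¹ = n⁻¹)
    (χ₀ : Cfsg.IrrCharacter G) (hχreal : ∀ g : G, (χ₀.1 g).im = 0)
    (hE : Cfsg.classInner (fun n : N => χ₀.1 n) φ.1 = 1) :
    (Nat.card G : ℂ)⁻¹ * ∑ g : G, χ₀.1 (g * g) = 1 := by
  classical
  have hzi : z⁻¹ = z := inv_eq_of_mul_eq_one_left hz2
  have hNc : (Nat.card N : ℂ) ≠ 0 := card_ne_zero_C
  obtain ⟨t, ht⟩ : ∃ t : ℕ,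
      t = Nat.card {ψ : Cfsg.IrrCharacter N // ∃ x : G, ψ.1 = conjFun N φ.1 x} := ⟨_, rfl⟩
  have hsum := sum_hom_nontrivial8 lam n₀ hn₀
  have hker : ¬ (∀ x ∈ N, χ₀.1 x = χ₀.1 1) := by
    intro hk
    have h1 : Cfsg.classInner (fun n : N => χ₀.1 n) φ.1 = 0 := by
      unfold Cfsg.classInner
      have h2 : ∑ n : N, χ₀.1 (n : G) * (starRingEnd ℂ) (φ.1 n)
          = χ₀.1 1 * (starRingEnd ℂ) (∑ n : N, (lam n : ℂ)) := by
        rw [map_sum, Finset.mul_sum]
        refine Finset.sum_congr rfl (fun n _ => ?_)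
        rw [hk n n.2, hφ]
      rw [h2, hsum, map_zero, mul_zero, mul_zero]
    rw [hE] at h1
    exact one_ne_zero h1
  have hsumN : ∑ n : N, χ₀.1 (n : G) = 0 := by
    have h1 := (avg_normal_irr N χ₀).2 hker
    rcases mul_eq_zero.mp h1 with h2 | h2
    · exact absurd (inv_eq_zero.mp h2) hNc
    · exact h2
  obtain ⟨k, hk⟩ := hodd
  have hpow : ∀ n : N, n ^ (2 * (k + 1)) = n := by
    intro n
    have h1 : 2 * (k + 1) = Nat.card N + 1 := by omega
    rw [h1, pow_succ, pow_card_eq_one', one_mul]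
  have hconj : ∀ (n : G), n ∈ N → ∀ z' : G, (∀ m ∈ N, z' * m * z'⁻¹ = m⁻¹) →
      ∃ m : G, n * z' = m * z' * m⁻¹ := by
    intro n hn z' hz'
    obtain ⟨m, hm⟩ : ∃ m : N, m = (⟨n, hn⟩ : N) ^ (k + 1) := ⟨_, rfl⟩
    have h1 : m * m = ⟨n, hn⟩ := by
      rw [hm, ← pow_add, ← two_mul]
      exact hpow _
    have h2 : (m : G) * (m : G) = n := congrArg Subtype.val h1
    have h4 : z' * (m : G)⁻¹ * z'⁻¹ = m := by
      have := hz' (m : G)⁻¹ (N.inv_mem m.2)
      rwa [inv_inv] at this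
    refine ⟨m, ?_⟩
    calc n * z' = (m : G) * (m : G) * z' := by rw [h2]
      _ = (m : G) * (z' * (m : G)⁻¹ * z'⁻¹) * z' := by rw [h4]
      _ = (m : G) * z' * (m : G)⁻¹ := by group
  have hval : ∀ (n : G), n ∈ N → ∀ z' : G, (∀ m ∈ N, z' * m * z'⁻¹ = m⁻¹) →
      χ₀.1 (n * z') = χ₀.1 z' := by
    intro n hn z' hz'
    obtain ⟨m, hm⟩ := hconj n hn z' hz'
    rw [hm]
    exact isClassFunction_of_irr χ₀ z' m
  have hzb : ∀ b : G, ∀ m ∈ N, (b * z * b⁻¹) * m * (b * z * b⁻¹)⁻¹ = m⁻¹ := by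
    intro b m hm
    have h0 : b⁻¹ * m * b ∈ N := by
      have := hN.conj_mem m hm b⁻¹
      rwa [inv_inv] at this
    have h1 := hzinv (b⁻¹ * m * b) h0
    calc (b * z * b⁻¹) * m * (b * z * b⁻¹)⁻¹ = b * (z * (b⁻¹ * m * b) * z⁻¹) * b⁻¹ := by group
      _ = b * (b⁻¹ * m * b)⁻¹ * b⁻¹ := by rw [h1]
      _ = m⁻¹ := by group
  have hGc : (Nat.card G : ℂ) ≠ 0 := card_ne_zero_C
  have hχz : χ₀.1 z = 0 := by
    by_contra h0
    apply hker
    intro x hx
    have h1 := irr_sum_conj_mul χ₀ x z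
    have h2 : ∀ a b : G, χ₀.1 (a * x * a⁻¹ * (b * z * b⁻¹)) = χ₀.1 z := by
      intro a b
      rw [hval _ (hN.conj_mem x hx a) _ (hzb b)]
      exact isClassFunction_of_irr χ₀ z b
    simp only [h2, Finset.sum_const, Finset.card_univ, nsmul_eq_mul] at h1
    rw [← Nat.card_eq_fintype_card] at h1
    have h3 : ((Nat.card G : ℂ) ^ 2 * χ₀.1 z) * (χ₀.1 x - χ₀.1 1) = 0 := by
      linear_combination (-1 : ℂ) * h1
    rcases mul_eq_zero.mp h3 with h4 | h4
    · exfalso
      rcases mul_eq_zero.mp h4 with h5 | h5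
      · exact hGc ((pow_eq_zero_iff (two_ne_zero)).mp h5)
      · exact h0 h5
    · exact sub_eq_zero.mp h4
  have hdeg : χ₀.1 1 = (t : ℂ) := by
    have h1 := clifford_deg_inner8 N χ₀ φ (by rw [hE]; exact one_ne_zero)
    rw [hE, one_mul, ← ht, hφ, map_one, Units.val_one, mul_one] at h1
    exact h1
  have hS1 : (Nat.card N : ℂ)⁻¹ * ∑ n : N, χ₀.1 (n : G) ^ 2 = (t : ℂ) := by
    have h4 := restrict_inner_clifford N φ χ₀ χ₀ 1 1 (by rw [hE]; simp) (by rw [hE]; simp)
      one_ne_zero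
    unfold Cfsg.classInner at h4
    rw [ht]
    have h5 : ∑ n : N, χ₀.1 (n : G) ^ 2
        = ∑ n : N, χ₀.1 n * (starRingEnd ℂ) (χ₀.1 n) := by
      apply Finset.sum_congr rfl
      intro n _
      rw [Complex.conj_eq_iff_im.mpr (hχreal n), sq]
    rw [h5, h4]
    simp
  -- the subgroup generated by N and z
  obtain ⟨D, hD⟩ : ∃ D : Subgroup G, ∀ g, g ∈ D ↔ (g ∈ N ∨ g * z ∈ N) := by
    refine ⟨{ carrier := {g | g ∈ N ∨ g * z ∈ N}
              mul_mem' := ?_
              one_mem' := Or.inl N.one_mem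
              inv_mem' := ?_ }, fun g => Iff.rfl⟩
    · rintro a b (ha | ha) (hb | hb)
      · exact Or.inl (N.mul_mem ha hb)
      · right
        have e : a * b * z = a * (b * z) := by group
        rw [e]
        exact N.mul_mem ha hb
      · right
        have e : a * b * z = (a * z) * (z⁻¹ * b * z) := by group
        rw [e]
        have h1 := hN.conj_mem b hb z⁻¹
        rw [inv_inv] at h1
        exact N.mul_mem ha h1
      · left
        have e : a * b = (a * z) * (z⁻¹ * (b * z) * z⁻¹) := by group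
        rw [hzi] at e
        rw [e]
        have h1 := hN.conj_mem (b * z) hb z
        rw [hzi] at h1
        exact N.mul_mem ha h1
    · rintro a (ha | ha)
      · exact Or.inl (N.inv_mem ha)
      · right
        have e : a⁻¹ * z = z * (a * z)⁻¹ * z := by group
        rw [e]
        have h1 := hN.conj_mem (a * z)⁻¹ (N.inv_mem ha) z
        rw [hzi] at h1
        exact h1
  haveI : Fintype D := Fintype.ofFinite D
  have hsplit : ∀ F : G → ℂ, ∑ d : D, F d = ∑ n : N, F n + ∑ n : N, F ((n : G) * z) := by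
    intro F
    let e : (↥N ⊕ ↥N) → ↥D := fun s => Sum.elim
      (fun n : N => (⟨(n : G), (hD _).mpr (Or.inl n.2)⟩ : D))
      (fun n : N => (⟨(n : G) * z, (hD _).mpr (Or.inr (by
        rw [mul_assoc, hz2, mul_one]; exact n.2))⟩ : D)) s
    have hbij : Function.Bijective e := by
      constructor
      · rintro (a | a) (b | b) hab
        · have h1 : (a : G) = (b : G) := congrArg (fun d : D => (d : G)) hab
          exact congrArg Sum.inl (Subtype.ext h1)
        · exfalso
          have h1 : (a : G) = (b : G) * z := congrArg (fun d : D => (d : G)) hab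
          apply hzN
          have h2 : z = (b : G)⁻¹ * a := by rw [h1]; group
          rw [h2]
          exact N.mul_mem (N.inv_mem b.2) a.2
        · exfalso
          have h1 : (a : G) * z = (b : G) := congrArg (fun d : D => (d : G)) hab
          apply hzN
          have h2 : z = (a : G)⁻¹ * b := by rw [← h1]; group
          rw [h2]
          exact N.mul_mem (N.inv_mem a.2) b.2
        · have h1 : (a : G) * z = (b : G) * z := congrArg (fun d : D => (d : G)) hab
          exact congrArg Sum.inr (Subtype.ext (mul_right_cancel h1))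
      · intro d
        rcases (hD _).mp d.2 with h | h
        · exact ⟨Sum.inl ⟨d, h⟩, Subtype.ext rfl⟩
        · refine ⟨Sum.inr ⟨(d : G) * z, h⟩, Subtype.ext ?_⟩
          show (d : G) * z * z = d
          rw [mul_assoc, hz2, mul_one]
    have h1 := Fintype.sum_sum_type (fun s : ↥N ⊕ ↥N => F (e s))
    have h2 := Fintype.sum_bijective e hbij (fun s => F (e s)) (fun d => F d) (fun _ => rfl)
    exact h2.symm.trans h1
  have hcardD : (Nat.card D : ℂ) = 2 * (Nat.card N : ℂ) := by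
    have h1 := hsplit (fun _ => 1)
    simp only [Finset.sum_const, Finset.card_univ, nsmul_eq_mul, mul_one] at h1
    rw [Nat.card_eq_fintype_card, Nat.card_eq_fintype_card, h1]
    ring
  have hT1 : (Nat.card D : ℂ)⁻¹ * ∑ d : D, χ₀.1 (d : G) ^ 2 = (t : ℂ) / 2 := by
    have hs1 : ∑ d : D, χ₀.1 (d : G) ^ 2
        = ∑ n : N, χ₀.1 (n : G) ^ 2 + ∑ n : N, χ₀.1 ((n : G) * z) ^ 2 :=
      hsplit (fun g => χ₀.1 g ^ 2)
    have h1 : ∑ n : N, χ₀.1 ((n : G) * z) ^ 2 = 0 := by
      apply Finset.sum_eq_zero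
      intro n _
      rw [hval n n.2 z hzinv, hχz]
      ring
    rw [hs1, h1, add_zero, hcardD, mul_inv, mul_assoc, hS1]
    ring
  have hT2 : (Nat.card D : ℂ)⁻¹ * ∑ d : D, χ₀.1 ((d * d : D) : G) = (t : ℂ) / 2 := by
    have hs2 : ∑ d : D, χ₀.1 ((d * d : D) : G)
        = ∑ n : N, χ₀.1 ((n : G) * n) + ∑ n : N, χ₀.1 ((n : G) * z * ((n : G) * z)) :=
      hsplit (fun g => χ₀.1 (g * g))
    have h1 : ∑ n : N, χ₀.1 ((n : G) * n) = 0 := by
      let sq : N ≃ N :=
        { toFun := fun n => n * n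
          invFun := fun n => n ^ (k + 1)
          left_inv := by
            intro n
            show (n * n) ^ (k + 1) = n
            rw [← pow_two, ← pow_mul]
            exact hpow n
          right_inv := by
            intro n
            show n ^ (k + 1) * n ^ (k + 1) = n
            rw [← pow_add, ← two_mul]
            exact hpow n }
      exact (Fintype.sum_equiv sq (fun n : N => χ₀.1 ((n : G) * n)) (fun n : N => χ₀.1 (n : G))
        (fun n => rfl)).trans hsumN
    have h2 : ∑ n : N, χ₀.1 ((n : G) * z * ((n : G) * z)) = (Nat.card N : ℂ) * (t : ℂ) := by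
      have h3 : ∀ n : N, (n : G) * z * ((n : G) * z) = 1 := by
        intro n
        have h4 := hzinv n n.2
        rw [hzi] at h4
        calc (n : G) * z * ((n : G) * z) = n * (z * n * z) := by group
          _ = 1 := by rw [h4, mul_inv_cancel]
      simp only [h3, hdeg, Finset.sum_const, Finset.card_univ, nsmul_eq_mul,
        Nat.card_eq_fintype_card]
    rw [hs2, h1, h2, zero_add, hcardD]
    field_simp
  obtain ⟨n₁, ρ, hirr, hρ⟩ := χ₀.2
  obtain ⟨σ, hσ⟩ : ∃ σ : Representation ℂ D (Fin n₁ → ℂ), σ = ρ.comp D.subtype := ⟨_, rfl⟩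
  have hσchar : σ.character = fun d : D => χ₀.1 d := by
    rw [hσ, ← hρ]
    rfl
  obtain ⟨a', b', g1, g2, g3, -, -⟩ := FS.fs_main σ
  rw [hσchar] at g1 g2
  have hb' : b' = 0 := by
    have e1 : (a' : ℂ) + b' = t / 2 := by rw [g1]; exact hT1
    have e2 : (a' : ℂ) - b' = t / 2 := by rw [g2]; exact hT2
    have e3 : (b' : ℂ) = 0 := by linear_combination (1 / 2 : ℂ) * e1 - (1 / 2 : ℂ) * e2
    exact_mod_cast e3
  obtain ⟨a, b, f1, f2, -, -, f5, f6⟩ := FS.fs_irr ρ hirr
  rw [hρ] at f1 f2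
  have hab := f2 hχreal
  obtain ⟨M, hM0, hM⟩ := f6 (by omega)
  have hMσ : ∀ d : D, (FS.X σ d)ᵀ * M * FS.X σ d = M := by
    intro d
    rw [hσ]
    exact hM d
  have hMsym := g3 hb' M hMσ
  have ha : a ≠ 0 := by
    intro h0
    have hanti := f5 h0 M hM
    rw [hMsym] at hanti
    apply hM0
    ext i j
    have h9 := congrFun (congrFun hanti i) j
    simp only [Matrix.neg_apply, Matrix.zero_apply] at h9 ⊢
    linear_combination (1 / 2 : ℂ) * h9
  have h10 : a = 1 ∧ b = 0 := by omega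
  rw [← f1, h10.1, h10.2]
  simp

end Cfsg.Agent.Lib.Helper8
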