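import Mathlib
import Cfsg.Prelude.Def_Characters
import Cfsg.Prelude.Def_Transfer
import Cfsg.Agent.Lib.Helper8.Sd1
import Cfsg.Agent.Lib.Helper8.Sd3
import Cfsg.Agent.Lib.Helper8.Cliff13
import Cfsg.Agent.Lib.Lead.Char10
import Cfsg.Agent.Lib.Lead.LinTransfer

set_option autoImplicit false

namespace Cfsg.Agent.Lib.Helper8

open Matrix Cfsg.Agent.Lib.Lead Cfsg.Agent.Lib.Helper7 Cfsg.Agent.Lib.Helper7.Cliff

theorem irr_deg_one_of_comm8 {A : Type*} [Group A] [Finite A] (hA : ∀ a b : A, a * b = b * a)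
    (ψ : Cfsg.IrrCharacter A) : ψ.1 1 = 1 := by
  obtain ⟨n, ρ, hρ, hρχ⟩ := ψ.2
  haveI := hρ
  have h1 := Cfsg.Agent.Lib.Lead.deg_le_index_abelian ρ ⊤ (fun a _ b _ => hA a b)
  rw [Subgroup.index_top] at h1
  have h2 : 0 < Module.finrank ℂ (Fin n → ℂ) := by
    have := ((Cfsg.Agent.Lib.Lead.irr_iff ρ).mp hρ).1
    exact Module.finrank_pos
  rw [← hρχ, Representation.char_one]
  have : Module.finrank ℂ (Fin n → ℂ) = 1 := by omega
  rw [this]; simp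

/-- a nontrivial irreducible character of an abelian group -/
theorem exists_nontrivial_linear8 {A : Type*} [Group A] [Finite A]
    (hA : ∀ a b : A, a * b = b * a) (a₀ : A) (ha₀ : a₀ ≠ 1) :
    ∃ ψ : Cfsg.IrrCharacter A, ψ.1 a₀ ≠ 1 := by
  classical
  haveI : Fintype A := Fintype.ofFinite A
  haveI : Fintype (Cfsg.IrrCharacter A) := Fintype.ofFinite _
  haveI : Nonempty (Cfsg.IrrCharacter A) := ⟨irrOne A⟩
  by_contra hcon
  push Not at hcon
  have h1 := col_orth' a₀ (1 : A)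
  have hnc : ¬ IsConj a₀ (1 : A) := by
    intro h
    exact ha₀ (isConj_one_left.mp h)
  rw [if_neg hnc] at h1
  have h2 : ∑ χ : Cfsg.IrrCharacter A, χ.1 a₀ * (starRingEnd ℂ) (χ.1 1)
      = (Fintype.card (Cfsg.IrrCharacter A) : ℂ) := by
    rw [Finset.sum_congr rfl (fun χ _ => by
      rw [hcon χ, irr_deg_one_of_comm8 hA χ, map_one, mul_one])]
    simp
  rw [h2] at h1
  have h3 : Fintype.card (Cfsg.IrrCharacter A) = 0 := by exact_mod_cast h1
  exact Fintype.card_ne_zero h3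

/-- the counting inequality behind S4871 -/
theorem count_ineq8 {α : Type*} [Fintype α] (δ : α → ℕ) (ν : α → Prop) (d : ℕ) (hd : 2 ∣ d)
    (hpos : ∀ x, 0 < δ x)
    (hle : Nat.card {x : α // δ x = 1 ∧ ν x} ≤ d * Nat.card {x : α // δ x = d ∧ ν x}) :
    4 * Nat.card {x : α // (δ x = 1 ∨ 2 ∣ δ x) ∧ ν x}
      ≤ 3 * ∑ᶠ x : {x : α // (δ x = 1 ∨ 2 ∣ δ x) ∧ ν x}, δ x.1 := by
  classical
  rw [finsum_eq_sum_of_fintype]
  have c1 : Nat.card {x : α // δ x = 1 ∧ ν x}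
      = (Finset.univ.filter (fun x => δ x = 1 ∧ ν x)).card := by
    rw [Nat.card_eq_fintype_card, Fintype.card_subtype]
  have c2 : Nat.card {x : α // δ x = d ∧ ν x}
      = (Finset.univ.filter (fun x => δ x = d ∧ ν x)).card := by
    rw [Nat.card_eq_fintype_card, Fintype.card_subtype]
  have c3 : Nat.card {x : α // (δ x = 1 ∨ 2 ∣ δ x) ∧ ν x}
      = (Finset.univ.filter (fun x => (δ x = 1 ∨ 2 ∣ δ x) ∧ ν x)).card := by
    rw [Nat.card_eq_fintype_card, Fintype.card_subtype]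
  have c4 : ∑ x : {x : α // (δ x = 1 ∨ 2 ∣ δ x) ∧ ν x}, δ x.1
      = ∑ x ∈ Finset.univ.filter (fun x => (δ x = 1 ∨ 2 ∣ δ x) ∧ ν x), δ x :=
    (Finset.sum_subtype _ (fun x => by simp) δ).symm
  rw [c1, c2] at hle
  rw [c3, c4]
  obtain ⟨L, hL⟩ : ∃ L : Finset α, L = Finset.univ.filter (fun x => δ x = 1 ∧ ν x) := ⟨_, rfl⟩
  obtain ⟨E, hE⟩ : ∃ E : Finset α, E = Finset.univ.filter (fun x => δ x = d ∧ ν x) := ⟨_, rfl⟩
  obtain ⟨E₂, hE₂⟩ : ∃ E₂ : Finset α, E₂ = Finset.univ.filter (fun x => 2 ∣ δ x ∧ ν x) :=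
    ⟨_, rfl⟩
  have hA : Finset.univ.filter (fun x => (δ x = 1 ∨ 2 ∣ δ x) ∧ ν x) = L ∪ E₂ := by
    rw [hL, hE₂]
    ext x
    simp only [Finset.mem_filter, Finset.mem_univ, true_and, Finset.mem_union]
    tauto
  have hdisj : Disjoint L E₂ := by
    rw [Finset.disjoint_left]
    intro x hx hx'
    rw [hL, Finset.mem_filter] at hx
    rw [hE₂, Finset.mem_filter] at hx'
    have h1 := hx.2.1
    have h2 := hx'.2.1
    omega
  rw [← hL, ← hE] at hle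
  rw [hA, Finset.card_union_of_disjoint hdisj, Finset.sum_union hdisj]
  have hLsum : ∑ x ∈ L, δ x = L.card := by
    rw [Finset.card_eq_sum_ones]
    apply Finset.sum_congr rfl
    intro x hx
    rw [hL, Finset.mem_filter] at hx
    exact hx.2.1
  have hE2 : E₂.card * 2 ≤ ∑ x ∈ E₂, δ x := by
    have h1 := Finset.card_nsmul_le_sum E₂ δ 2 (by
      intro x hx
      rw [hE₂, Finset.mem_filter] at hx
      have h1 := hx.2.1
      have h2 := hpos x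
      obtain ⟨c, hc⟩ := h1
      omega)
    rwa [smul_eq_mul] at h1
  have hEsub : E ⊆ E₂ := by
    intro x hx
    rw [hE, Finset.mem_filter] at hx
    rw [hE₂, Finset.mem_filter]
    exact ⟨Finset.mem_univ _, by rw [hx.2.1]; exact hd, hx.2.2⟩
  have hEsum : ∑ x ∈ E, δ x = E.card * d := by
    apply Finset.sum_const_nat
    intro x hx
    rw [hE, Finset.mem_filter] at hx
    exact hx.2.1
  have hEle : ∑ x ∈ E, δ x ≤ ∑ x ∈ E₂, δ x := Finset.sum_le_sum_of_subset hEsub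
  have hL' : L.card ≤ ∑ x ∈ E₂, δ x :=
    calc L.card ≤ d * E.card := hle
      _ = E.card * d := mul_comm _ _
      _ = ∑ x ∈ E, δ x := hEsum.symm
      _ ≤ ∑ x ∈ E₂, δ x := hEle
  rw [hLsum]
  omega

/-- the counting statement: linear characters of indicator one against the characters of an
even degree `d` of indicator one -/
theorem sd_count8 {G : Type*} [Group G] [Finite G] (N P : Subgroup G) (hN : N.Normal) (q : ℕ)
    [Fact q.Prime] (hq : q ≠ 2) (hNel : Cfsg.IsElementaryAbelian q N) (hP : IsPGroup 2 ↥P)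
    (hP1 : P ≠ ⊥) (hdisj : N ⊓ P = ⊥) (hprod : N ⊔ P = ⊤)
    (hmin : N ≠ ⊥ ∧ ∀ M : Subgroup G, M.Normal → M ≠ ⊥ → N ≤ M) :
    ∃ d : ℕ, 2 ∣ d ∧
      Nat.card {χ : Cfsg.IrrCharacter G // Cfsg.charDegree (χ : G → ℂ) = 1 ∧
        (Nat.card G : ℂ)⁻¹ * ∑ᶠ g : G, (χ : G → ℂ) (g * g) = 1}
      ≤ d * Nat.card {χ : Cfsg.IrrCharacter G // Cfsg.charDegree (χ : G → ℂ) = d ∧
        (Nat.card G : ℂ)⁻¹ * ∑ᶠ g : G, (χ : G → ℂ) (g * g) = 1} := by
  classical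
  haveI := hN
  haveI : Fintype G := Fintype.ofFinite G
  haveI : Fintype N := Fintype.ofFinite N
  haveI : Fintype (Cfsg.IrrCharacter G) := Fintype.ofFinite _
  obtain ⟨hNcomm, hNq⟩ := hNel
  have hcomm : ∀ a ∈ N, ∀ b ∈ N, a * b = b * a := fun a ha b hb =>
    congrArg Subtype.val (hNcomm.is_comm.comm ⟨a, ha⟩ ⟨b, hb⟩)
  have hNodd : Odd (Nat.card N) := by
    have hpg : IsPGroup q ↥N := by
      intro a
      refine ⟨1, ?_⟩
      rw [pow_one]
      apply Subtype.ext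
      exact hNq a a.2
    obtain ⟨m, hm⟩ := (IsPGroup.iff_card (p := q)).mp hpg
    rw [hm]
    exact Odd.pow ((Fact.out : q.Prime).odd_of_ne_two hq)
  obtain ⟨z, hzP, hzN, hz2, hzp, hzinv⟩ := sd_invol8 N P hcomm hP hP1 hdisj hprod hmin
  have hzi : z⁻¹ = z := inv_eq_of_mul_eq_one_left hz2
  obtain ⟨x₀, hx₀N, hx₀1⟩ : ∃ x ∈ N, x ≠ 1 := by
    by_contra hcon
    push Not at hcon
    exact hmin.1 ((Subgroup.eq_bot_iff_forall N).mpr hcon)
  obtain ⟨φ, hφne⟩ := exists_nontrivial_linear8 (A := ↥N)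
    (fun a b => hNcomm.is_comm.comm a b) ⟨x₀, hx₀N⟩ (by
      intro h
      exact hx₀1 (congrArg Subtype.val h))
  have hφ1 : φ.1 1 = 1 := irr_deg_one_of_comm8 (fun a b => hNcomm.is_comm.comm a b) φ
  obtain ⟨lam, hlam⟩ := hom_of_isCharacter_one (isCharacter_of_irr φ.2) hφ1
  have hφ : ∀ n : N, φ.1 n = (lam n : ℂ) := fun n => congrFun hlam n
  have hn₀ : lam ⟨x₀, hx₀N⟩ ≠ 1 := by
    intro h
    apply hφne
    rw [hφ, h]
    rfl
  obtain ⟨T, hT⟩ : ∃ T : Subgroup G, ∀ g : G, g ∈ T ↔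
      ∀ n n' : ↥N, (n' : G) = g * (n : G) * g⁻¹ → φ.1 n' = φ.1 n := by
    refine ⟨{ carrier := {g | ∀ n n' : ↥N, (n' : G) = g * (n : G) * g⁻¹ → φ.1 n' = φ.1 n}
              mul_mem' := ?_
              one_mem' := ?_
              inv_mem' := ?_ }, fun g => Iff.rfl⟩
    · intro a b ha hb
      simp only [Set.mem_setOf_eq] at ha hb ⊢
      intro n n' hnn'
      have hm : b * (n : G) * b⁻¹ ∈ N := hN.conj_mem n n.2 b
      have h1 := hb n ⟨_, hm⟩ rfl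
      have h2 := ha ⟨_, hm⟩ n' (by
        show (n' : G) = a * (b * (n : G) * b⁻¹) * a⁻¹
        rw [hnn']
        group)
      rw [h2, h1]
    · simp only [Set.mem_setOf_eq]
      intro n n' hnn'
      have h1 : n' = n := Subtype.ext (by rw [hnn']; group)
      rw [h1]
    · intro a ha
      simp only [Set.mem_setOf_eq] at ha ⊢
      intro n n' hnn'
      have h1 := ha n' n (by rw [hnn']; group)
      exact h1.symm
  have hNT : N ≤ T := by
    intro g hg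
    rw [hT]
    intro n n' hnn'
    have h2 : n' = n := by
      apply Subtype.ext
      rw [hnn']
      have h1 := hcomm g hg n n.2
      calc g * (n : G) * g⁻¹ = (n : G) * g * g⁻¹ := by rw [h1]
        _ = n := by group
    rw [h2]
  have hzT : z ∉ T := by
    intro hz
    rw [hT] at hz
    apply hn₀
    obtain ⟨n, hn⟩ : ∃ n : N, n = ⟨x₀, hx₀N⟩ := ⟨_, rfl⟩
    rw [← hn]
    have h1 := hz n n⁻¹ (by
      show ((n : G))⁻¹ = z * (n : G) * z⁻¹
      exact (hzinv n n.2).symm)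
    rw [hφ, hφ] at h1
    have h2 : lam n⁻¹ = lam n := Units.ext h1
    rw [map_inv] at h2
    have h3 : lam n ^ 2 = 1 := by
      rw [pow_two]
      nth_rewrite 1 [← h2]
      exact inv_mul_cancel _
    have h4 : lam n ^ Nat.card N = 1 := by
      rw [← map_pow, pow_card_eq_one', map_one]
    obtain ⟨k, hk⟩ : ∃ k, Nat.card N = 2 * k + 1 := hNodd
    rw [hk, pow_succ, pow_mul, h3, one_pow, one_mul] at h4
    exact h4
  obtain ⟨a, ha⟩ := sd_index8 N P hP hdisj hprod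
  have hdvd : T.index ∣ 2 ^ a := by
    rw [← ha]
    exact Subgroup.index_dvd_of_le hNT
  have hTeven : 2 ∣ T.index := by
    obtain ⟨j, hj, hj'⟩ := (Nat.dvd_prime_pow Nat.prime_two).mp hdvd
    have hj0 : j ≠ 0 := by
      rintro rfl
      rw [pow_zero] at hj'
      have h1 := Subgroup.index_eq_one.mp hj'
      exact hzT (by rw [h1]; exact Subgroup.mem_top z)
    rw [hj']
    exact dvd_pow_self 2 hj0
  haveI : Fintype T := Fintype.ofFinite T
  choose nn hnn pp hpp hg using (sd_decomp8 N P hprod)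
  have hnn_unique : ∀ n ∈ N, ∀ p ∈ P, nn (n * p) = n := by
    intro n hn p hp
    exact (sd_unique8 N P hdisj (nn (n * p)) n (pp (n * p)) p (hnn _) hn (hpp _) hp
      (hg (n * p)).symm).1
  have hppT : ∀ t ∈ T, pp t ∈ T := by
    intro t ht
    have h1 : pp t = (nn t)⁻¹ * t := by
      have h2 := hg t
      calc pp t = (nn t)⁻¹ * (nn t * pp t) := by group
        _ = (nn t)⁻¹ * t := by rw [← h2]
    rw [h1]
    exact T.mul_mem (T.inv_mem (hNT (hnn t))) ht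
  obtain ⟨μ, hμ⟩ : ∃ μ : ↥T →* ℂˣ, ∀ t : T, μ t = lam ⟨nn t, hnn t⟩ := by
    refine ⟨{ toFun := fun t => lam ⟨nn t, hnn t⟩
              map_one' := ?_
              map_mul' := ?_ }, fun t => rfl⟩
    · have h1 : nn ((1 : T) : G) = 1 := by
        have h0 := hnn_unique 1 N.one_mem 1 P.one_mem
        rwa [mul_one] at h0
      have h2 : (⟨nn ((1 : T) : G), hnn _⟩ : N) = 1 := Subtype.ext h1
      show lam ⟨nn ((1 : T) : G), hnn _⟩ = 1
      rw [h2, map_one]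
    · intro t₁ t₂
      show lam ⟨nn ((t₁ * t₂ : T) : G), hnn _⟩ = lam ⟨nn t₁, hnn _⟩ * lam ⟨nn t₂, hnn _⟩
      have hc : pp t₁ * nn t₂ * (pp t₁)⁻¹ ∈ N := hN.conj_mem _ (hnn _) _
      have h1 : nn ((t₁ : G) * t₂) = nn t₁ * (pp t₁ * nn t₂ * (pp t₁)⁻¹) := by
        have e : (t₁ : G) * t₂
            = (nn t₁ * (pp t₁ * nn t₂ * (pp t₁)⁻¹)) * (pp t₁ * pp t₂) := by
          calc (t₁ : G) * t₂ = (nn t₁ * pp t₁) * (nn t₂ * pp t₂) := by rw [← hg, ← hg]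
            _ = _ := by group
        have h0 := hnn_unique _ (N.mul_mem (hnn t₁) hc) _ (P.mul_mem (hpp t₁) (hpp t₂))
        rw [← e] at h0
        exact h0
      have h2 : (⟨nn ((t₁ * t₂ : T) : G), hnn _⟩ : N)
          = ⟨nn t₁, hnn _⟩ * ⟨pp t₁ * nn t₂ * (pp t₁)⁻¹, hc⟩ := Subtype.ext h1
      rw [h2, map_mul]
      congr 1
      have h3 := (hT (pp t₁)).mp (hppT t₁ t₁.2) ⟨nn t₂, hnn _⟩ ⟨_, hc⟩ rfl
      rw [hφ, hφ] at h3
      exact Units.ext h3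
  obtain ⟨ψ, hψval⟩ : ∃ ψ : Cfsg.IrrCharacter ↥T, ∀ t : T, ψ.1 t = (μ t : ℂ) :=
    ⟨⟨fun t => (μ t : ℂ), isIrrCharacter_of_hom8 μ⟩, fun _ => rfl⟩
  have hψ : ∀ n : ↥N, ψ.1 (Subgroup.inclusion hNT n) = φ.1 n := by
    intro n
    rw [hψval, hμ, hφ]
    have h1 : nn ((Subgroup.inclusion hNT n : T) : G) = n := by
      have h0 := hnn_unique n n.2 1 P.one_mem
      rw [mul_one] at h0
      exact h0
    have h2 : (⟨nn ((Subgroup.inclusion hNT n : T) : G), hnn _⟩ : N) = n := Subtype.ext h1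
    rw [h2]
  have hzTmem : ∀ i ∈ T, z * i * z⁻¹ ∈ T := by
    intro i hi
    rw [hT] at hi ⊢
    intro n n' hnn'
    have hw : i * (n : G) * i⁻¹ ∈ N := hN.conj_mem n n.2 i
    have h1 : z⁻¹ * (n : G) * z = (n : G)⁻¹ := by
      have h0 := hzinv n n.2
      rw [hzi] at h0 ⊢
      exact h0
    have h2 : z * (i * (n : G) * i⁻¹)⁻¹ * z⁻¹ = i * (n : G) * i⁻¹ := by
      have h0 := hzinv _ (N.inv_mem hw)
      rwa [inv_inv] at h0
    have h3 : (n' : G) = i * (n : G) * i⁻¹ := by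
      rw [hnn']
      calc z * i * z⁻¹ * (n : G) * (z * i * z⁻¹)⁻¹
          = z * (i * (z⁻¹ * (n : G) * z) * i⁻¹) * z⁻¹ := by group
        _ = z * (i * (n : G)⁻¹ * i⁻¹) * z⁻¹ := by rw [h1]
        _ = z * (i * (n : G) * i⁻¹)⁻¹ * z⁻¹ := by group
        _ = i * (n : G) * i⁻¹ := h2
    exact hi n n' h3
  have hzψ : ∀ (i : T), ψ.1 ⟨z * i * z⁻¹, hzTmem i i.2⟩ = (starRingEnd ℂ) (ψ.1 i) := by
    intro i
    rw [hψval, hψval, hμ, hμ]
    have h1 : nn (z * (i : G) * z⁻¹) = (nn i)⁻¹ := by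
      have e : z * (i : G) * z⁻¹ = (nn i)⁻¹ * pp i := by
        have h2 := hg (i : G)
        have h3 := hzinv _ (hnn i)
        have h4 := hzp _ (hpp i)
        calc z * (i : G) * z⁻¹ = z * (nn i * pp i) * z⁻¹ := by rw [← h2]
          _ = (z * nn i * z⁻¹) * (z * pp i) * z⁻¹ := by group
          _ = (nn i)⁻¹ * (pp i * z) * z⁻¹ := by rw [h3, h4]
          _ = (nn i)⁻¹ * pp i := by group
      rw [e]
      exact hnn_unique _ (N.inv_mem (hnn _)) _ (hpp _)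
    have h5 : (⟨nn (((⟨z * i * z⁻¹, hzTmem i i.2⟩ : T)) : G), hnn _⟩ : N)
        = (⟨nn i, hnn _⟩ : N)⁻¹ := Subtype.ext h1
    rw [h5, map_inv]
    have h6 : ‖((lam ⟨nn i, hnn _⟩ : ℂˣ) : ℂ)‖ = 1 := by
      apply Complex.norm_eq_one_of_pow_eq_one (n := Nat.card N)
      · rw [← Units.val_pow_eq_pow_val, ← map_pow, pow_card_eq_one', map_one]
        rfl
      · exact Nat.card_pos.ne'
    rw [Units.val_inv_eq_inv_val, Complex.inv_eq_conj h6]
  obtain ⟨χ₀, hdeg, hχ₀, huniq, hE⟩ := clifford_ext_main9 N φ T hT hNT ψ hψ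
  have hφdeg : Cfsg.charDegree φ.1 = 1 := (deg_one_iff8 φ).mpr hφ1
  rw [hφdeg, one_mul] at hdeg
  have hψ1 : ψ.1 1 = 1 := by
    rw [hψval, map_one]
    rfl
  have hdegC : χ₀.1 1 = (T.index : ℂ) * ψ.1 1 := by
    obtain ⟨-, h1, -⟩ := DZ.charDegree_spec χ₀
    rw [h1, hdeg, hψ1, mul_one]
  have hχreal := sd_real8 T ψ z hz2 hzTmem hzψ χ₀ hχ₀ hdegC
  have hνχ₀ := sd_fs8 N lam φ hφ ⟨x₀, hx₀N⟩ hn₀ hNodd z hz2 hzN hzinv χ₀ hχreal hE
  refine ⟨T.index, hTeven, ?_⟩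
  simp only [finsum_eq_sum_of_fintype]
  have hlin1 : ∀ l : {χ : Cfsg.IrrCharacter G // Cfsg.charDegree χ.1 = 1 ∧
      (Nat.card G : ℂ)⁻¹ * ∑ g : G, χ.1 (g * g) = 1}, l.1.1 1 = 1 :=
    fun l => (deg_one_iff8 l.1).mp l.2.1
  have hlinsq : ∀ l : {χ : Cfsg.IrrCharacter G // Cfsg.charDegree χ.1 = 1 ∧
      (Nat.card G : ℂ)⁻¹ * ∑ g : G, χ.1 (g * g) = 1}, ∀ g : G, l.1.1 (g * g) = 1 := by
    intro l g
    have hreal : ∀ g : G, (l.1.1 g).im = 0 := by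
      by_contra hnr
      have h0 := (FS.fs_cases l.1).2 hnr
      have h1 := l.2.2
      rw [h0] at h1
      exact zero_ne_one h1
    rw [irr_linear_mul l.1 (hlin1 l)]
    have h2 := LT.linear_mul_conj l.1 (hlin1 l) g
    rwa [Complex.conj_eq_iff_im.mpr (hreal g)] at h2
  have hlinN : ∀ l : {χ : Cfsg.IrrCharacter G // Cfsg.charDegree χ.1 = 1 ∧
      (Nat.card G : ℂ)⁻¹ * ∑ g : G, χ.1 (g * g) = 1}, ∀ n ∈ N, l.1.1 n = 1 := by
    intro l n hn
    obtain ⟨k, hk⟩ : ∃ k, Nat.card N = 2 * k + 1 := hNodd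
    have h1 : (⟨n, hn⟩ : N) ^ (Nat.card N) = 1 := pow_card_eq_one'
    have h2 : n ^ (Nat.card N) = 1 := congrArg Subtype.val h1
    have h3 : n = n ^ (k + 1) * n ^ (k + 1) := by
      rw [← pow_add]
      have h4 : k + 1 + (k + 1) = Nat.card N + 1 := by omega
      rw [h4, pow_succ, h2, one_mul]
    rw [h3]
    exact hlinsq l _
  obtain ⟨Φ, hΦ⟩ : ∃ Φ : {χ : Cfsg.IrrCharacter G // Cfsg.charDegree χ.1 = 1 ∧
      (Nat.card G : ℂ)⁻¹ * ∑ g : G, χ.1 (g * g) = 1} →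
      {χ : Cfsg.IrrCharacter G // Cfsg.charDegree χ.1 = T.index ∧
        (Nat.card G : ℂ)⁻¹ * ∑ g : G, χ.1 (g * g) = 1},
      ∀ l, (Φ l).1.1 = l.1.1 * χ₀.1 :=
    ⟨fun l => ⟨⟨l.1.1 * χ₀.1, LT.irr_linear_twist l.1 χ₀ (hlin1 l)⟩, by
      constructor
      · show Cfsg.charDegree (l.1.1 * χ₀.1) = _
        rw [LT.charDegree_twist l.1 χ₀ (hlin1 l), hdeg]
      · show (Nat.card G : ℂ)⁻¹ * ∑ g : G, (l.1.1 * χ₀.1) (g * g) = 1
        refine Eq.trans ?_ hνχ₀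
        congr 1
        apply Finset.sum_congr rfl
        intro g _
        rw [Pi.mul_apply, hlinsq l g, one_mul]⟩, fun l => rfl⟩
  rw [Nat.card_eq_fintype_card (α := {χ : Cfsg.IrrCharacter G // Cfsg.charDegree χ.1 = 1 ∧
        (Nat.card G : ℂ)⁻¹ * ∑ g : G, χ.1 (g * g) = 1}),
    Nat.card_eq_fintype_card (α := {χ : Cfsg.IrrCharacter G //
        Cfsg.charDegree χ.1 = T.index ∧
        (Nat.card G : ℂ)⁻¹ * ∑ g : G, χ.1 (g * g) = 1})]
  have hfib : ∀ a ∈ (Finset.univ : Finset _).image Φ,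
      (Finset.univ.filter (fun x => Φ x = a)).card ≤ T.index := by
    intro a ha
    obtain ⟨l₁, -, rfl⟩ := Finset.mem_image.mp ha
    have hcard : (Finset.univ.filter (fun x => Φ x = Φ l₁)).card
        = ((Finset.univ.filter (fun x => Φ x = Φ l₁)).map
            ⟨Subtype.val, Subtype.val_injective⟩).card := (Finset.card_map _).symm
    rw [hcard]
    apply card_linear_agree_le_index8 T _ l₁.1 (hlin1 l₁)
    intro l hl i hi
    rw [Finset.mem_map] at hl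
    obtain ⟨l', hl', rfl⟩ := hl
    rw [Finset.mem_filter] at hl'
    have heq : ∀ g, l'.1.1 g * χ₀.1 g = l₁.1.1 g * χ₀.1 g := by
      intro g
      have e1 : (Φ l').1.1 g = (Φ l₁).1.1 g := by rw [hl'.2]
      rw [hΦ, hΦ] at e1
      exact e1
    exact twist_fiber8 N φ T hNT ψ hψ χ₀ hχ₀ huniq l'.1 l₁.1 (hlin1 l') (hlin1 l₁) (hlinN l')
      (hlinN l₁) heq i hi
  calc Fintype.card {χ : Cfsg.IrrCharacter G // Cfsg.charDegree χ.1 = 1 ∧
        (Nat.card G : ℂ)⁻¹ * ∑ g : G, χ.1 (g * g) = 1}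
      = (Finset.univ : Finset {χ : Cfsg.IrrCharacter G // Cfsg.charDegree χ.1 = 1 ∧
        (Nat.card G : ℂ)⁻¹ * ∑ g : G, χ.1 (g * g) = 1}).card := Finset.card_univ.symm
    _ ≤ T.index * ((Finset.univ : Finset _).image Φ).card :=
        Finset.card_le_mul_card_image _ _ hfib
    _ ≤ T.index * Fintype.card _ := Nat.mul_le_mul_left _ (Finset.card_le_univ _)

/-- S4871 -/
theorem sd_main8 {G : Type*} [Group G] [Finite G] (N P : Subgroup G) (hN : N.Normal) (q : ℕ)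
    [Fact q.Prime] (hq : q ≠ 2) (hNel : Cfsg.IsElementaryAbelian q N) (hP : IsPGroup 2 ↥P)
    (hP1 : P ≠ ⊥) (hdisj : N ⊓ P = ⊥) (hprod : N ⊔ P = ⊤)
    (hmin : N ≠ ⊥ ∧ ∀ M : Subgroup G, M.Normal → M ≠ ⊥ → N ≤ M) :
    4 * Nat.card {χ : Cfsg.IrrCharacter G // (Cfsg.charDegree (χ : G → ℂ) = 1 ∨
        2 ∣ Cfsg.charDegree (χ : G → ℂ)) ∧
        (Nat.card G : ℂ)⁻¹ * ∑ᶠ g : G, (χ : G → ℂ) (g * g) = 1}
      ≤ 3 * (∑ᶠ χ : {χ : Cfsg.IrrCharacter G // (Cfsg.charDegree (χ : G → ℂ) = 1 ∨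
        2 ∣ Cfsg.charDegree (χ : G → ℂ)) ∧
        (Nat.card G : ℂ)⁻¹ * ∑ᶠ g : G, (χ : G → ℂ) (g * g) = 1},
          Cfsg.charDegree (χ.1 : G → ℂ)) := by
  classical
  haveI : Fintype (Cfsg.IrrCharacter G) := Fintype.ofFinite _
  obtain ⟨d, hd2, hle⟩ := sd_count8 N P hN q hq hNel hP hP1 hdisj hprod hmin
  exact count_ineq8 (fun χ : Cfsg.IrrCharacter G => Cfsg.charDegree (χ : G → ℂ))
    (fun χ : Cfsg.IrrCharacter G =>
      (Nat.card G : ℂ)⁻¹ * ∑ᶠ g : G, (χ : G → ℂ) (g * g) = 1) d hd2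
    (fun χ => (DZ.charDegree_spec χ).1) hle

end Cfsg.Agent.Lib.Helper8
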