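import Cfsg.Agent.Lib.Helper8.GrpNormal
import Cfsg.Agent.Lib.Helper8.Constr2

set_option autoImplicit false
open Cfsg

namespace Cfsg.Agent.Lib.Helper8

variable {G : Type*} [Group G]

theorem fsub_top_eq (S : Subgroup G) (h : S ≤ ⊤) :
    fusionSystemOfSubgroup ⊤ S h = groupFusionSystem S := by
  apply fs_ext
  intro P
  ext φ
  constructor
  · rintro ⟨hP, hφ, g, -, hg⟩
    exact ⟨hP, hφ, g, hg⟩
  · rintro ⟨hP, hφ, g, hg⟩
    exact ⟨hP, hφ, g, Subgroup.mem_top g, hg⟩

theorem subnormal_constrained_aux [Finite G] (p : ℕ) [Fact p.Prime] (S : Sylow p G)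
    (hF : (groupFusionSystem (S : Subgroup G)).IsConstrained p) (H : Subgroup G)
    (hH : H.IsSubnormal) :
    ∀ (T : Subgroup G), T = (S : Subgroup G) ⊓ H → ∀ hTH : T ≤ H,
      (fusionSystemOfSubgroup H T hTH).IsConstrained p ∧ SylIn p T H := by
  induction hH with
  | top =>
    intro T hT hTH
    have hTS : T = (S : Subgroup G) := by rw [hT, inf_top_eq]
    subst hTS
    rw [fsub_top_eq]
    exact ⟨hF, sylIn_top S⟩
  | step H K h_le hSubn hN ih =>
    intro T hT hTH
    obtain ⟨hKc, hKsyl⟩ := ih ((S : Subgroup G) ⊓ K) rfl inf_le_right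
    have hKn : K ≤ Subgroup.normalizer (H : Set G) :=
      (Subgroup.normal_subgroupOf_iff_le_normalizer h_le).mp hN
    have hsyl : SylIn p T H := by
      have h1 := hKsyl.inf_of_normal h_le hKn
      rw [hT]
      have e : (S : Subgroup G) ⊓ K ⊓ H = (S : Subgroup G) ⊓ H := by
        rw [inf_assoc, inf_eq_right.mpr h_le]
      rwa [e] at h1
    refine ⟨?_, hsyl⟩
    have hTK : T ≤ (S : Subgroup G) ⊓ K := by
      rw [hT]
      exact inf_le_inf_left _ h_le
    have hmemT : ∀ x, x ∈ T ↔ x ∈ (S : Subgroup G) ∧ x ∈ H := by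
      intro x
      rw [hT]
      exact Subgroup.mem_inf
    refine constrained_sub (hKsyl.2.1) _ hKc _ ?_ ?_ (fsub_saturated p H T hTH hsyl)
    · rintro P φ ⟨hP, hφT, g, hgH, hg⟩
      exact ⟨hP.trans hTK, fun x => hTK (hφT x), g, h_le hgH, hg⟩
    · refine ⟨hTK, ?_⟩
      rintro R hR φ ⟨-, hφS, g, hgK, hg⟩ x
      rw [hmemT]
      refine ⟨(hφS x).1, ?_⟩
      rw [hg]
      exact conj_mem_of_mem_normalizer (hKn hgK) ((hmemT _).mp (hR x.2)).2

theorem constrained_subtype [Finite G] (p : ℕ) [Fact p.Prime] (H T : Subgroup G) (hTH : T ≤ H)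
    (hsyl : SylIn p T H) (hc : (fusionSystemOfSubgroup H T hTH).IsConstrained p) :
    (groupFusionSystem (T.subgroupOf H)).IsConstrained p := by
  obtain ⟨-, Q, hQn, hQc⟩ := hc
  obtain ⟨R, hR⟩ := (sylIn_iff hTH).mp hsyl
  have hsat : (groupFusionSystem (T.subgroupOf H)).IsSaturated p := by
    have h1 := Cfsg.Agent.S5076.result p R
    rwa [hR] at h1
  have hQT : Q ≤ T := hQn.1
  refine ⟨hsat, Q.subgroupOf H, ⟨?_, ?_⟩, ⟨?_, ?_⟩⟩
  · intro x hx
    exact hQT hx
  · rintro P φ ⟨hP, hφT, g, hg⟩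
    have hP₀T : P.map H.subtype ≤ T := by
      rintro _ ⟨y, hy, rfl⟩
      exact hP hy
    have hφ₀ : conjHom (P.map H.subtype) (g : G) ∈
        (fusionSystemOfSubgroup H T hTH).Hom (P.map H.subtype) := by
      refine ⟨hP₀T, ?_, (g : G), g.2, fun x => rfl⟩
      rintro ⟨_, y, hy, rfl⟩
      have h1 := hφT ⟨y, hy⟩
      rw [hg] at h1
      exact h1
    obtain ⟨ψ₀, ⟨hsupT, hψ₀T, h, hhH, hh⟩, hext, hmap⟩ := hQn.2 _ _ hφ₀
    have hsup_map : ∀ z : ↥(P ⊔ Q.subgroupOf H), ((z : H) : G) ∈ P.map H.subtype ⊔ Q := by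
      have hle : P ⊔ Q.subgroupOf H ≤ (P.map H.subtype ⊔ Q).subgroupOf H := by
        refine sup_le ?_ ?_
        · intro y hy
          exact Subgroup.mem_sup_left ⟨y, hy, rfl⟩
        · intro y hy
          exact Subgroup.mem_sup_right hy
      intro z
      exact hle z.2
    refine ⟨conjHom (P ⊔ Q.subgroupOf H) ⟨h, hhH⟩, ⟨?_, ?_, ⟨h, hhH⟩, fun x => rfl⟩, ?_, ?_⟩
    · exact sup_le hP (fun x hx => hQT hx)
    · intro z
      have h1 := hψ₀T ⟨((z : H) : G), hsup_map z⟩
      rw [hh] at h1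
      exact h1
    · intro x
      apply Subtype.ext
      show h * ((x : H) : G) * h⁻¹ = ((φ x : H) : G)
      rw [hg]
      have h1 := hext ⟨((x : H) : G), ⟨x, x.2, rfl⟩⟩
      rw [hh] at h1
      exact h1
    · ext y
      constructor
      · rintro ⟨z, hz, rfl⟩
        show h * ((z : H) : G) * h⁻¹ ∈ Q
        have h1 : ψ₀ ⟨((z : H) : G), hsup_map z⟩ ∈ Q :=
          hmap.le ⟨⟨((z : H) : G), hsup_map z⟩, hz, rfl⟩
        rw [hh] at h1
        exact h1
      · intro hy
        have h1 : (y : G) ∈ (Q.subgroupOf (P.map H.subtype ⊔ Q)).map ψ₀ := by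
          rw [hmap]
          exact hy
        obtain ⟨w, hw, hwy⟩ := h1
        rw [hh] at hwy
        have hwH : (w : G) ∈ H := hTH (hQT hw)
        refine ⟨⟨⟨(w : G), hwH⟩, Subgroup.mem_sup_right hw⟩, hw, ?_⟩
        apply Subtype.ext
        exact hwy
  · intro x hx
    exact hQT hx
  · rintro R' ⟨φ, ⟨hP, hφT, g, hg⟩, rfl⟩
    have hconj : (fusionSystemOfSubgroup H T hTH).IsConj Q (φ.range.map H.subtype) := by
      refine ⟨conjHom Q (g : G), ⟨hQT, ?_, (g : G), g.2, fun x => rfl⟩, ?_⟩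
      · intro x
        have h1 := hφT ⟨⟨x, hTH (hQT x.2)⟩, x.2⟩
        rw [hg] at h1
        exact h1
      · ext y
        constructor
        · rintro ⟨x, rfl⟩
          refine ⟨φ ⟨⟨x, hTH (hQT x.2)⟩, x.2⟩, ⟨_, rfl⟩, ?_⟩
          rw [hg]
          rfl
        · rintro ⟨_, ⟨x, rfl⟩, rfl⟩
          refine ⟨⟨((x : H) : G), x.2⟩, ?_⟩
          rw [hg]
          rfl
    have hcent := hQc.2 _ hconj
    intro z hz
    have h1 : (z : G) ∈ FusionSystem.centralizerIn T (φ.range.map H.subtype) := by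
      refine ⟨hz.1, ?_⟩
      show (z : G) ∈ Subgroup.centralizer ((φ.range.map H.subtype : Subgroup G) : Set G)
      rw [Subgroup.mem_centralizer_iff]
      rintro _ ⟨r, hr, rfl⟩
      have h2 := (Subgroup.mem_centralizer_iff.mp hz.2) r hr
      exact congrArg Subtype.val h2
    obtain ⟨r, hr, hrz⟩ := hcent h1
    have e : r = z := Subtype.ext hrz
    rw [← e]
    exact hr

theorem subnormal_constrained [Finite G] (p : ℕ) [Fact p.Prime] (S : Sylow p G)
    (hF : (groupFusionSystem (S : Subgroup G)).IsConstrained p) (H : Subgroup G)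
    (hH : H.IsSubnormal) :
    (groupFusionSystem ((S : Subgroup G).subgroupOf H)).IsConstrained p := by
  obtain ⟨hc, hsyl⟩ := subnormal_constrained_aux p S hF H hH _ rfl inf_le_right
  have h1 := constrained_subtype p H _ inf_le_right hsyl hc
  rwa [Subgroup.inf_subgroupOf_right] at h1

end Cfsg.Agent.Lib.Helper8
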