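import Cfsg.Agent.Lib.Helper8.Inner
import Cfsg.Agent.Lib.Helper8.HypGen
import Cfsg.Agent.Lib.Helper8.Ess

set_option autoImplicit false
open Cfsg

namespace Cfsg.Agent.Lib.Helper8

variable {Ω : Type*} [Group Ω]

/-- The fusion system over `T` whose maps are the restrictions of the automorphisms in `A`. -/
def autSys8 (T : Subgroup Ω) (A : Subgroup (MulAut T)) (hA : Inn T ≤ A) : FusionSystem T where
  Hom P := {φ | ∃ hP : P ≤ T, ∃ α ∈ A, ∀ y : P, φ y = ((α ⟨y, hP y.2⟩ : T) : Ω)}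
  le_of_mem := by
    rintro P φ ⟨hP, α, hα, h⟩
    exact ⟨hP, fun x => (h x).symm ▸ (α _).2⟩
  injective_of_mem := by
    rintro P φ ⟨hP, α, hα, h⟩ a b hab
    rw [h a, h b] at hab
    have h1 := α.injective (Subtype.ext hab)
    have h2 : (a : Ω) = b := congrArg (fun t : T => (t : Ω)) h1
    exact Subtype.ext h2
  conj_mem := by
    intro P g hP hg
    exact ⟨hP, MulAut.conj ⟨g, hg⟩, hA ⟨⟨g, hg⟩, rfl⟩, fun y => rfl⟩
  comp_mem := by
    rintro P Q φ ψ ⟨hP, α, hα, h1⟩ ⟨hQ, β, hβ, h2⟩ hPQ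
    refine ⟨hP, β * α, A.mul_mem hβ hα, fun y => ?_⟩
    show ψ (φ.codRestrict Q hPQ y) = ((β (α ⟨y, hP y.2⟩) : T) : Ω)
    rw [h2]
    have h3 : (⟨((φ.codRestrict Q hPQ y : Q) : Ω), hQ (φ.codRestrict Q hPQ y).2⟩ : T) =
        α ⟨y, hP y.2⟩ := Subtype.ext (h1 y)
    rw [h3]
  inv_mem := by
    rintro P φ ⟨hP, α, hα, h⟩
    have hr : φ.range ≤ T := by
      rintro _ ⟨y, rfl⟩
      rw [h]
      exact (α _).2
    refine ⟨(T.subtype.comp α⁻¹.toMonoidHom).comp (Subgroup.inclusion hr),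
      ⟨hr, α⁻¹, A.inv_mem hα, fun y => rfl⟩, ?_⟩
    intro x
    show ((α⁻¹ ⟨φ x, hr ⟨x, rfl⟩⟩ : T) : Ω) = x
    have h3 : (⟨φ x, hr ⟨x, rfl⟩⟩ : T) = α ⟨x, hP x.2⟩ := Subtype.ext (h x)
    rw [h3, MulAut.inv_apply_self]

theorem mem_autSys8 {T : Subgroup Ω} {A : Subgroup (MulAut T)} {hA : Inn T ≤ A} {P : Subgroup Ω}
    {φ : P →* Ω} : φ ∈ (autSys8 T A hA).Hom P ↔
      ∃ hP : P ≤ T, ∃ α ∈ A, ∀ y : P, φ y = ((α ⟨y, hP y.2⟩ : T) : Ω) := Iff.rfl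

theorem restr_pow8 {T P : Subgroup Ω} (hP : P ≤ T) {γ : MulAut P} {α : MulAut T}
    (h : ∀ y : P, ((γ y : P) : Ω) = ((α ⟨y, hP y.2⟩ : T) : Ω)) (j : ℕ) :
    ∀ y : P, (((γ ^ j) y : P) : Ω) = (((α ^ j) ⟨y, hP y.2⟩ : T) : Ω) := by
  induction j with
  | zero => intro y; rfl
  | succ j ih =>
    intro y
    rw [pow_succ, pow_succ]
    show (((γ ^ j) (γ y) : P) : Ω) = (((α ^ j) (α ⟨y, hP y.2⟩) : T) : Ω)
    rw [ih (γ y)]
    have h3 : (⟨((γ y : P) : Ω), hP (γ y).2⟩ : T) = α ⟨y, hP y.2⟩ := Subtype.ext (h y)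
    rw [h3]

/-- The system of restrictions of `A` is saturated when every `p`-element of `A` is inner. -/
theorem autSys_sat8 {T : Subgroup Ω} [Finite T] {p : ℕ} [Fact p.Prime] (hT : IsPGroup p T)
    (A : Subgroup (MulAut T)) (hA : Inn T ≤ A)
    (hidx : ∀ α ∈ A, (∃ k : ℕ, α ^ (p ^ k) = 1) → α ∈ Inn T) :
    (autSys8 T A hA).IsSaturated p := by
  intro P hP
  have hfinA : Finite (MulAut T) := finite_mulAut T
  refine ⟨P, fs_isConj_refl _ hP, ⟨hP, ?_⟩, hP, ?_⟩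
  · apply (sylIn_iff (autInducedBy_le_autGroup (autSys8 T A hA) hP)).mp
    refine ⟨autInducedBy_le_autGroup (autSys8 T A hA) hP, isPGroup_autInducedBy hT P, ?_⟩
    intro Q' hQ' hle hQ'K
    apply le_antisymm _ hle
    intro γ hγ
    obtain ⟨k, hk⟩ := hQ' ⟨γ, hγ⟩
    have hk' : γ ^ (p ^ k) = 1 := congrArg Subtype.val hk
    obtain ⟨hP2, α, hα, h⟩ := (mem_autGroup_iff (autSys8 T A hA) hP γ).mp (hQ'K hγ)
    have h' : ∀ y : P, ((γ y : P) : Ω) = ((α ⟨y, hP y.2⟩ : T) : Ω) := h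
    obtain ⟨a, m, hm, ham⟩ := Nat.exists_eq_pow_mul_and_not_dvd (orderOf_pos α).ne' p
      (Nat.Prime.ne_one Fact.out)
    have hmc : Nat.Coprime m (p ^ k) :=
      Nat.Coprime.pow_right k (((Nat.Prime.coprime_iff_not_dvd Fact.out).mpr hm).symm)
    obtain ⟨e, he0, he1⟩ := Nat.chineseRemainder hmc 0 1
    have hme : m ∣ e := (Nat.modEq_zero_iff_dvd).mp he0
    have hαe : (α ^ e) ^ (p ^ a) = 1 := by
      rw [← pow_mul]
      apply orderOf_dvd_iff_pow_eq_one.mp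
      rw [ham, mul_comm e]
      exact Nat.mul_dvd_mul_left _ hme
    obtain ⟨t, ht⟩ := hidx (α ^ e) (A.pow_mem hα e) ⟨a, hαe⟩
    have hγe : γ ^ e = γ := pow_eq_self_of_modEq hk' he1
    rw [mem_autInducedBy_iff]
    refine ⟨t, t.2, fun y => ?_⟩
    have h5 := restr_pow8 hP h' e y
    rw [hγe, ← ht] at h5
    exact h5
  · rintro P' φ ⟨hP', α, hα, h⟩ -
    have hle := extender_le T P' φ
    refine ⟨(T.subtype.comp α.toMonoidHom).comp (Subgroup.inclusion hle),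
      ⟨hle, α, hα, fun y => rfl⟩, fun x hx hN => ?_⟩
    rw [h]
    rfl

theorem autSys_le8 {S T : Subgroup Ω} (F : FusionSystem S) (hTS : T ≤ S) (A : Subgroup (MulAut T))
    (hA : Inn T ≤ A) (hAF : A ≤ F.autGroup T) : (autSys8 T A hA).IsSubsystemOf F := by
  rintro P φ ⟨hP, α, hα, h⟩
  have h1 := (mem_autGroup_iff F hTS α).mp (hAF hα)
  have h2 := fs_restrict F hP h1
  have h3 : (T.subtype.comp α.toMonoidHom).comp (Subgroup.inclusion hP) = φ := by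
    ext y
    exact (h y).symm
  rwa [h3] at h2

theorem autSys_inner8 {T : Subgroup Ω} (A : Subgroup (MulAut T)) (hA : Inn T ≤ A)
    (h : ∀ P : Subgroup Ω, (autSys8 T A hA).Hom P = (innerFusionSystem T).Hom P) : A ≤ Inn T := by
  intro α hα
  have h1 : T.subtype.comp α.toMonoidHom ∈ (autSys8 T A hA).Hom T :=
    ⟨le_rfl, α, hα, fun y => rfl⟩
  rw [h T] at h1
  obtain ⟨-, g, hg, hgα⟩ := h1
  refine ⟨⟨g, hg⟩, ?_⟩
  ext x
  exact (hgα x).symm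

theorem sup_zpowers_pelt8 {G : Type*} [Group G] (N : Subgroup G) [N.Normal] (b : G) {q p : ℕ}
    (hqp : Nat.Coprime q p) (hb : b ^ q = 1) :
    ∀ α ∈ N ⊔ Subgroup.zpowers b, (∃ k : ℕ, α ^ (p ^ k) = 1) → α ∈ N := by
  rintro α hα ⟨k, hk⟩
  have h1 : QuotientGroup.mk' N α ∈ (N ⊔ Subgroup.zpowers b).map (QuotientGroup.mk' N) :=
    Subgroup.mem_map_of_mem _ hα
  rw [Subgroup.map_sup, QuotientGroup.map_mk'_self, bot_sup_eq, MonoidHom.map_zpowers] at h1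
  obtain ⟨i, hi⟩ := Subgroup.mem_zpowers_iff.mp h1
  have h2 : (QuotientGroup.mk' N α) ^ q = 1 := by
    rw [← hi, ← zpow_natCast, ← zpow_mul, mul_comm, zpow_mul, zpow_natCast, ← map_pow, hb,
      map_one, one_zpow]
  have h3 : (QuotientGroup.mk' N α) ^ (p ^ k) = 1 := by
    rw [← map_pow, hk, map_one]
  have h4 : orderOf (QuotientGroup.mk' N α) = 1 :=
    Nat.eq_one_of_dvd_coprimes (Nat.Coprime.pow_right k hqp) (orderOf_dvd_of_pow_eq_one h2)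
      (orderOf_dvd_of_pow_eq_one h3)
  have h5 : QuotientGroup.mk' N α = 1 := orderOf_eq_one_iff.mp h4
  exact (QuotientGroup.eq_one_iff α).mp h5

theorem exists_prime_order8 {G : Type*} [Group G] [Finite G] {p : ℕ} [Fact p.Prime]
    (h : ¬ IsPGroup p G) : ∃ (q : ℕ) (x : G), q.Prime ∧ q ≠ p ∧ orderOf x = q := by
  unfold IsPGroup at h
  push Not at h
  obtain ⟨g, hg⟩ := h
  obtain ⟨k, m, hm, hkm⟩ := Nat.exists_eq_pow_mul_and_not_dvd (orderOf_pos g).ne' p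
    (Nat.Prime.ne_one Fact.out)
  have hm1 : m ≠ 1 := by
    rintro rfl
    apply hg k
    rw [mul_one] at hkm
    rw [← hkm]
    exact pow_orderOf_eq_one g
  have hq : (Nat.minFac m).Prime := Nat.minFac_prime hm1
  have hqm : Nat.minFac m ∣ m := Nat.minFac_dvd m
  refine ⟨Nat.minFac m, g ^ (orderOf g / Nat.minFac m), hq, ?_, ?_⟩
  · intro heq
    rw [heq] at hqm
    exact hm hqm
  · apply orderOf_pow_orderOf_div (orderOf_pos g).ne'
    rw [hkm]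
    exact Dvd.dvd.mul_left hqm _

end Cfsg.Agent.Lib.Helper8
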