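import Cfsg.Agent.Lib.Helper8.XS1

set_option autoImplicit false
set_option maxHeartbeats 1600000
open Cfsg

namespace Cfsg.Agent.Lib.Helper8

variable {Ω : Type*} [Group Ω] {S : Subgroup Ω}

/-- In an extremely sparse system, an automorphism of `S` of order prime to `p` acts trivially on
every proper invariant subgroup. -/
theorem invariant_trivial8 [Finite S] {p : ℕ} [Fact p.Prime] (hS : IsPGroup p S)
    (F : FusionSystem S)
    (hsp : ∀ (T : Subgroup Ω) (E : FusionSystem T), E.IsSaturated p → E.IsSubsystemOf F →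
      (T = S ∧ ∀ P : Subgroup Ω, E.Hom P = F.Hom P) ∨
        (∀ P : Subgroup Ω, E.Hom P = (innerFusionSystem T).Hom P))
    {β : MulAut S} (hβ : β ∈ F.autGroup S) {q : ℕ} (hqp : Nat.Coprime q p) (hβq : β ^ q = 1)
    (H₀ : Subgroup S) (hinv : ∀ h ∈ H₀, β h ∈ H₀) (hne : H₀ ≠ ⊤) :
    ∀ h ∈ H₀, β h = h := by
  obtain ⟨T', hT'⟩ : ∃ T', T' = H₀.map S.subtype := ⟨_, rfl⟩
  have hT'S : T' ≤ S := by
    rw [hT']
    rintro _ ⟨x, -, rfl⟩
    exact x.2
  have hmemT' : ∀ (t : Ω) (ht : t ∈ S), t ∈ T' ↔ (⟨t, ht⟩ : S) ∈ H₀ := by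
    intro t ht
    rw [hT']
    constructor
    · rintro ⟨x, hx, hxt⟩
      have : x = ⟨t, ht⟩ := Subtype.ext hxt
      rwa [← this]
    · intro h
      exact ⟨⟨t, ht⟩, h, rfl⟩
  have hfinT' : Finite T' := finite_of_le hT'S
  have hT'p : IsPGroup p T' := hS.to_le hT'S
  have hrF : (S.subtype.comp β.toMonoidHom).comp (Subgroup.inclusion hT'S) ∈ F.Hom T' :=
    fs_restrict F hT'S ((mem_autGroup_iff F le_rfl β).mp hβ)
  have hrT' : ∀ z : T', ((S.subtype.comp β.toMonoidHom).comp (Subgroup.inclusion hT'S)) z ∈ T' := by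
    intro z
    show ((β ⟨z, hT'S z.2⟩ : S) : Ω) ∈ T'
    rw [hmemT' _ (β ⟨z, hT'S z.2⟩).2]
    exact hinv _ ((hmemT' _ (hT'S z.2)).mp z.2)
  obtain ⟨β', hβ'F, hβ'⟩ := exists_aut_of_hom F hrF hrT'
  have hβ'' : ∀ y : T', ((β' y : T') : Ω) = ((β ⟨y, hT'S y.2⟩ : S) : Ω) := hβ'
  have hβ'q : β' ^ q = 1 := by
    ext z
    have h1 := restr_pow8 hT'S hβ'' q z
    rw [hβq] at h1
    exact h1
  haveI := inn_normal T'
  have hidx := sup_zpowers_pelt8 (Inn T') β' hqp hβ'q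
  have hsat := autSys_sat8 hT'p (Inn T' ⊔ Subgroup.zpowers β') le_sup_left hidx
  have hAF : Inn T' ⊔ Subgroup.zpowers β' ≤ F.autGroup T' :=
    sup_le (inn_le_autGroup F hT'S) ((Subgroup.zpowers_le).mpr hβ'F)
  have hsub := autSys_le8 F hT'S (Inn T' ⊔ Subgroup.zpowers β') le_sup_left hAF
  rcases hsp T' _ hsat hsub with ⟨hTS, -⟩ | hin
  · exfalso
    apply hne
    rw [eq_top_iff]
    intro s _
    have h1 : (s : Ω) ∈ T' := by
      rw [hTS]
      exact s.2
    exact (hmemT' _ s.2).mp h1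
  · have h1 := autSys_inner8 _ _ hin (Subgroup.mem_sup_right (Subgroup.mem_zpowers β'))
    obtain ⟨k, hk⟩ := isPGroup_inn hT'p ⟨β', h1⟩
    have hk' : β' ^ (p ^ k) = 1 := congrArg Subtype.val hk
    have h4 : orderOf β' = 1 :=
      Nat.eq_one_of_dvd_coprimes (Nat.Coprime.pow_right k hqp) (orderOf_dvd_of_pow_eq_one hβ'q)
        (orderOf_dvd_of_pow_eq_one hk')
    have h5 : β' = 1 := orderOf_eq_one_iff.mp h4
    intro h hh
    have hhT' : (h : Ω) ∈ T' := (hmemT' _ h.2).mpr hh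
    have h6 := hβ'' ⟨h, hhT'⟩
    rw [h5] at h6
    apply Subtype.ext
    exact h6.symm

theorem xs_step8 [Finite S] {p : ℕ} [Fact p.Prime] (hS : IsPGroup p S) (F : FusionSystem S)
    (hF : F.IsSaturated p)
    (hni : ¬ (∀ P : Subgroup Ω, F.Hom P = (innerFusionSystem S).Hom P))
    (hsp : ∀ (T : Subgroup Ω) (E : FusionSystem T), E.IsSaturated p → E.IsSubsystemOf F →
      (T = S ∧ ∀ P : Subgroup Ω, E.Hom P = F.Hom P) ∨
        (∀ P : Subgroup Ω, E.Hom P = (innerFusionSystem T).Hom P)) :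
    ∃ (q : ℕ) (β : MulAut S), q.Prime ∧ q ≠ p ∧ β ∈ F.autGroup S ∧ orderOf β = q ∧
      ∀ P : Subgroup Ω, (autSys8 S (Inn S ⊔ Subgroup.zpowers β) le_sup_left).Hom P = F.Hom P := by
  have hex : ∃ R : Subgroup Ω, R ≤ S ∧ ¬ IsPGroup p (F.autGroup R) := by
    by_contra hcon
    push Not at hcon
    exact hni (eq_inner_of_pgroups hS F hF hcon)
  obtain ⟨R, hRS, hRnp⟩ := hex
  have hfinR : Finite R := finite_of_le hRS
  have hfinA : Finite (MulAut R) := finite_mulAut R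
  obtain ⟨q, ⟨β₀, hβ₀⟩, hq, hqp, hord⟩ := exists_prime_order8 hRnp
  have hord' : orderOf β₀ = q := by
    rw [← hord]
    exact Subgroup.orderOf_coe ⟨β₀, hβ₀⟩
  have hRp : IsPGroup p R := hS.to_le hRS
  have hcop : Nat.Coprime q p := (Nat.coprime_primes hq Fact.out).mpr hqp
  have hβq : β₀ ^ q = 1 := by
    rw [← hord']
    exact pow_orderOf_eq_one β₀
  haveI := inn_normal R
  have hidx := sup_zpowers_pelt8 (Inn R) β₀ hcop hβq
  have hsat := autSys_sat8 hRp (Inn R ⊔ Subgroup.zpowers β₀) le_sup_left hidx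
  have hAF : Inn R ⊔ Subgroup.zpowers β₀ ≤ F.autGroup R :=
    sup_le (inn_le_autGroup F hRS) ((Subgroup.zpowers_le).mpr hβ₀)
  have hsub := autSys_le8 F hRS (Inn R ⊔ Subgroup.zpowers β₀) le_sup_left hAF
  have hnotinner : ¬ ∀ P : Subgroup Ω,
      (autSys8 R (Inn R ⊔ Subgroup.zpowers β₀) le_sup_left).Hom P =
        (innerFusionSystem R).Hom P := by
    intro hin
    have h1 := autSys_inner8 _ _ hin (Subgroup.mem_sup_right (Subgroup.mem_zpowers β₀))
    obtain ⟨k, hk⟩ := isPGroup_inn hRp ⟨β₀, h1⟩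
    have hk' : β₀ ^ (p ^ k) = 1 := congrArg Subtype.val hk
    have h2 : q ∣ p ^ k := by
      rw [← hord']
      exact orderOf_dvd_of_pow_eq_one hk'
    exact hqp ((Nat.prime_dvd_prime_iff_eq hq Fact.out).mp (hq.dvd_of_dvd_pow h2))
  rcases hsp R _ hsat hsub with ⟨hRS', hEF⟩ | hin
  · subst hRS'
    exact ⟨q, β₀, hq, hqp, hβ₀, hord', hEF⟩
  · exact absurd hin hnotinner

/-- Extremely sparse fusion systems. -/
theorem xs_result8 {Ω : Type*} [Group Ω] {S : Subgroup Ω} [Finite S] (p : ℕ) [Fact p.Prime]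
    (hS : IsPGroup p S) (F : Cfsg.FusionSystem S) (hF : F.IsSaturated p)
    (hxs : ¬ (∀ P : Subgroup Ω, F.Hom P = (Cfsg.innerFusionSystem S).Hom P) ∧
      ∀ (T : Subgroup Ω) (E : Cfsg.FusionSystem T), E.IsSaturated p → E.IsSubsystemOf F →
        (T = S ∧ ∀ P : Subgroup Ω, E.Hom P = F.Hom P) ∨
          (∀ P : Subgroup Ω, E.Hom P = (Cfsg.innerFusionSystem T).Hom P)) :
    F.IsNormal S ∧ F.focalSubgroup = S ∧ F.hyperfocalSubgroup p = S ∧
      ∃ (q : ℕ) (β : MulAut ↥S), q.Prime ∧ q ≠ p ∧ β ∈ F.autGroup S ∧ orderOf β = q ∧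
        (F.autGroup S : Subgroup (MulAut ↥S)) = Cfsg.Inn ↥S ⊔ Subgroup.zpowers β := by
  obtain ⟨hni, hsp⟩ := hxs
  obtain ⟨q, β, hq, hqp, hβ, hord, hEF⟩ := xs_step8 hS F hF hni hsp
  have hcop : Nat.Coprime q p := (Nat.coprime_primes hq Fact.out).mpr hqp
  have hβq : β ^ q = 1 := by
    rw [← hord]
    exact pow_orderOf_eq_one β
  have hAeq : F.autGroup S = Inn S ⊔ Subgroup.zpowers β := by
    ext γ
    rw [mem_autGroup_iff F le_rfl, ← hEF S]
    constructor
    · rintro ⟨hP, α, hα, h⟩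
      have h1 : γ = α := by
        ext y
        exact h y
      rw [h1]
      exact hα
    · intro hγ
      exact ⟨le_rfl, γ, hγ, fun y => rfl⟩
  have hnorm : F.IsNormal S := by
    refine ⟨le_rfl, ?_⟩
    intro P φ hφ
    rw [← hEF P] at hφ
    obtain ⟨hP, α, hα, h⟩ := hφ
    have hPS : P ⊔ S ≤ S := sup_le hP le_rfl
    refine ⟨(S.subtype.comp α.toMonoidHom).comp (Subgroup.inclusion hPS), ?_, ?_, ?_⟩
    · rw [← hEF (P ⊔ S)]
      exact ⟨hPS, α, hα, fun y => rfl⟩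
    · intro x
      exact (h x).symm
    · ext y
      constructor
      · rintro ⟨x, hx, rfl⟩
        exact (α _).2
      · intro hy
        have hle : S ≤ P ⊔ S := le_sup_right
        refine ⟨⟨((α⁻¹ ⟨y, hy⟩ : S) : Ω), hle (α⁻¹ ⟨y, hy⟩).2⟩, (α⁻¹ ⟨y, hy⟩).2, ?_⟩
        show ((α (α⁻¹ ⟨y, hy⟩) : S) : Ω) = y
        rw [MulAut.apply_inv_self]
  obtain ⟨H₀, hH₀⟩ : ∃ H₀ : Subgroup S, H₀ = Subgroup.closure {h : S | ∃ s : S, h = s⁻¹ * β s} :=
    ⟨_, rfl⟩
  have hgen : ∀ s : S, s⁻¹ * β s ∈ H₀ := by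
    intro s
    rw [hH₀]
    exact Subgroup.subset_closure ⟨s, rfl⟩
  have hinv : ∀ h ∈ H₀, β h ∈ H₀ := by
    intro h hh
    have h1 : H₀ ≤ H₀.comap β.toMonoidHom := by
      conv_lhs => rw [hH₀]
      rw [Subgroup.closure_le]
      rintro _ ⟨s, rfl⟩
      show β (s⁻¹ * β s) ∈ H₀
      rw [map_mul, map_inv]
      exact hgen (β s)
    exact h1 hh
  have hH₀top : H₀ = ⊤ := by
    by_contra hne
    have hfix := invariant_trivial8 hS F hsp hβ hcop hβq H₀ hinv hne
    have hβ1 : β = 1 := by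
      ext s
      have hh := hgen s
      have hβh := hfix _ hh
      have hβs : β s = s * (s⁻¹ * β s) := by group
      have key : ∀ k : ℕ, (β ^ k) s = s * (s⁻¹ * β s) ^ k := by
        intro k
        induction k with
        | zero => simp
        | succ k ih =>
          rw [pow_succ']
          show β ((β ^ k) s) = _
          rw [ih, map_mul, map_pow, hβh, pow_succ', ← mul_assoc, ← hβs]
      have h1 := key q
      rw [hβq] at h1
      have h2 : (s⁻¹ * β s) ^ q = 1 := by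
        have h3 : s * 1 = s * (s⁻¹ * β s) ^ q := by
          rw [mul_one]
          exact h1
        exact (mul_left_cancel h3).symm
      obtain ⟨n, hn⟩ := hS (s⁻¹ * β s)
      have h4 : orderOf (s⁻¹ * β s) = 1 :=
        Nat.eq_one_of_dvd_coprimes (Nat.Coprime.pow_right n hcop) (orderOf_dvd_of_pow_eq_one h2)
          (orderOf_dvd_of_pow_eq_one hn)
      have h5 : s⁻¹ * β s = 1 := orderOf_eq_one_iff.mp h4
      have h6 : β s = s := by
        rw [hβs, h5, mul_one]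
      rw [h6]
      rfl
    rw [hβ1, orderOf_one] at hord
    rw [← hord] at hq
    exact Nat.not_prime_one hq
  have hfoc : F.focalSubgroup = S := by
    apply le_antisymm
    · unfold FusionSystem.focalSubgroup
      rw [Subgroup.closure_le]
      rintro _ ⟨P, φ, x, hφ, rfl⟩
      exact S.mul_mem (S.inv_mem ((F.le_of_mem hφ).1 x.2)) ((F.le_of_mem hφ).2 x)
    · intro s hs
      have h1 : (⟨s, hs⟩ : S) ∈ H₀ := by
        rw [hH₀top]
        trivial
      have h2 : H₀ ≤ F.focalSubgroup.comap S.subtype := by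
        rw [hH₀, Subgroup.closure_le]
        rintro _ ⟨t, rfl⟩
        show ((t⁻¹ * β t : S) : Ω) ∈ F.focalSubgroup
        apply Subgroup.subset_closure
        exact ⟨S, S.subtype.comp β.toMonoidHom, t, (mem_autGroup_iff F le_rfl β).mp hβ, rfl⟩
      exact h2 h1
  have hhyp : F.hyperfocalSubgroup p = S := by
    apply le_antisymm (hyp_le F p)
    intro s hs
    have h1 : (⟨s, hs⟩ : S) ∈ H₀ := by
      rw [hH₀top]
      trivial
    have h2 : H₀ ≤ (F.hyperfocalSubgroup p).comap S.subtype := by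
      rw [hH₀, Subgroup.closure_le]
      rintro _ ⟨t, rfl⟩
      show ((t⁻¹ * β t : S) : Ω) ∈ F.hyperfocalSubgroup p
      apply Subgroup.subset_closure
      refine ⟨S, ⟨β, hβ⟩, t, le_rfl, ?_, rfl⟩
      apply Subgroup.subset_closure
      show Nat.Coprime (orderOf (⟨β, hβ⟩ : F.autGroup S)) p
      rw [Subgroup.orderOf_mk, hord]
      exact hcop
    exact h2 h1
  exact ⟨hnorm, hfoc, hhyp, q, β, hq, hqp, hβ, hord, hAeq⟩

end Cfsg.Agent.Lib.Helper8
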